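import Mathlib
import Cfsg.Agent.Lib.Solv.PGroupBasic
import Cfsg.Agent.Lib.Solv.SchurZassenhaus

/-!
# A `p`-group with a unique subgroup of some intermediate order
-/

set_option autoImplicit false
set_option linter.style.haveILetI false

namespace Cfsg.Lib.Solv

open Subgroup
open scoped commutatorElement

universe u

theorem isCyclic_of_unique (p : ℕ) [hp : Fact p.Prime] : ∀ (m : ℕ) (G : Type u) [Group G] [Finite G] (s : ℕ),
    Nat.card G = p ^ m → 1 ≤ s → s < m → (p ≠ 2 ∨ 2 ≤ s) →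
    (∀ H K : Subgroup G, Nat.card H = p ^ s → Nat.card K = p ^ s → H = K) → IsCyclic G := by
  intro m
  induction m using Nat.strong_induction_on with
  | _ m ih =>
  intro G _ _ s hG hs hsm h2 huniq
  classical
  have hP : IsPGroup p G := IsPGroup.of_card hG
  haveI := hP.isNilpotent
  obtain ⟨H, hH⟩ := Sylow.exists_subgroup_card_pow_prime (G := G) p (n := s)
    (by rw [hG]; exact pow_dvd_pow p hsm.le)
  have hcardM : ∀ M : Subgroup G, IsCoatom M → Nat.card M = p ^ (m - 1) := by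
    intro M hM
    have h := card_mul_index M
    rw [coatom_index_eq_prime hP hM, hG] at h
    refine Nat.eq_of_mul_eq_mul_right hp.out.pos (h.trans ?_)
    rw [← pow_succ, show m - 1 + 1 = m by omega]
  have hHM : ∀ M : Subgroup G, IsCoatom M → H ≤ M := by
    intro M hM
    obtain ⟨H', hH'⟩ := Sylow.exists_subgroup_card_pow_prime (G := M) p (n := s)
      (by rw [hcardM M hM]; exact pow_dvd_pow p (by omega))
    have : H'.map M.subtype = H :=
      huniq _ _ (by rw [card_map_of_injective M.subtype_injective]; exact hH') hH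
    rw [← this]
    exact map_subtype_le _
  by_cases hsm1 : s = m - 1
  · obtain ⟨x, hx⟩ : ∃ x : G, x ∉ H := by
      by_contra h
      push Not at h
      rw [(eq_top_iff' H).2 h, card_top, hG] at hH
      have := Nat.pow_right_injective hp.out.two_le hH
      omega
    rw [isCyclic_iff_exists_zpowers_eq_top]
    refine ⟨x, ?_⟩
    by_contra hne
    obtain ⟨M, hM, hxM⟩ := (eq_top_or_exists_le_coatom (zpowers x)).resolve_left hne
    have hMH : H = M := eq_of_le_of_card_ge (hHM M hM) (by rw [hcardM M hM, hH, hsm1])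
    exact hx (hMH ▸ hxM (mem_zpowers x))
  by_contra hnc
  have hcycM : ∀ M : Subgroup G, IsCoatom M → IsCyclic M := by
    intro M hM
    refine ih (m - 1) (by omega) M s (hcardM M hM) hs (by omega) h2 fun K L hK hL => ?_
    exact map_injective M.subtype_injective (huniq _ _
      (by rw [card_map_of_injective M.subtype_injective]; exact hK)
      (by rw [card_map_of_injective M.subtype_injective]; exact hL))
  obtain ⟨M₁, hM₁, -⟩ := (eq_top_or_exists_le_coatom H).resolve_left (fun h => by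
    rw [h, card_top, hG] at hH
    have := Nat.pow_right_injective hp.out.two_le hH
    omega)
  obtain ⟨x, hx⟩ : ∃ x : G, x ∉ M₁ := by
    by_contra h
    push Not at h
    exact hM₁.1 ((eq_top_iff' M₁).2 h)
  obtain ⟨M₂, hM₂, hxM₂⟩ := (eq_top_or_exists_le_coatom (zpowers x)).resolve_left
    (fun h => hnc (isCyclic_iff_exists_zpowers_eq_top.2 ⟨x, h⟩))
  have hne : M₁ ≠ M₂ := fun h => hx (h ▸ hxM₂ (mem_zpowers x))
  obtain ⟨a, ha⟩ := (Subgroup.isCyclic_iff_exists_zpowers_eq_top (H := M₁)).1 (hcycM M₁ hM₁)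
  obtain ⟨b, hb⟩ := (Subgroup.isCyclic_iff_exists_zpowers_eq_top (H := M₂)).1 (hcycM M₂ hM₂)
  haveI := coatom_normal_of_nilpotent hM₁
  haveI := coatom_normal_of_nilpotent hM₂
  have haM : a ∈ M₁ := ha ▸ mem_zpowers a
  have hbM : b ∈ M₂ := hb ▸ mem_zpowers b
  have hab : ¬ a ∈ M₂ := fun h => hne (by
    refine eq_of_le_of_card_ge ?_ (by rw [hcardM M₁ hM₁, hcardM M₂ hM₂])
    rw [← ha, zpowers_le]; exact h)
  set Z := M₁ ⊓ M₂ with hZ
  have hob : orderOf b = p ^ (m - 1) := by rw [← Nat.card_zpowers, hb, hcardM M₂ hM₂]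
  have hobp : orderOf (b ^ p) = p ^ (m - 2) := by
    rw [orderOf_pow' b hp.out.ne_zero, hob, Nat.gcd_eq_right (dvd_pow_self p (by omega)),
      show m - 1 = m - 2 + 1 by omega, pow_succ, Nat.mul_div_cancel _ hp.out.pos]
  have hapZ : a ^ p ∈ Z := ⟨pow_mem haM p, pow_mem_of_coatom hP hM₂ a⟩
  have hbpZ : b ^ p ∈ Z := ⟨pow_mem_of_coatom hP hM₁ b, pow_mem hbM p⟩
  have hZlt : Z < M₂ := lt_of_le_of_ne inf_le_right fun h => hne (by
    refine (eq_of_le_of_card_ge ?_ (by rw [hcardM M₁ hM₁, hcardM M₂ hM₂])).symm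
    exact h ▸ inf_le_left)
  have hZeq : zpowers (b ^ p) = Z := by
    refine eq_of_le_of_card_ge (zpowers_le.2 hbpZ) ?_
    rw [Nat.card_zpowers, hobp]
    obtain ⟨k, hk⟩ := IsPGroup.iff_card.1 (hP.to_subgroup Z)
    have h1 : Nat.card Z < Nat.card M₂ :=
      lt_of_le_of_ne (Nat.le_of_dvd Nat.card_pos (card_dvd_of_le hZlt.le))
        fun h => hZlt.ne (eq_of_le_of_card_ge hZlt.le h.ge)
    rw [hk, hcardM M₂ hM₂, Nat.pow_lt_pow_iff_right hp.out.one_lt] at h1
    rw [hk]
    exact Nat.pow_le_pow_right hp.out.pos (by omega)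
  have hcent : ∀ z ∈ Z, ∀ g : G, g * z = z * g := by
    intro z hz g
    have hsup : M₁ ⊔ M₂ = ⊤ := hM₁.2 _ (lt_of_le_of_ne le_sup_left fun h => hne
      (eq_of_le_of_card_ge (le_sup_right.trans h.ge) (by rw [hcardM M₁ hM₁, hcardM M₂ hM₂])).symm)
    have hle : M₁ ⊔ M₂ ≤ centralizer {z} := by
      refine sup_le ?_ ?_
      · rw [← ha, zpowers_le, mem_centralizer_singleton_iff]
        obtain ⟨k, hk⟩ := mem_zpowers_iff.1 (ha ▸ hz.1 : z ∈ zpowers a)
        rw [← hk]; exact (Commute.self_zpow a k).eq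
      · rw [← hb, zpowers_le, mem_centralizer_singleton_iff]
        obtain ⟨k, hk⟩ := mem_zpowers_iff.1 (hb ▸ hz.2 : z ∈ zpowers b)
        rw [← hk]; exact (Commute.self_zpow b k).eq
    exact mem_centralizer_singleton_iff.1 (hle (hsup ▸ mem_top g))
  set c := b * a * b⁻¹ * a⁻¹ with hc
  have hcZ : c ∈ Z := by
    refine ⟨M₁.mul_mem ((inferInstance : M₁.Normal).conj_mem a haM b) (M₁.inv_mem haM), ?_⟩
    have h1 := M₂.mul_mem hbM ((inferInstance : M₂.Normal).conj_mem b⁻¹ (M₂.inv_mem hbM) a)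
    have e : c = b * (a * b⁻¹ * a⁻¹) := by rw [hc]; group
    rw [e]; exact h1
  have hbt : ∀ t : ℕ, b ^ t * a = c ^ t * a * b ^ t := by
    intro t
    induction t with
    | zero => simp
    | succ t iht =>
      calc b ^ (t + 1) * a = b * (b ^ t * a) := by rw [pow_succ', mul_assoc]
        _ = (b * c ^ t) * a * b ^ t := by rw [iht]; group
        _ = c ^ t * (b * a) * b ^ t := by rw [hcent _ (Z.pow_mem hcZ t) b]; group
        _ = c ^ t * (c * a * b) * b ^ t := by rw [show b * a = c * a * b by rw [hc]; group]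
        _ = c ^ (t + 1) * a * b ^ (t + 1) := by rw [pow_succ, pow_succ']; group
  have hcp : c ^ p = 1 := by
    have h1 := hbt p
    rw [← hcent _ hbpZ a, mul_assoc (c ^ p) a] at h1
    exact right_eq_mul.1 h1
  have hmulpow : ∀ (t k : ℕ), (a * b ^ t) ^ k = a ^ k * (b ^ t) ^ k * (c ^ t) ^ Nat.choose k 2 := by
    intro t k
    induction k with
    | zero => simp
    | succ k ihk =>
      have h1 : (b ^ t) ^ k * a = (c ^ t) ^ k * a * (b ^ t) ^ k := by
        rw [← pow_mul, ← pow_mul]; exact hbt (t * k)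
      have hcc : ∀ (j : ℕ) (g : G), g * (c ^ t) ^ j = (c ^ t) ^ j * g := fun j g =>
        hcent _ (Z.pow_mem (Z.pow_mem hcZ t) j) g
      rw [pow_succ, ihk, Nat.choose_succ_succ, Nat.choose_one_right, pow_succ a, pow_succ (b ^ t)]
      calc a ^ k * (b ^ t) ^ k * (c ^ t) ^ k.choose 2 * (a * b ^ t)
          = a ^ k * (b ^ t) ^ k * ((c ^ t) ^ k.choose 2 * (a * b ^ t)) := by group
        _ = a ^ k * (b ^ t) ^ k * ((a * b ^ t) * (c ^ t) ^ k.choose 2) := by rw [hcc]
        _ = a ^ k * ((b ^ t) ^ k * a) * b ^ t * (c ^ t) ^ k.choose 2 := by group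
        _ = a ^ k * ((c ^ t) ^ k * a) * (b ^ t) ^ k * b ^ t * (c ^ t) ^ k.choose 2 := by rw [h1]; group
        _ = a ^ k * (a * (c ^ t) ^ k) * (b ^ t) ^ k * b ^ t * (c ^ t) ^ k.choose 2 := by rw [hcc k a]
        _ = a ^ k * a * ((c ^ t) ^ k * ((b ^ t) ^ k * b ^ t)) * (c ^ t) ^ k.choose 2 := by group
        _ = a ^ k * a * ((b ^ t) ^ k * b ^ t * (c ^ t) ^ k) * (c ^ t) ^ k.choose 2 := by rw [hcc k]
        _ = _ := by rw [pow_add]; group
  set C := Nat.choose p 2 with hC
  set w := b ^ p * c ^ C with hw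
  have hwZ : w ∈ Z := Z.mul_mem hbpZ (Z.pow_mem hcZ C)
  have hgen : ∀ z ∈ Z, ∃ t : ℕ, w ^ t = z := by
    intro z hz
    have hzw : z ∈ zpowers w := by
      by_cases hp2 : p = 2
      · have hCval : C = 1 := by rw [hC, hp2, Nat.choose_self]
        have hs2 : 2 ≤ s := h2.resolve_left (by simp [hp2])
        obtain ⟨k, hk⟩ := mem_zpowers_iff.1 (hZeq ▸ hcZ : c ∈ zpowers (b ^ p))
        have hk2 : (2 : ℤ) ∣ k := by
          have h3 : (b ^ p) ^ (k * 2) = 1 := by
            rw [_root_.zpow_mul, hk]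
            have := hcp
            rw [hp2] at this
            exact_mod_cast this
          rw [← orderOf_dvd_iff_zpow_eq_one, hobp, hp2] at h3
          have h4 : (4 : ℤ) ∣ k * 2 := by
            refine dvd_trans ?_ h3
            have : (2 : ℤ) ^ 2 ∣ (2 : ℤ) ^ (m - 2) := pow_dvd_pow 2 (by omega)
            push_cast
            simpa using this
          omega
        have hwk : w = (b ^ p) ^ (k + 1) := by
          rw [hw, hCval, pow_one, ← hk, add_comm, _root_.zpow_add, zpow_one]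
        have hcop : IsCoprime (k + 1) ((orderOf (b ^ p) : ℕ) : ℤ) := by
          rw [hobp, hp2, Nat.cast_pow]
          refine IsCoprime.pow_right ?_
          obtain ⟨j, rfl⟩ := hk2
          exact ⟨1, -j, by push_cast; ring⟩
        obtain ⟨u, v, huv⟩ := hcop
        rw [← hZeq] at hz
        obtain ⟨i, rfl⟩ := mem_zpowers_iff.1 hz
        refine zpow_mem ?_ i
        refine mem_zpowers_iff.2 ⟨u, ?_⟩
        rw [hwk, ← _root_.zpow_mul, mul_comm, ← mul_one ((b ^ p) ^ (u * (k + 1))),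
          ← one_zpow v, ← pow_orderOf_eq_one (b ^ p), ← zpow_natCast (b ^ p) (orderOf (b ^ p)),
          ← _root_.zpow_mul, ← _root_.zpow_add, mul_comm _ v, huv, zpow_one]
      · have h3 : c ^ C = 1 := by
          have hdvd : p ∣ C := hp.out.dvd_choose_self two_ne_zero
            (lt_of_le_of_ne hp.out.two_le (Ne.symm hp2))
          obtain ⟨q, hq⟩ := hdvd
          rw [hq, pow_mul, hcp, one_pow]
        rw [hw, h3, mul_one, hZeq]
        exact hz
    exact mem_powers_iff_mem_zpowers.2 hzw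
  obtain ⟨t, ht⟩ := hgen _ (Z.inv_mem hapZ)
  set z₀ := a * b ^ t with hz₀
  have hz₀p : z₀ ^ p = 1 := by
    rw [hz₀, hmulpow t p, ← hC]
    have e : (b ^ t) ^ p * (c ^ t) ^ C = w ^ t := by
      rw [hw, (show Commute (b ^ p) (c ^ C) from hcent _ (Z.pow_mem hcZ C) _).mul_pow, ← pow_mul,
        ← pow_mul, ← pow_mul, ← pow_mul, mul_comm t p, mul_comm t C]
    rw [mul_assoc, e, ht, mul_inv_cancel]
  have hz₀M : z₀ ∉ M₂ := fun h => hab (by
    have := M₂.mul_mem h (M₂.inv_mem (M₂.pow_mem hbM t))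
    rwa [hz₀, mul_inv_cancel_right] at this)
  have hz₀1 : z₀ ≠ 1 := fun h => hz₀M (h ▸ M₂.one_mem)
  have hoz : orderOf z₀ = p := orderOf_eq_prime hz₀p hz₀1
  have hHZ : H ≤ Z := le_inf (hHM M₁ hM₁) (hHM M₂ hM₂)
  obtain ⟨Z', hZ'⟩ := Sylow.exists_subgroup_card_pow_prime (G := H) p (n := s - 1)
    (by rw [hH]; exact pow_dvd_pow p (Nat.sub_le s 1))
  set N := Z'.map H.subtype with hN
  have hNZ : N ≤ Z := (map_subtype_le _).trans hHZ
  haveI : N.Normal := ⟨fun z hz g => by
    rw [hcent z (hNZ hz) g, mul_inv_cancel_right]; exact hz⟩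
  have hdisj : zpowers z₀ ⊓ N = ⊥ := by
    by_contra hb'
    have hcard : Nat.card (zpowers z₀) = p := by rw [Nat.card_zpowers, hoz]
    have hne1 : Nat.card ↥(zpowers z₀ ⊓ N : Subgroup G) ≠ 1 := fun h => hb' (card_eq_one.1 h)
    have hfull : Nat.card ↥(zpowers z₀ ⊓ N : Subgroup G) = p :=
      (hp.out.eq_one_or_self_of_dvd _ (hcard ▸ card_dvd_of_le inf_le_left)).resolve_left hne1
    have heq := eq_of_le_of_card_ge (inf_le_left : zpowers z₀ ⊓ N ≤ zpowers z₀) (by rw [hfull, hcard])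
    exact hz₀M (hNZ ((inf_le_right : zpowers z₀ ⊓ N ≤ N) (heq.ge (mem_zpowers z₀)))).2
  have hK : Nat.card ↥(zpowers z₀ ⊔ N) = p ^ s := by
    rw [card_sup_eq_mul hdisj, Nat.card_zpowers, hoz, hN, card_map_of_injective H.subtype_injective, hZ',
      ← pow_succ, show s - 1 + 1 = s by omega]
  have := huniq _ _ hK hH
  exact hz₀M ((hHZ (this ▸ mem_sup_left (mem_zpowers z₀))).2)

end Cfsg.Lib.Solv
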