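import Mathlib
import Cfsg.Agent.Lib.Solv.UniqueSubgroup
import Cfsg.Agent.Lib.Transfer.Action
import Cfsg.Agent.Lib.Solv.CyclicSylowAbelian

/-!
# Conjugacy of abelian subgroups passes to quotients by normal subgroups of odd order
-/

set_option autoImplicit false

namespace Cfsg.Lib.Solv.AbConjQuot

open Subgroup
open scoped Pointwise

universe u

variable {G : Type u} [Group G]

/-- Any two abelian subgroups of the same order are conjugate. -/
def Hyp (G : Type u) [Group G] : Prop :=
  ∀ A B : Subgroup G, IsMulCommutative ↥A → IsMulCommutative ↥B → Nat.card ↥A = Nat.card ↥B →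
    ∃ g : G, B = A.map (MulAut.conj g).toMonoidHom

theorem cyclic_sylow [Finite G] (hB : Hyp G) (M : Subgroup G) [M.Normal] {p : ℕ} [hp : Fact p.Prime] (hp2 : p ≠ 2)
    (hM : p ∣ Nat.card M) (hi : p ∣ M.index) (P : Sylow p G) : IsCyclic ↥(P : Subgroup G) := by
  by_contra hnc
  obtain ⟨m, hm⟩ := IsPGroup.iff_card.1 P.isPGroup'
  have hm2 : 1 < m := by
    by_contra h
    rcases Nat.le_one_iff_eq_zero_or_eq_one.1 (not_lt.1 h) with rfl | rfl
    · haveI : Subsingleton ↥(P : Subgroup G) := (Nat.card_eq_one_iff_unique.1 (by rw [hm, pow_zero])).1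
      exact hnc isCyclic_of_subsingleton
    · exact hnc (isCyclic_of_prime_card (p := p) (by rw [hm, pow_one]))
  -- an elementary abelian subgroup of order `p ^ 2`
  obtain ⟨H, K, hH, hK, hne⟩ : ∃ H K : Subgroup ↥(P : Subgroup G), Nat.card H = p ^ 1 ∧ Nat.card K = p ^ 1 ∧ H ≠ K := by
    by_contra hno
    push Not at hno
    exact hnc (Cfsg.Lib.Solv.isCyclic_of_unique p m _ 1 hm le_rfl hm2 (Or.inl hp2) hno)
  haveI : Nontrivial ↥(P : Subgroup G) := Finite.one_lt_card_iff_nontrivial.1 (by
    rw [hm]; exact Nat.one_lt_pow (by omega) hp.out.one_lt)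
  obtain ⟨z, hz⟩ := exists_prime_orderOf_dvd_card' (G := Subgroup.center ↥(P : Subgroup G)) p
    ((P.isPGroup'.to_subgroup _).card_eq_or_dvd.resolve_left fun e =>
      (P.isPGroup'.bot_lt_center).ne' (Subgroup.card_eq_one.1 e))
  rw [← Subgroup.orderOf_coe] at hz
  obtain ⟨w, hw, hwz⟩ : ∃ w : ↥(P : Subgroup G), orderOf w = p ∧ w ∉ zpowers (z : ↥(P : Subgroup G)) := by
    have key : ∀ L : Subgroup ↥(P : Subgroup G), Nat.card L = p ^ 1 → L ≠ zpowers (z : ↥(P : Subgroup G)) →
        ∃ w : ↥(P : Subgroup G), orderOf w = p ∧ w ∉ zpowers (z : ↥(P : Subgroup G)) := by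
      intro L hL hne
      obtain ⟨w, hw⟩ := exists_prime_orderOf_dvd_card' (G := L) p (by rw [hL, pow_one])
      rw [← Subgroup.orderOf_coe] at hw
      refine ⟨w, hw, fun hmem => hne ?_⟩
      have h1 : zpowers (w : ↥(P : Subgroup G)) = L := eq_of_le_of_card_ge (zpowers_le.2 w.2) (by
        rw [hL, Nat.card_zpowers, hw, pow_one])
      rw [← h1]
      exact eq_of_le_of_card_ge (zpowers_le.2 hmem) (by rw [Nat.card_zpowers, Nat.card_zpowers, hw, hz])
    by_cases e : H = zpowers (z : ↥(P : Subgroup G))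
    · exact key K hK fun e' => hne (e.trans e'.symm)
    · exact key H hH e
  set z' : G := ((z : ↥(P : Subgroup G)) : G) with hz'
  set w' : G := (w : G) with hw'
  have hzw : z' * w' = w' * z' := congrArg Subtype.val (mem_center_iff.1 z.2 w).symm
  have hzo : orderOf z' = p := by rw [hz', Subgroup.orderOf_coe, hz]
  have hwo : orderOf w' = p := by rw [hw', Subgroup.orderOf_coe, hw]
  let E : Subgroup G := closure {z', w'}
  haveI hEc : IsMulCommutative E := isMulCommutative_closure (by
    rintro _ (rfl | rfl) _ (rfl | rfl) <;> first | rfl | exact hzw | exact hzw.symm)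
  have hEexp : ∀ a ∈ E, a ^ p = 1 := by
    intro a ha
    induction ha using closure_induction with
    | mem a ha => rcases ha with rfl | rfl
                  · rw [← hzo, pow_orderOf_eq_one]
                  · rw [← hwo, pow_orderOf_eq_one]
    | one => rw [one_pow]
    | mul a b ha hb iha ihb =>
      have hab : Commute a b := congrArg Subtype.val (hEc.is_comm.comm (⟨a, ha⟩ : E) ⟨b, hb⟩)
      rw [hab.mul_pow, iha, ihb, one_mul]
    | inv a ha iha => rw [inv_pow, iha, inv_one]
  have hEP : E ≤ (P : Subgroup G) := (closure_le _).2 (by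
    rintro _ (rfl | rfl); exacts [(z : ↥(P : Subgroup G)).2, w.2])
  obtain ⟨e, he⟩ := IsPGroup.iff_card.1 (P.isPGroup'.to_le hEP)
  have he2 : 2 ≤ e := by
    by_contra h
    have h1 : Nat.card E ≤ p := by
      rw [he]
      rcases Nat.le_one_iff_eq_zero_or_eq_one.1 (show e ≤ 1 by omega) with rfl | rfl
      · rw [pow_zero]; exact hp.out.one_lt.le
      · rw [pow_one]
    have heq : zpowers z' = E := eq_of_le_of_card_ge (zpowers_le.2 (subset_closure (Or.inl rfl))) (by
      rw [Nat.card_zpowers, hzo]; exact h1)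
    have hwm : w' ∈ zpowers z' := heq ▸ subset_closure (Or.inr rfl)
    obtain ⟨i, hi⟩ := hwm
    exact hwz ⟨i, Subtype.ext (by simpa [SubgroupClass.coe_zpow] using hi)⟩
  obtain ⟨E2, hE2c, hE2⟩ : ∃ E2 : Subgroup G, Nat.card E2 = p ^ 2 ∧ E2 ≤ E := by
    obtain ⟨F, hF⟩ := Sylow.exists_subgroup_card_pow_prime p (G := E) (n := 2) (by rw [he]; exact pow_dvd_pow p he2)
    exact ⟨F.map E.subtype, by rw [card_map_of_injective E.subtype_injective, hF], map_subtype_le _⟩
  have hexp : ∀ a ∈ (P : Subgroup G), a ^ p = 1 := by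
    intro a ha
    obtain ⟨j, hj⟩ := IsPGroup.iff_orderOf.1 P.isPGroup' ⟨a, ha⟩
    rw [Subgroup.orderOf_mk] at hj
    by_contra hne
    have hj2 : 2 ≤ j := by
      by_contra h
      refine hne (orderOf_dvd_iff_pow_eq_one.1 ?_)
      rw [hj]
      exact (pow_dvd_pow p (show j ≤ 1 by omega)).trans (by rw [pow_one])
    set b := a ^ p ^ (j - 2) with hb
    have hbo : orderOf b = p ^ 2 := by
      rw [hb, orderOf_pow_of_dvd (pow_pos hp.out.pos _).ne' (hj ▸ pow_dvd_pow p (Nat.sub_le j 2)), hj,
        Nat.pow_div (Nat.sub_le j 2) hp.out.pos, show j - (j - 2) = 2 by omega]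
    have hE2ab : IsMulCommutative E2 := ⟨⟨fun x y => Subtype.ext (by
      show (x : G) * y = y * x
      exact congrArg Subtype.val (hEc.is_comm.comm (⟨x, hE2 x.2⟩ : E) ⟨y, hE2 y.2⟩))⟩⟩
    obtain ⟨g, hg⟩ := hB E2 (zpowers b) hE2ab inferInstance (by rw [hE2c, Nat.card_zpowers, hbo])
    obtain ⟨v, hv, hvb⟩ : b ∈ E2.map (MulAut.conj g).toMonoidHom := hg ▸ mem_zpowers b
    have hbp : b ^ p = 1 := by rw [← hvb, ← map_pow, hEexp v (hE2 hv), map_one]
    have := orderOf_dvd_of_pow_eq_one hbp
    rw [hbo] at this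
    have h2 := Nat.le_of_dvd hp.out.pos this
    have := hp.out.two_le
    nlinarith
  -- every element of order p lies in M
  obtain ⟨v, hv⟩ := exists_prime_orderOf_dvd_card' p hM
  rw [← Subgroup.orderOf_coe] at hv
  have hPM : (P : Subgroup G) ≤ M := by
    intro a ha
    by_cases ha1 : a = 1
    · rw [ha1]; exact one_mem M
    obtain ⟨g, hg⟩ := hB (zpowers (v : G)) (zpowers a) inferInstance inferInstance (by
      rw [Nat.card_zpowers, Nat.card_zpowers, hv, orderOf_eq_prime (hexp a ha) ha1])
    obtain ⟨c, hc, hca⟩ : a ∈ (zpowers (v : G)).map (MulAut.conj g).toMonoidHom := hg ▸ mem_zpowers a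
    rw [← hca]
    exact (inferInstance : M.Normal).conj_mem c (zpowers_le.2 v.2 hc) g
  exact P.not_dvd_index (hi.trans (index_dvd_of_le hPM))

/-- An abelian lift of prescribed order. -/
theorem exists_lift [Finite G] (hB : Hyp G) (M : Subgroup G) [M.Normal] (hM : Odd (Nat.card M))
    (A' : Subgroup (G ⧸ M)) (hA' : IsMulCommutative A') :
    ∃ A : Subgroup G, IsMulCommutative A ∧ A.map (QuotientGroup.mk' M) = A' ∧
      ∀ p : ℕ, p.Prime → (Nat.card A).factorization p =
        if p ∣ Nat.card A' then (Nat.card A').factorization p + (Nat.card M).factorization p else 0 := by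
  classical
  haveI : Fintype (Subgroup G) := Fintype.ofFinite _
  set π := QuotientGroup.mk' M with hπ
  have hker : π.ker = M := QuotientGroup.ker_mk' M
  obtain ⟨A, hA, hmin⟩ := Finset.exists_minimal (s := (Finset.univ : Finset (Subgroup G)).filter (fun A => A.map π = A'))
    ⟨A'.comap π, Finset.mem_filter.2 ⟨Finset.mem_univ _, map_comap_eq_self_of_surjective (QuotientGroup.mk'_surjective M) A'⟩⟩
  rw [Finset.mem_filter] at hA
  replace hA := hA.2
  have hmin' : ∀ B : Subgroup G, B ≤ A → B.map π = A' → B = A := fun B hBA hB =>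
    le_antisymm hBA (hmin (Finset.mem_filter.2 ⟨Finset.mem_univ _, hB⟩) hBA)
  -- Sylow subgroups of A are normal
  have hnormal : ∀ (p : ℕ) [Fact p.Prime] (S : Sylow p A), (S : Subgroup A).Normal := by
    intro p _ S
    set K := (π.domRestrict A).ker
    set W := ((S : Subgroup A).map (π.domRestrict A)).comap (π.domRestrict A) with hW
    haveI : W.Normal := by
      refine ⟨fun a ha b => ?_⟩
      rw [hW, mem_comap] at ha ⊢
      have hm : ∀ c : A, π.domRestrict A c ∈ A' := fun c => by
        rw [← hA]; exact mem_map_of_mem π c.2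
      have hc : π.domRestrict A b * π.domRestrict A a = π.domRestrict A a * π.domRestrict A b :=
        congrArg Subtype.val (hA'.is_comm.comm (⟨_, hm b⟩ : A') ⟨_, hm a⟩)
      rw [map_mul, map_mul, map_inv, hc, mul_inv_cancel_right]
      exact ha
    have hSW : (S : Subgroup A) ≤ W := le_comap_map _ _
    have hfr := Sylow.normalizer_sup_eq_top (S.subtype hSW)
    rw [Sylow.coe_subtype, map_subgroupOf_eq_of_le hSW] at hfr
    set N := (normalizer ((S : Subgroup A) : Set A)) with hN
    have hNA : N.map A.subtype = A := by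
      refine hmin' _ (map_subtype_le _) (le_antisymm ((map_mono (map_subtype_le _)).trans hA.le) ?_)
      intro w hw
      obtain ⟨a, ha, rfl⟩ : w ∈ A.map π := hA.symm ▸ hw
      have h1 : (⟨a, ha⟩ : A) ∈ ((N ⊔ W : Subgroup A) : Set A) := by rw [hfr]; exact Set.mem_univ _
      rw [mul_normal N W] at h1
      obtain ⟨b, hb, c, hc, e⟩ := h1
      obtain ⟨s, hs, hse⟩ : π.domRestrict A c ∈ (S : Subgroup A).map (π.domRestrict A) := hc
      refine ⟨((b * s : A) : G), mem_map_of_mem A.subtype (mul_mem hb (le_normalizer hs)), ?_⟩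
      have h2 : π.domRestrict A (b * s) = π.domRestrict A ⟨a, ha⟩ := by rw [← e, map_mul, map_mul, hse]
      exact h2
    refine normalizer_eq_top_iff.1 (eq_top_iff.2 fun a _ => ?_)
    obtain ⟨b, hb, e⟩ : (a : G) ∈ N.map A.subtype := hNA.symm ▸ a.2
    exact Subtype.ext e ▸ hb
  -- Sylow subgroups of A are abelian and of the right order
  have hodd : ∀ p : ℕ, p ∣ Nat.card M → p ≠ 2 := fun p hd e => by
    subst e; exact (Nat.not_even_iff_odd.2 hM) (even_iff_two_dvd.2 hd)
  have hdvd : Nat.card A' ∣ Nat.card A := hA ▸ card_map_dvd A π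
  have hzero : ∀ (p : ℕ) [Fact p.Prime] (S : Sylow p A), ¬ p ∣ Nat.card A' → Nat.card ↥(S : Subgroup A) = 1 := by
    intro p hp S hd
    haveI := hnormal p S
    obtain ⟨K, hK⟩ := exists_right_complement'_of_coprime S.card_coprime_index
    have hKA : K.map A.subtype = A := by
      refine hmin' _ (map_subtype_le _) (le_antisymm ((map_mono (map_subtype_le _)).trans hA.le) ?_)
      intro w hw
      obtain ⟨a, ha, rfl⟩ : w ∈ A.map π := hA.symm ▸ hw
      have h1 : (⟨a, ha⟩ : A) ∈ (((S : Subgroup A) ⊔ K : Subgroup A) : Set A) := by rw [hK.sup_eq_top]; exact Set.mem_univ _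
      rw [normal_mul (S : Subgroup A) K] at h1
      obtain ⟨b, hb, c, hc, e⟩ := h1
      refine ⟨(c : G), mem_map_of_mem A.subtype hc, ?_⟩
      have hb1 : π.domRestrict A b = 1 := by
        obtain ⟨j, hj⟩ := IsPGroup.iff_orderOf.1 S.isPGroup' ⟨b, hb⟩
        rw [Subgroup.orderOf_mk] at hj
        refine orderOf_eq_one_iff.1 (Nat.eq_one_of_dvd_coprimes ((hp.out.coprime_iff_not_dvd.2 hd).pow_left j)
          (hj ▸ orderOf_map_dvd _ b) ?_)
        exact A'.orderOf_dvd_natCard (hA ▸ mem_map_of_mem π b.2)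
      have h2 : π.domRestrict A ⟨a, ha⟩ = π.domRestrict A c := by rw [← e, map_mul, hb1, one_mul]
      exact h2.symm
    have hKtop : K = ⊤ := eq_top_iff.2 fun a _ => by
      obtain ⟨b, hb, e⟩ : (a : G) ∈ K.map A.subtype := hKA.symm ▸ a.2
      exact Subtype.ext e ▸ hb
    rw [hKtop, isComplement'_top_right] at hK
    rw [hK, Subgroup.card_bot]
  have hcard : ∀ (p : ℕ) [Fact p.Prime] (S : Sylow p A), Nat.card ↥(S : Subgroup A) = p ^ (Nat.card A).factorization p :=
    fun p _ S => S.card_eq_multiplicity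
  have hAfac : Nat.card A = Nat.card A' * Nat.card ↥(A ⊓ M) := by
    have h1 := Subgroup.card_mul_index (π.domRestrict A).ker
    rw [Subgroup.index_ker, MonoidHom.domRestrict_range, hA, MonoidHom.ker_domRestrict, hker] at h1
    rw [← h1, mul_comm, ← Nat.card_congr (subgroupOfEquivOfLe (inf_le_left : A ⊓ M ≤ A)).toEquiv]
    congr 2
    rw [inf_subgroupOf_left]
  have hfac : ∀ p : ℕ, p.Prime → (Nat.card A).factorization p =
      if p ∣ Nat.card A' then (Nat.card A').factorization p + (Nat.card M).factorization p else 0 := by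
    intro p hp
    haveI := Fact.mk hp
    split_ifs with hd
    · rw [hAfac, Nat.factorization_mul Nat.card_pos.ne' Nat.card_pos.ne', Finsupp.add_apply]
      congr 1
      by_cases hpM : p ∣ Nat.card M
      swap
      · rw [Nat.factorization_eq_zero_of_not_dvd hpM,
          Nat.factorization_eq_zero_of_not_dvd fun h => hpM (h.trans (card_dvd_of_le inf_le_right))]
      refine le_antisymm ((Nat.factorization_le_iff_dvd Nat.card_pos.ne' Nat.card_pos.ne').2 (card_dvd_of_le inf_le_right) p) ?_
      obtain ⟨S⟩ : Nonempty (Sylow p A) := inferInstance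
      obtain ⟨P, hP⟩ := (S.isPGroup'.map A.subtype).exists_le_sylow
      have hidx : p ∣ M.index := by
        rw [index_eq_card]
        exact hd.trans A'.card_subgroup_dvd_card
      haveI := cyclic_sylow hB M (hodd p hpM) hpM hidx P
      have hmono : ∀ U V : Subgroup G, U ≤ (P : Subgroup G) → V ≤ (P : Subgroup G) → Nat.card U ≤ Nat.card V → U ≤ V := by
        intro U V hU hV hc
        obtain ⟨i, hi⟩ := IsPGroup.iff_card.1 (P.isPGroup'.to_le hU)
        obtain ⟨j, hj⟩ := IsPGroup.iff_card.1 (P.isPGroup'.to_le hV)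
        have hij : i ≤ j := by
          rw [hi, hj] at hc
          exact (Nat.pow_le_pow_iff_right hp.one_lt).1 hc
        obtain ⟨V', hV'⟩ := Sylow.exists_subgroup_card_pow_prime p (G := V) (n := i) (by rw [hj]; exact pow_dvd_pow p hij)
        have hVm : V'.map V.subtype ≤ (P : Subgroup G) := (map_subtype_le _).trans hV
        have : U = V'.map V.subtype := Cfsg.Lib.Solv.CycAb.cyc_eq (P := (P : Subgroup G)) hU hVm (by
          rw [card_map_of_injective V.subtype_injective, hV', hi])
        rw [this]; exact map_subtype_le _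
      have hle : (P : Subgroup G) ⊓ M ≤ A ⊓ M := by
        rcases le_total (Nat.card ↥((S : Subgroup A).map A.subtype)) (Nat.card ↥((P : Subgroup G) ⊓ M)) with hc | hc
        · exfalso
          have hSM := (hmono _ _ hP inf_le_left hc).trans inf_le_right
          have hn : (Nat.card A).factorization p ≤ (Nat.card ↥(A ⊓ M)).factorization p := by
            have h1 : Nat.card ↥((S : Subgroup A).map A.subtype) ∣ Nat.card ↥(A ⊓ M) :=
              card_dvd_of_le (le_inf (map_subtype_le _) hSM)
            rw [card_map_of_injective A.subtype_injective, hcard p S] at h1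
            exact (hp.pow_dvd_iff_le_factorization Nat.card_pos.ne').1 h1
          rw [hAfac, Nat.factorization_mul Nat.card_pos.ne' Nat.card_pos.ne', Finsupp.add_apply] at hn
          have := (hp.dvd_iff_one_le_factorization Nat.card_pos.ne').1 hd
          omega
        · exact le_inf ((hmono _ _ inf_le_left hP hc).trans (map_subtype_le _)) inf_le_right
      refine (hp.pow_dvd_iff_le_factorization Nat.card_pos.ne').1 (dvd_trans ?_ (card_dvd_of_le hle))
      -- `P ⊓ M` is a Sylow subgroup of `M`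
      obtain ⟨R⟩ : Nonempty (Sylow p M) := inferInstance
      obtain ⟨R', hR'⟩ := (R.isPGroup'.map M.subtype).exists_le_sylow
      obtain ⟨g, hg⟩ := MulAction.exists_smul_eq G R' P
      have hRP : MulAut.conj g • ((R : Subgroup M).map M.subtype) ≤ (P : Subgroup G) ⊓ M := by
        refine le_inf ?_ ?_
        · rw [← hg, Sylow.coe_subgroup_smul]
          exact pointwise_smul_le_pointwise_smul_iff.2 hR'
        · intro a ha
          rw [mem_pointwise_smul_iff_inv_smul_mem] at ha
          obtain ⟨b, hb, e⟩ := ha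
          have h1 : g⁻¹ * a * g ∈ M := by
            have : (b : G) = g⁻¹ * a * g := by simpa [mul_assoc] using e
            exact this ▸ b.2
          have := (inferInstance : M.Normal).conj_mem _ h1 g
          simpa [mul_assoc] using this
      have h2 := card_dvd_of_le hRP
      have e3 : Nat.card ↥(MulAut.conj g • ((R : Subgroup M).map M.subtype)) = Nat.card ↥(R : Subgroup M) := by
        rw [← card_map_of_injective (K := (R : Subgroup M)) M.subtype_injective]
        exact (Nat.card_congr (equivSMul (MulAut.conj g) _).toEquiv).symm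
      rwa [e3, R.card_eq_multiplicity] at h2
    · obtain ⟨S⟩ : Nonempty (Sylow p A) := inferInstance
      have := hzero p S hd
      rw [hcard p S] at this
      by_contra h
      exact (Nat.one_lt_pow h hp.one_lt).ne' this
  refine ⟨A, ?_, hA, hfac⟩
  -- commutativity
  have hsyl : ∀ (p : ℕ) [Fact p.Prime] (S : Sylow p A), ∀ a ∈ (S : Subgroup A), ∀ b ∈ (S : Subgroup A), a * b = b * a := by
    intro p hp S a ha b hb
    have hc : π (a : G) * π (b : G) = π (b : G) * π (a : G) :=
      congrArg Subtype.val (hA'.is_comm.comm (⟨_, hA ▸ mem_map_of_mem π a.2⟩ : A') ⟨_, hA ▸ mem_map_of_mem π b.2⟩)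
    by_cases hd : p ∣ Nat.card A'
    swap
    · have h1 := hzero p S hd
      rw [Subgroup.card_eq_one] at h1
      rw [h1, mem_bot] at ha
      rw [ha, one_mul, mul_one]
    obtain ⟨P, hP⟩ := (S.isPGroup'.map A.subtype).exists_le_sylow
    by_cases hpM : p ∣ Nat.card M
    · have hidx : p ∣ M.index := by rw [index_eq_card]; exact hd.trans A'.card_subgroup_dvd_card
      haveI := cyclic_sylow hB M (hodd p hpM) hpM hidx P
      have h := congrArg Subtype.val ((IsCyclic.commGroup (α := (P : Subgroup G))).mul_comm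
        (⟨(a : G), hP (mem_map_of_mem A.subtype ha)⟩ : (P : Subgroup G)) ⟨(b : G), hP (mem_map_of_mem A.subtype hb)⟩)
      exact Subtype.ext (by rw [Subgroup.coe_mul, Subgroup.coe_mul]; exact h)
    · refine Subtype.ext ?_
      have h1 : ((a * b : A) : G)⁻¹ * ((b * a : A) : G) ∈ M := QuotientGroup.eq.1 (by
        show π ((a * b : A) : G) = π ((b * a : A) : G)
        rw [Subgroup.coe_mul, Subgroup.coe_mul, map_mul, map_mul, hc])
      have h2 : (a * b)⁻¹ * (b * a) ∈ (S : Subgroup A) := mul_mem (inv_mem (mul_mem ha hb)) (mul_mem hb ha)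
      obtain ⟨j, hj⟩ := IsPGroup.iff_orderOf.1 S.isPGroup' ⟨_, h2⟩
      rw [Subgroup.orderOf_mk, ← Subgroup.orderOf_coe] at hj
      have h3 := M.orderOf_dvd_natCard h1
      have e : ((((a * b)⁻¹ * (b * a) : A) : G)) = ((a * b : A) : G)⁻¹ * ((b * a : A) : G) := rfl
      rw [← e, hj] at h3
      have h5 : p ^ j = 1 := Nat.eq_one_of_dvd_coprimes ((hp.out.coprime_iff_not_dvd.2 hpM).pow_left j) dvd_rfl h3
      have h6 : ((a * b : A) : G)⁻¹ * ((b * a : A) : G) = 1 := by
        rw [← e]; exact orderOf_eq_one_iff.1 (by rw [hj, h5])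
      exact inv_mul_eq_one.1 h6
  refine ⟨⟨fun a b => ?_⟩⟩
  have : a ∈ centralizer ((⊤ : Subgroup A) : Set A) := by
    refine Cfsg.Lib.Transfer.mem_centralizer_of_prime_parts fun r hr y _ ⟨k, hk⟩ => ?_
    rw [mem_centralizer_iff]
    intro z _
    suffices h : z ∈ centralizer ((zpowers y : Subgroup A) : Set A) from (mem_centralizer_iff.1 h y (mem_zpowers y)).symm
    refine Cfsg.Lib.Transfer.mem_centralizer_of_prime_parts fun q hq v _ ⟨l, hl⟩ => ?_
    rw [mem_centralizer_iff]
    haveI := Fact.mk hr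
    haveI := Fact.mk hq
    obtain ⟨Sy, hSy⟩ := (IsPGroup.of_card (p := r) (G := zpowers y) (n := k) (by rw [Nat.card_zpowers, hk])).exists_le_sylow
    obtain ⟨Sv, hSv⟩ := (IsPGroup.of_card (p := q) (G := zpowers v) (n := l) (by rw [Nat.card_zpowers, hl])).exists_le_sylow
    intro u hu
    by_cases hrq : r = q
    · subst hrq
      haveI := hnormal r Sy
      haveI := Sylow.unique_of_normal Sy (hnormal r Sy)
      have : Sv = Sy := Subsingleton.elim _ _
      exact hsyl r Sy u (hSy hu) v (this ▸ hSv (mem_zpowers v))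
    · have hd : Disjoint (Sy : Subgroup A) (Sv : Subgroup A) := IsPGroup.disjoint_of_ne r q hrq _ _ Sy.isPGroup' Sv.isPGroup'
      exact commute_of_normal_of_disjoint _ _ (hnormal r Sy) (hnormal q Sv) hd u v (hSy hu) (hSv (mem_zpowers v))
  exact (mem_centralizer_iff.1 this b (mem_top b)).symm

theorem main [Finite G] (hB : Hyp G) (M : Subgroup G) [M.Normal] (hM : Odd (Nat.card M))
    (A' B' : Subgroup (G ⧸ M)) (hA' : IsMulCommutative A') (hB' : IsMulCommutative B') (hcard : Nat.card A' = Nat.card B') :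
    ∃ g : G ⧸ M, B' = A'.map (MulAut.conj g).toMonoidHom := by
  obtain ⟨A, hA, hAm, hAf⟩ := exists_lift hB M hM A' hA'
  obtain ⟨B, hBc, hBm, hBf⟩ := exists_lift hB M hM B' hB'
  obtain ⟨g, hg⟩ := hB A B hA hBc (Nat.eq_of_factorization_eq Nat.card_pos.ne' Nat.card_pos.ne' fun p => by
    by_cases hp : p.Prime
    · rw [hAf p hp, hBf p hp, hcard]
    · rw [Nat.factorization_eq_zero_of_not_prime _ hp, Nat.factorization_eq_zero_of_not_prime _ hp])
  refine ⟨QuotientGroup.mk' M g, ?_⟩
  rw [← hBm, hg, ← hAm, map_map, map_map]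
  congr 1

end Cfsg.Lib.Solv.AbConjQuot
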