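import Mathlib
import Cfsg.Agent.Lib.Solv.Subnormal

/-!
# Sylow subgroups of almost simple groups
-/

set_option autoImplicit false

namespace Cfsg.Lib.Solv

open Subgroup
open scoped Pointwise

/-- The normalizer of a Sylow subgroup meeting the simple socle is proper. -/
theorem sylow_inf_socle_normalizer_ne_top {G : Type*} [Group G] [Finite G] (T : Subgroup G)
    (hT : IsSimpleGroup T) (hna : ¬ IsMulCommutative T) {r : ℕ} [Fact r.Prime] (R : Sylow r G)
    (hR0 : (R : Subgroup G) ⊓ T ≠ ⊥) :
    normalizer (((R : Subgroup G) ⊓ T : Subgroup G) : Set G) ≠ ⊤ := by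
  intro h
  rw [normalizer_eq_top_iff] at h
  have := h.subgroupOf T
  rcases this.eq_bot_or_eq_top with h1 | h1
  · rw [subgroupOf_eq_bot, disjoint_iff, inf_assoc, inf_idem] at h1
    exact hR0 h1
  · rw [subgroupOf_eq_top] at h1
    have hTr : IsPGroup r T := R.isPGroup'.to_le (h1.trans inf_le_left)
    have : Group.IsNilpotent T := hTr.isNilpotent
    have : Nontrivial T := hT.toNontrivial
    refine hna ⟨⟨fun a b => ?_⟩⟩
    have : center T = ⊤ := by
      rcases (inferInstance : (center T).Normal).eq_bot_or_eq_top with h2 | h2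
      · exact absurd h2 (Group.IsNilpotent.center_ne_bot T)
      · exact h2
    exact (mem_center_iff.1 (this ▸ mem_top b) a)

end Cfsg.Lib.Solv
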