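import Mathlib
import Cfsg.Agent.Lib.Solv.Coprime2

/-!
# The number of orbits of `Aut G` on a non-abelian group `G`
-/

set_option autoImplicit false

namespace Cfsg.Lib.Solv.AutOrbits

open Subgroup
open scoped Pointwise commutatorElement

universe u

variable {G : Type u} [Group G]

local notation "Zc" => Subgroup.center G

/-- Counting orbits by weights. -/
theorem orbit_bound {A : Type*} [Group A] {X : Type*} [MulAction A X] [Fintype X] (L : ℕ) (wt : X → ℕ)
    (h : ∀ x, L ≤ wt x * Nat.card (MulAction.orbit A x)) :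
    L * Nat.card (MulAction.orbitRel.Quotient A X) ≤ ∑ x, wt x := by
  classical
  haveI : Fintype (MulAction.orbitRel.Quotient A X) := Fintype.ofFinite _
  rw [Nat.card_eq_fintype_card, ← Finset.sum_fiberwise (Finset.univ) (fun x => (Quotient.mk'' x : MulAction.orbitRel.Quotient A X)) wt,
    mul_comm, ← smul_eq_mul, ← Finset.card_univ, ← Finset.sum_const]
  refine Finset.sum_le_sum fun ω _ => ?_
  set S := Finset.univ.filter (fun x => (Quotient.mk'' x : MulAction.orbitRel.Quotient A X) = ω) with hS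
  have hne : S.Nonempty := by
    induction ω using Quotient.inductionOn' with | h a => exact ⟨a, by rw [hS, Finset.mem_filter]; exact ⟨Finset.mem_univ _, rfl⟩⟩
  obtain ⟨a, ha, hmin⟩ := S.exists_min_image wt hne
  have hc : S.card = Nat.card (MulAction.orbit A a) := by
    rw [hS, Finset.mem_filter] at ha
    rw [← Nat.card_eq_finsetCard]
    refine Nat.card_congr (Equiv.subtypeEquivRight fun x => ?_)
    rw [hS, Finset.mem_filter, ← ha.2]
    exact ⟨fun hx => MulAction.orbitRel_apply.1 (Quotient.eq''.1 hx.2), fun hx => ⟨Finset.mem_univ _, Quotient.eq''.2 (MulAction.orbitRel_apply.2 hx)⟩⟩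
  calc L ≤ wt a * Nat.card (MulAction.orbit A a) := h a
    _ = S.card • wt a := by rw [hc, smul_eq_mul, mul_comm]
    _ ≤ ∑ x ∈ S, wt x := Finset.card_nsmul_le_sum S wt (wt a) hmin

theorem class_subset [Finite G] (g : G) :
    {h : G | IsConj g h} ⊆ MulAction.orbit (MulAut G) g := by
  rintro h hh
  obtain ⟨c, hc⟩ := isConj_iff.1 hh
  exact ⟨MulAut.conj c, hc⟩

theorem card_class [Finite G] (g : G) :
    Nat.card {h : G | IsConj g h} = (centralizer ({g} : Set G)).index := by
  let f : G ⧸ centralizer ({g} : Set G) → {h : G | IsConj g h} := Quotient.lift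
    (fun a => (⟨a * g * a⁻¹, isConj_iff.2 ⟨a, rfl⟩⟩ : {h : G | IsConj g h}))
    (fun a b hab => Subtype.ext (by
      have h1 : a⁻¹ * b ∈ centralizer ({g} : Set G) := QuotientGroup.leftRel_apply.1 hab
      rw [mem_centralizer_singleton_iff] at h1
      show a * g * a⁻¹ = b * g * b⁻¹
      calc a * g * a⁻¹ = a * (g * (a⁻¹ * b)) * b⁻¹ := by group
        _ = b * g * b⁻¹ := by rw [← h1]; group))
  rw [Subgroup.index_eq_card]
  refine (Nat.card_eq_of_bijective f ⟨?_, ?_⟩).symm
  · intro x y hxy
    induction x using QuotientGroup.induction_on with | H a => ?_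
    induction y using QuotientGroup.induction_on with | H b => ?_
    have e : a * g * a⁻¹ = b * g * b⁻¹ := congrArg Subtype.val hxy
    rw [QuotientGroup.eq, mem_centralizer_singleton_iff]
    calc a⁻¹ * b * g = a⁻¹ * (b * g * b⁻¹) * b := by group
      _ = g * (a⁻¹ * b) := by rw [← e]; group
  · rintro ⟨h, hh⟩
    obtain ⟨c, hc⟩ := isConj_iff.1 hh
    exact ⟨QuotientGroup.mk c, Subtype.ext hc⟩

theorem orbit_ge_index [Finite G] (g : G) :
    (centralizer ({g} : Set G)).index ≤ Nat.card (MulAction.orbit (MulAut G) g) := by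
  rw [← card_class]
  exact Nat.card_mono (Set.toFinite _) (class_subset g)

theorem commutator_central_mul {a b : G} {e : G} (he : e ∈ Zc) (hab : b * a = e * (a * b)) (n : ℕ) :
    (a * b) ^ n = e ^ (n.choose 2) * (a ^ n * b ^ n) := by
  induction n with
  | zero => simp
  | succ n ih =>
    have hbn : ∀ m : ℕ, b ^ m * a = e ^ m * (a * b ^ m) := by
      intro m
      induction m with
      | zero => simp
      | succ m ih2 =>
        calc b ^ (m + 1) * a = b ^ m * (b * a) := by rw [pow_succ, mul_assoc]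
          _ = e * (b ^ m * a) * b := by
            rw [hab, ← mul_assoc (b ^ m), mem_center_iff.1 he (b ^ m), mul_assoc, mul_assoc, mul_assoc]
          _ = e ^ (m + 1) * (a * b ^ (m + 1)) := by rw [ih2, pow_succ', pow_succ]; simp only [mul_assoc]
    have hc : ∀ (m : ℕ) (w : G), w * e ^ m = e ^ m * w := fun m w => mem_center_iff.1 (pow_mem he m) w
    rw [pow_succ, ih]
    calc e ^ n.choose 2 * (a ^ n * b ^ n) * (a * b) = e ^ n.choose 2 * (a ^ n * (b ^ n * a) * b) := by group
      _ = e ^ n.choose 2 * ((a ^ n * e ^ n) * (a * b ^ n) * b) := by rw [hbn n]; group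
      _ = (e ^ n.choose 2 * e ^ n) * (a ^ (n + 1) * b ^ (n + 1)) := by rw [hc n (a ^ n), pow_succ, pow_succ]; simp only [mul_assoc]
      _ = _ := by rw [← pow_add, show (n + 1).choose 2 = n.choose 2 + n by rw [Nat.choose_succ_succ, Nat.choose_one_right, add_comm]]

section ClassTwo

variable [Finite G] {p : ℕ} [hp : Fact p.Prime]

/-- Enough elements of a transvection are moved out of their class. -/
theorem exists_auto {u c : G} (hu : u ∉ Zc) (hc : c ∈ Zc) (hcp : orderOf c = p)
    (hcomm : ∀ a : G, ∃ i : ℕ, a * u * a⁻¹ * u⁻¹ = c ^ i)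
    (hu2 : (p ≠ 2 ∧ u ^ p = 1) ∨ (p = 2 ∧ u ^ 2 = c)) :
    ∃ φ : MulAut G, ∀ g : G, g * u ≠ u * g → g⁻¹ * φ g ∉ Zc := by
  classical
  choose i hi using hcomm
  have hc1 : c ≠ 1 := fun e => hp.out.ne_one (by rw [← hcp, e, orderOf_one])
  have hcc : ∀ (m : ℕ) (w : G), w * c ^ m = c ^ m * w := fun m w => mem_center_iff.1 (pow_mem hc m) w
  have hcpow : ∀ m n : ℕ, c ^ m = c ^ n ↔ m ≡ n [MOD p] := fun m n => hcp ▸ pow_eq_pow_iff_modEq
  have hau : ∀ a : G, a * u = c ^ i a * (u * a) := fun a => by rw [← hi a]; group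
  have hiadd : ∀ a b : G, i (a * b) ≡ i a + i b [MOD p] := fun a b => (hcpow _ _).1 (by
    have e : a * b * u = c ^ (i a + i b) * (u * (a * b)) := by
      rw [mul_assoc, hau b, ← mul_assoc, hcc, mul_assoc, ← mul_assoc a, hau a, pow_add]
      calc c ^ i b * (c ^ i a * (u * a) * b) = (c ^ i b * c ^ i a) * (u * (a * b)) := by group
        _ = _ := by rw [← pow_add, add_comm, pow_add]
    rw [hau (a * b)] at e
    exact mul_right_cancel e)
  have hiz : ∀ a : G, a * u = u * a → i a ≡ 0 [MOD p] := fun a h => (hcpow _ _).1 (by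
    have := hau a
    rw [h] at this
    rw [pow_zero]; exact right_eq_mul.1 this |> fun e => e)
  have hin : ∀ a : G, a * u ≠ u * a → ¬ i a ≡ 0 [MOD p] := fun a h hm => h (by
    rw [hau a, (hcpow _ _).2 hm, pow_zero, one_mul])
  rcases hu2 with ⟨hp2, hup⟩ | ⟨hp2, hu2⟩
  · set w := c ^ ((p - 1) / 2) with hw
    have hwp : w ^ p = 1 := by rw [hw, ← pow_mul, mul_comm, pow_mul, ← hcp, pow_orderOf_eq_one, one_pow]
    have hpow : ∀ (z : G), z ^ p = 1 → ∀ m n : ℕ, m ≡ n [MOD p] → z ^ m = z ^ n := fun z hz m n h =>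
      pow_eq_pow_iff_modEq.2 (h.of_dvd (orderOf_dvd_of_pow_eq_one hz))
    have hww : w ^ 2 * c = 1 := by
      rw [hw, ← pow_mul, ← pow_succ, ← pow_orderOf_eq_one c, hcp]
      congr 1
      obtain ⟨k, rfl⟩ := hp.out.odd_of_ne_two hp2
      omega
    have huh : ∀ (h : G) (m : ℕ), c ^ (m * i h) * (u ^ m * h) = h * u ^ m := by
      intro h m
      induction m with
      | zero => simp
      | succ m ih =>
        calc c ^ ((m + 1) * i h) * (u ^ (m + 1) * h) = c ^ (m * i h) * (c ^ i h * (u ^ m * (u * h))) := by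
              rw [add_mul, one_mul, pow_add, pow_succ]; simp only [mul_assoc]
          _ = c ^ (m * i h) * (u ^ m * (c ^ i h * (u * h))) := by rw [← mul_assoc (c ^ i h), ← hcc (i h) (u ^ m), mul_assoc]
          _ = c ^ (m * i h) * (u ^ m * h) * u := by rw [← hau h]; group
          _ = h * u ^ (m + 1) := by rw [ih, pow_succ, mul_assoc]
    let f : G → G := fun a => a * u ^ i a * w ^ (i a * i a)
    have hwz : ∀ (m : ℕ) (g : G), g * w ^ m = w ^ m * g := fun m g => mem_center_iff.1 (pow_mem (pow_mem hc _) m) g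
    have hmul : ∀ a b, f (a * b) = f a * f b := by
      intro a b
      show a * b * u ^ i (a * b) * w ^ (i (a * b) * i (a * b)) = a * u ^ i a * w ^ (i a * i a) * (b * u ^ i b * w ^ (i b * i b))
      rw [hpow u hup _ _ (hiadd a b), hpow w hwp _ _ ((hiadd a b).mul (hiadd a b))]
      symm
      calc a * u ^ i a * w ^ (i a * i a) * (b * u ^ i b * w ^ (i b * i b))
          = a * (u ^ i a * b) * u ^ i b * (w ^ (i a * i a) * w ^ (i b * i b)) := by
            have := hwz (i a * i a) (b * u ^ i b)
            calc _ = a * u ^ i a * (w ^ (i a * i a) * (b * u ^ i b)) * w ^ (i b * i b) := by group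
              _ = _ := by rw [← this]; group
        _ = a * (w ^ (2 * (i a * i b)) * (b * u ^ i a)) * u ^ i b * (w ^ (i a * i a) * w ^ (i b * i b)) := by
            congr 3
            rw [← huh b (i a), ← mul_assoc, pow_mul, ← (show Commute (w ^ 2) c from (mem_center_iff.1 hc _)).mul_pow, hww, one_pow, one_mul]
        _ = a * b * u ^ (i a + i b) * w ^ ((i a + i b) * (i a + i b)) := by
            rw [← hwz _ (b * u ^ i a), ← mul_assoc a, mul_assoc _ (w ^ _) (u ^ i b), ← hwz _ (u ^ i b), pow_add u,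
              show (i a + i b) * (i a + i b) = 2 * (i a * i b) + (i a * i a + i b * i b) by ring, pow_add, pow_add]
            simp only [mul_assoc]
    have hinj : Function.Injective (MonoidHom.mk' f hmul) := by
      rw [injective_iff_map_eq_one]
      intro a ha
      have ha' : a = (w ^ (i a * i a))⁻¹ * (u ^ i a)⁻¹ := by
        rw [← mul_inv_rev]; exact eq_inv_of_mul_eq_one_left (by rw [← mul_assoc]; exact ha)
      have hz : i a ≡ 0 [MOD p] := hiz a (by
        rw [ha']
        exact (((show Commute (w ^ (i a * i a)) u from (hwz _ u).symm).inv_left).mul_left ((Commute.refl u).pow_left _).inv_left).eq)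
      rw [hpow u hup _ _ hz, hpow w hwp _ _ (hz.mul hz)] at ha'
      simpa using ha'
    refine ⟨MulEquiv.ofBijective (MonoidHom.mk' f hmul) ⟨hinj, Finite.surjective_of_injective hinj⟩, fun g hg => ?_⟩
    show g⁻¹ * (g * u ^ i g * w ^ (i g * i g)) ∉ Zc
    intro hm
    refine hu ?_
    rw [← mul_assoc, ← mul_assoc, inv_mul_cancel, one_mul] at hm
    have h1 : u ^ i g ∈ Zc := by
      have := mul_mem hm (inv_mem (pow_mem (pow_mem hc ((p - 1) / 2)) (i g * i g)))
      rwa [mul_inv_cancel_right] at this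
    obtain ⟨s, -, hs⟩ := Nat.exists_mul_mod_eq_one_of_coprime
      ((hp.out.coprime_iff_not_dvd.2 fun hd => hin g hg (Nat.modEq_zero_iff_dvd.2 hd)).symm) hp.out.one_lt
    have e : u = (u ^ i g) ^ s := by
      rw [← pow_mul]
      conv_lhs => rw [← pow_one u]
      exact hpow u hup _ _ (by rw [Nat.ModEq, hs, Nat.one_mod_eq_one.2 hp.out.ne_one])
    rw [e]; exact pow_mem h1 s
  · subst hp2
    have hc2 : c * c = 1 := by rw [← pow_two, ← hcp, pow_orderOf_eq_one]
    have hodd : ∀ a : G, a * u ≠ u * a → a * u = c * (u * a) := fun a h => by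
      rw [hau a, (hcpow (i a) 1).2 (Nat.odd_iff.1 ((Nat.not_even_iff_odd).1 fun he => hin a h (Nat.modEq_zero_iff_dvd.2 he.two_dvd))), pow_one]
    let f : G → G := fun a => if a * u = u * a then a else a * u
    have hmul : ∀ a b, f (a * b) = f a * f b := by
      intro a b
      by_cases ha : a * u = u * a <;> by_cases hb : b * u = u * b <;> simp only [f, ha, hb, if_true, if_false]
      · rw [if_pos ((show Commute a u from ha).mul_left hb).eq]
      · rw [if_neg fun h => hb (by
          have := ((show Commute a u from ha).inv_left).mul_left h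
          rwa [inv_mul_cancel_left] at this), mul_assoc]
      · rw [if_neg fun h => ha (by
          have := (show Commute (a * b) u from h).mul_left ((show Commute b u from hb).inv_left)
          rwa [mul_inv_cancel_right] at this), mul_assoc, hb, ← mul_assoc]
      · rw [if_pos (by
          rw [mul_assoc, hodd b hb, ← mul_assoc, ← mul_assoc, mem_center_iff.1 hc a, mul_assoc c a u, hodd a ha,
            ← mul_assoc c c, hc2, one_mul, mul_assoc])]
        have h1 : b * u = c * (u * b) := hodd b hb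
        have h2 : u * b = c * (b * u) := by rw [h1, ← mul_assoc, hc2, one_mul]
        symm
        calc a * u * (b * u) = a * (u * b) * u := by group
          _ = a * c * b * (u * u) := by rw [h2]; group
          _ = a * b * (c * c) := by
              rw [← pow_two, hu2, mul_assoc a c b, ← mem_center_iff.1 hc b, ← mul_assoc, mul_assoc]
          _ = a * b := by rw [hc2, mul_one]
    have hinj : Function.Injective (MonoidHom.mk' f hmul) := by
      rw [injective_iff_map_eq_one]
      intro a ha
      by_cases h : a * u = u * a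
      · simpa [f, h] using ha
      · exact absurd (by
          have : a * u = 1 := by simpa [f, h] using ha
          rw [eq_inv_of_mul_eq_one_left this, inv_mul_cancel, mul_inv_cancel]) h
    refine ⟨MulEquiv.ofBijective (MonoidHom.mk' f hmul) ⟨hinj, Finite.surjective_of_injective hinj⟩, fun g hg => ?_⟩
    show g⁻¹ * f g ∉ Zc
    simp only [f, hg, if_false, inv_mul_cancel_left]
    exact hu

/-- A comparable pair of central elements of `p`-power order when `Ω₁` has order `p`. -/
theorem central_cyclic {c : G} (hcp : orderOf c = p) (hΩ : ∀ z ∈ Zc, z ^ p = 1 → z ∈ zpowers c) :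
    ∀ (j : ℕ) (a b : G), a ∈ Zc → b ∈ Zc → orderOf b = p ^ j → (∃ i, j ≤ i ∧ orderOf a = p ^ i) → ∃ k : ℕ, b = a ^ k := by
  intro j
  induction j with
  | zero => intro a b _ _ hb _; exact ⟨0, by rw [pow_zero]; exact orderOf_eq_one_iff.1 (by rw [hb, pow_zero])⟩
  | succ j ih =>
    intro a b ha hb hbo ⟨i, hji, hao⟩
    have hb' : orderOf (b ^ p) = p ^ j := by
      rw [orderOf_pow_of_dvd hp.out.ne_zero (hbo ▸ dvd_pow_self p (Nat.succ_ne_zero j)), hbo, pow_succ, Nat.mul_div_cancel _ hp.out.pos]
    obtain ⟨k, hk⟩ := ih a (b ^ p) ha (pow_mem hb p) hb' ⟨i, by omega, hao⟩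
    have hpk : p ∣ k := by
      have h1 : (a ^ k) ^ p ^ j = 1 := by rw [← hk, ← hb', pow_orderOf_eq_one]
      rw [← pow_mul] at h1
      have h2 := orderOf_dvd_of_pow_eq_one h1
      rw [hao] at h2
      have h3 : p ^ (j + 1) ∣ k * p ^ j := (pow_dvd_pow p hji).trans h2
      rw [pow_succ'] at h3
      exact Nat.dvd_of_mul_dvd_mul_right (pow_pos hp.out.pos j) h3
    obtain ⟨k', rfl⟩ := hpk
    set d := b * (a ^ k')⁻¹ with hd
    have hdp : d ^ p = 1 := by
      rw [hd, (show Commute b (a ^ k')⁻¹ from mem_center_iff.1 (inv_mem (pow_mem ha _)) b).mul_pow, hk, inv_pow, ← pow_mul, mul_comm k', mul_inv_cancel]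
    have ha1 : orderOf (a ^ p ^ (i - 1)) = p := by
      rw [orderOf_pow_of_dvd (pow_pos hp.out.pos _).ne' (hao ▸ pow_dvd_pow p (Nat.sub_le i 1)), hao,
        Nat.pow_div (Nat.sub_le i 1) hp.out.pos, show i - (i - 1) = 1 by omega, pow_one]
    have hmem : a ^ p ^ (i - 1) ∈ zpowers c := hΩ _ (pow_mem ha _) (by
      have := pow_orderOf_eq_one (a ^ p ^ (i - 1))
      rwa [ha1] at this)
    have heq : zpowers (a ^ p ^ (i - 1)) = zpowers c := eq_of_le_of_card_ge (zpowers_le.2 hmem) (by
      rw [Nat.card_zpowers, Nat.card_zpowers, ha1, hcp])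
    have hdmem : d ∈ Submonoid.powers (a ^ p ^ (i - 1)) := mem_powers_iff_mem_zpowers.2 (heq.symm ▸ hΩ d (mul_mem hb (inv_mem (pow_mem ha _))) hdp)
    obtain ⟨l, hl⟩ := hdmem
    refine ⟨p ^ (i - 1) * l + k', ?_⟩
    rw [pow_add, pow_mul, show (a ^ p ^ (i - 1)) ^ l = d from hl, hd, inv_mul_cancel_right]

theorem exists_hom_of_elementary (hexp : ∀ a : G, a ^ p ∈ Zc) (hab : ∀ a b : G, ⁅a, b⁆ ∈ Zc) {g : G} (hg : g ∉ Zc)
    {z : G} (hz : z ∈ Zc) (hzp : z ^ p = 1) :
    ∃ φ : MulAut G, φ g = g * z := by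
  classical
  haveI : Fintype (Subgroup G) := Fintype.ofFinite _
  obtain ⟨M, hM, hMmax⟩ := Finset.exists_maximal (s := (Finset.univ : Finset (Subgroup G)).filter (fun M => Zc ≤ M ∧ g ∉ M))
    ⟨Zc, Finset.mem_filter.2 ⟨Finset.mem_univ _, le_rfl, hg⟩⟩
  rw [Finset.mem_filter] at hM
  haveI : M.Normal := ⟨fun a ha b => by
    have : b * a * b⁻¹ = ⁅b, a⁆ * a := by rw [commutatorElement_def]; group
    rw [this]; exact mul_mem (hM.2.1 (hab b a)) ha⟩
  set π := QuotientGroup.mk' M
  have hgen : ∀ x : G ⧸ M, x ∈ zpowers (π g) := by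
    intro x
    obtain ⟨a, rfl⟩ := QuotientGroup.mk'_surjective M x
    by_cases ha : a ∈ M
    · rw [show π a = 1 from (QuotientGroup.eq_one_iff a).2 ha]; exact one_mem _
    have hlt : M < M ⊔ zpowers a := lt_of_le_of_ne le_sup_left fun e => ha (e.symm ▸ mem_sup_right (mem_zpowers a))
    have hgm : g ∈ M ⊔ zpowers a := by
      by_contra hgn
      exact hlt.not_ge (hMmax (Finset.mem_filter.2 ⟨Finset.mem_univ _, hM.2.1.trans hlt.le, hgn⟩) hlt.le)
    have h1 := mem_map_of_mem π hgm
    rw [Subgroup.map_sup, MonoidHom.map_zpowers, show M.map π = ⊥ from (map_eq_bot_iff M).2 (by rw [QuotientGroup.ker_mk']), bot_sup_eq] at h1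
    have ho : orderOf (π a) = p := orderOf_eq_prime
      (by rw [← map_pow]; exact (QuotientGroup.eq_one_iff _).2 (hM.2.1 (hexp a)))
      (fun e => ha ((QuotientGroup.eq_one_iff a).1 e))
    have hog : orderOf (π g) = p := orderOf_eq_prime
      (by rw [← map_pow]; exact (QuotientGroup.eq_one_iff _).2 (hM.2.1 (hexp g)))
      (fun e => hM.2.2 ((QuotientGroup.eq_one_iff g).1 e))
    have heq : zpowers (π g) = zpowers (π a) := eq_of_le_of_card_ge (zpowers_le.2 h1) (by
      rw [Nat.card_zpowers, Nat.card_zpowers, ho, hog])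
    exact heq ▸ mem_zpowers _
  have hog : orderOf (π g) = p := orderOf_eq_prime
    (by rw [← map_pow]; exact (QuotientGroup.eq_one_iff _).2 (hM.2.1 (hexp g)))
    (fun e => hM.2.2 ((QuotientGroup.eq_one_iff g).1 e))
  let θ : G ⧸ M →* Zc := monoidHomOfForallMemZpowers hgen (g' := (⟨z, hz⟩ : Zc))
    (by rw [hog]; exact orderOf_dvd_of_pow_eq_one (Subtype.ext hzp))
  let f : G →* G := MonoidHom.mk' (fun a => a * ((θ (π a) : Zc) : G)) (fun a b => by
    rw [map_mul, map_mul, Subgroup.coe_mul]
    calc a * b * ((θ (π a) : G) * (θ (π b) : G)) = a * (b * (θ (π a) : G)) * (θ (π b) : G) := by group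
      _ = a * ((θ (π a) : G) * b) * (θ (π b) : G) := by rw [mem_center_iff.1 (θ (π a)).2 b]
      _ = a * (θ (π a) : G) * (b * (θ (π b) : G)) := by group)
  have hinj : Function.Injective f := by
    rw [injective_iff_map_eq_one]
    intro a ha
    have ha' : a * ((θ (π a) : Zc) : G) = 1 := ha
    have haZ : a ∈ Zc := by rw [eq_inv_of_mul_eq_one_left ha']; exact inv_mem (θ (π a)).2
    rw [show π a = 1 from (QuotientGroup.eq_one_iff a).2 (hM.2.1 haZ), map_one, OneMemClass.coe_one, mul_one] at ha'
    exact ha'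
  refine ⟨MulEquiv.ofBijective f ⟨hinj, Finite.surjective_of_injective hinj⟩, ?_⟩
  show g * ((θ (π g) : Zc) : G) = g * z
  rw [monoidHomOfForallMemZpowers_apply_gen hgen]

end ClassTwo

theorem two_mul_le {a b : ℕ} (h : b ≤ a) : 2 * b ≤ a + b := by omega

theorem main [Finite G] (hna : ¬ IsMulCommutative G) :
    Nat.card (MulAction.orbitRel.Quotient (MulAut G) G) ≤ Nat.card G / (Nat.card G).minFac := by
  classical
  haveI : Fintype G := Fintype.ofFinite G
  set p := (Nat.card G).minFac with hpdef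
  obtain ⟨x0, hx0⟩ : ∃ x : G, x ∉ Zc := by
    by_contra hno
    push Not at hno
    exact hna ⟨⟨fun a b => mem_center_iff.1 (hno b) a⟩⟩
  have hG1 : Nat.card G ≠ 1 := fun e => hna ⟨⟨fun a b => by
    haveI := (Nat.card_eq_one_iff_unique.1 e).1
    exact Subsingleton.elim _ _⟩⟩
  haveI hp : Fact p.Prime := ⟨Nat.minFac_prime hG1⟩
  have hpG : p ∣ Nat.card G := Nat.minFac_dvd _
  have hmin : ∀ d : ℕ, d ∣ Nat.card G → d ≠ 1 → p ≤ d := fun d hd hd1 =>
    (Nat.minFac_le_of_dvd (Nat.Prime.two_le (Nat.minFac_prime hd1)) ((Nat.minFac_dvd d).trans hd)).trans (Nat.minFac_le (Nat.pos_of_dvd_of_pos hd Nat.card_pos))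
  set n := (Zc).index with hn
  have hGn : Nat.card Zc * n = Nat.card G := Subgroup.card_mul_index _
  have hn2 : p * p ≤ n := by
    obtain ⟨r, hr, hrn⟩ := Nat.exists_prime_and_dvd (fun e => hx0 (index_eq_one.1 e ▸ mem_top x0) : n ≠ 1)
    obtain ⟨m, hm⟩ := hrn
    have hm1 : m ≠ 1 := fun e => by
      rw [e, mul_one] at hm
      haveI := Fact.mk hr
      haveI : IsCyclic (G ⧸ Zc) := isCyclic_of_prime_card (p := r) (by rw [← index_eq_card, ← hn, hm])
      exact hna ⟨⟨commutative_of_cyclic_center_quotient (QuotientGroup.mk' Zc) (by rw [QuotientGroup.ker_mk'])⟩⟩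
    have hdn : n ∣ Nat.card G := hGn ▸ dvd_mul_left n _
    rw [hm] at hdn
    rw [hm]
    exact Nat.mul_le_mul (hmin r ((dvd_mul_right r m).trans hdn) hr.ne_one) (hmin m ((dvd_mul_left m r).trans hdn) hm1)
  have hidx : ∀ g : G, g ∉ Zc → p ≤ (centralizer ({g} : Set G)).index := fun g hg =>
    hmin _ (index_dvd_card _) fun e => hg (mem_center_iff.2 fun w =>
      mem_centralizer_singleton_iff.1 (index_eq_one.1 e ▸ mem_top w))
  have hcount : ∀ (S : Subgroup G) [DecidablePred (· ∈ S)] (a b : ℕ), (∑ g, if g ∈ S then a else b) = Nat.card S * a + (Nat.card G - Nat.card S) * b := by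
    intro S _ a b
    rw [Finset.sum_ite, Finset.sum_const, Finset.sum_const, smul_eq_mul, smul_eq_mul, ← Fintype.card_subtype, ← Nat.card_eq_fintype_card]
    congr 2
    rw [Finset.filter_not, Finset.card_sdiff_of_subset (Finset.filter_subset _ _), Finset.card_univ, ← Nat.card_eq_fintype_card, ← Fintype.card_subtype, ← Nat.card_eq_fintype_card]
  have hZpos : 0 < Nat.card Zc := Nat.card_pos
  have finish : ∀ L : ℕ, 0 < L → ∀ wt : G → ℕ, (∀ g, L ≤ wt g * Nat.card (MulAction.orbit (MulAut G) g)) →
      p * (∑ g, wt g) ≤ L * Nat.card G → Nat.card (MulAction.orbitRel.Quotient (MulAut G) G) ≤ Nat.card G / p := by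
    intro L hL wt h hsum
    rw [Nat.le_div_iff_mul_le hp.out.pos]
    refine Nat.le_of_mul_le_mul_left ?_ hL
    calc L * (Nat.card (MulAction.orbitRel.Quotient (MulAut G) G) * p) = p * (L * Nat.card (MulAction.orbitRel.Quotient (MulAut G) G)) := by ring
      _ ≤ p * (∑ g, wt g) := Nat.mul_le_mul_left _ (orbit_bound L wt h)
      _ ≤ _ := hsum
  have horbit1 : ∀ g : G, 1 ≤ Nat.card (MulAction.orbit (MulAut G) g) := fun g => by
    haveI : Nonempty (MulAction.orbit (MulAut G) g) := ⟨⟨g, MulAction.mem_orbit_self g⟩⟩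
    exact Nat.card_pos
  set Sm := {g : G | (centralizer ({g} : Set G)).index = p} with hSm
  set H := closure (Sm ∪ (Zc : Set G)) with hH
  by_cases hHtop : H = ⊤
  swap
  · -- many classes are large
    have hZH : Zc ≤ H := fun z hz => subset_closure (Or.inr hz)
    refine finish (p * (p + 1)) (Nat.mul_pos hp.out.pos (Nat.succ_pos p)) (fun g => if g ∈ Zc then p * (p + 1) else if g ∈ H then p + 1 else p) (fun g => ?_) ?_
    · show p * (p + 1) ≤ _
      split_ifs with h1 h2
      · exact Nat.le_mul_of_pos_right _ (horbit1 g)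
      · rw [mul_comm p]
        exact Nat.mul_le_mul_left _ ((hidx g h1).trans (orbit_ge_index g))
      · refine Nat.mul_le_mul_left _ (le_trans ?_ (orbit_ge_index g))
        exact lt_of_le_of_ne (hidx g h1) fun e => h2 (subset_closure (Or.inl e.symm))
    · have hsplit : ∀ g : G, (if g ∈ Zc then p * (p + 1) else if g ∈ H then p + 1 else p) + (if g ∈ Zc then p + 1 else 0) =
          (if g ∈ Zc then p * (p + 1) else 0) + (if g ∈ H then p + 1 else p) := by
        intro g
        by_cases h1 : g ∈ Zc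
        · simp [h1, hZH h1]
        · simp [h1]
      have hs := Finset.sum_congr rfl (fun g (_ : g ∈ (Finset.univ : Finset G)) => hsplit g)
      rw [Finset.sum_add_distrib, Finset.sum_add_distrib, hcount Zc, hcount Zc, hcount H] at hs
      simp only [mul_zero, add_zero] at hs
      have hle : Nat.card H ≤ Nat.card G := Nat.le_of_dvd Nat.card_pos H.card_subgroup_dvd_card
      obtain ⟨d, hd⟩ := Nat.exists_eq_add_of_le hle
      rw [hd, Nat.add_sub_cancel_left] at hs
      have key : Nat.card Zc * (p * p) ≤ d + Nat.card Zc := by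
        by_cases hne : H = Zc
        · rw [hne] at hd
          rw [add_comm d, ← hd, ← hGn]
          exact Nat.mul_le_mul_left _ hn2
        · -- p divides n
          obtain ⟨g, hg, hgZ⟩ : ∃ g ∈ Sm, g ∉ Zc := by
            by_contra hno
            push Not at hno
            exact hne (le_antisymm ((closure_le _).2 (Set.union_subset hno (fun z hz => hz))) hZH)
          have hpn : p ∣ n := by
            rw [← (show (centralizer ({g} : Set G)).index = p from hg), hn]
            exact index_dvd_of_le (center_le_centralizer _)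
          obtain ⟨m, hm⟩ := hpn
          have hmp : p ≤ m := by
            rw [hm] at hn2
            exact Nat.le_of_mul_le_mul_left hn2 hp.out.pos
          have hidxH := H.card_mul_index
          have hiH : p ≤ H.index := hmin _ (index_dvd_card _) fun e => hHtop (index_eq_one.1 e)
          rcases hmp.eq_or_lt with e | hlt
          · exfalso
            subst e
            refine hHtop ((eq_top_iff' H).2 fun a => ?_)
            by_cases haZ : a ∈ Zc
            · exact hZH haZ
            refine subset_closure (Or.inl ?_)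
            show (centralizer ({a} : Set G)).index = p
            have h1 : (Zc).index = (Zc).relIndex (centralizer ({a} : Set G)) * (centralizer ({a} : Set G)).index :=
              (relIndex_mul_index (center_le_centralizer _)).symm
            rw [← hn, hm] at h1
            have h2 : (Zc).relIndex (centralizer ({a} : Set G)) ≠ 1 := fun e => haZ (relIndex_eq_one.1 e (mem_centralizer_singleton_iff.2 rfl))
            have h3 : (centralizer ({a} : Set G)).index ∣ p ^ 2 := by rw [pow_two, h1]; exact dvd_mul_left _ _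
            obtain ⟨e', he', he''⟩ := (Nat.dvd_prime_pow hp.out).1 h3
            have h4 := hidx a haZ
            interval_cases e'
            · rw [pow_zero] at he''; rw [he''] at h4; exact absurd h4 (not_le.2 hp.out.one_lt)
            · rw [he'', pow_one]
            · exfalso
              rw [he'', pow_two] at h1
              exact h2 (mul_eq_right₀ (Nat.mul_pos hp.out.pos hp.out.pos).ne' |>.1 h1.symm)
          · have h1 : Nat.card H * p ≤ Nat.card G := hidxH ▸ Nat.mul_le_mul_left _ hiH
            have h2 : Nat.card Zc * (p * (p + 1)) ≤ Nat.card G := by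
              rw [← hGn, hm]
              exact Nat.mul_le_mul_left _ (Nat.mul_le_mul_left p hlt)
            have h2' := hp.out.two_le
            nlinarith
      nlinarith [hs, key, hd, hp.out.two_le]
  -- class two
  have hnorm : ∀ g ∈ Sm, (centralizer ({g} : Set G)).Normal := fun g hg =>
    normal_of_index_eq_minFac_card (by rw [show (centralizer ({g} : Set G)).index = p from hg])
  have hab : ∀ a b : G, ⁅a, b⁆ ∈ Zc := by
    intro a b
    have h1 : H ≤ centralizer ({⁅a, b⁆} : Set G) := (closure_le _).2 (by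
      rintro g (hg | hg)
      · haveI := hnorm g hg
        haveI : IsCyclic (G ⧸ centralizer ({g} : Set G)) := isCyclic_of_prime_card (p := p) (by rw [← index_eq_card]; exact hg)
        have h2 : ⁅a, b⁆ ∈ centralizer ({g} : Set G) := by
          rw [← QuotientGroup.eq_one_iff]
          show QuotientGroup.mk' _ ⁅a, b⁆ = 1
          rw [map_commutatorElement, commutatorElement_eq_one_iff_mul_comm]
          exact (IsCyclic.commGroup (α := G ⧸ centralizer ({g} : Set G))).mul_comm _ _
        exact mem_centralizer_singleton_iff.2 (mem_centralizer_singleton_iff.1 h2).symm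
      · exact mem_centralizer_singleton_iff.2 (mem_center_iff.1 hg _).symm)
    rw [hHtop] at h1
    exact mem_center_iff.2 fun w => mem_centralizer_singleton_iff.1 (h1 (mem_top w))
  have hexp : ∀ a : G, a ^ p ∈ Zc := by
    intro a
    have h1 : H ≤ centralizer ({a ^ p} : Set G) := (closure_le _).2 (by
      rintro g (hg | hg)
      · haveI := hnorm g hg
        have h2 : a ^ p ∈ centralizer ({g} : Set G) := by
          rw [← (show (centralizer ({g} : Set G)).index = p from hg)]
          exact Subgroup.pow_index_mem _ a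
        exact mem_centralizer_singleton_iff.2 (mem_centralizer_singleton_iff.1 h2).symm
      · exact mem_centralizer_singleton_iff.2 (mem_center_iff.1 hg _).symm)
    rw [hHtop] at h1
    exact mem_center_iff.2 fun w => mem_centralizer_singleton_iff.1 (h1 (mem_top w))
  have hcp : ∀ a b : G, ⁅a, b⁆ ^ p = 1 := by
    intro a b
    set e := ⁅a, b⁆ with he
    have hec : Commute e b := (mem_center_iff.1 (hab a b) b).symm
    have h1 : a * b * a⁻¹ = e * b := by rw [he, commutatorElement_def]; group
    have h2 : a * b ^ p * a⁻¹ = e ^ p * b ^ p := by rw [← conj_pow, h1, hec.mul_pow]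
    rw [mem_center_iff.1 (hexp b) a, mul_inv_cancel_right] at h2
    exact right_eq_mul.1 h2
  obtain ⟨x, y, hxy⟩ : ∃ x y : G, x * y ≠ y * x := by
    by_contra hno
    push Not at hno
    exact hna ⟨⟨hno⟩⟩
  have hzle : ∀ g : G, g ∉ Zc → ∀ z ∈ Zc, z ^ p = 1 → g * z ∈ MulAction.orbit (MulAut G) g := fun g hg z hz hzp => by
    obtain ⟨φ, hφ⟩ := exists_hom_of_elementary hexp hab hg hz hzp
    exact ⟨φ, hφ⟩
  set c := ⁅x, y⁆ with hc
  have hcZ : c ∈ Zc := hab x y
  have hc1 : c ≠ 1 := fun e => hxy (commutatorElement_eq_one_iff_mul_comm.1 e)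
  have hco : orderOf c = p := orderOf_eq_prime (hcp x y) hc1
  by_cases hΩ : ∃ z ∈ Zc, z ^ p = 1 ∧ z ∉ zpowers c
  · obtain ⟨z, hz, hzp, hzc⟩ := hΩ
    have hz1 : z ≠ 1 := fun e => hzc (e ▸ one_mem _)
    have hbig : ∀ g : G, g ∉ Zc → p * p ≤ Nat.card (MulAction.orbit (MulAut G) g) := by
      intro g hg
      rw [show p * p = Nat.card (Fin p × Fin p) by simp]
      refine Nat.card_le_card_of_injective (fun ij => (⟨g * (c ^ (ij.1 : ℕ) * z ^ (ij.2 : ℕ)), hzle g hg _
        (mul_mem (pow_mem hcZ _) (pow_mem hz _)) (by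
          rw [(show Commute (c ^ (ij.1 : ℕ)) (z ^ (ij.2 : ℕ)) from (mem_center_iff.1 (pow_mem hz _) _)).mul_pow, ← pow_mul, ← pow_mul,
            mul_comm (ij.1 : ℕ), mul_comm (ij.2 : ℕ), pow_mul, pow_mul, hcp x y, hzp, one_pow, one_pow, one_mul])⟩ :
        MulAction.orbit (MulAut G) g)) ?_
      rintro ⟨i, j⟩ ⟨i', j'⟩ he
      have e : c ^ (i : ℕ) * z ^ (j : ℕ) = c ^ (i' : ℕ) * z ^ (j' : ℕ) := mul_left_cancel (congrArg Subtype.val he)
      have hzo : orderOf z = p := orderOf_eq_prime hzp hz1
      have hj : j = j' := by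
        by_contra hjne
        refine hzc ?_
        have h1 : z ^ ((j : ℤ) - j') ∈ zpowers c := by
          have : z ^ ((j : ℤ) - j') = (c ^ (i : ℕ))⁻¹ * c ^ (i' : ℕ) := by
            rw [zpow_sub, zpow_natCast, zpow_natCast, eq_inv_mul_iff_mul_eq, ← mul_assoc, e, mul_inv_cancel_right]
          rw [this]
          exact mul_mem (inv_mem (pow_mem (mem_zpowers c) _)) (pow_mem (mem_zpowers c) _)
        have h2 : zpowers (z ^ ((j : ℤ) - j')) = zpowers z := by
          refine eq_of_le_of_card_ge (zpowers_le.2 (zpow_mem (mem_zpowers z) _)) ?_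
          rw [Nat.card_zpowers, Nat.card_zpowers, hzo, orderOf_eq_prime (p := p)]
          · rw [← zpow_natCast, ← zpow_mul, mul_comm, zpow_mul, zpow_natCast, hzp, one_zpow]
          · rw [Ne, ← orderOf_dvd_iff_zpow_eq_one, hzo]
            intro hd
            refine hjne (Fin.ext ?_)
            have hj1 := j.isLt
            have hj2 := j'.isLt
            obtain ⟨t, ht⟩ := hd
            have : t = 0 := by nlinarith
            rw [this, mul_zero] at ht
            omega
        exact zpowers_le.2 h1 (h2 ▸ mem_zpowers z)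
      subst hj
      have h3 := mul_right_cancel e
      rw [pow_eq_pow_iff_modEq, hco] at h3
      exact Prod.ext (Fin.ext (Nat.ModEq.eq_of_lt_of_lt h3 i.isLt i'.isLt)) rfl
    refine finish (p * p) (Nat.mul_pos hp.out.pos hp.out.pos) (fun g => if g ∈ Zc then p * p else 1) (fun g => ?_) ?_
    · show p * p ≤ _
      split_ifs with h1
      · exact Nat.le_mul_of_pos_right _ (horbit1 g)
      · rw [one_mul]; exact hbig g h1
    · rw [hcount]
      obtain ⟨d, hd⟩ := Nat.exists_eq_add_of_le (Nat.le_of_dvd Nat.card_pos (Zc).card_subgroup_dvd_card)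
      rw [hd, Nat.add_sub_cancel_left]
      have h1 : Nat.card Zc * (p * p) ≤ Nat.card Zc + d := by rw [← hd, ← hGn]; exact Nat.mul_le_mul_left _ hn2
      obtain ⟨q, hq⟩ : ∃ q, p = q + 2 := ⟨p - 2, by have := hp.out.two_le; omega⟩
      rw [hq] at h1 ⊢
      have h3 : Nat.card Zc * (q + 2) ≤ d := by nlinarith
      nlinarith [Nat.mul_le_mul_left ((q + 2) * (q + 1)) h3]
  push Not at hΩ
  have hcomm : ∀ a b : G, ∃ i : ℕ, ⁅a, b⁆ = c ^ i := fun a b => by
    obtain ⟨i, hi⟩ : ⁅a, b⁆ ∈ Submonoid.powers c := mem_powers_iff_mem_zpowers.2 (hΩ _ (hab a b) (hcp a b))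
    exact ⟨i, hi.symm⟩
  have hppart : ∀ a : G, ∃ r : ℕ, r.Coprime p ∧ ∃ k, orderOf (a ^ r) = p ^ k := by
    intro a
    obtain ⟨k, r, hr, e⟩ := Nat.exists_eq_pow_mul_and_not_dvd (orderOf_pos a).ne' p hp.out.ne_one
    refine ⟨r, (hp.out.coprime_iff_not_dvd.2 hr).symm, k, ?_⟩
    have hr0 : r ≠ 0 := fun h => hr (h ▸ dvd_zero p)
    rw [orderOf_pow_of_dvd hr0 ⟨p ^ k, by rw [e, mul_comm]⟩, e, Nat.mul_div_cancel _ (Nat.pos_of_ne_zero hr0)]
  obtain ⟨rx, hrx, kx, hkx⟩ := hppart x
  obtain ⟨ry, hry, ky, hky⟩ := hppart y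
  set X := x ^ rx with hX
  set Y := y ^ ry with hY
  have hXY : X * Y ≠ Y * X := by
    intro e
    refine hxy ?_
    have back : ∀ (a : G) (r : ℕ), r.Coprime p → ∀ b : G, a ^ r * b = b * a ^ r → a * b = b * a := by
      intro a r hr b h
      obtain ⟨s, -, hs⟩ := Nat.exists_mul_mod_eq_one_of_coprime hr hp.out.one_lt
      have h1 : Commute ((a ^ r) ^ s) b := (show Commute (a ^ r) b from h).pow_left s
      rw [← pow_mul, ← Nat.mod_add_div (r * s) p, hs, pow_add, pow_one, pow_mul] at h1
      have h2 : Commute ((a ^ p) ^ (r * s / p)) b := (mem_center_iff.1 (pow_mem (hexp a) _) b).symm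
      have h3 := h1.mul_left h2.inv_left
      rw [mul_inv_cancel_right] at h3
      exact h3.eq
    exact back x rx hrx y (back y ry hry X e.symm).symm
  obtain ⟨u, hu, huc⟩ : ∃ u : G, u ∉ Zc ∧ ((p ≠ 2 ∧ u ^ p = 1) ∨ (p = 2 ∧ u ^ 2 = c)) := by
    have hzord : ∀ (a : G) (k : ℕ), orderOf a = p ^ k → ∃ j, orderOf (a ^ p) = p ^ j := fun a k hk => by
      obtain ⟨j, -, hj⟩ := (Nat.dvd_prime_pow hp.out).1 (hk ▸ orderOf_pow_dvd (x := a) p)
      exact ⟨j, hj⟩
    obtain ⟨jx, hjx⟩ := hzord X kx hkx
    obtain ⟨jy, hjy⟩ := hzord Y ky hky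
    obtain ⟨A, B, hAB, ⟨a0, hA0⟩, k, hk⟩ : ∃ A B : G, A * B ≠ B * A ∧ (∃ a, orderOf A = p ^ a) ∧ ∃ k : ℕ, B ^ p = (A ^ p) ^ k := by
      rcases le_total jy jx with hle | hle
      · exact ⟨X, Y, hXY, ⟨kx, hkx⟩, central_cyclic hco hΩ jy _ _ (hexp X) (hexp Y) hjy ⟨jx, hle, hjx⟩⟩
      · exact ⟨Y, X, Ne.symm hXY, ⟨ky, hky⟩, central_cyclic hco hΩ jx _ _ (hexp Y) (hexp X) hjx ⟨jy, hle, hjy⟩⟩
    set B' := B * (A ^ k)⁻¹ with hB'
    have hB'Z : ∀ w ∈ Zc, B' * w ∉ Zc := fun w hw h => hAB (by
      have h1 : B' ∈ Zc := by simpa using mul_mem h (inv_mem hw)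
      have h2 : Commute A B' := mem_center_iff.1 h1 A
      have h3 := h2.mul_right ((Commute.refl A).pow_right k)
      rw [hB', inv_mul_cancel_right] at h3
      exact h3.eq)
    set e := ⁅(A ^ k)⁻¹, B⁆ with he
    have hpow : B' ^ p = e ^ p.choose 2 := by
      rw [hB', commutator_central_mul (e := e) (hab _ _) (by rw [he, commutatorElement_def]; group) p, hk, inv_pow, ← pow_mul, ← pow_mul, mul_comm k p, mul_inv_cancel, mul_one]
    by_cases hp2 : p = 2
    swap
    · refine ⟨B', fun h => hB'Z 1 (one_mem _) (by rwa [mul_one]), Or.inl ⟨hp2, ?_⟩⟩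
      rw [hpow]
      obtain ⟨t, ht⟩ := hp.out.dvd_choose_self two_ne_zero (lt_of_le_of_ne hp.out.two_le (Ne.symm hp2))
      rw [ht, pow_mul, hcp, one_pow]
    · have hc2 : c ^ 2 = 1 := by have := hcp x y; rwa [hp2] at this
      rw [hp2] at hpow hk
      rw [Nat.choose_self, pow_one] at hpow
      obtain ⟨l, hl⟩ := hcomm (A ^ k)⁻¹ B
      rw [← he] at hl
      rcases Nat.even_or_odd l with ⟨l', hl'⟩ | ⟨l', hl'⟩
      swap
      · refine ⟨B', fun h => hB'Z 1 (one_mem _) (by rwa [mul_one]), Or.inr ⟨hp2, ?_⟩⟩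
        rw [hpow, hl, hl', pow_add, pow_mul, hc2, one_pow, one_mul, pow_one]
      · have hB2 : B' ^ 2 = 1 := by rw [hpow, hl, hl', ← two_mul, pow_mul, hc2, one_pow]
        by_cases h4 : ∃ w ∈ Zc, orderOf w = 4
        · obtain ⟨w, hw, hwo⟩ := h4
          have hw2 : w ^ 2 = c := by
            have h1 : (w ^ 2) ^ p = 1 := by rw [hp2, ← pow_mul, show 2 * 2 = orderOf w by omega, pow_orderOf_eq_one]
            obtain ⟨i, hi⟩ : w ^ 2 ∈ Submonoid.powers c := mem_powers_iff_mem_zpowers.2 (hΩ _ (pow_mem hw 2) h1)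
            rcases Nat.even_or_odd i with ⟨i', hi'⟩ | ⟨i', hi'⟩
            · exfalso
              have h2 : w ^ 2 = 1 := by rw [← hi]; show c ^ i = 1; rw [hi', ← two_mul, pow_mul, hc2, one_pow]
              have := orderOf_dvd_of_pow_eq_one h2
              rw [hwo] at this
              norm_num at this
            · rw [← hi]; show c ^ i = c; rw [hi', pow_add, pow_mul, hc2, one_pow, one_mul, pow_one]
          refine ⟨B' * w, hB'Z w hw, Or.inr ⟨hp2, ?_⟩⟩
          rw [(show Commute B' w from mem_center_iff.1 hw B').mul_pow, hB2, one_mul, hw2]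
        · push Not at h4
          -- `A ^ 2` has order at most 2
          have hA4 : (A ^ 2) ^ p = 1 := by
            rw [hp2] at hA0 ⊢
            obtain ⟨j, hj⟩ : ∃ j, orderOf (A ^ 2) = 2 ^ j := by
              obtain ⟨j, -, hj⟩ := (Nat.dvd_prime_pow Nat.prime_two).1 (hA0 ▸ orderOf_pow_dvd (x := A) 2)
              exact ⟨j, hj⟩
            have hAZ : A ^ 2 ∈ Zc := by have := hexp A; rwa [hp2] at this
            rcases le_or_gt j 1 with hj1 | hj1
            · exact orderOf_dvd_iff_pow_eq_one.1 (hj ▸ (pow_dvd_pow 2 hj1).trans (by norm_num))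
            · exfalso
              refine h4 ((A ^ 2) ^ 2 ^ (j - 2)) (pow_mem hAZ _) ?_
              rw [orderOf_pow_of_dvd (pow_pos two_pos _).ne' (hj ▸ pow_dvd_pow 2 (Nat.sub_le j 2)), hj,
                Nat.pow_div (Nat.sub_le j 2) two_pos, show j - (j - 2) = 2 by omega]
              rfl
          obtain ⟨i, hi⟩ : A ^ 2 ∈ Submonoid.powers c := mem_powers_iff_mem_zpowers.2 (hΩ _ (by
            have := hexp A; rwa [hp2] at this) hA4)
          have hAnZ : A ∉ Zc := fun h => hAB (mem_center_iff.1 h B).symm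
          rcases Nat.even_or_odd i with ⟨i', hi'⟩ | ⟨i', hi'⟩
          swap
          · refine ⟨A, hAnZ, Or.inr ⟨hp2, ?_⟩⟩
            rw [← hi]; show c ^ i = c; rw [hi', pow_add, pow_mul, hc2, one_pow, one_mul, pow_one]
          · have hA2 : A ^ 2 = 1 := by rw [← hi]; show c ^ i = 1; rw [hi', ← two_mul, pow_mul, hc2, one_pow]
            have hAB' : A * B' ≠ B' * A := fun h => hAB (by
              have h3 := (show Commute A B' from h).mul_right ((Commute.refl A).pow_right k)
              rw [hB', inv_mul_cancel_right] at h3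
              exact h3.eq)
            obtain ⟨m, hm⟩ := hcomm B' A
            have hm1 : c ^ m = c := by
              rcases Nat.even_or_odd m with ⟨m', hm'⟩ | ⟨m', hm'⟩
              · exfalso
                refine hAB' (commutatorElement_eq_one_iff_mul_comm.1 ?_).symm
                rw [hm, hm', ← two_mul, pow_mul, hc2, one_pow]
              · rw [hm', pow_add, pow_mul, hc2, one_pow, one_mul, pow_one]
            refine ⟨A * B', fun h => ?_, Or.inr ⟨hp2, ?_⟩⟩
            · refine hAB' ?_
              have h3 := (show Commute A (A * B') from mem_center_iff.1 h A)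
              have h4 := ((Commute.refl A).inv_right).mul_right h3
              rw [inv_mul_cancel_left] at h4
              exact h4.eq
            · rw [commutator_central_mul (e := ⁅B', A⁆) (hab _ _) (by rw [commutatorElement_def]; group) 2,
                Nat.choose_self, pow_one, hA2, hB2, mul_one, mul_one, hm, hm1]
  obtain ⟨φ, hφ⟩ := exists_auto hu hcZ hco (fun a => by simpa [commutatorElement_def] using hcomm a u) huc
  have hmoved : ∀ g : G, g * u ≠ u * g → 2 * p ≤ Nat.card (MulAction.orbit (MulAut G) g) := by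
    intro g hg
    have hgZ : g ∉ Zc := fun h => hg (mem_center_iff.1 h u).symm
    have hcl : ∀ a h : G, IsConj a h → a⁻¹ * h ∈ Zc := by
      rintro a h hh
      obtain ⟨d, rfl⟩ := isConj_iff.1 hh
      have : a⁻¹ * (d * a * d⁻¹) = ⁅a⁻¹, d⁆ := by rw [commutatorElement_def]; group
      rw [this]; exact hab _ _
    have hφg : g⁻¹ * φ g ∉ Zc := hφ g hg
    have hφZ : φ g ∉ Zc := fun h => hgZ (by
      have := Subgroup.characteristic_iff_map_eq.1 (inferInstance : (Zc).Characteristic) φ.symm
      rw [← this]; exact ⟨φ g, h, φ.symm_apply_apply g⟩)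
    have hdisj : Disjoint {h : G | IsConj g h} {h : G | IsConj (φ g) h} := Set.disjoint_left.2 fun h h1 h2 => hφg (by
      have := mul_mem (hcl g h h1) (inv_mem (hcl (φ g) h h2))
      simpa [mul_assoc] using this)
    have hsub : {h : G | IsConj g h} ∪ {h : G | IsConj (φ g) h} ⊆ MulAction.orbit (MulAut G) g :=
      Set.union_subset (class_subset g) fun h hh => by
        have := class_subset (φ g) hh
        rw [show φ g = φ • g from rfl, MulAction.orbit_smul] at this
        exact this
    calc 2 * p ≤ (centralizer ({g} : Set G)).index + (centralizer ({φ g} : Set G)).index := by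
          have := hidx g hgZ; have := hidx (φ g) hφZ; omega
      _ = Nat.card ↥({h : G | IsConj g h} ∪ {h : G | IsConj (φ g) h}) := by
          rw [← card_class, ← card_class, Nat.card_coe_set_eq, Nat.card_coe_set_eq, Nat.card_coe_set_eq, Set.ncard_union_eq hdisj]
      _ ≤ _ := Nat.card_mono (Set.toFinite _) hsub
  set Cu := centralizer ({u} : Set G) with hCu
  refine finish (2 * p) (by have := hp.out.pos; omega) (fun g => if g ∈ Zc then 2 * p else if g ∈ Cu then 2 else 1) (fun g => ?_) ?_
  · show 2 * p ≤ _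
    split_ifs with h1 h2
    · exact Nat.le_mul_of_pos_right _ (horbit1 g)
    · exact Nat.mul_le_mul_left _ ((hidx g h1).trans (orbit_ge_index g))
    · rw [one_mul]; exact hmoved g fun e => h2 (mem_centralizer_singleton_iff.2 e)
  · have hZC : Zc ≤ Cu := center_le_centralizer _
    have hsplit : ∀ g : G, (if g ∈ Zc then 2 * p else if g ∈ Cu then 2 else 1) + (if g ∈ Zc then 2 else 0) =
        (if g ∈ Zc then 2 * p else 0) + (if g ∈ Cu then 2 else 1) := by
      intro g
      by_cases h1 : g ∈ Zc
      · simp [h1, hZC h1]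
      · simp [h1]
    have hs := Finset.sum_congr rfl (fun g (_ : g ∈ (Finset.univ : Finset G)) => hsplit g)
    rw [Finset.sum_add_distrib, Finset.sum_add_distrib, hcount Zc, hcount Zc, hcount Cu] at hs
    simp only [mul_zero, add_zero] at hs
    obtain ⟨d, hd⟩ := Nat.exists_eq_add_of_le (Nat.le_of_dvd Nat.card_pos Cu.card_subgroup_dvd_card)
    rw [hd, Nat.add_sub_cancel_left] at hs
    have h1 : Nat.card Cu * p ≤ Nat.card G := by
      rw [← Cu.card_mul_index]; exact Nat.mul_le_mul_left _ (hidx u hu)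
    have h2 : Nat.card Zc * (2 * p) ≤ Nat.card G := by
      rw [← hGn]; exact Nat.mul_le_mul_left _ ((Nat.mul_le_mul_right p hp.out.two_le).trans hn2)
    have h3 := hp.out.two_le
    nlinarith [hs, h1, h2, hd]

end Cfsg.Lib.Solv.AutOrbits
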