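import Cfsg.Agent.Lib.Solv.Coprime2
import Cfsg.Agent.Lib.Solv.Cores
import Cfsg.Agent.Lib.Solv.MinNormal

/-!
# `O_{q'}` of centralizers in `H` where `[H, P]` is solvable
-/

set_option autoImplicit false

namespace Cfsg.Lib.Solv.CentCores

open Subgroup
open scoped Pointwise commutatorElement

universe u

variable {G : Type u} [Group G]

theorem normalizer_le_normalizer_char (K : Subgroup G) (N : Subgroup ↥K) [N.Characteristic] :
    normalizer (K : Set G) ≤ normalizer ((N.map K.subtype : Subgroup G) : Set G) := by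
  have key : ∀ g ∈ normalizer (K : Set G), ∀ x ∈ N.map K.subtype, g * x * g⁻¹ ∈ N.map K.subtype := by
    rintro g hg _ ⟨x, hx, rfl⟩
    let e : MulAut ↥K := K.normalizerMonoidHom ⟨g, hg⟩
    have h1 : e x ∈ N := by
      have h2 := Subgroup.characteristic_iff_map_eq.1 (inferInstance : N.Characteristic) e
      rw [← h2]
      exact mem_map_of_mem _ hx
    exact ⟨e x, h1, rfl⟩
  intro g hg
  rw [mem_normalizer_iff]
  intro w
  refine ⟨key g hg w, fun h => ?_⟩
  have := key g⁻¹ (inv_mem hg) _ h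
  simpa [mul_assoc] using this

theorem disjoint_of_coprime {A B : Subgroup G} (h : (Nat.card A).Coprime (Nat.card B)) {x : G} (hA : x ∈ A) (hB : x ∈ B) :
    x = 1 := by
  have h1 : x ∈ A ⊓ B := ⟨hA, hB⟩
  rwa [inf_eq_bot_of_coprime h, mem_bot] at h1

theorem core [Finite G] {p q : ℕ} [hp : Fact p.Prime] [hq : Fact q.Prime] (H D P : Subgroup G) [H.Normal] [D.Normal]
    (hDH : D ≤ H) (hPp : IsPGroup p P) (hH : ¬ p ∣ Nat.card H) (hD : Group.IsSolvable ↥D)
    (hcomm : ⁅H, P⁆ ≤ D) (hO : ∀ N : Subgroup G, N.Normal → N ≤ H → (Nat.card N).Coprime q → N = ⊥)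
    {z : G} (hz : ∃ k, orderOf z = q ^ k)
    (X W : Subgroup G) (hXH : X ≤ H) (hXz : X ≤ centralizer ({z} : Set G)) (hXq : (Nat.card X).Coprime q)
    (hXn : H ⊓ centralizer ({z} : Set G) ≤ normalizer (X : Set G)) (hXP : P ≤ normalizer (X : Set G))
    (hWle : W ≤ H ⊓ centralizer (P : Set G)) (hWq : (Nat.card W).Coprime q)
    (hWn : H ⊓ centralizer (P : Set G) ≤ normalizer (W : Set G)) :
    X ⊓ W = ⊥ ∧ ⁅X, P⁆ = ⊥ := by
  haveI := hD
  set F := (Cfsg.pCore q ↥D).map D.subtype with hF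
  haveI hFn : F.Normal := by
    rw [hF]
    infer_instance
  have hFD : F ≤ D := map_subtype_le _
  have hFq : IsPGroup q F := (Cfsg.Lib.Solv.isPGroup_pCore q).map _
  have hDO : Cfsg.pPrimeCore q ↥D = ⊥ := by
    have h1 := hO ((Cfsg.pPrimeCore q ↥D).map D.subtype) inferInstance ((map_subtype_le _).trans hDH)
      (by rw [card_map_of_injective D.subtype_injective]; exact Cfsg.Lib.Solv.coprime_pPrimeCore q)
    exact (map_eq_bot_iff_of_injective _ D.subtype_injective).1 h1
  have hCF : ∀ d ∈ D, d ∈ centralizer (F : Set G) → d ∈ F := by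
    intro d hd hdc
    refine ⟨⟨d, hd⟩, Cfsg.Lib.Solv.centralizer_pCore_le q hDO (mem_centralizer_iff.2 fun w hw => ?_), rfl⟩
    exact Subtype.ext (mem_centralizer_iff.1 hdc w ⟨w, hw, rfl⟩)
  have hnormF : ∀ U : Subgroup G, U ≤ normalizer (F : Set G) := fun U => by
    rw [normalizer_eq_top_iff.2 hFn]; exact le_top
  have hXF : (Nat.card X).Coprime (Nat.card F) := by
    obtain ⟨k, hk⟩ := IsPGroup.iff_card.1 hFq
    rw [hk]; exact hXq.pow_right k
  have hXC : X ≤ centralizer (F : Set G) := by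
    obtain ⟨k, hk⟩ := hz
    refine Cfsg.Lib.Solv.thompson_PxQ (zpowers z) X F (IsPGroup.of_card (n := k) (by rw [Nat.card_zpowers, hk]))
      hXq hFq ?_ (hnormF _) (hnormF _) ?_
    · exact zpowers_le.2 (mem_centralizer_iff.2 fun x hx => (mem_centralizer_singleton_iff.1 (hXz hx)))
    · intro f hf
      have hfz : f ∈ centralizer ({z} : Set G) := mem_centralizer_singleton_iff.2 (mem_centralizer_iff.1 hf.2 z (mem_zpowers z)).symm
      rw [mem_centralizer_iff]
      intro x hx
      have h1 : f * x * f⁻¹ * x⁻¹ ∈ X := mul_mem ((mem_normalizer_iff.1 (hXn ⟨hDH (hFD hf.1), hfz⟩) x).1 hx) (inv_mem hx)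
      have h2 : f * x * f⁻¹ * x⁻¹ ∈ F := by
        have : x * f⁻¹ * x⁻¹ ∈ F := hFn.conj_mem _ (inv_mem hf.1) x
        simpa [mul_assoc] using mul_mem hf.1 this
      have h3 := disjoint_of_coprime hXF h1 h2
      rw [mul_inv_eq_one, mul_inv_eq_iff_eq_mul] at h3
      exact h3.symm
  have hXP0 : ⁅X, P⁆ = ⊥ := by
    rw [eq_bot_iff]
    refine commutator_le.2 fun x hx u hu => ?_
    have h1 : ⁅x, u⁆ ∈ X := by
      rw [commutatorElement_def]
      have : u * x⁻¹ * u⁻¹ ∈ X := (mem_normalizer_iff.1 (hXP hu) x⁻¹).1 (inv_mem hx)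
      simpa [mul_assoc] using mul_mem hx this
    have h2 : ⁅x, u⁆ ∈ D := hcomm (commutator_mem_commutator (hXH hx) hu)
    exact mem_bot.2 (disjoint_of_coprime hXF h1 (hCF _ h2 (hXC h1)))
  refine ⟨?_, hXP0⟩
  -- `C_H(F)` and its normal `q'`-subgroups
  set C := H ⊓ centralizer (F : Set G) with hC
  haveI hCn : C.Normal := by rw [hC]; infer_instance
  set N := W ⊓ C with hN
  have hNC : N ≤ C := inf_le_right
  have hCN : C ≤ normalizer (N : Set G) := by
    intro c hc
    obtain ⟨c', hc', hd⟩ := Cfsg.Lib.Solv.exists_fixed_in_coset (q := p) hPp (inf_le_left : C ⊓ D ≤ C)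
      (by rw [normalizer_eq_top_iff.2 inferInstance]; exact le_top)
      (by rw [normalizer_eq_top_iff.2 inferInstance]; exact le_top)
      (fun h => hH (h.trans (card_dvd_of_le (inf_le_left.trans inf_le_left)))) hc
      (fun b hb => ⟨C.mul_mem (hCn.conj_mem c hc b) (C.inv_mem hc), by
        have h1 := hcomm (commutator_mem_commutator (H.inv_mem hc.1) hb)
        have h2 := (inferInstance : D.Normal).conj_mem _ h1 c
        rw [commutatorElement_def] at h2
        simpa [mul_assoc] using h2⟩)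
    have e : c = c' * (c⁻¹ * c')⁻¹ := by group
    rw [e]
    refine mul_mem ?_ (inv_mem ?_)
    · have h1 : c' ∈ normalizer (W : Set G) := hWn ⟨hc'.1.1, hc'.2⟩
      rw [mem_normalizer_iff]
      intro w
      exact ⟨fun hw => ⟨(mem_normalizer_iff.1 h1 w).1 hw.1, hCn.conj_mem w hw.2 c'⟩, fun hw =>
        ⟨(mem_normalizer_iff.1 h1 w).2 hw.1, by
          have := hCn.conj_mem _ hw.2 c'⁻¹
          simpa [mul_assoc] using this⟩⟩
    · refine centralizer_le_normalizer _ (mem_centralizer_iff.2 fun w hw => ?_)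
      have h1 : c⁻¹ * c' ∈ F := hCF _ hd.2 hd.1.2
      exact (mem_centralizer_iff.1 hw.2.2 _ h1).symm
  have hNle : N ≤ (Cfsg.pPrimeCore q ↥C).map C.subtype := by
    intro w hw
    refine ⟨⟨w, hw.2⟩, ?_, rfl⟩
    haveI : (N.subgroupOf C).Normal := normal_subgroupOf_of_le_normalizer hCN
    refine Cfsg.Lib.Solv.le_pPrimeCore (N := N.subgroupOf C) inferInstance ?_ hw
    rw [Nat.card_congr (subgroupOfEquivOfLe hNC).toEquiv]
    exact hWq.coprime_dvd_left (card_dvd_of_le inf_le_left)
  have hN0 := hO ((Cfsg.pPrimeCore q ↥C).map C.subtype) inferInstance ((map_subtype_le _).trans inf_le_left)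
    (by rw [card_map_of_injective C.subtype_injective]; exact Cfsg.Lib.Solv.coprime_pPrimeCore q)
  rw [eq_bot_iff]
  intro w hw
  have := hNle ⟨hw.2, (hWle hw.2).1, hXC hw.1⟩
  rwa [hN0] at this

theorem main [Finite G] {p q : ℕ} [hp : Fact p.Prime] [hq : Fact q.Prime] (P : Sylow p G)
    (hPH : Cfsg.pPrimeCore p G ⊔ (P : Subgroup G) = ⊤)
    (hsol : Group.IsSolvable ↥⁅Cfsg.pPrimeCore p G, (P : Subgroup G)⁆)
    (z : G) (hzH : z ∈ Cfsg.pPrimeCore p G) (hzP : z ∈ centralizer ((P : Subgroup G) : Set G))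
    (hz : ∃ k : ℕ, orderOf z = q ^ k) :
    ((Cfsg.pPrimeCore q ↥(Cfsg.pPrimeCore p G ⊓ centralizer ({z} : Set G))).map
        (Cfsg.pPrimeCore p G ⊓ centralizer ({z} : Set G)).subtype ⊓
      (Cfsg.pPrimeCore q ↥(Cfsg.pPrimeCore p G ⊓ centralizer ((P : Subgroup G) : Set G))).map
        (Cfsg.pPrimeCore p G ⊓ centralizer ((P : Subgroup G) : Set G)).subtype) ⊔
    ⁅(Cfsg.pPrimeCore q ↥(Cfsg.pPrimeCore p G ⊓ centralizer ({z} : Set G))).map
        (Cfsg.pPrimeCore p G ⊓ centralizer ({z} : Set G)).subtype, (P : Subgroup G)⁆ ≤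
    (Cfsg.pPrimeCore q ↥(Cfsg.pPrimeCore p G)).map (Cfsg.pPrimeCore p G).subtype := by
  set H := Cfsg.pPrimeCore p G with hH
  set R := (Cfsg.pPrimeCore q ↥H).map H.subtype with hR
  set X := (Cfsg.pPrimeCore q ↥(H ⊓ centralizer ({z} : Set G))).map (H ⊓ centralizer ({z} : Set G)).subtype with hX
  set W := (Cfsg.pPrimeCore q ↥(H ⊓ centralizer ((P : Subgroup G) : Set G))).map
    (H ⊓ centralizer ((P : Subgroup G) : Set G)).subtype with hW
  haveI hHn : H.Normal := by rw [hH]; infer_instance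
  haveI hRn : R.Normal := by rw [hR]; infer_instance
  have hHp : ¬ p ∣ Nat.card H := Cfsg.Lib.Solv.not_dvd_card_pPrimeCore p
  set D := ⁅H, (P : Subgroup G)⁆ with hD
  have hDH : D ≤ H := commutator_le.2 fun a ha b _ => by
    rw [commutatorElement_def]
    simpa [mul_assoc] using mul_mem ha (hHn.conj_mem _ (inv_mem ha) b)
  haveI hDn : D.Normal := by
    have h1 : H ≤ normalizer (D : Set G) := Cfsg.Lib.Solv.le_normalizer_commutator_left H (P : Subgroup G)
    have h2 : (P : Subgroup G) ≤ normalizer (D : Set G) := Cfsg.Lib.Solv.le_normalizer_commutator_right H (P : Subgroup G)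
    rw [← normalizer_eq_top_iff, ← top_le_iff, ← hPH]
    exact sup_le h1 h2
  set π := QuotientGroup.mk' R with hπ
  have hπs : Function.Surjective π := QuotientGroup.mk'_surjective R
  have hRH : R ≤ H := map_subtype_le _
  have hRq : ¬ q ∣ Nat.card R := by
    rw [hR, card_map_of_injective H.subtype_injective]
    exact Cfsg.Lib.Solv.not_dvd_card_pPrimeCore q
  haveI : (H.map π).Normal := hHn.map π hπs
  haveI : (D.map π).Normal := hDn.map π hπs
  have hXn : H ⊓ centralizer ({z} : Set G) ≤ normalizer (X : Set G) := le_normalizer.trans (normalizer_le_normalizer_char _ _)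
  have hWn : H ⊓ centralizer ((P : Subgroup G) : Set G) ≤ normalizer (W : Set G) := le_normalizer.trans (normalizer_le_normalizer_char _ _)
  have hXP : (P : Subgroup G) ≤ normalizer (X : Set G) := by
    refine le_trans (fun u hu => ?_) (normalizer_le_normalizer_char _ _)
    have hc : u * z = z * u := mem_centralizer_iff.1 hzP u hu
    have key : ∀ v : G, v * z = z * v → ∀ x ∈ H ⊓ centralizer ({z} : Set G), v * x * v⁻¹ ∈ H ⊓ centralizer ({z} : Set G) := by
      rintro v hv x ⟨hx, hxz⟩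
      refine ⟨hHn.conj_mem x hx v, mem_centralizer_singleton_iff.2 ?_⟩
      exact (((show Commute v z from hv).mul_left (mem_centralizer_singleton_iff.1 hxz)).mul_left (show Commute v z from hv).inv_left).eq
    rw [mem_normalizer_iff]
    intro x
    refine ⟨key u hc x, fun h => ?_⟩
    have := key u⁻¹ (show Commute u z from hc).inv_left.eq _ h
    simpa [mul_assoc] using this
  have hlift : ∀ (A : Subgroup G) (r : ℕ) [Fact r.Prime], IsPGroup r A → ¬ r ∣ Nat.card R →
      ∀ h ∈ H, (∀ b ∈ A, π b * π h = π h * π b) → ∃ c ∈ H ⊓ centralizer (A : Set G), π c = π h := by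
    intro A r _ hA hr h hh hfix
    obtain ⟨c, hc, hcR⟩ := Cfsg.Lib.Solv.exists_fixed_in_coset (q := r) hA hRH
      (by rw [normalizer_eq_top_iff.2 hRn]; exact le_top) (by rw [normalizer_eq_top_iff.2 hRn]; exact le_top) hr hh
      (fun b hb => by
        rw [← QuotientGroup.eq_one_iff]
        show π (b * h * b⁻¹ * h⁻¹) = 1
        rw [map_mul, map_mul, map_mul, map_inv, map_inv, hfix b hb, mul_inv_cancel_right, mul_inv_cancel])
    exact ⟨c, hc, (QuotientGroup.eq.2 hcR).symm⟩
  have hmapn : ∀ (U : Subgroup G) (c : G), c ∈ normalizer (U : Set G) → π c ∈ normalizer ((U.map π : Subgroup (G ⧸ R)) : Set (G ⧸ R)) :=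
    fun U c hc => (le_normalizer_map π) (mem_map_of_mem π hc)
  obtain ⟨k, hk⟩ := hz
  have hzq : IsPGroup q (zpowers z) := IsPGroup.of_card (n := k) (by rw [Nat.card_zpowers, hk])
  obtain ⟨hXW, hXP0⟩ := core (p := p) (q := q) (H.map π) (D.map π) ((P : Subgroup G).map π)
    (map_mono hDH) (P.isPGroup'.map π)
    (fun hd => hHp (hd.trans (card_map_dvd H π)))
    (Group.isSolvable_of_surjective (π.subgroupMap_surjective D))
    (by rw [← map_commutator])
    (fun N hN hNH hNq => by
      have h1 : (N.comap π ⊓ H).Normal := inferInstance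
      have hle : R ≤ N.comap π ⊓ H := le_inf (fun r hr => mem_comap.2 (by
        rw [show π r = 1 from (QuotientGroup.eq_one_iff r).2 hr]; exact one_mem _)) hRH
      have hmap : (N.comap π ⊓ H).map π = N := by
        refine le_antisymm ((map_mono inf_le_left).trans (map_comap_le π N)) fun w hw => ?_
        obtain ⟨a, ha, rfl⟩ := hNH hw
        exact mem_map_of_mem π ⟨hw, ha⟩
      have hcard : (Nat.card ↥(N.comap π ⊓ H)).Coprime q := by
        have h2 := Subgroup.card_mul_index (R.subgroupOf (N.comap π ⊓ H))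
        rw [Nat.card_congr (subgroupOfEquivOfLe hle).toEquiv] at h2
        have h3 : (R.subgroupOf (N.comap π ⊓ H)).index = Nat.card N := by
          have h4 := Subgroup.card_mul_index ((π.domRestrict (N.comap π ⊓ H)).ker)
          rw [Subgroup.index_ker, MonoidHom.domRestrict_range, hmap] at h4
          have h5 : (π.domRestrict (N.comap π ⊓ H)).ker = R.subgroupOf (N.comap π ⊓ H) := by
            rw [MonoidHom.ker_domRestrict, hπ, QuotientGroup.ker_mk']
          rw [h5, ← h2, Nat.card_congr (subgroupOfEquivOfLe hle).toEquiv] at h4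
          exact (Nat.eq_of_mul_eq_mul_left Nat.card_pos h4).symm
        rw [← h2, h3]
        exact Nat.Coprime.mul_left (hq.out.coprime_iff_not_dvd.2 hRq).symm hNq
      have h6 : N.comap π ⊓ H ≤ R := by
        intro w hw
        refine ⟨⟨w, hw.2⟩, ?_, rfl⟩
        refine Cfsg.Lib.Solv.le_pPrimeCore (N := (N.comap π ⊓ H).subgroupOf H) inferInstance ?_ hw
        rw [Nat.card_congr (subgroupOfEquivOfLe inf_le_right).toEquiv]
        exact hcard
      rw [← hmap, eq_bot_iff]
      rintro _ ⟨w, hw, rfl⟩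
      exact mem_bot.2 ((QuotientGroup.eq_one_iff w).2 (h6 hw)))
    (z := π z) (by
      obtain ⟨j, -, hj⟩ := (Nat.dvd_prime_pow hq.out).1 (hk ▸ orderOf_map_dvd π z)
      exact ⟨j, hj⟩)
    (X.map π) (W.map π) (map_mono ((map_subtype_le _).trans inf_le_left))
    (by
      rintro _ ⟨x, hx, rfl⟩
      rw [mem_centralizer_singleton_iff, ← map_mul, ← map_mul, mem_centralizer_singleton_iff.1 (map_subtype_le _ hx).2])
    (Nat.Coprime.coprime_dvd_left (card_map_dvd X π) (by
      rw [hX, card_map_of_injective (Subgroup.subtype_injective _)]; exact Cfsg.Lib.Solv.coprime_pPrimeCore q))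
    (by
      rintro _ ⟨⟨h, hh, rfl⟩, hc⟩
      have hcz : Commute (π z) (π h) := (mem_centralizer_singleton_iff.1 hc).symm
      obtain ⟨c, hc', e⟩ := hlift (zpowers z) q hzq hRq h hh (fun b hb => by
        obtain ⟨i, rfl⟩ := hb
        rw [map_zpow]
        exact (hcz.zpow_left i).eq)
      rw [← e]
      exact hmapn X c (hXn ⟨hc'.1, mem_centralizer_singleton_iff.2 (mem_centralizer_iff.1 hc'.2 z (mem_zpowers z)).symm⟩))
    (by rintro _ ⟨u, hu, rfl⟩; exact hmapn X u (hXP hu))
    (by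
      rintro _ ⟨w, hw, rfl⟩
      obtain ⟨hwH, hwP⟩ := map_subtype_le _ hw
      refine ⟨mem_map_of_mem π hwH, mem_centralizer_iff.2 ?_⟩
      rintro _ ⟨u, hu, rfl⟩
      rw [← map_mul, ← map_mul, mem_centralizer_iff.1 hwP u hu])
    (Nat.Coprime.coprime_dvd_left (card_map_dvd W π) (by
      rw [hW, card_map_of_injective (Subgroup.subtype_injective _)]; exact Cfsg.Lib.Solv.coprime_pPrimeCore q))
    (by
      rintro _ ⟨⟨h, hh, rfl⟩, hc⟩
      obtain ⟨c, hc', e⟩ := hlift (P : Subgroup G) p P.isPGroup' (fun hd => hHp (hd.trans (card_dvd_of_le hRH))) h hh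
        (fun b hb => mem_centralizer_iff.1 hc (π b) (mem_map_of_mem π hb))
      rw [← e]
      exact hmapn W c (hWn hc'))
  refine sup_le (fun w hw => ?_) ?_
  · rw [← QuotientGroup.eq_one_iff, ← mem_bot, ← hXW]
    exact ⟨mem_map_of_mem π hw.1, mem_map_of_mem π hw.2⟩
  · intro w hw
    rw [← QuotientGroup.eq_one_iff, ← mem_bot, ← hXP0, ← map_commutator]
    exact mem_map_of_mem π hw

end Cfsg.Lib.Solv.CentCores
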