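import Mathlib
import Cfsg.Agent.Lib.Solv.Carter
import Cfsg.Agent.Lib.Solv.Coprime
import Cfsg.Agent.Lib.PLocal.Thompson
import Cfsg.Agent.Lib.Transfer.Frobenius

/-! A maximal subgroup that is nilpotent of class at most two forces solvability. -/

set_option autoImplicit false
open Subgroup
open scoped Pointwise

namespace Cfsg.Lib.Solv.ClassTwoMaximal

universe u

/-- Class two: no odd fusion in the Sylow 2-subgroup. -/
theorem twoComplement {G : Type u} [Group G] [Finite G] [Fact (Nat.Prime 2)] (M : Subgroup G)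
    (hnc : ∀ B : Subgroup G, M ≤ B → B = M ∨ B = ⊤)
    (hnn : ∀ X : Subgroup G, X ≤ M → X ≠ ⊥ → normalizer (X : Set G) ≠ ⊤)
    (hcl : ∀ a ∈ M, ∀ b ∈ M, ∀ c ∈ M, a * b * a⁻¹ * b⁻¹ * c = c * (a * b * a⁻¹ * b⁻¹))
    (P : Sylow 2 G) (hPM : (P : Subgroup G) ≤ M) (hNP : normalizer ((P : Subgroup G) : Set G) = M)
    (hcomm : ∀ z ∈ (P : Subgroup G), ∀ w ∈ M, (orderOf w).Coprime 2 → z * w = w * z) :
    Cfsg.HasNormalPComplement 2 G := by
  classical
  rw [Cfsg.Lib.Transfer.frobenius_iff P]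
  intro Q0 hQ0P g hgN hgo
  by_contra hgc
  set C := centralizer (Q0 : Set G) with hC
  set N := normalizer (Q0 : Set G) with hN
  obtain ⟨S0⟩ : Nonempty (Sylow 2 C) := inferInstance
  set S := (S0 : Subgroup C).map C.subtype with hS
  have hSC : S ≤ C := map_subtype_le _
  have hgC : ∀ u ∈ C, g * u * g⁻¹ ∈ C := by
    intro u hu
    rw [hC, mem_centralizer_iff]
    intro q hq
    have h2 : g⁻¹ * q * g ∈ Q0 := by
      simpa using (mem_normalizer_iff.1 (inv_mem hgN) q).1 hq
    have := (mem_centralizer_iff.1 hu) _ h2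
    calc q * (g * u * g⁻¹) = g * ((g⁻¹ * q * g) * u) * g⁻¹ := by group
      _ = _ := by rw [this]; group
  have hSgle : S.map (MulAut.conj g).toMonoidHom ≤ C := by
    rintro _ ⟨u, hu, rfl⟩; exact hgC u (hSC hu)
  obtain ⟨S1, hS1⟩ : ∃ S1 : Sylow 2 C, (S1 : Subgroup C) = (S.map (MulAut.conj g).toMonoidHom).subgroupOf C := by
    refine ⟨Sylow.ofCard ((S.map (MulAut.conj g).toMonoidHom).subgroupOf C) ?_, rfl⟩
    rw [Nat.card_congr (subgroupOfEquivOfLe hSgle).toEquiv, ← S0.card_eq_multiplicity,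
      card_map_of_injective (MulAut.conj g).injective, hS, card_map_of_injective C.subtype_injective]
  obtain ⟨c, hc⟩ := MulAction.exists_smul_eq C S1 S0
  set x0 : G := (c : G) * g with hx0
  have hx0N : x0 ∈ N := mul_mem (centralizer_le_normalizer _ c.2) hgN
  have hx0S : ∀ u ∈ S, x0 * u * x0⁻¹ ∈ S := by
    intro u hu
    have h1 : (⟨g * u * g⁻¹, hgC u (hSC hu)⟩ : C) ∈ (S1 : Subgroup C) := by
      rw [hS1]; exact ⟨u, hu, rfl⟩
    have h2 : c * ⟨g * u * g⁻¹, hgC u (hSC hu)⟩ * c⁻¹ ∈ (S0 : Subgroup C) := by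
      rw [← hc, Sylow.coe_subgroup_smul, mem_pointwise_smul_iff_inv_smul_mem]
      simpa [mul_assoc] using h1
    exact ⟨_, h2, by simp [hx0, mul_assoc]⟩
  have hx0Sn : x0 ∈ normalizer (S : Set G) := by
    rw [← Cfsg.Lib.Solv.conj_smul_eq_self_iff]
    exact eq_of_le_of_card_ge (by rintro _ ⟨w, hw, rfl⟩; exact hx0S w hw)
      (card_map_of_injective (MulAut.conj x0).injective).ge
  have hact : ∀ n : ℕ, ∀ q ∈ Q0, x0 ^ n * q * (x0 ^ n)⁻¹ = g ^ n * q * (g ^ n)⁻¹ := by
    intro n
    induction n with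
    | zero => simp
    | succ n ih =>
      intro q hq
      have hq' : g ^ n * q * (g ^ n)⁻¹ ∈ Q0 := (mem_normalizer_iff.1 (pow_mem hgN n) q).1 hq
      have hcc := mem_centralizer_iff.1 c.2 _ ((mem_normalizer_iff.1 hgN _).1 hq')
      calc x0 ^ (n + 1) * q * (x0 ^ (n + 1))⁻¹ = x0 * (x0 ^ n * q * (x0 ^ n)⁻¹) * x0⁻¹ := by rw [pow_succ']; group
        _ = (c : G) * (g * (g ^ n * q * (g ^ n)⁻¹) * g⁻¹) * (c : G)⁻¹ := by rw [ih q hq, hx0]; group
        _ = g * (g ^ n * q * (g ^ n)⁻¹) * g⁻¹ := by rw [← hcc, mul_inv_cancel_right]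
        _ = g ^ (n + 1) * q * (g ^ (n + 1))⁻¹ := by rw [pow_succ']; group
  set e := (orderOf x0).factorization 2
  set x := x0 ^ 2 ^ e with hx
  have hxodd : (orderOf x).Coprime 2 := by
    rw [hx, orderOf_pow_of_dvd (pow_pos two_pos e).ne' (Nat.ordProj_dvd _ _)]
    exact (Nat.coprime_ordCompl Nat.prime_two (orderOf_pos x0).ne').symm
  obtain ⟨q0, hq0, hq0m⟩ : ∃ q ∈ Q0, x * q ≠ q * x := by
    by_contra hcon
    push Not at hcon
    apply hgc
    have h1 : g ^ 2 ^ e ∈ C := by
      rw [hC, mem_centralizer_iff]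
      intro q hq
      have h2 := hact (2 ^ e) q hq
      rw [show x0 ^ 2 ^ e * q = q * x0 ^ 2 ^ e from hcon q hq, mul_inv_cancel_right] at h2
      exact eq_mul_inv_iff_mul_eq.1 h2
    obtain ⟨m, hm⟩ := exists_pow_eq_self_of_coprime (x := g) (n := 2 ^ e) (hgo.symm.pow_left e)
    exact hm ▸ pow_mem h1 m
  set Q := Q0 ⊔ S with hQ
  have hSp : IsPGroup 2 S := S0.isPGroup'.map _
  have hQp : IsPGroup 2 Q := (P.isPGroup'.to_le hQ0P).to_sup_of_normal_right' hSp (fun q hq =>
    centralizer_le_normalizer (S : Set G) (mem_centralizer_iff.2 fun s hs =>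
      ((mem_centralizer_iff.1 (hSC hs)) q hq).symm))
  obtain ⟨P', hP'⟩ := hQp.exists_le_sylow
  have hxQ : MulAut.conj x • Q = Q := by
    rw [hQ, smul_sup, Cfsg.Lib.Solv.conj_smul_eq_self_iff.2 (pow_mem hx0N _),
      Cfsg.Lib.Solv.conj_smul_eq_self_iff.2 (pow_mem hx0Sn _)]
  have hZ : ∀ u ∈ (P' : Subgroup G), (∀ v ∈ (P' : Subgroup G), v * u = u * v) → u ∈ Q := by
    intro u hu huc
    have huC : u ∈ C := mem_centralizer_iff.2 fun q hq => huc q (hP' (mem_sup_left hq))
    have hle : S ⊔ zpowers u ≤ C := sup_le hSC (zpowers_le.2 huC)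
    have hp2 : IsPGroup 2 ↥((S ⊔ zpowers u).subgroupOf C) :=
      (P'.isPGroup'.to_le (sup_le (le_sup_right.trans hP') (zpowers_le.2 hu))).of_equiv
        (subgroupOfEquivOfLe hle).symm
    have heq := S0.3 hp2 (fun s hs => mem_sup_left (mem_map_of_mem C.subtype hs))
    refine mem_sup_right ⟨⟨u, huC⟩, ?_, rfl⟩
    show (⟨u, huC⟩ : C) ∈ (S0 : Subgroup C)
    rw [← heq]
    exact mem_sup_right (mem_zpowers u)
  obtain ⟨h, hh⟩ := MulAction.exists_smul_eq G P' P
  have hmemP : ∀ u ∈ (P' : Subgroup G), h * u * h⁻¹ ∈ (P : Subgroup G) := by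
    intro u hu
    rw [← hh, Sylow.coe_subgroup_smul, mem_pointwise_smul_iff_inv_smul_mem]
    simpa [mul_assoc] using hu
  -- `Q` contains the commutators of `P'`
  have hQn : ∀ a ∈ (P' : Subgroup G), ∀ q ∈ Q, a * q * a⁻¹ ∈ Q := by
    intro a ha q hq
    have hcm : a * q * a⁻¹ * q⁻¹ ∈ Q := by
      refine hZ _ (mul_mem (mul_mem (mul_mem ha (hP' hq)) (inv_mem ha)) (inv_mem (hP' hq))) fun v hv => ?_
      have h1 := hcl _ (hPM (hmemP a ha)) _ (hPM (hmemP q (hP' hq))) _ (hPM (hmemP v hv))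
      have e1 : h * a * h⁻¹ * (h * q * h⁻¹) * (h * a * h⁻¹)⁻¹ * (h * q * h⁻¹)⁻¹ = h * (a * q * a⁻¹ * q⁻¹) * h⁻¹ := by group
      rw [e1] at h1
      have h2 := congrArg (fun z => h⁻¹ * z * h) h1
      simpa [mul_assoc] using h2.symm
    simpa [mul_assoc] using mul_mem hcm hq
  set Q'' := MulAut.conj h • Q with hQ''
  have hQ''P : Q'' ≤ (P : Subgroup G) := by rintro _ ⟨u, hu, rfl⟩; exact hmemP u (hP' hu)
  have hne : Q'' ≠ ⊥ := by
    intro hb
    have : h * q0 * h⁻¹ ∈ Q'' := ⟨q0, mem_sup_left hq0, rfl⟩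
    rw [hb, mem_bot] at this
    have hq1 : q0 = 1 := by
      have := congrArg (fun z => h⁻¹ * z * h) this
      simpa [mul_assoc] using this
    exact hq0m (by rw [hq1, mul_one, one_mul])
  have hMN : M ≤ normalizer (Q'' : Set G) := by
    intro m hm
    -- the odd part centralizes `P`, the 2-part lies in `P`
    set f := (orderOf m).factorization 2
    have hodd' : (orderOf (m ^ 2 ^ f)).Coprime 2 := by
      rw [orderOf_pow_of_dvd (pow_pos two_pos f).ne' (Nat.ordProj_dvd _ _)]
      exact (Nat.coprime_ordCompl Nat.prime_two (orderOf_pos m).ne').symm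
    have hc1 : m ^ 2 ^ f ∈ normalizer (Q'' : Set G) := centralizer_le_normalizer _
      (mem_centralizer_iff.2 fun z hz => hcomm z (hQ''P hz) _ (pow_mem hm _) hodd')
    set d := orderOf m / 2 ^ f
    have hd : IsPGroup 2 (zpowers (m ^ d)) := by
      refine IsPGroup.of_card (n := f) ?_
      rw [Nat.card_zpowers, orderOf_pow_of_dvd (Nat.div_pos (Nat.le_of_dvd (orderOf_pos m) (Nat.ordProj_dvd _ _)) (pow_pos two_pos f)).ne'
        (Nat.div_dvd_of_dvd (Nat.ordProj_dvd _ _)), Nat.div_div_self (Nat.ordProj_dvd _ _) (orderOf_pos m).ne']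
    have hdP : m ^ d ∈ (P : Subgroup G) := by
      have hp2 := P.isPGroup'.to_sup_of_normal_left' hd (zpowers_le.2 (hNP.symm ▸ pow_mem hm d))
      exact P.3 hp2 le_sup_left ▸ mem_sup_right (mem_zpowers _)
    have hc2 : m ^ d ∈ normalizer (Q'' : Set G) := by
      generalize m ^ d = w at hdP
      rw [← Cfsg.Lib.Solv.conj_smul_eq_self_iff]
      refine eq_of_le_of_card_ge ?_ (card_map_of_injective (MulAut.conj w).injective).ge
      rintro _ ⟨_, ⟨u, hu, rfl⟩, rfl⟩
      have ha : h⁻¹ * w * h ∈ (P' : Subgroup G) := by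
        have hP'e : (P' : Subgroup G) = MulAut.conj h⁻¹ • (P : Subgroup G) := by
          rw [← hh, Sylow.coe_subgroup_smul, map_inv, inv_smul_smul]
        rw [hP'e]
        exact ⟨w, hdP, by simp⟩
      exact ⟨_, hQn _ ha u hu, by simp [mul_assoc]⟩
    have hcop : (2 ^ f).Coprime d := Nat.Coprime.pow_left f (Nat.coprime_ordCompl Nat.prime_two (orderOf_pos m).ne')
    have hb := Int.gcd_eq_gcd_ab (2 ^ f : ℕ) d
    rw [show Int.gcd ((2 ^ f : ℕ) : ℤ) (d : ℤ) = 1 by rw [Int.gcd_natCast_natCast]; exact hcop] at hb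
    have : m = (m ^ 2 ^ f) ^ (Int.gcdA (2 ^ f : ℕ) d) * (m ^ d) ^ (Int.gcdB (2 ^ f : ℕ) d) := by
      rw [← zpow_natCast m (2 ^ f), ← zpow_natCast m d, ← zpow_mul, ← zpow_mul, ← zpow_add, ← hb, Nat.cast_one, zpow_one]
    rw [this]
    exact mul_mem (zpow_mem hc1 _) (zpow_mem hc2 _)
  have heqM : normalizer (Q'' : Set G) = M := (hnc _ hMN).resolve_right (hnn _ (hQ''P.trans hPM) hne)
  have hx'' : h * x * h⁻¹ ∈ M := by
    rw [← heqM, ← Cfsg.Lib.Solv.conj_smul_eq_self_iff, hQ'', ← mul_smul, ← map_mul, inv_mul_cancel_right,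
      map_mul, mul_smul, hxQ]
  have hxo : (orderOf (h * x * h⁻¹)).Coprime 2 := by
    rw [show h * x * h⁻¹ = MulAut.conj h x from rfl, MulEquiv.orderOf_eq]; exact hxodd
  have := hcomm _ (hmemP q0 (hP' (mem_sup_left hq0))) _ hx'' hxo
  apply hq0m
  apply (MulAut.conj h).injective
  rw [map_mul, map_mul]
  exact this.symm

theorem solvable_aux : ∀ (n : ℕ) (G : Type u) [Group G] [Finite G], Nat.card G = n →
    ∀ M : Subgroup G, IsCoatom M → Group.IsNilpotent M →
      (∀ a ∈ M, ∀ b ∈ M, ∀ c ∈ M, a * b * a⁻¹ * b⁻¹ * c = c * (a * b * a⁻¹ * b⁻¹)) → Group.IsSolvable G := by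
  intro n
  induction n using Nat.strong_induction_on with
  | _ n ih =>
  intro G _ _ hn M hmax hnil hcl
  subst hn
  have hnc : ∀ B : Subgroup G, M ≤ B → B = M ∨ B = ⊤ := fun B h => (hmax.le_iff.1 h).symm
  have := hnil
  set N := M.normalCore with hNdef
  by_cases hN : N ≠ ⊥
  · haveI : N.Normal := M.normalCore_normal
    have hNM : N ≤ M := M.normalCore_le
    have hNn : Group.IsNilpotent N := Carter.nilpotent_injective (Subgroup.inclusion hNM)
      (Subgroup.inclusion_injective hNM)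
    set π := QuotientGroup.mk' N
    have hlt : Nat.card (G ⧸ N) < Nat.card G := by
      rw [← index_eq_card, ← N.card_mul_index]
      exact lt_mul_of_one_lt_left (Nat.pos_of_ne_zero FiniteIndex.index_ne_zero)
        ((one_lt_card_iff_ne_bot N).2 hN)
    have hMeq : (M.map π).comap π = M := by
      rw [comap_map_eq, QuotientGroup.ker_mk', sup_eq_left.2 hNM]
    have hmax' : IsCoatom (M.map π) := by
      refine ⟨fun h => hmax.1 (by rw [← hMeq, h, comap_top]), fun B hB => ?_⟩
      rcases hnc (B.comap π) (hMeq ▸ comap_mono hB.le) with h | h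
      · exact absurd (comap_injective (QuotientGroup.mk'_surjective N) (h.trans hMeq.symm)) hB.ne'
      · exact comap_injective (QuotientGroup.mk'_surjective N) (h.trans (comap_top _).symm)
    have hs := ih _ hlt (G ⧸ N) rfl (M.map π) hmax'
      (Group.nilpotent_of_surjective _ (π.subgroupMap_surjective M))
      (by
        rintro _ ⟨a, ha, rfl⟩ _ ⟨b, hb, rfl⟩ _ ⟨c, hc, rfl⟩
        simp only [← map_inv, ← map_mul]
        rw [hcl a ha b hb c hc])
    exact Group.isSolvable_of_ker_le_range N.subtype π (by simp [π])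
  push Not at hN
  have hnn : ∀ X : Subgroup G, X ≤ M → X ≠ ⊥ → normalizer (X : Set G) ≠ ⊤ := fun X hXM hX h => by
    rw [normalizer_eq_top_iff] at h
    exact hX (le_bot_iff.1 (hN ▸ (normal_le_normalCore.2 hXM : X ≤ N)))
  rcases eq_or_ne M ⊥ with hM | hM
  · subst hM
    rcases subsingleton_or_nontrivial G with h | h
    · infer_instance
    obtain ⟨x, hx⟩ := exists_ne (1 : G)
    have hz : zpowers x = ⊤ := (hnc (zpowers x) bot_le).resolve_left (mt zpowers_eq_bot.1 hx)
    haveI : IsCyclic G := ⟨x, fun y => (hz ▸ mem_top y : y ∈ zpowers x)⟩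
    exact Group.isSolvable_of_comm fun a b => IsCyclic.isMulCommutative.is_comm.comm a b
  -- normal `p`-complements for all primes dividing `|M|`
  have key : ∀ p : ℕ, p.Prime → p ∣ Nat.card M →
      Cfsg.HasNormalPComplement p G ∧ ¬ p ∣ M.index := by
    intro p hp hpd
    haveI := Fact.mk hp
    obtain ⟨P₀⟩ := (inferInstance : Nonempty (Sylow p M))
    haveI hP₀n : (P₀ : Subgroup M).Normal :=
      ((Group.isNilpotent_of_finite_tfae (G := M)).out 0 3 :).1 hnil p ⟨hp⟩ P₀
    set R := (P₀ : Subgroup M).map M.subtype with hR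
    have hRp : IsPGroup p R := P₀.2.map _
    have hRM : R ≤ M := map_subtype_le _
    have hRne : R ≠ ⊥ := fun h => P₀.ne_bot_of_dvd_card hpd
      ((map_eq_bot_iff_of_injective _ M.subtype_injective).1 h)
    have hMR : M ≤ normalizer (R : Set G) := (normal_subgroupOf_iff_le_normalizer hRM).1 (by
      rw [hR, subgroupOf, comap_map_eq_self_of_injective M.subtype_injective]; exact hP₀n)
    have hNR : normalizer (R : Set G) = M := (hnc _ hMR).resolve_right (hnn R hRM hRne)
    obtain ⟨P, hP⟩ := hRp.exists_le_sylow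
    have hPR : (P : Subgroup G) = R := by
      refine le_antisymm (fun x hx => ?_) hP
      by_contra hxR
      have hlt : R.subgroupOf P < ⊤ := lt_top_iff_ne_top.2 fun h => hxR (by
        have h2 : (⟨x, hx⟩ : P) ∈ R.subgroupOf P := h ▸ mem_top _
        exact h2)
      haveI := P.2.isNilpotent
      obtain ⟨y, hy, hyR⟩ := SetLike.exists_of_lt (Group.normalizerCondition_of_isNilpotent _ hlt)
      have hyN : (y : G) ∈ normalizer (R : Set G) := (Carter.mem_normalizer_subgroupOf hP).1 hy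
      rw [hNR] at hyN
      have hle : (P₀ : Subgroup M) ≤ (P : Subgroup G).subgroupOf M := fun z hz => hP ⟨z, hz, rfl⟩
      have hp' : IsPGroup p ((P : Subgroup G).subgroupOf M) :=
        P.2.comap_of_injective _ M.subtype_injective
      have : (⟨(y : G), hyN⟩ : M) ∈ (P₀ : Subgroup M) := P₀.3 hp' hle ▸ y.2
      exact hyR ⟨_, this, rfl⟩
    have hcomm : ∀ z ∈ R, ∀ w ∈ M, (orderOf w).Coprime p → z * w = w * z := by
      rintro _ ⟨z, hz, rfl⟩ w hw hwp
      haveI : (Cfsg.pResidual p M).Normal := Cfsg.Lib.Transfer.pResidual_normal p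
      have hd : Disjoint (P₀ : Subgroup M) (Cfsg.pResidual p M) := by
        rw [disjoint_iff]
        obtain ⟨a, ha⟩ := P₀.2.exists_card_eq
        exact inf_eq_bot_of_coprime (ha ▸ ((Carter.coprime_pResidual_of_nilpotent p).symm.pow_left a))
      exact congrArg Subtype.val (Subgroup.commute_of_normal_of_disjoint _ _ hP₀n inferInstance hd
        z ⟨w, hw⟩ hz (Cfsg.Lib.Transfer.coprime_orderOf_mem_pResidual (by rwa [Subgroup.orderOf_mk]))).eq
    refine ⟨?_, ?_⟩
    · rcases eq_or_ne p 2 with rfl | hp2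
      · exact twoComplement M hnc hnn hcl P (hPR ▸ hRM) (hPR ▸ hNR) (fun z hz w hw hwp => hcomm z (hPR ▸ hz) w hw hwp)
      have hnpcM : Cfsg.HasNormalPComplement p M := by
        rw [Cfsg.Lib.Transfer.hasNormalPComplement_iff_pResidual]
        exact Carter.coprime_pResidual_of_nilpotent p
      refine Cfsg.Lib.PLocal.thompson_complement_aux hp2 (Nat.card G) G le_rfl ⟨P, ?_, ?_⟩
      · have hJ : normalizer ((Cfsg.Lib.PLocal.jF p (P : Subgroup G) : Subgroup G) : Set G) = M := by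
          refine (hnc _ (le_trans (hPR ▸ hMR) (Cfsg.Lib.PLocal.normalizer_le_jF _))).resolve_right ?_
          exact hnn _ ((Cfsg.Lib.PLocal.jF_le _).trans (hPR ▸ hRM))
            (Cfsg.Lib.PLocal.jF_ne_bot P.2 (hPR ▸ hRne))
        rw [hJ]; exact hnpcM
      · set Z := Cfsg.Lib.PLocal.zc (P : Subgroup G) with hZ
        have hZP : Z ≤ (P : Subgroup G) := inf_le_left
        have hMC : M ≤ centralizer (Z : Set G) := by
          intro m hm
          refine mem_centralizer_iff.2 fun z hz => ?_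
          have hzR : z ∈ R := hPR ▸ hZP hz
          -- `z` is central in `M`
          obtain ⟨H₀, hH₀⟩ := exists_right_complement'_of_coprime (N := (P₀ : Subgroup M))
            P₀.card_coprime_index
          have hzc : ∀ w : M, w ∈ (P₀ : Subgroup M) → z * (w : G) = (w : G) * z := fun w hw => by
            exact (mem_centralizer_iff.1 hz.2 (w : G) (hPR ▸ ⟨w, hw, rfl⟩)).symm
          have hres : ∀ w : M, w ∈ H₀ → z * (w : G) = (w : G) * z := fun w hw => by
            have hwT : w ∈ Cfsg.pResidual p M := Cfsg.Lib.Transfer.coprime_orderOf_mem_pResidual (by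
              refine Nat.Coprime.coprime_dvd_left (H₀.orderOf_dvd_natCard hw) ?_
              rw [← hH₀.symm.index_eq_card]
              exact ((hp.coprime_iff_not_dvd).2 P₀.not_dvd_index).symm)
            haveI : (Cfsg.pResidual p M).Normal := Cfsg.Lib.Transfer.pResidual_normal p
            have hd : Disjoint (P₀ : Subgroup M) (Cfsg.pResidual p M) := by
              rw [disjoint_iff]
              obtain ⟨a, ha⟩ := P₀.2.exists_card_eq
              exact inf_eq_bot_of_coprime (ha ▸ ((Carter.coprime_pResidual_of_nilpotent p).symm.pow_left a))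
            exact congrArg Subtype.val (Subgroup.commute_of_normal_of_disjoint _ _ hP₀n inferInstance hd
              ⟨z, hRM hzR⟩ w (by obtain ⟨v, hv, rfl⟩ := hzR; exact hv) hwT).eq
          obtain ⟨⟨⟨a, ha⟩, ⟨b, hb⟩⟩, hab⟩ := hH₀.2 ⟨m, hm⟩
          have e : m = (a : G) * (b : G) := (congrArg Subtype.val hab).symm
          rw [e, ← mul_assoc, hzc a ha, mul_assoc, hres b hb, mul_assoc]
        have hC : centralizer (Z : Set G) = M := by
          refine (hnc _ hMC).resolve_right fun h => ?_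
          refine hnn Z (hZP.trans (hPR ▸ hRM)) (Cfsg.Lib.PLocal.zc_ne_bot P.2 (hPR ▸ hRne)) ?_
          exact top_le_iff.1 (h ▸ Cfsg.Lib.PLocal.centralizer_le_normalizer')
        rw [hC]; exact hnpcM
    · intro hd
      refine P.not_dvd_index ?_
      rw [hPR]
      exact hd.trans (index_dvd_of_le hRM)
  -- the intersection of the complements
  set s := (Nat.card M).primeFactors
  set K : Subgroup G := ⨅ p : s, Cfsg.pResidual (p : ℕ) G with hK
  haveI hpn : ∀ p : s, (Cfsg.pResidual (p : ℕ) G).Normal := fun p => Cfsg.Lib.Transfer.pResidual_normal _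
  haveI hKn : K.Normal := normal_iInf_normal fun p => inferInstance
  have hKc : (Nat.card M).Coprime (Nat.card K) := by
    refine Nat.coprime_of_dvd fun q hq hqM hqK => ?_
    haveI := Fact.mk hq
    have h1 := (Cfsg.Lib.Transfer.hasNormalPComplement_iff_pResidual (G := G) (p := q)).1 (key q hq hqM).1
    exact hq.ne_one (Nat.eq_one_of_dvd_coprimes h1
      (hqK.trans (card_dvd_of_le (iInf_le _ (⟨q, Nat.mem_primeFactors.2 ⟨hq, hqM, Nat.card_pos.ne'⟩⟩ : s))))
      dvd_rfl)
  rcases eq_or_ne K ⊥ with hK0 | hK0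
  · have hnilq : ∀ p : s, Group.IsNilpotent (G ⧸ Cfsg.pResidual (p : ℕ) G) := fun p => by
      haveI := Fact.mk (Nat.prime_of_mem_primeFactors p.2)
      exact (Cfsg.Lib.Transfer.isPGroup_quotient_of_pResidual_le _ le_rfl).isNilpotent
    haveI := hnilq
    have hGn : Group.IsNilpotent G := by
      refine Carter.nilpotent_injective
        (MonoidHom.pi fun p : s => QuotientGroup.mk' (Cfsg.pResidual (p : ℕ) G))
        ((injective_iff_map_eq_one _).2 fun x hx => ?_)
      have : x ∈ K := by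
        rw [hK, mem_iInf]
        exact fun p => (QuotientGroup.eq_one_iff x).1 (congrFun hx p)
      rwa [hK0, mem_bot] at this
    haveI := hGn
    infer_instance
  have hMs : Group.IsSolvable M := inferInstance
  have hMK : M ≤ normalizer (K : Set G) := by rw [normalizer_eq_top_iff.2 hKn]; exact le_top
  obtain ⟨q, hq, hqd⟩ := Nat.exists_prime_and_dvd (fun h => hK0 (eq_bot_of_card_eq K h))
  haveI := Fact.mk hq
  obtain ⟨Q, hQ⟩ := Cfsg.Lib.Solv.exists_invariant_sylow M K hMK hKc (Or.inl hMs) q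
  set Q' := (Q : Subgroup K).map K.subtype with hQ'
  have hQK : Q' ≤ K := map_subtype_le _
  have htop : M ⊔ Q' = ⊤ := by
    refine (hnc _ le_sup_left).resolve_left fun h => ?_
    have h1 : Q' ≤ M := le_sup_right.trans h.le
    refine Q.ne_bot_of_dvd_card hqd ((map_eq_bot_iff_of_injective _ K.subtype_injective).1 ?_)
    exact le_bot_iff.1 ((inf_eq_bot_of_coprime hKc) ▸ le_inf h1 hQK)
  have hKQ : K = Q' := by
    refine le_antisymm (fun k hk => ?_) hQK
    have hk' : k ∈ ((M ⊔ Q' : Subgroup G) : Set G) := by rw [htop]; trivial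
    rw [coe_mul_of_left_le_normalizer_right M Q' hQ] at hk'
    obtain ⟨m, hm, c, hc, rfl⟩ := Set.mem_mul.1 hk'
    have h1 : m ∈ M ⊓ K := ⟨hm, by simpa using K.mul_mem hk (K.inv_mem (hQK hc))⟩
    rw [inf_eq_bot_of_coprime hKc, mem_bot] at h1
    rw [h1, one_mul]; exact hc
  have hKp : IsPGroup q K := hKQ ▸ (Q.2.map _)
  haveI : Group.IsNilpotent K := hKp.isNilpotent
  have hquo : Group.IsSolvable (G ⧸ K) := by
    refine Group.isSolvable_of_surjective (f := (QuotientGroup.mk' K).comp M.subtype) fun y => ?_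
    obtain ⟨g, rfl⟩ := QuotientGroup.mk'_surjective K y
    have hg : g ∈ M ⊔ K := by rw [hKQ, htop]; exact mem_top g
    rw [← SetLike.mem_coe, mul_normal] at hg
    obtain ⟨b, hb, k, hk, rfl⟩ := Set.mem_mul.1 hg
    refine ⟨⟨b, hb⟩, ?_⟩
    show QuotientGroup.mk' K b = QuotientGroup.mk' K (b * k)
    rw [map_mul, show QuotientGroup.mk' K k = 1 from (QuotientGroup.eq_one_iff k).2 hk, mul_one]
  exact Group.isSolvable_of_ker_le_range K.subtype (QuotientGroup.mk' K) (by simp)

end Cfsg.Lib.Solv.ClassTwoMaximal
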