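import Mathlib
import Cfsg.Prelude.Def_Transfer
import Cfsg.Prelude.Def_Solvable
import Cfsg.Agent.Lib.PLocal.ElementaryAbelian
import Cfsg.Agent.Lib.PLocal.ChainStabilizer
import Cfsg.Agent.Lib.Solv.MinNormal
import Cfsg.Agent.Lib.Solv.Cores
import Cfsg.Agent.Lib.Solv.Coprime3

/-!
Thompson's dihedral lemma: an elementary abelian 2-group acting faithfully on a solvable group of odd order
gives as many commuting dihedral subgroups as its rank.
-/

set_option autoImplicit false

namespace Cfsg.Lib.Solv.DihedralPairs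

open Subgroup Cfsg Cfsg.Lib.PLocal

variable {G : Type*} [Group G]

/-- Two elements generating a dihedral group. -/
theorem dihedral_iso [Finite G] {a x : G} (ha : a ^ 2 = 1) (hx : a * x * a⁻¹ = x⁻¹)
    (hax : a ∉ zpowers x) :
    Nonempty (↥(zpowers a ⊔ zpowers x) ≃* DihedralGroup (orderOf x)) := by
  have hn : 0 < orderOf x := orderOf_pos x
  haveI : NeZero (orderOf x) := ⟨hn.ne'⟩
  let e : ZMod (orderOf x) → G := fun i => x ^ i.val
  have eadd : ∀ i j, e (i + j) = e i * e j := fun i j => by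
    simp only [e, ← pow_add]
    rw [ZMod.val_add, pow_mod_orderOf]
  have e0 : e 0 = 1 := by simp [e]
  have eneg : ∀ i, e (-i) = (e i)⁻¹ := fun i => eq_inv_of_mul_eq_one_left (by rw [← eadd, neg_add_cancel, e0])
  have einj : ∀ i, e i = 1 → i = 0 := fun i h => by
    have h1 := orderOf_dvd_of_pow_eq_one h
    exact (ZMod.val_eq_zero i).1 (Nat.eq_zero_of_dvd_of_lt h1 (ZMod.val_lt i))
  have ha' : a * a = 1 := by rw [← pow_two]; exact ha
  have hai : a⁻¹ = a := inv_eq_of_mul_eq_one_right ha'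
  have hmove : ∀ i, e i * a = a * (e i)⁻¹ := fun i => by
    have h : a * (e i) * a⁻¹ = (e i)⁻¹ := by
      simp only [e]; rw [← conj_pow, hx, inv_pow]
    rw [← h, hai, ← mul_assoc, ← mul_assoc, ha', one_mul]
  let f : DihedralGroup (orderOf x) → G
    | .r i => e i
    | .sr i => a * e i
  let φ : DihedralGroup (orderOf x) →* G := MonoidHom.mk' f (by
    intro u v
    cases u <;> cases v
    · simp only [DihedralGroup.r_mul_r, f]; exact eadd _ _
    · simp only [DihedralGroup.r_mul_sr, f]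
      rw [← mul_assoc, hmove, mul_assoc, sub_eq_neg_add, eadd, eneg]
    · simp only [DihedralGroup.sr_mul_r, f]; rw [eadd, mul_assoc]
    · rename_i i j
      simp only [DihedralGroup.sr_mul_sr, f]
      rw [sub_eq_neg_add, eadd, eneg, mul_assoc a, ← mul_assoc (e i), hmove, mul_assoc a, ← mul_assoc a a,
        ha', one_mul])
  have hinj : Function.Injective φ := by
    refine (injective_iff_map_eq_one φ).2 fun u hu => ?_
    cases u with
    | r i => rw [einj i hu]; rfl
    | sr i =>
      exfalso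
      apply hax
      have h : a * e i = 1 := hu
      rw [eq_inv_of_mul_eq_one_left h]
      exact inv_mem (Subgroup.npow_mem_zpowers x _)
  have hran : φ.range = zpowers a ⊔ zpowers x := by
    refine le_antisymm ?_ (sup_le (zpowers_le.2 ⟨.sr 0, ?_⟩) (zpowers_le.2 ⟨.r 1, ?_⟩))
    · rintro _ ⟨u, rfl⟩
      cases u with
      | r i => exact mem_sup_right (Subgroup.npow_mem_zpowers x _)
      | sr i => exact mul_mem (mem_sup_left (mem_zpowers a)) (mem_sup_right (Subgroup.npow_mem_zpowers x _))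
    · show a * e 0 = a
      rw [e0, mul_one]
    · show x ^ (1 : ZMod (orderOf x)).val = x
      rw [ZMod.val_one_eq_one_mod, pow_mod_orderOf, pow_one]
  exact ⟨((MonoidHom.ofInjective hinj).trans (MulEquiv.subgroupCongr hran)).symm⟩

theorem conj_mem {A W : Subgroup G} (h : A ≤ normalizer (W : Set G)) {a u : G} (ha : a ∈ A) (hu : u ∈ W) :
    a * u * a⁻¹ ∈ W :=
  (mem_normalizer_iff.1 (h ha) u).1 hu

theorem le_normalizer_of_conj {A W : Subgroup G} (h : ∀ a ∈ A, ∀ u ∈ W, a * u * a⁻¹ ∈ W) :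
    A ≤ normalizer (W : Set G) := fun a ha => mem_normalizer_iff.2 fun u =>
  ⟨h a ha u, fun hu => by
    have h1 := h a⁻¹ (inv_mem ha) _ hu
    simpa [mul_assoc] using h1⟩

theorem elem_inv {A : Subgroup G} (hA : IsElementaryAbelian 2 A) {a : G} (ha : a ∈ A) : a⁻¹ = a := by
  have h := hA.2 a ha
  rw [pow_two] at h
  exact inv_eq_of_mul_eq_one_right h

/-- A common eigenvector modulo a central subgroup. -/
theorem exists_eigen [Finite G] (A U : Subgroup G) (hA : IsElementaryAbelian 2 A)
    (hAU : A ≤ normalizer (U : Set G)) (W : Set G) (hUc : ∀ u ∈ U, ∀ w ∈ W, u * w = w * u)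
    (hWm : ∀ v ∈ W, ∀ w ∈ W, v * w ∈ W) (hWA : ∀ a ∈ A, ∀ w ∈ W, a * w * a⁻¹ ∈ W)
    (hWc : ∀ v ∈ W, ∀ w ∈ W, v * w * v⁻¹ * w⁻¹ ∈ U) {w : G} (hw : w ∈ W) (hwU : w ∉ U) :
    ∃ x ∈ W, x ∉ U ∧ ∀ a ∈ A, a * x * a⁻¹ * x⁻¹ ∈ U ∨ a * x * a⁻¹ * x ∈ U := by
  suffices h : ∀ s : Finset G, (∀ a ∈ s, a ∈ A) →
      ∃ x ∈ W, x ∉ U ∧ ∀ a ∈ s, a * x * a⁻¹ * x⁻¹ ∈ U ∨ a * x * a⁻¹ * x ∈ U by
    obtain ⟨x, hx, hxU, hs⟩ := h (Set.toFinite (A : Set G)).toFinset fun a ha => by simpa using ha
    exact ⟨x, hx, hxU, fun a ha => hs a (by simpa using ha)⟩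
  classical
  intro s
  induction s using Finset.induction with
  | empty => exact fun _ => ⟨w, hw, hwU, fun a ha => absurd ha (Finset.notMem_empty a)⟩
  | insert a s _ ih =>
    intro hs
    obtain ⟨x, hx, hxU, hxs⟩ := ih fun b hb => hs b (Finset.mem_insert_of_mem hb)
    have haA : a ∈ A := hs a (Finset.mem_insert_self a s)
    set x' := a * x * a⁻¹ with hx'
    have hx'W : x' ∈ W := hWA a haA x hx
    set y := x * x' with hy
    -- commutation modulo `U`
    obtain ⟨c, hcU, hc⟩ : ∃ c ∈ U, x' * x = c * y :=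
      ⟨x' * x * y⁻¹, by rw [hy, mul_inv_rev, ← mul_assoc]; exact hWc x' hx'W x hx, by group⟩
    by_cases hyU : y ∈ U
    · refine ⟨x, hx, hxU, fun b hb => ?_⟩
      rcases Finset.mem_insert.1 hb with rfl | hb
      · exact Or.inr (by rw [← hx', hc]; exact mul_mem hcU hyU)
      · exact hxs b hb
    · refine ⟨y, hWm x hx x' hx'W, hyU, fun b hb => ?_⟩
      rcases Finset.mem_insert.1 hb with rfl | hb
      · refine Or.inl ?_
        have hbi := elem_inv hA haA
        have hbb : b * b = 1 := by rw [← pow_two]; exact hA.2 b haA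
        have h1 : b * x' * b⁻¹ = x := by
          rw [hx', hbi]
          calc b * (b * x * b) * b = (b * b) * x * (b * b) := by group
            _ = x := by rw [hbb, one_mul, mul_one]
        have h2 : b * y * b⁻¹ = x' * x := by rw [hy, ← conj_mul, h1]
        rw [h2, hc, mul_assoc, mul_inv_cancel, mul_one]
        exact hcU
      · have hbA := hs b (Finset.mem_insert_of_mem hb)
        have hab : b * x' * b⁻¹ = a * (b * x * b⁻¹) * a⁻¹ := by
          rw [hx']
          calc b * (a * x * a⁻¹) * b⁻¹ = (b * a) * x * (b * a)⁻¹ := by group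
            _ = (a * b) * x * (a * b)⁻¹ := by rw [elem_comm hA hbA haA]
            _ = _ := by group
        rcases hxs b hb with h | h
        · left
          set u := b * x * b⁻¹ * x⁻¹ with hu
          set u' := a * u * a⁻¹ with hu'
          have hu'U : u' ∈ U := conj_mem hAU haA h
          have h1 : b * x * b⁻¹ = u * x := by rw [hu]; group
          have h2 : b * x' * b⁻¹ = u' * x' := by rw [hab, h1, hu', hx']; group
          have h3 : b * y * b⁻¹ = u * u' * y := by
            rw [hy, ← conj_mul, h1, h2]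
            calc u * x * (u' * x') = u * (x * u') * x' := by group
              _ = u * (u' * x) * x' := by rw [hUc u' hu'U x hx]
              _ = _ := by group
          rw [h3, mul_assoc, mul_inv_cancel, mul_one]
          exact mul_mem h hu'U
        · right
          set u := b * x * b⁻¹ * x with hu
          set u' := a * u * a⁻¹ with hu'
          have hu'U : u' ∈ U := conj_mem hAU haA h
          have h1 : b * x * b⁻¹ = u * x⁻¹ := by rw [hu]; group
          have h2 : b * x' * b⁻¹ = u' * x'⁻¹ := by rw [hab, h1, hu', hx']; group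
          have h3 : b * y * b⁻¹ * y = u * u' * c⁻¹ := by
            have h4 : u' * x = x * u' := hUc u' hu'U x hx
            have h5 : x⁻¹ * u' = u' * x⁻¹ := (show Commute x u' from h4.symm).inv_left
            have h6 : x⁻¹ * x'⁻¹ = y⁻¹ * c⁻¹ := by
              rw [← mul_inv_rev, ← mul_inv_rev, hc]
            have h7 : c⁻¹ * y = y * c⁻¹ :=
              (show Commute c y from hUc c hcU y (hWm x hx x' hx'W)).inv_left
            rw [hy, ← conj_mul, h1, h2, ← hy]
            calc u * x⁻¹ * (u' * x'⁻¹) * y = u * (x⁻¹ * u') * x'⁻¹ * y := by group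
              _ = u * u' * (x⁻¹ * x'⁻¹) * y := by rw [h5]; group
              _ = u * u' * y⁻¹ * (c⁻¹ * y) := by rw [h6]; group
              _ = _ := by rw [h7]; group
          rw [h3]
          exact mul_mem (mul_mem h hu'U) (inv_mem hcU)

/-- A maximal invariant abelian subgroup of a nilpotent group is self-centralizing. -/
theorem exists_selfCentralizing [Finite G] (A H : Subgroup G) (hH : Group.IsNilpotent H)
    (hA : IsElementaryAbelian 2 A) (hAH : A ≤ normalizer (H : Set G)) :
    ∃ U : Subgroup G, U ≤ H ∧ (∀ u ∈ U, ∀ v ∈ U, u * v = v * u) ∧ A ≤ normalizer (U : Set G) ∧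
      H ⊓ centralizer (U : Set G) ≤ U := by
  obtain ⟨U, ⟨hUH, hUab, hUA⟩, hmax⟩ := (Set.toFinite {U : Subgroup G | U ≤ H ∧
      (∀ u ∈ U, ∀ v ∈ U, u * v = v * u) ∧ A ≤ normalizer (U : Set G)}).exists_maximal
      ⟨⊥, bot_le, fun u hu v hv => by rw [mem_bot.1 hu, mem_bot.1 hv],
        le_normalizer_of_conj fun a _ u hu => by rw [mem_bot.1 hu, mul_one, mul_inv_cancel]; exact one_mem _⟩
  refine ⟨U, hUH, hUab, hUA, ?_⟩
  by_contra hne
  set C := H ⊓ centralizer (U : Set G) with hC
  have hUC : U ≤ C := le_inf hUH fun u hu => mem_centralizer_iff.2 fun v hv => hUab v hv u hu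
  have hUc : ∀ u ∈ U, ∀ c ∈ C, u * c = c * u := fun u hu c hc => mem_centralizer_iff.1 hc.2 u hu
  have hAC : ∀ a ∈ A, ∀ c ∈ C, a * c * a⁻¹ ∈ C := fun a ha c hc =>
    ⟨conj_mem hAH ha hc.1, mem_centralizer_iff.2 fun v hv => by
      have h1 : a⁻¹ * v * a ∈ U := by
        have := conj_mem hUA (inv_mem ha) hv
        rwa [inv_inv] at this
      have h2 := hUc _ h1 c hc
      calc v * (a * c * a⁻¹) = a * ((a⁻¹ * v * a) * c) * a⁻¹ := by group
        _ = a * (c * (a⁻¹ * v * a)) * a⁻¹ := by rw [h2]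
        _ = _ := by group⟩
  haveI hCn : Group.IsNilpotent ↥C := Cfsg.Lib.Solv.isNilpotent_of_le inf_le_left hH
  haveI : (U.subgroupOf C).Normal := ⟨fun u hu c => by
    change (c : G) * (u : G) * (c : G)⁻¹ ∈ U
    rw [← hUc (u : G) hu c c.2, mul_assoc, mul_inv_cancel, mul_one]
    exact hu⟩
  haveI : Nontrivial (↥C ⧸ U.subgroupOf C) :=
    QuotientGroup.nontrivial_iff.2 fun h => hne (subgroupOf_eq_top.1 h)
  obtain ⟨⟨q, hq⟩, hq1⟩ := (ne_bot_iff_exists_ne_one).1
    (Group.IsNilpotent.center_ne_bot (G := ↥C ⧸ U.subgroupOf C))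
  obtain ⟨w, rfl⟩ := QuotientGroup.mk_surjective q
  let W : Set G := {v | v ∈ C ∧ ∀ c ∈ C, v * c * v⁻¹ * c⁻¹ ∈ U}
  have hwW : (w : G) ∈ W := ⟨w.2, fun c hc => by
    have h := mem_center_iff.1 hq ((⟨c, hc⟩ : ↥C) : ↥C ⧸ U.subgroupOf C)
    have h1 : ((w * ⟨c, hc⟩ * w⁻¹ * (⟨c, hc⟩ : ↥C)⁻¹ : ↥C) : ↥C ⧸ U.subgroupOf C) = 1 := by
      rw [QuotientGroup.mk_mul, QuotientGroup.mk_mul, QuotientGroup.mk_mul, ← h]
      simp [mul_assoc]
    have h2 := (QuotientGroup.eq_one_iff _).1 h1
    exact h2⟩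
  have hwU : (w : G) ∉ U := fun h => hq1 (Subtype.ext ((QuotientGroup.eq_one_iff w).2 h))
  obtain ⟨x, hx, hxU, hxe⟩ := exists_eigen A U hA hUA W (fun u hu v hv => hUc u hu v hv.1)
    (fun v hv v' hv' => ⟨mul_mem hv.1 hv'.1, fun c hc => by
      have h1 := hv'.2 c hc
      have h2 := hv.2 c hc
      have h3 : v * v' * c * (v * v')⁻¹ * c⁻¹ = (v * (v' * c * v'⁻¹ * c⁻¹) * v⁻¹) * (v * c * v⁻¹ * c⁻¹) := by
        group
      rw [h3, ← hUc _ h1 v hv.1, mul_assoc (v' * c * v'⁻¹ * c⁻¹), mul_inv_cancel, mul_one]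
      exact mul_mem h1 h2⟩)
    (fun a ha v hv => ⟨hAC a ha v hv.1, fun c hc => by
      have h1 := hv.2 (a⁻¹ * c * a) (by
        have := hAC a⁻¹ (inv_mem ha) c hc
        rwa [inv_inv] at this)
      have h2 := conj_mem hUA ha h1
      simpa [mul_assoc] using h2⟩)
    (fun v hv v' hv' => hv.2 v' hv'.1) hwW hwU
  have hab : ∀ u ∈ U ⊔ zpowers x, ∀ v ∈ U ⊔ zpowers x, u * v = v * u := by
    have he : U ⊔ zpowers x = closure ((U : Set G) ∪ {x}) := by
      rw [Subgroup.closure_union, Subgroup.closure_eq, ← zpowers_eq_closure]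
    rw [he]
    refine closure_comm ?_
    rintro u (hu | hu) v (hv | hv)
    · exact hUab u hu v hv
    · rw [Set.mem_singleton_iff.1 hv]; exact hUc u hu x hx.1
    · rw [Set.mem_singleton_iff.1 hu]; exact (hUc v hv x hx.1).symm
    · rw [Set.mem_singleton_iff.1 hu, Set.mem_singleton_iff.1 hv]
  have hinv : A ≤ normalizer ((U ⊔ zpowers x : Subgroup G) : Set G) := le_normalizer_of_conj fun a ha => by
    have hle : U ⊔ zpowers x ≤ (U ⊔ zpowers x).comap (MulAut.conj a).toMonoidHom := by
      refine sup_le (fun u hu => mem_sup_left (conj_mem hUA ha hu)) (zpowers_le.2 ?_)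
      show a * x * a⁻¹ ∈ U ⊔ zpowers x
      rcases hxe a ha with h | h
      · have h1 := mul_mem (mem_sup_left h : _ ∈ U ⊔ zpowers x) (mem_sup_right (mem_zpowers x))
        simpa [mul_assoc] using h1
      · have h1 := mul_mem (mem_sup_left h : _ ∈ U ⊔ zpowers x)
          (mem_sup_right (inv_mem (mem_zpowers x)))
        simpa [mul_assoc] using h1
    exact fun u hu => hle hu
  have := hmax ⟨sup_le hUH (zpowers_le.2 hx.1.1), hab, hinv⟩ le_sup_left
  exact hxU (this (mem_sup_right (mem_zpowers x)))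

/-- The pairs, inside an abelian group of odd order. -/
theorem exists_pairs [Finite G] : ∀ (n : ℕ) (B U : Subgroup G), IsElementaryAbelian 2 B → Nat.card B = 2 ^ n →
    (∀ u ∈ U, ∀ v ∈ U, u * v = v * u) → Odd (Nat.card U) → B ≤ normalizer (U : Set G) →
    B ⊓ centralizer (U : Set G) = ⊥ →
    ∃ a x : Fin n → G, (∀ i, a i ∈ B ∧ a i ≠ 1 ∧ x i ∈ U ∧ x i ≠ 1 ∧ a i * x i * (a i)⁻¹ = (x i)⁻¹) ∧
      closure (Set.range a) = B ∧ ∀ i j, i ≠ j → a i * x j = x j * a i := by
  intro n
  induction n with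
  | zero =>
    intro B U _ hB _ _ _ _
    refine ⟨fun i => i.elim0, fun i => i.elim0, fun i => i.elim0, ?_, fun i => i.elim0⟩
    rw [Set.range_eq_empty, Subgroup.closure_empty]; exact (Subgroup.eq_bot_of_card_eq B (by simpa using hB)).symm
  | succ n ih =>
    intro B U hB hBc hUab hUodd hBU hfaith
    have hsq : ∀ v ∈ U, v * v = 1 → v = 1 := fun v hv h => by
      have h2 : orderOf v ∣ 2 := orderOf_dvd_of_pow_eq_one (by rw [pow_two]; exact h)
      rcases (Nat.dvd_prime Nat.prime_two).1 h2 with h' | h'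
      · exact orderOf_eq_one_iff.1 h'
      · exfalso
        have hd := orderOf_dvd_natCard (⟨v, hv⟩ : ↥U)
        rw [← orderOf_coe, h'] at hd
        exact (Nat.not_even_iff_odd.2 hUodd) (even_iff_two_dvd.2 hd)
    haveI : Nonempty {a : G // a ∈ B ∧ a ≠ 1} := by
      by_contra hc
      have hb : B = ⊥ := (eq_bot_iff_forall B).2 fun a ha => by
        by_contra ha1; exact hc ⟨⟨a, ha, ha1⟩⟩
      rw [hb, card_bot] at hBc
      exact absurd hBc.symm (by simp)
    obtain ⟨⟨a, haB, ha1⟩, hmax⟩ := Finite.exists_max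
      fun a : {a : G // a ∈ B ∧ a ≠ 1} => Nat.card ↥(U ⊓ centralizer ({(a : G)} : Set G))
    set F := U ⊓ centralizer ({a} : Set G) with hF
    have hBF : ∀ b ∈ B, ∀ u ∈ F, b * u * b⁻¹ ∈ F := fun b hb u hu =>
      ⟨conj_mem hBU hb hu.1, mem_centralizer_iff.2 fun y hy => by
        rw [Set.mem_singleton_iff.1 hy]
        have h1 := mem_centralizer_iff.1 hu.2 a rfl
        have h2 := elem_comm hB haB hb
        have h3 : a * b⁻¹ = b⁻¹ * a := (show Commute a b from h2).inv_right
        calc a * (b * u * b⁻¹) = (a * b) * u * b⁻¹ := by simp only [mul_assoc]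
          _ = b * (a * u) * b⁻¹ := by rw [h2]; simp only [mul_assoc]
          _ = b * u * (a * b⁻¹) := by rw [h1]; simp only [mul_assoc]
          _ = _ := by rw [h3]; simp only [mul_assoc]⟩
    -- the kernel of the action on the fixed points
    have hker : ∀ b ∈ B, b ∈ centralizer (F : Set G) → b = 1 ∨ b = a := by
      intro b hb hbF
      by_contra hne
      push Not at hne
      have hle : F ≤ U ⊓ centralizer ({b} : Set G) := le_inf inf_le_left fun u hu =>
        mem_centralizer_iff.2 fun y hy => by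
          rw [Set.mem_singleton_iff.1 hy]; exact (mem_centralizer_iff.1 hbF u hu).symm
      have heq : F = U ⊓ centralizer ({b} : Set G) :=
        eq_of_le_of_card_ge hle (hmax ⟨b, hb, hne.1⟩)
      have hai := elem_inv hB haB
      have hbi := elem_inv hB hb
      have hprod : ∀ {c : G}, c ∈ B → ∀ v ∈ U, v * (c * v * c⁻¹) ∈ U ⊓ centralizer ({c} : Set G) := by
        intro c hc v hv
        have hcv := conj_mem hBU hc hv
        refine ⟨mul_mem hv hcv, mem_centralizer_iff.2 fun y hy => ?_⟩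
        rw [Set.mem_singleton_iff.1 hy, hUab v hv _ hcv]
        have hci := elem_inv hB hc
        have hcc : c * c = 1 := by rw [← pow_two]; exact hB.2 c hc
        rw [hci]
        calc c * (c * v * c * v) = (c * c) * v * c * v := by simp only [mul_assoc]
          _ = v * c * v := by rw [hcc, one_mul]
          _ = (c * v * c * v) * c := by
            rw [show v * c * v = (c * c) * (v * c * v) by rw [hcc, one_mul]]
            have hcomm := hUab v hv _ hcv
            rw [hci] at hcomm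
            calc c * c * (v * c * v) = c * ((c * v * c) * v) := by simp only [mul_assoc]
              _ = c * (v * (c * v * c)) := by rw [← hcomm]
              _ = _ := by simp only [mul_assoc]
      have hab : a * b ∈ centralizer (U : Set G) := by
        refine mem_centralizer_iff.2 fun v hv => ?_
        set v' := a * v * a⁻¹ with hv'
        set w := b * v * b⁻¹ with hw
        set z := a * w * a⁻¹ with hz
        have hv'U : v' ∈ U := conj_mem hBU haB hv
        have hwU : w ∈ U := conj_mem hBU hb hv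
        have hzU : z ∈ U := conj_mem hBU haB hwU
        have hzb : b * v' * b⁻¹ = z := by
          rw [hz, hw, hv']
          calc b * (a * v * a⁻¹) * b⁻¹ = (b * a) * v * (b * a)⁻¹ := by group
            _ = (a * b) * v * (a * b)⁻¹ := by rw [elem_comm hB hb haB]
            _ = _ := by group
        clear_value v' w z
        -- `v v'` is fixed by `b` and `v w` by `a`
        have f1 : b * (v * v') * b⁻¹ = v * v' := by
          have h := (heq.le (hprod haB v hv)).2
          rw [← hv'] at h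
          rw [← mem_centralizer_iff.1 h b rfl |>.symm, mul_inv_cancel_right]
        have f2 : a * (v * w) * a⁻¹ = v * w := by
          have h := (heq.ge (hprod hb v hv)).2
          rw [← hw] at h
          rw [← mem_centralizer_iff.1 h a rfl |>.symm, mul_inv_cancel_right]
        rw [← conj_mul, ← hw, hzb] at f1
        rw [← conj_mul, ← hv', ← hz] at f2
        have g1 : v' * w⁻¹ = (v' * w⁻¹)⁻¹ := by
          have e1 : z = w⁻¹ * (v * v') := by rw [← f1, inv_mul_cancel_left]
          have e2 : z = v'⁻¹ * (v * w) := by rw [← f2, inv_mul_cancel_left]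
          have e3 : w⁻¹ * (v * v') = v'⁻¹ * (v * w) := e1.symm.trans e2
          replace e3 : w⁻¹ * v' = v'⁻¹ * w := mul_right_cancel (b := v) <|
            calc w⁻¹ * v' * v = w⁻¹ * (v * v') := by rw [mul_assoc, hUab v hv v' hv'U]
              _ = v'⁻¹ * (v * w) := e3
              _ = v'⁻¹ * w * v := by rw [hUab v hv w hwU, mul_assoc]
          calc v' * w⁻¹ = w⁻¹ * v' := hUab _ hv'U _ (inv_mem hwU)
            _ = v'⁻¹ * w := e3
            _ = _ := by rw [mul_inv_rev, inv_inv, hUab _ (inv_mem hv'U) _ hwU]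
        have g2 : v' = w := by
          have h := hsq (v' * w⁻¹) (mul_mem hv'U (inv_mem hwU))
            (by nth_rewrite 2 [g1]; exact mul_inv_cancel _)
          exact mul_inv_eq_one.1 h
        have hfix : (a * b) * v * (a * b)⁻¹ = v := by
          have h : z = v := by
            rw [hz, ← g2, hv']
            have haa : a * a = 1 := by rw [← pow_two]; exact hB.2 a haB
            rw [hai]
            calc a * (a * v * a) * a = (a * a) * v * (a * a) := by simp only [mul_assoc]
              _ = v := by rw [haa, one_mul, mul_one]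
          conv_rhs => rw [← h]
          rw [hz, hw]; group
        have h1 : a * b * v = v * (a * b) := mul_inv_eq_iff_eq_mul.1 hfix
        exact h1.symm
      have h1 : a * b ∈ B ⊓ centralizer (U : Set G) := ⟨mul_mem haB hb, hab⟩
      rw [hfaith, mem_bot] at h1
      exact hne.2 (by rw [eq_inv_of_mul_eq_one_right h1, hai])
    -- an eigenvector inverted by `a`
    set I : Set G := {u | u ∈ U ∧ a * u * a⁻¹ = u⁻¹} with hI
    obtain ⟨u0, hu0, hu0a⟩ : ∃ u ∈ U, a * u * a⁻¹ ≠ u := by
      by_contra hc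
      push Not at hc
      have h1 : a ∈ B ⊓ centralizer (U : Set G) := ⟨haB, mem_centralizer_iff.2 fun u hu => by
        have := mul_inv_eq_iff_eq_mul.1 (hc u hu)
        exact this.symm⟩
      rw [hfaith, mem_bot] at h1
      exact ha1 h1
    have haa : a * a = 1 := by rw [← pow_two]; exact hB.2 a haB
    have hw0 : u0⁻¹ * (a * u0 * a⁻¹) ∈ I := by
      refine ⟨mul_mem (inv_mem hu0) (conj_mem hBU haB hu0), ?_⟩
      rw [← conj_mul, mul_inv_rev, inv_inv]
      have h1 : a * (a * u0 * a⁻¹) * a⁻¹ = u0 := by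
        rw [elem_inv hB haB]
        calc a * (a * u0 * a) * a = (a * a) * u0 * (a * a) := by simp only [mul_assoc]
          _ = u0 := by rw [haa, one_mul, mul_one]
      rw [h1]; group
    obtain ⟨x, hxI, hx1, hxe⟩ := exists_eigen B ⊥ hB
      (le_normalizer_of_conj fun b _ u hu => by rw [mem_bot.1 hu, mul_one, mul_inv_cancel]; exact one_mem _)
      I (fun u hu v _ => by rw [mem_bot.1 hu, one_mul, mul_one])
      (fun v hv w hw => ⟨mul_mem hv.1 hw.1, by
        rw [← conj_mul, hv.2, hw.2, mul_inv_rev]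
        exact hUab _ (inv_mem hv.1) _ (inv_mem hw.1)⟩)
      (fun b hb v hv => ⟨conj_mem hBU hb hv.1, by
        calc a * (b * v * b⁻¹) * a⁻¹ = (a * b) * v * (a * b)⁻¹ := by group
          _ = (b * a) * v * (b * a)⁻¹ := by rw [elem_comm hB haB hb]
          _ = b * (a * v * a⁻¹) * b⁻¹ := by group
          _ = _ := by rw [hv.2]; group⟩)
      (fun v hv w hw => by rw [hUab v hv.1 w hw.1, mul_inv_cancel_right, mul_inv_cancel]; exact one_mem _)
      hw0 (fun h => hu0a (inv_mul_eq_one.1 (mem_bot.1 h)).symm)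
    rw [mem_bot] at hx1
    set B1 := B ⊓ centralizer ({x} : Set G) with hB1
    have haB1 : a ∉ B1 := fun h => by
      have h1 := mem_centralizer_iff.1 h.2 x rfl
      have h2 := hxI.2
      rw [← h1, mul_inv_cancel_right] at h2
      exact hx1 (hsq x hxI.1 (by nth_rewrite 2 [h2]; exact mul_inv_cancel _))
    have hBsup : zpowers a ⊔ B1 = B := by
      refine le_antisymm (sup_le (zpowers_le.2 haB) inf_le_left) fun b hb => ?_
      rcases hxe b hb with h | h
      · exact mem_sup_right ⟨hb, mem_centralizer_iff.2 fun y hy => by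
          rw [Set.mem_singleton_iff.1 hy]
          exact (mul_inv_eq_iff_eq_mul.1 (mul_inv_eq_one.1 (mem_bot.1 h))).symm⟩
      · have hbx : b * x * b⁻¹ = x⁻¹ := eq_inv_of_mul_eq_one_left (mem_bot.1 h)
        have h1 : a * b ∈ B1 := ⟨mul_mem haB hb, mem_centralizer_iff.2 fun y hy => by
          rw [Set.mem_singleton_iff.1 hy]
          have h2 : (a * b) * x * (a * b)⁻¹ = x := by
            calc (a * b) * x * (a * b)⁻¹ = a * (b * x * b⁻¹) * a⁻¹ := by group
              _ = (a * x * a⁻¹)⁻¹ := by rw [hbx]; group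
              _ = x := by rw [hxI.2, inv_inv]
          exact (mul_inv_eq_iff_eq_mul.1 h2).symm⟩
        have h2 := mul_mem (mem_sup_left (mem_zpowers a) : a ∈ zpowers a ⊔ B1) (mem_sup_right h1)
        rwa [← mul_assoc, haa, one_mul] at h2
    have hza : Nat.card (zpowers a) = 2 := by
      rw [Nat.card_zpowers]; exact orderOf_eq_prime (hB.2 a haB) ha1
    have hinf : zpowers a ⊓ B1 = ⊥ := by
      rw [eq_bot_iff_forall]
      rintro y ⟨hy, hy'⟩
      by_contra hy1
      have h : zpowers y = zpowers a := eq_of_le_of_card_ge (zpowers_le.2 hy) (by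
        rw [hza, Nat.card_zpowers, orderOf_eq_prime (hB.2 y hy'.1) hy1])
      exact haB1 ((zpowers_le.2 hy' : zpowers y ≤ B1) (h ▸ mem_zpowers a))
    have hB1c : Nat.card B1 = 2 ^ n := by
      have h := card_sup_mul_card_inf (A := zpowers a) (B := B1)
        (zpowers_le.2 (mem_centralizer_iff.2 fun y hy => elem_comm hB hy.1 haB))
      rw [hBsup, hinf, card_bot, mul_one, hza, hBc, pow_succ'] at h
      exact (Nat.eq_of_mul_eq_mul_left two_pos h).symm
    have hfaith1 : B1 ⊓ centralizer (F : Set G) = ⊥ := by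
      rw [eq_bot_iff_forall]
      rintro b ⟨hb, hbF⟩
      exact (hker b hb.1 hbF).resolve_right fun h => haB1 (h ▸ hb)
    have hFodd : Odd (Nat.card F) := hUodd.of_dvd_nat (card_dvd_of_le inf_le_left)
    obtain ⟨as, xs, hp, hcl, hc⟩ := ih B1 F (elem_le hB inf_le_left) hB1c
      (fun u hu v hv => hUab u hu.1 v hv.1) hFodd
      (le_normalizer_of_conj fun b hb => hBF b hb.1) hfaith1
    refine ⟨Fin.cons a as, Fin.cons x xs, ?_, ?_, ?_⟩
    · refine Fin.cases ⟨haB, ha1, hxI.1, hx1, hxI.2⟩ fun i => ?_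
      obtain ⟨h1, h2, h3, h4, h5⟩ := hp i
      exact ⟨h1.1, h2, h3.1, h4, h5⟩
    · rw [Fin.range_cons, Set.insert_eq, Subgroup.closure_union, ← zpowers_eq_closure, hcl, hBsup]
    · refine Fin.cases (Fin.cases (fun h => absurd rfl h) fun j _ => ?_) fun i => Fin.cases (fun _ => ?_) fun j h => ?_
      · exact mem_centralizer_iff.1 (hp j).2.2.1.2 a rfl
      · exact (mem_centralizer_iff.1 (hp i).1.2 x rfl).symm
      · exact hc i j fun h' => h (by rw [h'])

/-- Thompson's dihedral lemma, in element form. -/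
theorem exists_pairs_solvable [Finite G] (L A : Subgroup G) (hLs : Group.IsSolvable ↥L)
    (hLodd : Odd (Nat.card ↥L)) (hA : IsElementaryAbelian 2 A) (d : ℕ) (hAd : Nat.card ↥A = 2 ^ d)
    (hAL : A ≤ normalizer (L : Set G)) (hfaith : A ⊓ centralizer (L : Set G) = ⊥) :
    ∃ a x : Fin d → G, (∀ i, a i ∈ A ∧ a i ≠ 1 ∧ x i ∈ L ∧ x i ≠ 1 ∧ a i * x i * (a i)⁻¹ = (x i)⁻¹) ∧
      closure (Set.range a) = A ∧ (∀ i j, i ≠ j → a i * x j = x j * a i) ∧
      ∀ i j, x i * x j = x j * x i := by
  haveI := hLs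
  set H := (Cfsg.fittingSubgroup ↥L).map L.subtype with hH
  have hHL : H ≤ L := map_subtype_le _
  have hHn : Group.IsNilpotent ↥H := by
    haveI := Cfsg.Lib.Solv.fitting_isNilpotent (G := ↥L)
    exact Group.nilpotent_of_mulEquiv (equivMapOfInjective _ L.subtype L.subtype_injective)
  let σ : ∀ a ∈ A, ↥L ≃* ↥L := fun a ha => L.normalizerMonoidHom ⟨a, hAL ha⟩
  have hσ : ∀ a (ha : a ∈ A) (l : ↥L), ((σ a ha l : ↥L) : G) = a * l * a⁻¹ := fun a ha l => rfl
  have hAH : A ≤ normalizer (H : Set G) := le_normalizer_of_conj fun a ha => by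
    rintro _ ⟨l, hl, rfl⟩
    have h := characteristic_iff_map_eq.1 (Cfsg.Lib.Solv.fitting_characteristic (G := ↥L)) (σ a ha)
    exact ⟨σ a ha l, h.le ⟨l, hl, rfl⟩, rfl⟩
  have hAH1 : A ⊓ centralizer (H : Set G) = ⊥ := by
    rw [eq_bot_iff_forall]
    rintro a ⟨ha, haH⟩
    have h1 : σ a ha = MulEquiv.refl ↥L := by
      refine Cfsg.Lib.Solv.eq_refl_of_fixes (σ a ha) (Cfsg.fittingSubgroup ↥L)
        Cfsg.Lib.Solv.centralizer_fitting_le (fun l hl => Subtype.ext ?_) ?_
      · rw [hσ a ha]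
        have := mem_centralizer_iff.1 haH (l : G) ⟨l, hl, rfl⟩
        rw [← this, mul_inv_cancel_right]
      · refine Nat.Coprime.of_dvd_left (?_ : orderOf (σ a ha) ∣ 2) ((Nat.coprime_two_left).2 hLodd)
        refine orderOf_dvd_of_pow_eq_one ?_
        show (L.normalizerMonoidHom ⟨a, hAL ha⟩) ^ 2 = 1
        rw [← map_pow, show (⟨a, hAL ha⟩ : ↥(normalizer (L : Set G))) ^ 2 = 1 from
          Subtype.ext (hA.2 a ha), map_one]
    have h2 : a ∈ A ⊓ centralizer (L : Set G) := ⟨ha, mem_centralizer_iff.2 fun l hl => by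
      have h := hσ a ha ⟨l, hl⟩
      rw [h1] at h
      have h' : l = a * l * a⁻¹ := h
      exact ((mul_inv_eq_iff_eq_mul.1 h'.symm)).symm⟩
    rwa [hfaith, mem_bot] at h2
  obtain ⟨U, hUH, hUab, hUA, hUc⟩ := exists_selfCentralizing A H hHn hA hAH
  have hAU : A ⊓ centralizer (U : Set G) = ⊥ := by
    rw [eq_bot_iff_forall]
    rintro a ⟨ha, haU⟩
    have hle : U ≤ H ⊓ centralizer (zpowers a : Set G) := le_inf hUH fun u hu => by
      rw [zpowers_eq_closure, centralizer_closure]
      exact mem_centralizer_iff.2 fun y hy => by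
        rw [Set.mem_singleton_iff.1 hy]; exact (mem_centralizer_iff.1 haU u hu).symm
    have hcop : (Nat.card (zpowers a)).Coprime (Nat.card H) := by
      refine Nat.Coprime.of_dvd ?_ (card_dvd_of_le hHL) ((Nat.coprime_two_left).2 hLodd)
      rw [Nat.card_zpowers]
      exact orderOf_dvd_of_pow_eq_one (hA.2 a ha)
    have h := Cfsg.Lib.PLocal.Chain.centralizes_of_fixed_selfCentralizing H (zpowers a) hHn
      ((zpowers_le.2 ha).trans hAH) hcop
      (((inf_le_inf_left _ (centralizer_le hle)).trans hUc).trans hle)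
    have h2 : a ∈ A ⊓ centralizer (H : Set G) := ⟨ha, h (mem_zpowers a)⟩
    rwa [hAH1, mem_bot] at h2
  obtain ⟨a, x, hp, hcl, hc⟩ := exists_pairs d A U hA hAd hUab
    (hLodd.of_dvd_nat (card_dvd_of_le (hUH.trans hHL))) hUA hAU
  exact ⟨a, x, fun i => ⟨(hp i).1, (hp i).2.1, hHL (hUH (hp i).2.2.1), (hp i).2.2.2.1, (hp i).2.2.2.2⟩,
    hcl, hc, fun i j => hUab _ (hp i).2.2.1 _ (hp j).2.2.1⟩

end Cfsg.Lib.Solv.DihedralPairs
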