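import Cfsg.Agent.Lib.Solv.Cores
import Cfsg.Agent.Lib.Transfer.NormalPComplement
import Cfsg.Agent.Lib.Characters.Integrality

/-!
Sylow subgroups that are direct factors.
-/

set_option autoImplicit false

namespace Cfsg.Lib.Solv

open Subgroup

variable {G : Type*} [Group G] [Finite G] {p : ℕ} [hp : Fact p.Prime]

theorem direct_factor_commute {P : Sylow p G} {K : Subgroup G} (hPn : (P : Subgroup G).Normal)
    (hKn : K.Normal) (hinf : (P : Subgroup G) ⊓ K = ⊥) (hsup : (P : Subgroup G) ⊔ K = ⊤)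
    {x y : G} (hx : ∃ a : ℕ, orderOf x = p ^ a) (hy : (orderOf y).Coprime p) :
    x ∈ (P : Subgroup G) ∧ y ∈ K ∧ Commute x y := by
  haveI := hPn
  haveI := hKn
  have hxP : x ∈ (P : Subgroup G) := by
    obtain ⟨a, ha⟩ := hx
    have h1 : orderOf (x : G ⧸ (P : Subgroup G)) ∣ p ^ a := ha ▸ orderOf_map_dvd (QuotientGroup.mk' _) x
    have h2 : orderOf (x : G ⧸ (P : Subgroup G)) ∣ (P : Subgroup G).index := by
      rw [index_eq_card]; exact orderOf_dvd_natCard _
    exact (QuotientGroup.eq_one_iff x).1 (orderOf_eq_one_iff.1 (Nat.eq_one_of_dvd_coprimes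
      ((hp.out.coprime_iff_not_dvd.2 P.not_dvd_index).pow_left a) h1 h2))
  have hidx : ∃ j, K.index = p ^ j := by
    obtain ⟨i, hi⟩ := IsPGroup.iff_card.1 P.2
    refine ⟨i, ?_⟩
    have hcp : K.IsComplement' (P : Subgroup G) :=
      isComplement'_of_disjoint_and_mul_eq_univ (disjoint_iff.2 (by rw [inf_comm]; exact hinf))
        (by rw [← mul_normal, sup_comm, hsup, coe_top])
    rw [hcp.symm.index_eq_card, hi]
  obtain ⟨j, hj⟩ := hidx
  have hyK : y ∈ K := Cfsg.Lib.Transfer.pResidual_le_of_index_eq_pow K hj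
    (Cfsg.Lib.Transfer.coprime_orderOf_mem_pResidual hy)
  exact ⟨hxP, hyK, commute_of_normal_of_disjoint _ _ hPn hKn (disjoint_iff.2 hinf) x y hxP hyK⟩

theorem direct_factor_of_commute
    (h : ∀ x y : G, (∃ a : ℕ, orderOf x = p ^ a) →
      (∃ q b : ℕ, q.Prime ∧ q ≠ p ∧ orderOf y = q ^ b) → x * y = y * x) :
    ∃ (P : Sylow p G) (K : Subgroup G), (P : Subgroup G).Normal ∧ K.Normal ∧
      (P : Subgroup G) ⊓ K = ⊥ ∧ (P : Subgroup G) ⊔ K = ⊤ := by
  obtain ⟨P⟩ : Nonempty (Sylow p G) := inferInstance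
  set C := centralizer ((P : Subgroup G) : Set G) with hC
  have htop : (P : Subgroup G) ⊔ C = ⊤ := eq_top_of_forall_sylow_le fun q hq _ => by
    haveI := Fact.mk hq
    rcases eq_or_ne q p with rfl | hqp
    · exact ⟨P, le_sup_left⟩
    obtain ⟨Q⟩ : Nonempty (Sylow q G) := inferInstance
    refine ⟨Q, fun y hy => mem_sup_right (mem_centralizer_iff.2 fun x hx => ?_)⟩
    obtain ⟨a, ha⟩ := IsPGroup.iff_orderOf.1 P.2 ⟨x, hx⟩
    obtain ⟨b, hb⟩ := IsPGroup.iff_orderOf.1 Q.2 ⟨y, hy⟩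
    rw [orderOf_mk] at ha hb
    exact h x y ⟨a, ha⟩ ⟨q, b, hq, hqp, hb⟩
  have hPn : (P : Subgroup G).Normal := normalizer_eq_top_iff.1
    (top_le_iff.1 (htop.ge.trans (sup_le le_normalizer (centralizer_le_normalizer _))))
  haveI := hPn
  obtain ⟨K, hK⟩ := exists_right_complement'_of_coprime (N := (P : Subgroup G)) P.card_coprime_index
  have hKc : (Nat.card K).Coprime p := by
    rw [← hK.symm.index_eq_card]
    exact (hp.out.coprime_iff_not_dvd.2 P.not_dvd_index).symm
  have hCi : ∃ j, C.index = p ^ j := by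
    haveI : C.Normal := inferInstance
    obtain ⟨i, hi⟩ := IsPGroup.iff_card.1 P.2
    have h1 : C.index ∣ Nat.card (P : Subgroup G) := by
      rw [← relIndex_top_right, ← htop, relIndex_sup_right]
      exact relIndex_dvd_card _ _
    obtain ⟨j, -, hj⟩ := (Nat.dvd_prime_pow hp.out).1 (hi ▸ h1)
    exact ⟨j, hj⟩
  obtain ⟨j, hj⟩ := hCi
  have hKC : K ≤ C := fun k hk => Cfsg.Lib.Transfer.pResidual_le_of_index_eq_pow C hj
    (Cfsg.Lib.Transfer.coprime_orderOf_mem_pResidual
      (Nat.Coprime.coprime_dvd_left (orderOf_dvd_natCard _ hk) hKc))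
  refine ⟨P, K, hPn, normalizer_eq_top_iff.1 (top_le_iff.1 ?_), hK.disjoint.eq_bot, hK.sup_eq_top⟩
  rw [← hK.sup_eq_top]
  refine sup_le (fun x hx => mem_normalizer_iff.2 fun z => ?_) le_normalizer
  constructor
  · intro hz
    rwa [mem_centralizer_iff.1 (hKC hz) x hx, mul_inv_cancel_right]
  · intro hz
    have h4 := mem_centralizer_iff.1 (hKC hz) x hx
    have e : x * z * x⁻¹ = z := by
      calc x * z * x⁻¹ = x⁻¹ * (x * (x * z * x⁻¹)) := by group
        _ = x⁻¹ * ((x * z * x⁻¹) * x) := by rw [h4]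
        _ = z := by group
    rwa [e] at hz

/-- Equal class-size products force commuting. -/
theorem commute_of_class_mul {x y : G}
    (h : ∀ a b : G, IsConj x a → IsConj y b → (centralizer ({a * b} : Set G)).index =
      (centralizer ({x} : Set G)).index * (centralizer ({y} : Set G)).index) : Commute x y := by
  classical
  let f : {a : G // IsConj x a} × {b : G // IsConj y b} → G := fun z => z.1.1 * z.2.1
  have hconj : ∀ (g u v : G), IsConj u v → IsConj u (g * v * g⁻¹) := fun g u v huv =>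
    huv.trans (isConj_iff.2 ⟨g, rfl⟩)
  have hsub : ∀ z : {c : G // IsConj (x * y) c}, z.1 ∈ Set.range f := by
    rintro ⟨c, hc⟩
    obtain ⟨g, rfl⟩ := isConj_iff.1 hc
    exact ⟨(⟨g * x * g⁻¹, hconj g x x (IsConj.refl x)⟩, ⟨g * y * g⁻¹, hconj g y y (IsConj.refl y)⟩),
      by show g * x * g⁻¹ * (g * y * g⁻¹) = g * (x * y) * g⁻¹; group⟩
  have hcard : Nat.card ({a : G // IsConj x a} × {b : G // IsConj y b}) =
      Nat.card (Set.range f) := by
    refine le_antisymm ?_ (Nat.card_le_card_of_surjective _ Set.rangeFactorization_surjective)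
    calc Nat.card ({a : G // IsConj x a} × {b : G // IsConj y b})
        = Nat.card {c : G // IsConj (x * y) c} := by
          rw [Nat.card_prod, Cfsg.Lib.Characters.card_conj_eq_index, Cfsg.Lib.Characters.card_conj_eq_index,
            Cfsg.Lib.Characters.card_conj_eq_index, h x y (IsConj.refl x) (IsConj.refl y)]
      _ ≤ _ := Nat.card_le_card_of_injective (fun z => ⟨z.1, hsub z⟩)
            fun u v e => Subtype.ext (congrArg (fun w : Set.range f => (w : G)) e)
  have hinj : Function.Injective f := fun u v e =>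
    ((Nat.bijective_iff_surjective_and_card _).2 ⟨Set.rangeFactorization_surjective, hcard⟩).1
      (Subtype.ext e)
  -- two pairs with the same product
  set a := x⁻¹ * y * x with ha
  have hay : IsConj y a := isConj_iff.2 ⟨x⁻¹, by rw [inv_inv, ha]⟩
  set x₁ := a * x * a⁻¹ with hx₁
  set x₂ := x₁ * (y * a⁻¹) with hx₂
  have h2 : IsConj x x₂ := isConj_iff.2 ⟨a * y⁻¹, by rw [hx₂, hx₁, ha]; group⟩
  have h3 := hinj (a₁ := (⟨x₂, h2⟩, ⟨a, hay⟩)) (a₂ := (⟨x₁, hconj a x x (IsConj.refl x)⟩, ⟨y, IsConj.refl y⟩))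
    (by show x₂ * a = x₁ * y; rw [hx₂]; group)
  have h4 : a = y := congrArg (fun z => z.2.1) h3
  show x * y = y * x
  calc x * y = x * a := by rw [h4]
    _ = y * x := by rw [ha]; group

end Cfsg.Lib.Solv
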