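import Cfsg.Agent.Lib.Solv.Subnormal
import Cfsg.Agent.Lib.Solv.Cores

/-!
Baer's characterization of the Fitting subgroup by left Engel elements.
-/

set_option autoImplicit false

namespace Cfsg.Lib.Solv

open Subgroup
open scoped Pointwise commutatorElement

universe u

/-- The `n`-fold commutator of `x` with `g`. -/
def engelIter {G : Type u} [Group G] (g x : G) : ℕ → G
  | 0 => x
  | n + 1 => ⁅engelIter g x n, g⁆

theorem engel_foldl {G : Type u} [Group G] (g : G) : ∀ (n : ℕ) (x : G),
    (List.replicate n g).foldl (fun a b => a * b * a⁻¹ * b⁻¹) x = engelIter g x n := by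
  intro n
  induction n with
  | zero => intro x; rfl
  | succ n ih =>
    intro x
    rw [List.replicate_succ', List.foldl_append, ih]
    rfl

theorem engelIter_map {G : Type u} [Group G] {H : Type u} [Group H] (f : H →* G) (g x : H) :
    ∀ n : ℕ, f (engelIter g x n) = engelIter (f g) (f x) n := by
  intro n
  induction n with
  | zero => rfl
  | succ n ih =>
    show f ⁅_, g⁆ = ⁅_, f g⁆
    rw [map_commutatorElement, ih]

theorem engel_of_mem_fitting {G : Type u} [Group G] [Finite G] {g : G}
    (hg : g ∈ Cfsg.fittingSubgroup G) (x : G) : ∃ n, engelIter g x n = 1 := by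
  set F := Cfsg.fittingSubgroup G with hF
  haveI : Group.IsNilpotent F := fitting_isNilpotent
  haveI hFn : F.Normal := by rw [hF, fitting_eq_iSup_pCore]; infer_instance
  obtain ⟨n, hn⟩ := Subgroup.nilpotent_iff_lowerCentralSeries.1 (inferInstance : Group.IsNilpotent F)
  have h1 : ⁅x, g⁆ ∈ F := by
    rw [commutatorElement_def]
    exact mul_mem (hFn.conj_mem g hg x) (inv_mem hg)
  have key : ∀ i, engelIter g x (i + 1) ∈ ((⊤ : Subgroup F).lowerCentralSeries i).map F.subtype := by
    intro i
    induction i with
    | zero => exact ⟨⟨_, h1⟩, by simp, rfl⟩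
    | succ i ih =>
      obtain ⟨y, hy, hye⟩ := ih
      refine ⟨⁅y, ⟨g, hg⟩⁆, ?_, ?_⟩
      · rw [Subgroup.lowerCentralSeries_succ]
        exact commutator_mem_commutator hy (mem_top _)
      · show F.subtype ⁅y, ⟨g, hg⟩⁆ = ⁅engelIter g x (i + 1), g⁆
        rw [map_commutatorElement, hye]
        rfl
  refine ⟨n + 1, ?_⟩
  have := key n
  rw [hn, Subgroup.map_bot, mem_bot] at this
  exact this

theorem mem_fitting_of_engel_aux : ∀ (m : ℕ) (G : Type u) [Group G] [Finite G], Nat.card G ≤ m →
    ∀ g : G, (∀ x : G, ∃ n, engelIter g x n = 1) → g ∈ Cfsg.fittingSubgroup G := by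
  intro m
  induction m with
  | zero => intro G _ _ h; exact absurd h (Nat.not_le.2 Nat.card_pos)
  | succ m ih =>
    intro G _ _ hm g hg
    set A := zpowers g with hA
    have hAnil : Group.IsNilpotent A := by
      letI : CommGroup A := { (inferInstance : Group A) with mul_comm := mul_comm' }
      exact CommGroup.isNilpotent
    suffices hsub : A.IsSubnormal from subnormal_nilpotent_le_fitting hsub hAnil (mem_zpowers g)
    by_contra hnot
    have hprop : ∀ H : Subgroup G, H ≠ ⊤ → A ≤ H → (A.subgroupOf H).IsSubnormal := fun H hH hAH => by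
      have hgH : g ∈ H := hAH (mem_zpowers g)
      have hlt : Nat.card H ≤ m := by
        have h1 := H.card_mul_index
        have h2 : 1 < H.index := by
          have h0 : H.index ≠ 0 := index_ne_zero_of_finite
          have h3 : H.index ≠ 1 := fun e => hH (index_eq_one.1 e)
          omega
        have h4 : 0 < Nat.card H := Nat.card_pos
        nlinarith
      have hF := ih H hlt ⟨g, hgH⟩ fun x => by
        obtain ⟨n, hn⟩ := hg x
        exact ⟨n, H.subtype_injective (by rw [engelIter_map]; exact hn.trans H.subtype.map_one.symm)⟩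
      set F := Cfsg.fittingSubgroup H
      haveI : F.Normal := by rw [show F = _ from fitting_eq_iSup_pCore]; infer_instance
      have hle : A.subgroupOf H ≤ F := fun y hy => by
        obtain ⟨i, hi⟩ := mem_zpowers_iff.1 (mem_subgroupOf.1 hy)
        have e : y = (⟨g, hgH⟩ : H) ^ i := Subtype.ext (by push_cast; exact hi.symm)
        rw [e]; exact zpow_mem hF i
      haveI : Group.IsNilpotent F := fitting_isNilpotent
      exact IsSubnormal.trans hle (isSubnormal_of_nilpotent _) ((inferInstance : F.Normal).isSubnormal)
    obtain ⟨M, ⟨hM, hAM⟩, huniq⟩ := zipper A hprop hnot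
    have hne : ∀ y : G, y ∈ M := by
      intro y
      by_contra hy
      obtain ⟨n, hn⟩ := hg y
      have hex : ∃ i, engelIter g y i ∈ M := ⟨n, hn ▸ M.one_mem⟩
      classical
      set i := Nat.find hex with hi
      obtain ⟨j, hj⟩ : ∃ j, i = j + 1 := Nat.exists_eq_succ_of_ne_zero fun e => hy (by
        have := Nat.find_spec hex
        rw [← hi, e] at this
        exact this)
      set z := engelIter g y j with hz
      have hzM : z ∉ M := Nat.find_min hex (by omega)
      have hz1 : ⁅z, g⁆ ∈ M := by
        have := Nat.find_spec hex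
        rwa [← hi, hj] at this
      have hzg : z * g * z⁻¹ ∈ M := by
        have h2 := M.mul_mem hz1 (hAM (mem_zpowers g))
        rwa [commutatorElement_def, inv_mul_cancel_right] at h2
      -- the conjugate of `M` is the same maximal subgroup
      set M' := MulAut.conj z⁻¹ • M with hM'
      have hM'c : IsCoatom M' := by
        rw [hM', conj_smul_eq_map]
        exact (OrderIso.isCoatom_iff (MulEquiv.mapSubgroup (MulAut.conj z⁻¹)) M).2 hM
      have hgM' : A ≤ M' := zpowers_le.2 (mem_conj_smul.2 (by rwa [inv_inv]))
      have hzn : z ∈ normalizer (M : Set G) := by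
        have heq := huniq M' ⟨hM'c, hgM'⟩
        refine mem_normalizer_iff.2 fun u => ?_
        constructor
        · intro hu
          have h3 : u ∈ M' := heq.symm ▸ hu
          rw [hM'] at h3
          have h4 := mem_conj_smul.1 h3
          rwa [inv_inv] at h4
        · intro hu
          have h3 : u ∈ M' := mem_conj_smul.2 (by rwa [inv_inv])
          exact heq ▸ h3
      rcases hM.le_iff.1 (le_normalizer : M ≤ normalizer (M : Set G)) with h | h
      · -- a normal maximal subgroup
        haveI : M.Normal := normalizer_eq_top_iff.1 h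
        exact hnot (IsSubnormal.trans hAM (hprop M hM.1 hAM) (inferInstance : M.Normal).isSubnormal)
      · exact hzM (h ▸ hzn)
    exact hM.1 ((eq_top_iff' M).2 hne)

end Cfsg.Lib.Solv
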