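import Mathlib

/-!
A nine-point coset computation excluding a group of order 504 with elements of prime order.
-/

set_option autoImplicit false

namespace Cfsg.Lib.Solv.FiveHundredFour

variable {G : Type*} [Group G] [Finite G]

theorem no_such_group (S H : Subgroup G) (hSH : S ≤ H) (hS8 : Nat.card S = 8) (hH9 : H.index = 9)
    (hexp : ∀ x ∈ S, x * x = 1) (hnorm : ∀ h ∈ H, ∀ s ∈ S, h * s * h⁻¹ ∈ S)
    (hTI : ∀ g : G, g ∉ H → ∀ x ∈ S, g * x * g⁻¹ ∈ S → x = 1)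
    (hinv : ∀ x ∈ H, x * x = 1 → x ∈ S)
    (horder : ∀ x : G, x ≠ 1 → orderOf x = 2 ∨ orderOf x = 3 ∨ orderOf x = 7)
    (hall : ∀ x y : G, Commute x y → x ≠ 1 → y ≠ 1 → orderOf x = orderOf y)
    (τ : G) (hτH : τ ∈ H) (hτ : orderOf τ = 7) (w : G) (hw : orderOf w = 2) (hwτ : w * τ * w⁻¹ = τ⁻¹) : False := by
  classical
  have hτ7 : τ ^ (7 : ℤ) = 1 := by
    rw [show (7 : ℤ) = ((7 : ℕ) : ℤ) from rfl, zpow_natCast, ← hτ, pow_orderOf_eq_one]
  have hτS : ∀ k : ℤ, τ ^ k ∈ S → τ ^ k = 1 := by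
    intro k hk
    have h2 := hexp _ hk
    by_contra h1
    have h7 : orderOf (τ ^ k) ∣ 7 := hτ ▸ orderOf_dvd_of_pow_eq_one (by
      rw [hτ, ← zpow_natCast, ← zpow_mul, mul_comm, zpow_mul, Nat.cast_ofNat, hτ7, one_zpow])
    have h22 : orderOf (τ ^ k) ∣ 2 := orderOf_dvd_of_pow_eq_one (by rw [pow_two, h2])
    exact h1 (orderOf_eq_one_iff.1 (Nat.dvd_one.1 (Nat.dvd_gcd h7 h22)))
  have hw2 : w * w = 1 := by rw [← pow_two, ← hw, pow_orderOf_eq_one]
  have hwinv : w⁻¹ = w := inv_eq_of_mul_eq_one_right hw2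
  -- `w` lies outside `H`
  have hwH : w ∉ H := by
    intro h
    have hwS := hinv w h hw2
    have h1 : w * (τ * w⁻¹ * τ⁻¹) ∈ S := mul_mem hwS (hnorm τ hτH _ (inv_mem hwS))
    rw [← mul_assoc, ← mul_assoc, hwτ, ← zpow_neg_one τ, ← zpow_add] at h1
    have h2 := hτS _ h1
    have h3 := orderOf_dvd_of_pow_eq_one (x := τ) (n := 2) (by
      have h4 := congrArg (·⁻¹) h2
      simp only [inv_one, ← zpow_neg] at h4
      rw [← zpow_natCast]
      exact h4)
    rw [hτ] at h3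
    norm_num at h3
  -- the nine points
  let mk : G → G ⧸ H := QuotientGroup.mk
  have hmk : ∀ a b : G, mk a = mk b ↔ a⁻¹ * b ∈ H := fun a b => QuotientGroup.eq
  have hmkH : ∀ (a h : G), h ∈ H → mk (a * h) = mk a := fun a h hh => by
    rw [hmk]; simpa using inv_mem hh
  have hmkl : ∀ g a b : G, mk a = mk b → mk (g * a) = mk (g * b) := fun g a b h => by
    rw [hmk] at h ⊢; simpa [mul_assoc] using h
  have hne1 : ∀ s ∈ S, mk (s * w) ≠ mk 1 := by
    intro s hs e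
    rw [hmk, mul_one, inv_mem_iff] at e
    exact hwH ((Subgroup.mul_mem_cancel_left _ (hSH hs)).1 e)
  have hinjQ : ∀ s ∈ S, ∀ t ∈ S, mk (s * w) = mk (t * w) → s = t := by
    intro s hs t ht e
    rw [hmk] at e
    have h1 : w⁻¹ * (s⁻¹ * t) * w⁻¹⁻¹ ∈ H := by simpa [mul_assoc] using e
    have hst : s⁻¹ * t ∈ S := mul_mem (inv_mem hs) ht
    have h2 := hinv _ h1 (by rw [← pow_two, conj_pow, pow_two, hexp _ hst, mul_one, mul_inv_cancel])
    exact inv_mul_eq_one.1 (hTI w⁻¹ (fun h => hwH (inv_mem_iff.1 h)) _ hst h2)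
  haveI := Fintype.ofFinite S
  let F : Option S → G ⧸ H := fun o => o.elim (mk 1) (fun s => mk (s * w))
  have hF : Function.Bijective F := by
    haveI := Fintype.ofFinite (G ⧸ H)
    rw [Fintype.bijective_iff_injective_and_card]
    refine ⟨?_, ?_⟩
    · rintro (_ | ⟨s, hs⟩) (_ | ⟨t, ht⟩) e
      · rfl
      · exact absurd e.symm (hne1 t ht)
      · exact absurd e (hne1 s hs)
      · exact congrArg _ (Subtype.ext (hinjQ s hs t ht e))
    · rw [Fintype.card_option, ← Nat.card_eq_fintype_card, ← Nat.card_eq_fintype_card, hS8,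
        ← Subgroup.index_eq_card, hH9]
  -- the orbit of `τ` on `S`
  obtain ⟨s0, hs0, hs01⟩ := (Subgroup.bot_or_exists_ne_one S).resolve_left fun e => by
    rw [e, Subgroup.card_bot] at hS8; omega
  have hτper : ∀ (i k : ℤ), τ ^ (i + 7 * k) = τ ^ i := fun i k => by
    rw [zpow_add, zpow_mul, hτ7, one_zpow, mul_one]
  let pt : ℤ → G := fun i => τ ^ i * s0 * (τ ^ i)⁻¹
  have hpt : ∀ i, pt i ∈ S := fun i => hnorm _ (zpow_mem hτH i) _ hs0
  have hpt1 : ∀ i, pt i ≠ 1 := fun i e => hs01 (by simpa [pt] using e)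
  have hper : ∀ i k, pt (i + 7 * k) = pt i := fun i k => by simp only [pt, hτper]
  have hshift : ∀ i j, τ ^ i * pt j * (τ ^ i)⁻¹ = pt (i + j) := fun i j => by
    simp only [pt, zpow_add, mul_inv_rev, mul_assoc]
  have hinjP : ∀ i j, pt i = pt j → (7 : ℤ) ∣ i - j := by
    intro i j e
    have hc : Commute (τ ^ (i - j)) s0 := by
      have h1 := congrArg (fun x => (τ ^ j)⁻¹ * x * τ ^ j) e
      simp only [pt, mul_assoc, inv_mul_cancel_left, inv_mul_cancel, mul_one] at h1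
      show τ ^ (i - j) * s0 = s0 * τ ^ (i - j)
      rw [sub_eq_neg_add, zpow_add, zpow_neg]
      conv_rhs => rw [← h1]
      group
    rw [show (7 : ℤ) = ((orderOf τ : ℕ) : ℤ) by rw [hτ]; rfl, orderOf_dvd_iff_zpow_eq_one]
    by_contra hne
    have h2 := hall _ _ hc hne hs01
    have h7 : orderOf (τ ^ (i - j)) ∣ 7 := hτ ▸ orderOf_dvd_of_pow_eq_one (by
      rw [hτ, ← zpow_natCast, ← zpow_mul, mul_comm, zpow_mul, Nat.cast_ofNat, hτ7, one_zpow])
    have hs2 : orderOf s0 = 2 := orderOf_eq_prime (by rw [pow_two, hexp s0 hs0]) hs01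
    rw [h2, hs2] at h7
    norm_num at h7
  have hsurjP : ∀ s ∈ S, s ≠ 1 → ∃ k : ℤ, 0 ≤ k ∧ k < 7 ∧ pt k = s := by
    intro s hs hs1
    let g : Fin 7 → {x : S // x ≠ 1} := fun i => ⟨⟨pt i, hpt _⟩, fun e => hpt1 _ (congrArg Subtype.val e)⟩
    have hg : Function.Bijective g := by
      rw [Fintype.bijective_iff_injective_and_card]
      refine ⟨fun i j e => ?_, ?_⟩
      · have := hinjP _ _ (congrArg (fun x => ((x.1 : S) : G)) e)
        exact Fin.ext (by omega)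
      · rw [Fintype.card_fin, Fintype.card_subtype_compl, Fintype.card_subtype_eq, ← Nat.card_eq_fintype_card, hS8]
    obtain ⟨i, hi⟩ := hg.2 ⟨⟨s, hs⟩, fun e => hs1 (congrArg Subtype.val e)⟩
    exact ⟨i, by omega, by omega, congrArg (fun x => ((x.1 : S) : G)) hi⟩
  have hcomm : ∀ a ∈ S, ∀ b ∈ S, a * b = b * a := fun a ha b hb => by
    calc a * b = (a * b)⁻¹ := eq_inv_of_mul_eq_one_left (hexp _ (mul_mem ha hb))
      _ = b * a := by
        rw [mul_inv_rev, ← eq_inv_of_mul_eq_one_left (hexp a ha), ← eq_inv_of_mul_eq_one_left (hexp b hb)]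
  -- a generator with `pt 0 * pt 1 = pt 3` or `pt 5`
  have hdiv : ∀ i j k : ℤ, pt i * pt j = pt k → pt i * pt k = pt j := fun i j k h => by
    rw [← h, ← mul_assoc, hexp _ (hpt i), one_mul]
  have hsh : ∀ i j k : ℤ, pt i * pt j = pt k → ∀ l, pt (i + l) * pt (j + l) = pt (k + l) := by
    intro i j k h l
    rw [add_comm i, add_comm j, add_comm k, ← hshift, ← hshift, ← hshift, ← h]
    group
  obtain ⟨k, hk0, hk7, hk⟩ : ∃ k : ℤ, 0 ≤ k ∧ k < 7 ∧ pt k = pt 0 * pt 1 := by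
    refine hsurjP _ (mul_mem (hpt 0) (hpt 1)) fun e => ?_
    have h1 : pt 0 = pt 1 := (eq_inv_of_mul_eq_one_left e).trans (eq_inv_of_mul_eq_one_left (hexp _ (hpt 1))).symm
    have := hinjP _ _ h1
    omega
  have hk2 := hk.symm
  have hk35 : k = 3 ∨ k = 5 := by
    have hno : ∀ a b : ℤ, pt a = pt b → ¬ (a - b) % 7 ≠ 0 := fun a b e h => h (Int.emod_eq_zero_of_dvd (hinjP a b e))
    interval_cases k
    · have h1 := hdiv _ _ _ hk2
      rw [hexp _ (hpt 0)] at h1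
      exact absurd h1.symm (hpt1 1)
    · exact absurd (mul_eq_right.1 hk2) (hpt1 0)
    · have h1 := hsh _ _ _ hk2 1
      norm_num at h1
      have h2 : pt 0 * pt 1 = pt 2 := hk2
      have h3 : pt 1 * pt 2 = pt 0 := by
        rw [← h2, hcomm _ (hpt 0) _ (hpt 1), ← mul_assoc, hexp _ (hpt 1), one_mul]
      exact absurd (h1.symm.trans h3) fun e => hno 3 0 e (by norm_num)
    · exact Or.inl rfl
    · have h1 := hsh _ _ _ hk2 2
      have h2 := hsh _ _ _ hk2 3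
      norm_num at h1 h2
      rw [show (7 : ℤ) = 0 + 7 * 1 by norm_num, hper] at h2
      have h3 := hdiv 0 1 4 hk2
      have h4 : pt 0 * pt 4 = pt 3 := by
        rw [← h2, mul_assoc, hexp _ (hpt 4), mul_one]
      exact absurd (h3.symm.trans h4) fun e => hno 1 3 e (by norm_num)
    · exact Or.inr rfl
    · have h1 := hsh _ _ _ hk2 (-1)
      norm_num at h1
      rw [show (-1 : ℤ) = 6 + 7 * (-1) by norm_num, hper] at h1
      have h3 := hdiv 0 1 6 hk2
      rw [hcomm _ (hpt 0) _ (hpt 6)] at h3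
      exact absurd (h1.symm.trans h3) fun e => hno 5 1 e (by norm_num)
  obtain ⟨e, he, h013⟩ : ∃ e : ℤ, (e = 1 ∨ e = -1) ∧ pt 0 * pt (e * 1) = pt (e * 3) := by
    rcases hk35 with rfl | rfl
    · exact ⟨1, Or.inl rfl, by simpa using hk2⟩
    · refine ⟨-1, Or.inr rfl, ?_⟩
      have h1 := hsh _ _ _ hk2 (-1)
      norm_num at h1 ⊢
      rw [hcomm _ (hpt 0) _ (hpt _), h1, show (4 : ℤ) = -3 + 7 * 1 by norm_num, hper]
  let P : ℤ → G := fun i => pt (e * i)
  have hP : ∀ i, P i ∈ S := fun i => hpt _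
  have hPper : ∀ i k, P (i + 7 * k) = P i := fun i k => by
    simp only [P]; rw [show e * (i + 7 * k) = e * i + 7 * (e * k) by ring, hper]
  have hPrel : ∀ i, P i * P (i + 1) = P (i + 3) := fun i => by
    simp only [P]
    have := hsh _ _ _ h013 (e * i)
    rw [zero_add] at this
    rw [mul_add, mul_add, add_comm (e * i) (e * 1), add_comm (e * i) (e * 3)]
    exact this
  have hPinj : ∀ i j, P i = P j → (7 : ℤ) ∣ i - j := fun i j h => by
    have := hinjP _ _ h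
    rcases he with rfl | rfl <;> omega
  -- the action of `w`
  obtain ⟨o, ho⟩ := hF.2 (mk (w * pt 0 * w))
  obtain ⟨c, hc⟩ : ∃ c : ℤ, mk (w * pt 0 * w) = mk (pt c * w) := by
    rcases o with _ | ⟨s, hs⟩
    · exfalso
      have h1 : mk 1 = mk (w * pt 0 * w) := ho
      rw [hmk, inv_one, one_mul] at h1
      have h2 := hinv _ h1 (by
        calc w * pt 0 * w * (w * pt 0 * w) = w * pt 0 * (w * w) * pt 0 * w := by group
          _ = 1 := by rw [hw2, mul_one, mul_assoc w, hexp _ (hpt 0), mul_one, hw2])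
      refine hpt1 0 (hTI w hwH _ (hpt 0) ?_)
      rwa [hwinv]
    · have h1 : mk (s * w) = mk (w * pt 0 * w) := ho
      by_cases hs1 : s = 1
      · exfalso
        rw [hs1, one_mul, hmk] at h1
        have h2 : pt 0 * w ∈ H := by simpa [mul_assoc] using h1
        exact hwH ((Subgroup.mul_mem_cancel_left _ (hSH (hpt 0))).1 h2)
      · obtain ⟨c, -, -, hc⟩ := hsurjP s hs hs1
        exact ⟨c, by rw [hc]; exact h1.symm⟩
  have hwpow : ∀ i : ℤ, w * τ ^ i * w⁻¹ = (τ ^ i)⁻¹ := fun i => by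
    rw [← conj_zpow, hwτ, inv_zpow]
  set v := τ ^ (-c) * w with hv
  have hv0 : mk (v * pt 0 * v) = mk (pt 0 * v) := by
    have h0 : w * τ ^ (-c) = τ ^ c * w := by
      have h1 := hwpow (-c)
      rw [mul_inv_eq_iff_eq_mul] at h1
      rw [h1, ← zpow_neg, neg_neg]
    have h1 : v * pt 0 * v = τ ^ (-c) * (w * pt 0 * w) * (w * τ ^ (-c) * w) := by
      rw [hv]
      calc τ ^ (-c) * w * pt 0 * (τ ^ (-c) * w) = τ ^ (-c) * w * pt 0 * 1 * τ ^ (-c) * w := by group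
        _ = _ := by rw [← hw2]; group
    have h2 : w * τ ^ (-c) * w = τ ^ c := by rw [h0, mul_assoc, hw2, mul_one]
    rw [h1, h2, hmkH _ _ (zpow_mem hτH c), hmkl _ _ _ hc]
    have h3 : τ ^ (-c) * (pt c * w) = pt 0 * v := by
      rw [hv, show pt 0 = τ ^ (-c) * pt c * (τ ^ (-c))⁻¹ by rw [hshift, neg_add_cancel]]
      group
    rw [h3]
  have hvτ : ∀ i : ℤ, v * τ ^ i = (τ ^ i)⁻¹ * v := fun i => by
    have h1 := hwpow i
    rw [mul_inv_eq_iff_eq_mul] at h1
    rw [hv, mul_assoc, h1, ← mul_assoc, ← mul_assoc, ← zpow_neg, ← zpow_add, ← zpow_add, add_comm]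
  have hv2 : v * v = 1 := by
    rw [hv, ← mul_assoc, mul_assoc _ w]
    rw [show w * τ ^ (-c) = (τ ^ (-c))⁻¹ * w from by
      have h1 := hwpow (-c); rw [mul_inv_eq_iff_eq_mul] at h1; exact h1]
    rw [mul_inv_cancel_left, hw2]
  have hQne : ∀ j : ℤ, mk (pt j * v) ≠ mk 1 := fun j e' => by
    rw [hmk, mul_one, inv_mem_iff, hv] at e'
    exact hwH ((Subgroup.mul_mem_cancel_left _ (zpow_mem hτH _)).1
      ((Subgroup.mul_mem_cancel_left _ (hSH (hpt j))).1 e'))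
  have hact : ∀ i : ℤ, mk (v * pt i * v) = mk (pt (-i) * v) := fun i => by
    have h1 : v * pt i * v = (τ ^ i)⁻¹ * (v * pt 0 * v) * τ ^ i := by
      have e1 := hvτ i
      have e2 : (τ ^ i)⁻¹ * v = v * τ ^ i := e1.symm
      rw [show pt i = τ ^ i * pt 0 * (τ ^ i)⁻¹ by rw [hshift, add_zero]]
      calc v * (τ ^ i * pt 0 * (τ ^ i)⁻¹) * v = (v * τ ^ i) * pt 0 * ((τ ^ i)⁻¹ * v) := by group
        _ = ((τ ^ i)⁻¹ * v) * pt 0 * (v * τ ^ i) := congrArg₂ (fun a b => a * pt 0 * b) e1 e2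
        _ = _ := by group
    rw [h1, hmkH _ _ (zpow_mem hτH i), hmkl _ _ _ hv0]
    have h2 : (τ ^ i)⁻¹ * (pt 0 * v) = pt (-i) * v * τ ^ i := by
      rw [show pt (-i) = τ ^ (-i) * pt 0 * (τ ^ (-i))⁻¹ by rw [hshift, add_zero], mul_assoc _ v, hvτ, zpow_neg]
      group
    rw [h2, hmkH _ _ (zpow_mem hτH i)]
  -- the element of order nine
  set z := v * P 1 with hz
  have hz1 : mk z = mk v := hmkH v _ (hSH (hP 1))
  have hstep : ∀ j k : ℤ, P 1 * P j = P k → mk (z * (P j * v)) = mk (P (-k) * v) := fun j k h => by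
    rw [hz, show v * P 1 * (P j * v) = v * (P 1 * P j) * v by group, h]
    simp only [P, hact, mul_neg]
  have r0 := hPrel 0
  have r1 := hPrel 1
  have r5 := hPrel 5
  norm_num at r0 r1 r5
  rw [show (8 : ℤ) = 1 + 7 * 1 by norm_num, hPper] at r5
  have hdP : ∀ i j k : ℤ, P i * P j = P k → P i * P k = P j := fun i j k h => hdiv _ _ _ h
  have hcP : ∀ i j k : ℤ, P i * P j = P k → P j * P i = P k := fun i j k h => by rw [hcomm _ (hP j) _ (hP i), h]
  have g6 : P 1 * P 6 = P 5 := by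
    have := hcP _ _ _ (hdP _ _ _ (hcP _ _ _ r5))
    exact this
  have g2 : P 1 * P 2 = P 4 := r1
  have g3 : P 1 * P 3 = P 0 := hdP _ _ _ (hcP _ _ _ r0)
  have g0 : P 1 * P 0 = P 3 := hcP _ _ _ r0
  have g4 : P 1 * P 4 = P 2 := hdP _ _ _ r1
  have hm : ∀ j j' : ℤ, (∃ k : ℤ, j + 7 * k = j') → P j = P j' := fun j j' ⟨k, h⟩ => by rw [← h, hPper]
  have q1 : mk (z * v) = mk (P 6 * v) := by
    rw [hz, show v * P 1 * v = v * pt (e * 1) * v from rfl, hact, hm 6 (-1) ⟨-1, rfl⟩]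
    simp only [P, mul_neg]
  have q2 : mk (z * (P 6 * v)) = mk (P 2 * v) := by rw [hstep _ _ g6, hm (-5) 2 ⟨1, rfl⟩]
  have q3 : mk (z * (P 2 * v)) = mk (P 3 * v) := by rw [hstep _ _ g2, hm (-4) 3 ⟨1, rfl⟩]
  have q4 : mk (z * (P 3 * v)) = mk (P 0 * v) := by rw [hstep _ _ g3, neg_zero]
  have q5 : mk (z * (P 0 * v)) = mk (P 4 * v) := by rw [hstep _ _ g0, hm (-3) 4 ⟨1, rfl⟩]
  have q6 : mk (z * (P 4 * v)) = mk (P 5 * v) := by rw [hstep _ _ g4, hm (-2) 5 ⟨1, rfl⟩]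
  have s2 : mk (z ^ 2) = mk (P 6 * v) := by rw [pow_two]; exact (hmkl z _ _ hz1).trans q1
  have s3 : mk (z ^ 3) = mk (P 2 * v) := by rw [pow_succ']; exact (hmkl z _ _ s2).trans q2
  have s4 : mk (z ^ 4) = mk (P 3 * v) := by rw [pow_succ']; exact (hmkl z _ _ s3).trans q3
  have s5 : mk (z ^ 5) = mk (P 0 * v) := by rw [pow_succ']; exact (hmkl z _ _ s4).trans q4
  have s6 : mk (z ^ 6) = mk (P 4 * v) := by rw [pow_succ']; exact (hmkl z _ _ s5).trans q5
  have s7 : mk (z ^ 7) = mk (P 5 * v) := by rw [pow_succ']; exact (hmkl z _ _ s6).trans q6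
  have hzne : z ≠ 1 := fun h => by
    rw [h, one_pow] at s2
    exact hQne _ s2.symm
  rcases horder z hzne with h | h | h
  · exact hQne _ (s2.symm.trans (by rw [← h, pow_orderOf_eq_one]))
  · exact hQne _ (s3.symm.trans (by rw [← h, pow_orderOf_eq_one]))
  · exact hQne _ (s7.symm.trans (by rw [← h, pow_orderOf_eq_one]))

end Cfsg.Lib.Solv.FiveHundredFour
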