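import Mathlib

/-! Frobenius' theorem on the number of solutions of `x ^ n = 1` (Isaacs–Robinson proof). -/

set_option autoImplicit false
open scoped Classical

namespace Cfsg.Lib.Solv.FrobDiv

universe u

/-- In `C(u)/⟨u⟩`, coprime solutions correspond bijectively. -/
theorem card_commute_pow_eq_one {G : Type u} [Group G] [Finite G] (u : G) (r : ℕ)
    (hco : (orderOf u).Coprime r)
    (ih : ∀ (H : Type u) [Group H] [Finite H], Nat.card H < Nat.card G → ∀ n, n ∣ Nat.card H →
      n ∣ Nat.card {g : H // g ^ n = 1})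
    (hu : u ≠ 1) (hr : r ∣ Nat.card G) :
    r ∣ (Subgroup.centralizer ({u} : Set G)).index * Nat.card {v : G // Commute v u ∧ v ^ r = 1} := by
  set C := Subgroup.centralizer ({u} : Set G) with hC
  have huC : u ∈ C := Subgroup.mem_centralizer_singleton_iff.2 rfl
  set Z := Subgroup.zpowers (⟨u, huC⟩ : C) with hZ
  haveI : Z.Normal := ⟨fun n hn g => by
    obtain ⟨i, rfl⟩ := hn
    have h : Commute g (⟨u, huC⟩ : C) :=
      Subtype.ext (Subgroup.mem_centralizer_singleton_iff.1 g.2)
    show g * (⟨u, huC⟩ : C) ^ i * g⁻¹ ∈ Z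
    rw [(h.zpow_right i).eq, mul_inv_cancel_right]
    exact ⟨i, rfl⟩⟩
  have hcardZ : Nat.card Z = orderOf u := by
    rw [hZ, Nat.card_zpowers, Subgroup.orderOf_mk]
  have hidx : Nat.card G = C.index * (orderOf u * Nat.card (C ⧸ Z)) := by
    rw [← C.index_mul_card, ← Z.card_mul_index, hcardZ]
    rfl
  have hlt : Nat.card (C ⧸ Z) < Nat.card G := by
    have h2 : 2 ≤ orderOf u := by
      have := orderOf_pos u
      have : orderOf u ≠ 1 := fun h => hu (orderOf_eq_one_iff.1 h)
      omega
    have hC1 : 1 ≤ C.index := Nat.pos_of_ne_zero Subgroup.FiniteIndex.index_ne_zero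
    have hQ : 0 < Nat.card (C ⧸ Z) := Nat.card_pos
    rw [hidx]
    calc Nat.card (C ⧸ Z) = 1 * (1 * Nat.card (C ⧸ Z)) := by ring
      _ < C.index * (orderOf u * Nat.card (C ⧸ Z)) :=
        Nat.mul_lt_mul_of_le_of_lt hC1 (Nat.mul_lt_mul_of_pos_right (by omega) hQ) (by omega)
  obtain ⟨f, hf₁, hf₂⟩ := Nat.chineseRemainder hco 0 1
  -- the bijection
  have hb : Nat.card {v : G // Commute v u ∧ v ^ r = 1} = Nat.card {w : C ⧸ Z // w ^ r = 1} := by
    refine Nat.card_congr (Equiv.ofBijective
      (fun v => ⟨QuotientGroup.mk' Z ⟨v.1, Subgroup.mem_centralizer_singleton_iff.2 v.2.1⟩, by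
        rw [← map_pow]
        exact (congrArg _ (Subtype.ext v.2.2)).trans (map_one _)⟩) ⟨?_, ?_⟩)
    · rintro ⟨a, ha1, ha2⟩ ⟨b, hb1, hb2⟩ h
      obtain ⟨z, ⟨i, hi⟩, hz⟩ := (QuotientGroup.mk'_eq_mk' (N := Z)).1 (congrArg Subtype.val h)
      have hab : a * u ^ i = b := by
        rw [← hi] at hz
        simpa using congrArg Subtype.val hz
      have hui : (u ^ i) ^ r = 1 := by
        rw [← hab, ((ha1.zpow_right i)).mul_pow, ha2, one_mul] at hb2
        exact hb2
      have h1 : u ^ i = 1 := by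
        refine orderOf_eq_one_iff.1 (Nat.eq_one_of_dvd_coprimes hco ?_ (orderOf_dvd_of_pow_eq_one hui))
        exact orderOf_dvd_of_mem_zpowers ⟨i, rfl⟩
      rw [h1, mul_one] at hab
      exact Subtype.ext hab
    · rintro ⟨w, hw⟩
      obtain ⟨x, rfl⟩ := QuotientGroup.mk'_surjective Z w
      have hxr : (x : C) ^ r ∈ Z := by
        rw [← map_pow] at hw
        exact (QuotientGroup.eq_one_iff _).1 hw
      have hxo : (x : C) ^ (r * orderOf u) = 1 := by
        rw [pow_mul]
        exact orderOf_dvd_iff_pow_eq_one.1 (hcardZ ▸ Subgroup.orderOf_dvd_natCard Z hxr)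
      have hfu : orderOf u ∣ f := (Nat.modEq_zero_iff_dvd).1 hf₁
      have hvr : ((x : C) ^ f) ^ r = 1 := by
        obtain ⟨k, rfl⟩ := hfu
        rw [← pow_mul, show orderOf u * k * r = r * orderOf u * k by ring, pow_mul, hxo, one_pow]
      refine ⟨⟨((x ^ f : C) : G), Subgroup.mem_centralizer_singleton_iff.1 (x ^ f).2,
        congrArg Subtype.val hvr⟩, Subtype.ext ?_⟩
      show QuotientGroup.mk' Z (x ^ f) = QuotientGroup.mk' Z x
      rw [map_pow]
      conv_rhs => rw [← pow_one (QuotientGroup.mk' Z x)]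
      exact pow_eq_pow_iff_modEq.2 (hf₂.of_dvd (orderOf_dvd_of_pow_eq_one hw))
  rw [hb]
  have hd : {w : C ⧸ Z | w ^ r = 1} = {w | w ^ (Nat.gcd r (Nat.card (C ⧸ Z))) = 1} := by
    ext w
    constructor
    · intro h; exact pow_gcd_eq_one.2 ⟨h, pow_card_eq_one'⟩
    · intro h; exact (pow_gcd_eq_one.1 h).1
  have hdvd := ih (C ⧸ Z) hlt _ (Nat.gcd_dvd_right r _)
  have hcard : Nat.card {w : C ⧸ Z // w ^ r = 1} =
      Nat.card {w : C ⧸ Z // w ^ (Nat.gcd r (Nat.card (C ⧸ Z))) = 1} :=
    congrArg (fun s : Set (C ⧸ Z) => Nat.card s) hd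
  rw [hcard]
  refine dvd_trans ?_ (mul_dvd_mul_left _ hdvd)
  rw [← Nat.gcd_mul_left]
  refine Nat.dvd_gcd (dvd_mul_left r _) ?_
  rw [hidx, mul_left_comm] at hr
  exact (Nat.Coprime.symm hco).dvd_of_dvd_mul_left hr

theorem card_conj_fibre {G : Type u} [Group G] [Finite G] (u : G) :
    Nat.card {y : G // IsConj u y} = (Subgroup.centralizer ({u} : Set G)).index := by
  have h1 : Nat.card {y : G // IsConj u y} = Nat.card (MulAction.orbit (ConjAct G) u) := by
    apply Nat.card_congr
    apply Equiv.setCongr (s := {y | IsConj u y})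
    ext y
    rw [ConjAct.mem_orbit_conjAct]
    exact ⟨fun h => h.symm, fun h => h.symm⟩
  rw [h1, Nat.card_coe_set_eq, ← MulAction.index_stabilizer, ConjAct.stabilizer_eq_centralizer]
  rfl

theorem frobenius_dvd_aux (m : ℕ) :
    ∀ (G : Type u) [Group G] [Finite G], Nat.card G = m → ∀ n, n ∣ Nat.card G →
      n ∣ Nat.card {g : G // g ^ n = 1} := by
  induction m using Nat.strong_induction_on with
  | _ m ih =>
  intro G _ _ hm
  have IH : ∀ (H : Type u) [Group H] [Finite H], Nat.card H < Nat.card G → ∀ n, n ∣ Nat.card H →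
      n ∣ Nat.card {g : H // g ^ n = 1} := fun H _ _ hlt => ih _ (hm ▸ hlt) H rfl
  clear ih hm
  haveI := Fintype.ofFinite G
  suffices ∀ k n, n * k = Nat.card G → n ∣ Nat.card {g : G // g ^ n = 1} by
    intro n ⟨k, hk⟩; exact this k n hk.symm
  intro k
  induction k using Nat.strong_induction_on with
  | _ k ihk =>
  intro n hn
  rcases eq_or_ne k 1 with rfl | hk1
  · rw [mul_one] at hn
    subst hn
    rw [Nat.card_congr (Equiv.subtypeUnivEquiv fun g => pow_card_eq_one')]
  obtain ⟨p, hp, hpk⟩ := Nat.exists_prime_and_dvd hk1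
  obtain ⟨k', rfl⟩ := hpk
  have hpos : 0 < n * (p * k') := hn ▸ Nat.card_pos
  have hn0 : n ≠ 0 := by rintro rfl; simp at hpos
  have hk'0 : 0 < k' := by rcases Nat.eq_zero_or_pos k' with rfl | h; · simp at hpos
                           · exact h
  have hbig : n * p ∣ Nat.card {g : G // g ^ (n * p) = 1} :=
    ihk k' (lt_mul_of_one_lt_left hk'0 hp.one_lt) (n * p) (by rw [← hn]; ring)
  obtain ⟨a, r, hr, rfl⟩ := Nat.exists_eq_pow_mul_and_not_dvd hn0 p hp.ne_one
  have hcop : (p ^ (a + 1)).Coprime r := ((hp.coprime_iff_not_dvd).2 hr).pow_left _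
  have hnp : p ^ a * r * p = p ^ (a + 1) * r := by rw [pow_succ]; ring
  rw [hnp] at hbig
  set S := Finset.univ.filter fun g : G => g ^ (p ^ (a + 1) * r) = 1 ∧ ¬ g ^ (p ^ a * r) = 1 with hS
  have hsplit : Nat.card {g : G // g ^ (p ^ (a + 1) * r) = 1} =
      Nat.card {g : G // g ^ (p ^ a * r) = 1} + S.card := by
    rw [Nat.card_eq_fintype_card, Fintype.card_subtype, Nat.card_eq_fintype_card,
      Fintype.card_subtype, ← Finset.card_union_of_disjoint]
    · congr 1
      ext g
      simp only [hS, Finset.mem_filter, Finset.mem_univ, true_and, Finset.mem_union]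
      constructor
      · intro h; tauto
      · rintro (h | h)
        · rw [← hnp, pow_mul, h, one_pow]
        · exact h.1
    · rw [Finset.disjoint_filter]; exact fun x _ h1 h2 => h2.2 h1
  suffices p ^ a * r ∣ S.card by
    have h1 : p ^ a * r ∣ Nat.card {g : G // g ^ (p ^ (a + 1) * r) = 1} :=
      dvd_trans ⟨p, hnp.symm⟩ hbig
    rw [hsplit] at h1
    exact (Nat.dvd_add_left this).1 h1
  refine Nat.Coprime.mul_dvd_of_dvd_of_dvd (((hp.coprime_iff_not_dvd).2 hr).pow_left _) ?_ ?_
  · -- generators of the same cyclic subgroup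
    rw [Finset.card_eq_sum_card_image Subgroup.zpowers S]
    refine Finset.dvd_sum fun H hH => ?_
    obtain ⟨x, hxS, rfl⟩ := Finset.mem_image.1 hH
    simp only [hS, Finset.mem_filter, Finset.mem_univ, true_and] at hxS
    have hox : ∀ y : G, Subgroup.zpowers y = Subgroup.zpowers x → orderOf y = orderOf x := fun y h => by
      rw [← Nat.card_zpowers, h, Nat.card_zpowers]
    have hfib : (S.filter fun y => Subgroup.zpowers y = Subgroup.zpowers x).card =
        (orderOf x).totient := by
      haveI : Fintype (Subgroup.zpowers x) := Fintype.ofFinite _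
      rw [← IsCyclic.card_orderOf_eq_totient (α := Subgroup.zpowers x) (d := orderOf x)
        (by rw [← Nat.card_eq_fintype_card, Nat.card_zpowers])]
      refine Finset.card_bij (fun y hy => ⟨y, (Finset.mem_filter.1 hy).2 ▸ Subgroup.mem_zpowers y⟩)
        ?_ ?_ ?_
      · intro y hy
        simp [hox y (Finset.mem_filter.1 hy).2]
      · intro y _ z _ h; exact congrArg Subtype.val h
      · rintro ⟨y, hy⟩ hy'
        simp only [Finset.mem_filter, Finset.mem_univ, true_and, Subgroup.orderOf_mk] at hy'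
        refine ⟨y, Finset.mem_filter.2 ⟨?_, ?_⟩, rfl⟩
        · simp only [hS, Finset.mem_filter, Finset.mem_univ, true_and]
          rw [← orderOf_dvd_iff_pow_eq_one, ← orderOf_dvd_iff_pow_eq_one, hy',
            orderOf_dvd_iff_pow_eq_one, orderOf_dvd_iff_pow_eq_one]
          exact hxS
        · apply Subgroup.eq_of_le_of_card_ge (Subgroup.zpowers_le.2 hy)
          rw [Nat.card_zpowers, Nat.card_zpowers, hy']
    rw [hfib]
    have hpo : p ^ (a + 1) ∣ orderOf x := by
      have h1 := orderOf_dvd_of_pow_eq_one hxS.1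
      obtain ⟨d₁, d₂, hd₁, hd₂, hd⟩ := exists_dvd_and_dvd_of_dvd_mul h1
      obtain ⟨i, hi, rfl⟩ := (Nat.dvd_prime_pow hp).1 hd₁
      rcases Nat.lt_or_ge i (a + 1) with hia | hia
      · exact absurd (orderOf_dvd_iff_pow_eq_one.1
          (hd ▸ mul_dvd_mul (pow_dvd_pow p (Nat.lt_succ_iff.1 hia)) hd₂)) hxS.2
      · rw [hd]; exact dvd_mul_of_dvd_left (pow_dvd_pow p hia) _
    refine dvd_trans ?_ (Nat.totient_dvd_of_dvd hpo)
    rw [Nat.totient_prime_pow_succ hp]
    exact dvd_mul_right _ _
  · -- decomposition into commuting p-part and p'-part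
    set U := Finset.univ.filter fun u : G => orderOf u = p ^ (a + 1) with hU
    set V : G → Finset G := fun u => Finset.univ.filter fun v => Commute v u ∧ v ^ r = 1 with hV
    obtain ⟨e, he₁, he₂⟩ := Nat.chineseRemainder hcop 1 0
    obtain ⟨f, hf₁, hf₂⟩ := Nat.chineseRemainder hcop 0 1
    have hbij : (U.sigma V).card = S.card := by
      refine Finset.card_bij (fun z _ => z.1 * z.2) ?_ ?_ ?_
      · rintro ⟨u, v⟩ hz
        simp only [Finset.mem_sigma, hU, hV, Finset.mem_filter, Finset.mem_univ, true_and] at hz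
        obtain ⟨hu, hvu, hv⟩ := hz
        simp only [hS, Finset.mem_filter, Finset.mem_univ, true_and]
        refine ⟨?_, fun h => ?_⟩
        · rw [hvu.symm.mul_pow, pow_mul, ← hu, pow_orderOf_eq_one, one_pow, one_mul, mul_comm,
            pow_mul, hv, one_pow]
        · rw [hvu.symm.mul_pow, pow_mul v, mul_comm (p ^ a) r] at h
          rw [show (v ^ p ^ a) ^ r = (v ^ r) ^ p ^ a by rw [← pow_mul, ← pow_mul, mul_comm], hv,
            one_pow, mul_one] at h
          have h2 := orderOf_dvd_of_pow_eq_one h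
          rw [hu] at h2
          have h3 : p ^ (a + 1) ∣ p ^ a := hcop.dvd_of_dvd_mul_left h2
          exact absurd ((Nat.pow_dvd_pow_iff_le_right hp.one_lt).1 h3) (by omega)
      · rintro ⟨u₁, v₁⟩ h₁ ⟨u₂, v₂⟩ h₂ h
        simp only [Finset.mem_sigma, hU, hV, Finset.mem_filter, Finset.mem_univ, true_and] at h₁ h₂
        simp only at h
        have key : ∀ u v : G, orderOf u = p ^ (a + 1) → Commute v u → v ^ r = 1 → (u * v) ^ e = u := by
          intro u v hu hvu hv
          have hv' : v ^ e = 1 := by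
            obtain ⟨q, hq⟩ := Nat.modEq_zero_iff_dvd.1 he₂
            rw [hq, pow_mul, hv, one_pow]
          rw [hvu.symm.mul_pow, hv', mul_one]
          conv_rhs => rw [← pow_one u]
          exact pow_eq_pow_iff_modEq.2 (hu ▸ he₁)
        have hu : u₁ = u₂ := by
          rw [← key u₁ v₁ h₁.1 h₁.2.1 h₁.2.2, ← key u₂ v₂ h₂.1 h₂.2.1 h₂.2.2, h]
        subst hu
        rw [mul_left_cancel h]
      · intro x hx
        simp only [hS, Finset.mem_filter, Finset.mem_univ, true_and] at hx
        have hef : x ^ e * x ^ f = x := by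
          rw [← pow_add]
          conv_rhs => rw [← pow_one x]
          refine pow_eq_pow_iff_modEq.2 (Nat.ModEq.of_dvd (orderOf_dvd_of_pow_eq_one hx.1)
            ((Nat.modEq_and_modEq_iff_modEq_mul hcop).1 ⟨?_, ?_⟩))
          · simpa using he₁.add hf₁
          · simpa using he₂.add hf₂
        have hue : (x ^ e) ^ p ^ (a + 1) = 1 := by
          obtain ⟨q, hq⟩ := Nat.modEq_zero_iff_dvd.1 he₂
          rw [← pow_mul, hq, show r * q * p ^ (a + 1) = p ^ (a + 1) * r * q by ring, pow_mul, hx.1,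
            one_pow]
        have hvf : (x ^ f) ^ r = 1 := by
          obtain ⟨q, hq⟩ := Nat.modEq_zero_iff_dvd.1 hf₁
          rw [← pow_mul, hq, show p ^ (a + 1) * q * r = p ^ (a + 1) * r * q by ring, pow_mul, hx.1,
            one_pow]
        haveI := Fact.mk hp
        refine ⟨⟨x ^ e, x ^ f⟩, ?_, hef⟩
        simp only [Finset.mem_sigma, hU, hV, Finset.mem_filter, Finset.mem_univ, true_and]
        refine ⟨orderOf_eq_prime_pow (fun h => hx.2 ?_) hue, (Commute.refl x).pow_pow f e, hvf⟩
        conv_lhs => rw [← hef]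
        rw [((Commute.refl x).pow_pow e f).mul_pow, pow_mul (x ^ e), h, one_pow, one_mul,
          mul_comm, pow_mul, hvf, one_pow]
    rw [← hbij, Finset.card_sigma,
      ← Finset.sum_fiberwise_of_maps_to (g := ConjClasses.mk) (t := U.image ConjClasses.mk)
        (fun u hu => Finset.mem_image_of_mem _ hu)]
    refine Finset.dvd_sum fun c hc => ?_
    obtain ⟨u, hu, rfl⟩ := Finset.mem_image.1 hc
    simp only [hU, Finset.mem_filter, Finset.mem_univ, true_and] at hu
    have hconst : ∀ y ∈ U.filter (fun y => ConjClasses.mk y = ConjClasses.mk u),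
        (V y).card = Nat.card {v : G // Commute v u ∧ v ^ r = 1} := by
      intro y hy
      obtain ⟨g, hg⟩ := isConj_iff.1 (ConjClasses.mk_eq_mk_iff_isConj.1 (Finset.mem_filter.1 hy).2).symm
      rw [← Fintype.card_subtype, ← Nat.card_eq_fintype_card]
      refine (Nat.card_congr ((MulAut.conj g).toEquiv.subtypeEquiv fun v => ?_)).symm
      show _ ↔ Commute (g * v * g⁻¹) y ∧ (g * v * g⁻¹) ^ r = 1
      rw [← hg]
      refine and_congr ?_ ?_
      · rw [Commute, SemiconjBy]
        constructor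
        · intro h
          show g * v * g⁻¹ * (g * u * g⁻¹) = g * u * g⁻¹ * (g * v * g⁻¹)
          calc _ = g * (v * u) * g⁻¹ := by group
            _ = g * (u * v) * g⁻¹ := by rw [h]
            _ = _ := by group
        · intro h
          have h' : g * v * g⁻¹ * (g * u * g⁻¹) = g * u * g⁻¹ * (g * v * g⁻¹) := h
          calc v * u = g⁻¹ * (g * v * g⁻¹ * (g * u * g⁻¹)) * g := by group
            _ = g⁻¹ * (g * u * g⁻¹ * (g * v * g⁻¹)) * g := by rw [h']
            _ = u * v := by group
      · rw [conj_pow]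
        constructor
        · intro h; rw [h]; group
        · intro h
          calc v ^ r = g⁻¹ * (g * v ^ r * g⁻¹) * g := by group
            _ = 1 := by rw [h]; group
    rw [Finset.sum_congr rfl hconst, Finset.sum_const, smul_eq_mul]
    have hfibre : (U.filter fun y => ConjClasses.mk y = ConjClasses.mk u).card =
        (Subgroup.centralizer ({u} : Set G)).index := by
      rw [← card_conj_fibre u, Nat.card_eq_fintype_card, Fintype.card_subtype]
      congr 1
      ext y
      simp only [hU, Finset.mem_filter, Finset.mem_univ, true_and, ConjClasses.mk_eq_mk_iff_isConj]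
      refine ⟨fun h => h.2.symm, fun h => ⟨?_, h.symm⟩⟩
      obtain ⟨g, rfl⟩ := isConj_iff.1 h
      rw [← hu]
      exact (MulAut.conj g).orderOf_eq u
    rw [hfibre]
    refine card_commute_pow_eq_one u r (hu ▸ hcop) IH ?_ ?_
    · rintro rfl
      rw [orderOf_one] at hu
      exact absurd hu.symm (Nat.one_lt_pow (Nat.succ_ne_zero a) hp.one_lt).ne'
    · rw [← hn]
      exact dvd_mul_of_dvd_left (dvd_mul_left r _) _

/-- Frobenius' divisibility theorem. -/
theorem frobenius_dvd {G : Type u} [Group G] [Finite G] (n : ℕ) (h : n ∣ Nat.card G) :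
    n ∣ Nat.card {g : G // g ^ n = 1} :=
  frobenius_dvd_aux (Nat.card G) G rfl n h

end Cfsg.Lib.Solv.FrobDiv
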