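import Mathlib
import Cfsg.Prelude.Def_LocalEven
import Cfsg.Agent.Lib.Solv.HHPLength
import Cfsg.Agent.Lib.PStable.Involve

/-!
# A free orbit of an element of order `p` gives a wreath product section
-/

set_option autoImplicit false

namespace Cfsg.Lib.Solv.HH

open Subgroup

universe u

/-- The wreath product `C_p ≀ C_p` as seen by the statements. -/
def IsWreathCp (p : ℕ) (W : Type) [Group W] : Prop :=
  ∃ (B : Subgroup W) (t : W), B.Normal ∧ IsMulCommutative B ∧ (∀ b ∈ B, b ^ p = 1) ∧ Nat.card B = p ^ p ∧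
    orderOf t = p ∧ t ∉ B ∧ Nat.card W = p ^ (p + 1) ∧
    Nat.card ↥(B ⊓ Subgroup.centralizer ({t} : Set W)) = p

theorem exists_wreath_section {E : Type u} [Group E] [Finite E] {p : ℕ} [Fact p.Prime] (V : Subgroup E)
    [V.Normal] (hab : ∀ a ∈ V, ∀ b ∈ V, a * b = b * a) (hexp : ∀ a ∈ V, a ^ p = 1) (x : E) (hxV : x ∉ V)
    (hxp : x ^ p ∈ V) (v₀ : E) (hv₀ : v₀ ∈ V) (hne : (fun a => x * a * x⁻¹ * a⁻¹)^[p - 1] v₀ ≠ 1) :
    ∃ (W : Type) (_ : Group W) (_ : Finite W), IsWreathCp p W ∧ Cfsg.Involves W E := by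
  classical
  have hp : p.Prime := Fact.out
  letI : CommGroup V :=
    { (inferInstance : Group V) with mul_comm := fun a b => Subtype.ext (hab a a.2 b b.2) }
  haveI : NeZero p := ⟨hp.ne_zero⟩
  letI : Module (ZMod p) (Additive V) :=
    Cfsg.Lib.PStable.zmodOfExp p fun a => Subtype.ext (hexp a a.2)
  set T : Module.End (ZMod p) (Additive V) := Cfsg.Lib.PStable.endHom p (MulAut.conjNormal x) with hT
  let co : Additive V → E := fun a => ((Additive.toMul a : V) : E)
  have co_add : ∀ a b, co (a + b) = co a * co b := fun a b => rfl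
  have co_zero : co 0 = 1 := rfl
  have co_neg : ∀ a, co (-a) = (co a)⁻¹ := fun a => rfl
  have co_inj : ∀ a b, co a = co b → a = b := fun a b h => Additive.toMul.injective (Subtype.ext h)
  have co_mem : ∀ a, co a ∈ V := fun a => (Additive.toMul a).2
  have co_T : ∀ a, co (T a) = x * co a * x⁻¹ := fun a => rfl
  have hTp : T ^ p = 1 := by
    rw [hT, ← map_pow, show (MulAut.conjNormal x : MulAut V) ^ p = 1 from ?_, map_one]
    rw [← map_pow]
    refine MulEquiv.ext fun a => Subtype.ext ?_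
    show x ^ p * (a : E) * (x ^ p)⁻¹ = a
    rw [hab _ hxp _ a.2, mul_inv_cancel_right]
  set D := T - 1 with hD
  have co_D : ∀ a, co (D a) = x * co a * x⁻¹ * (co a)⁻¹ := fun a => by
    rw [hD, LinearMap.sub_apply, Module.End.one_apply, sub_eq_add_neg, co_add, co_neg, co_T]
  have hP : (Polynomial.X - 1 : Polynomial (ZMod p)) ^ p = Polynomial.X ^ p - 1 := by
    rw [sub_pow_char, one_pow]
  have hDp : D ^ p = 0 := by
    have h := congr_arg (Polynomial.aeval T) hP
    rw [map_pow, map_sub, map_sub, map_pow, Polynomial.aeval_X, map_one, hTp, sub_self] at h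
    exact h
  have hnorm : D ^ (p - 1) = ∑ i ∈ Finset.range p, T ^ i := by
    have h1 : (Polynomial.X - 1 : Polynomial (ZMod p)) ^ (p - 1) = ∑ i ∈ Finset.range p, Polynomial.X ^ i := by
      refine mul_right_cancel₀ (b := (Polynomial.X - 1 : Polynomial (ZMod p))) ?_ ?_
      · simpa using Polynomial.X_sub_C_ne_zero (1 : ZMod p)
      · rw [geom_sum_mul, ← pow_succ, Nat.sub_add_cancel hp.one_le, hP]
    have h := congr_arg (Polynomial.aeval T) h1
    simpa using h
  set v : Additive V := Additive.ofMul ⟨v₀, hv₀⟩ with hv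
  set w : ℕ → Additive V := fun k => (D ^ k) v with hw
  have hiter : ∀ k, co (w k) = (fun a => x * a * x⁻¹ * a⁻¹)^[k] v₀ := by
    intro k
    induction k with
    | zero => rfl
    | succ k ih =>
      rw [Function.iterate_succ_apply', ← ih]
      show co ((D ^ (k + 1)) v) = _
      rw [pow_succ', Module.End.mul_apply, co_D]
  have hwlast : w (p - 1) ≠ 0 := fun h => hne (by rw [← hiter, h, co_zero])
  have hwz : ∀ j, p ≤ j → w j = 0 := fun j hj => by
    show (D ^ j) v = 0
    rw [← Nat.sub_add_cancel hj, pow_add, hDp, mul_zero, LinearMap.zero_apply]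
  have hDw : ∀ i j, (D ^ i) (w j) = w (i + j) := fun i j => by
    show (D ^ i) ((D ^ j) v) = (D ^ (i + j)) v
    rw [pow_add, Module.End.mul_apply]
  have core : ∀ (c : Fin p → ZMod p) (k : Fin p), (∀ j < k, c j = 0) →
      (D ^ (p - 1 - k)) (∑ j, c j • w j) = 0 → c k = 0 := by
    intro c k hlt h
    rw [map_sum, Finset.sum_eq_single k (fun j _ hjk => ?_) (by simp), map_smul, hDw,
      show p - 1 - (k : ℕ) + k = p - 1 by omega, smul_eq_zero] at h
    · exact h.resolve_right hwlast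
    · rw [map_smul, hDw]
      rcases lt_or_gt_of_ne hjk with hj | hj
      · rw [hlt j hj, zero_smul]
      · rw [hwz _ (by have : (k : ℕ) < j := hj; omega), smul_zero]
  have li : LinearIndependent (ZMod p) fun k : Fin p => w k := by
    rw [Fintype.linearIndependent_iff]
    intro c hc k
    induction k using WellFoundedLT.induction with
    | ind k ih => exact core c k ih (by rw [hc, map_zero])
  set L := Submodule.span (ZMod p) (Set.range fun k : Fin p => w k) with hL
  have hwL : ∀ k, w k ∈ L := fun k => by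
    by_cases hk : k < p
    · exact Submodule.subset_span ⟨⟨k, hk⟩, rfl⟩
    · rw [hwz k (by omega)]; exact zero_mem _
  have hLcard : Nat.card L = p ^ p := by
    rw [Module.natCard_eq_pow_finrank (K := ZMod p), Nat.card_zmod, hL, finrank_span_eq_card li, Fintype.card_fin]
  have hLD : ∀ a ∈ L, D a ∈ L := by
    intro a ha
    refine (Submodule.span_le (p := L.comap D)).2 ?_ ha
    rintro _ ⟨k, rfl⟩
    show D (w k) ∈ L
    have := hDw 1 k
    rw [pow_one] at this
    rw [this]
    exact hwL _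
  have hLT : ∀ a ∈ L, T a ∈ L := fun a ha => by
    have h : T a = D a + a := by rw [hD, LinearMap.sub_apply, Module.End.one_apply, sub_add_cancel]
    rw [h]
    exact add_mem (hLD a ha) ha
  have hfix : ∀ a ∈ L, D a = 0 → ∃ s : ZMod p, a = s • w (p - 1) := by
    intro a ha hDa
    obtain ⟨c, rfl⟩ := (Submodule.mem_span_range_iff_exists_fun (ZMod p)).1 ha
    have hc : ∀ k : Fin p, (k : ℕ) ≠ p - 1 → c k = 0 := by
      intro k
      induction k using WellFoundedLT.induction with
      | ind k ih =>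
        intro hk
        refine core c k (fun j hj => ih j hj (by have : (j : ℕ) < k := hj; omega)) ?_
        rw [show p - 1 - (k : ℕ) = (p - 2 - k) + 1 by omega, pow_succ, Module.End.mul_apply, hDa, map_zero]
    have hlast : p - 1 < p := by have := hp.pos; omega
    refine ⟨c ⟨p - 1, hlast⟩, Finset.sum_eq_single (⟨p - 1, hlast⟩ : Fin p) (fun j _ hj => ?_) (by simp)⟩
    rw [hc j (fun h => hj (Fin.ext h)), zero_smul]
  -- products along the orbit
  have key : ∀ (a : Additive V) (k : ℕ), (co a * x) ^ k = co (∑ i ∈ Finset.range k, (T ^ i) a) * x ^ k := by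
    intro a k
    induction k with
    | zero => simp [co_zero]
    | succ k ih =>
      rw [pow_succ' _ k, ih, Finset.sum_range_succ', pow_zero, Module.End.one_apply, add_comm, co_add]
      simp_rw [pow_succ' T, Module.End.mul_apply]
      rw [← map_sum T, co_T, pow_succ' x k]
      group
  set c₀ : Additive V := Additive.ofMul ⟨x ^ p, hxp⟩ with hc₀
  have hDc₀ : D c₀ = 0 := co_inj _ _ (by
    rw [co_D, co_zero]
    show x * x ^ p * x⁻¹ * (x ^ p)⁻¹ = 1
    group)
  obtain ⟨y, hyV, hyp, hyx, hdisj⟩ : ∃ y : E, y ∉ V ∧ y ^ p ∈ V ∧ (∀ a ∈ V, y * a * y⁻¹ = x * a * x⁻¹) ∧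
      ∀ a ∈ L, ∀ j : ℤ, co a = (y ^ p) ^ j → a = 0 := by
    by_cases hc : c₀ ∈ L
    · obtain ⟨s, hs⟩ := hfix c₀ hc hDc₀
      refine ⟨co (-(s • v)) * x, fun h => hxV ?_, ?_, fun a ha => ?_, ?_⟩
      · simpa using V.mul_mem (V.inv_mem (co_mem (-(s • v)))) h
      · rw [key]; exact V.mul_mem (co_mem _) hxp
      · have h1 := hab _ (co_mem (-(s • v))) _ (V.mul_mem (V.mul_mem (‹V.Normal›.conj_mem a ha x) (V.one_mem)) V.one_mem)
        simp only [mul_one] at h1
        calc co (-(s • v)) * x * a * (co (-(s • v)) * x)⁻¹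
            = co (-(s • v)) * (x * a * x⁻¹) * (co (-(s • v)))⁻¹ := by group
          _ = x * a * x⁻¹ := by rw [h1, mul_inv_cancel_right]
      · have hy1 : (co (-(s • v)) * x) ^ p = 1 := by
          rw [key, show x ^ p = co c₀ from rfl, ← co_add, ← LinearMap.sum_apply, ← hnorm, map_neg, map_smul]
          show co (-(s • w (p - 1)) + c₀) = 1
          rw [← hs, neg_add_cancel, co_zero]
        intro a _ j h
        rw [hy1, one_zpow, ← co_zero] at h
        exact co_inj _ _ h
    · refine ⟨x, hxV, hxp, fun _ _ => rfl, ?_⟩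
      intro a ha j h
      have h1 : a = (j : ZMod p) • c₀ := by
        rw [Int.cast_smul_eq_zsmul]
        exact co_inj _ _ h
      by_cases hj : (j : ZMod p) = 0
      · rw [h1, hj, zero_smul]
      · exact absurd ((Submodule.smul_mem_iff _ hj).1 (h1 ▸ ha)) hc
  -- the subgroup of the free orbit
  let M : Subgroup E :=
    { carrier := {g | ∃ a ∈ L, co a = g}
      one_mem' := ⟨0, zero_mem _, co_zero⟩
      mul_mem' := by
        rintro _ _ ⟨a, ha, rfl⟩ ⟨b, hb, rfl⟩
        exact ⟨a + b, add_mem ha hb, co_add a b⟩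
      inv_mem' := by
        rintro _ ⟨a, ha, rfl⟩
        exact ⟨-a, neg_mem ha, co_neg a⟩ }
  have hMV : M ≤ V := by
    rintro _ ⟨a, -, rfl⟩
    exact co_mem a
  have hyM : y ∈ Subgroup.normalizer (M : Set E) := by
    refine mem_normalizer_fintype ?_
    rintro _ ⟨a, ha, rfl⟩
    exact ⟨T a, hLT a ha, by rw [co_T, hyx _ (co_mem a)]⟩
  set U := M ⊔ zpowers y with hU
  have hyU : y ∈ U := mem_sup_right (mem_zpowers y)
  set N := zpowers (y ^ p) with hN
  have hNU : ∀ g ∈ U, g * y ^ p = y ^ p * g := by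
    have h1 : U ≤ Subgroup.centralizer ({y ^ p} : Set E) := by
      refine sup_le (fun m hm => ?_) (zpowers_le.2 ?_)
      · rw [mem_centralizer_singleton_iff]
        exact hab m (hMV hm) _ hyp
      · rw [mem_centralizer_singleton_iff]
        exact (Commute.self_pow y p).eq
    exact fun g hg => mem_centralizer_singleton_iff.1 (h1 hg)
  haveI hNn : (N.subgroupOf U).Normal := ⟨fun n hn g => by
    obtain ⟨j, hj⟩ := mem_zpowers_iff.1 (mem_subgroupOf.1 hn)
    refine mem_subgroupOf.2 (mem_zpowers_iff.2 ⟨j, ?_⟩)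
    have hc : Commute (g : E) ((y ^ p) ^ j) := Commute.zpow_right (hNU g g.2) j
    show (y ^ p) ^ j = (g : E) * n * (g : E)⁻¹
    rw [← hj, hc.eq, mul_inv_cancel_right]⟩
  let e : Shrink.{0} (U ⧸ N.subgroupOf U) ≃* U ⧸ N.subgroupOf U := Shrink.mulEquiv
  haveI : Finite (Shrink.{0} (U ⧸ N.subgroupOf U)) := Finite.of_equiv _ (equivShrink _)
  refine ⟨Shrink.{0} (U ⧸ N.subgroupOf U), inferInstance, inferInstance, ?_,
    ⟨U, N, hNn, ⟨e.symm⟩⟩⟩
  let π : U →* Shrink.{0} (U ⧸ N.subgroupOf U) := e.symm.toMonoidHom.comp (QuotientGroup.mk' _)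
  have hπs : Function.Surjective π := e.symm.surjective.comp (QuotientGroup.mk'_surjective _)
  have hπ1 : ∀ g : U, π g = 1 ↔ (g : E) ∈ N := fun g => by
    show e.symm (QuotientGroup.mk' _ g) = 1 ↔ _
    rw [EmbeddingLike.map_eq_one_iff, QuotientGroup.mk'_apply, QuotientGroup.eq_one_iff, mem_subgroupOf]
  have hMN : ∀ m ∈ M, m ∈ N → m = 1 := by
    rintro _ ⟨a, ha, rfl⟩ hm
    obtain ⟨j, hj⟩ := mem_zpowers_iff.1 hm
    rw [hdisj a ha j hj.symm, co_zero]
  set Mu := M.subgroupOf U with hMu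
  set B := Mu.map π with hB
  set t := π ⟨y, hyU⟩ with ht
  have hMu' : Mu.Normal :=
    (normal_subgroupOf_iff_le_normalizer le_sup_left).2 (sup_le le_normalizer (zpowers_le.2 hyM))
  haveI hBn : B.Normal := hMu'.map π hπs
  have htp : t ^ p = 1 := by rw [ht, ← map_pow, hπ1]; exact mem_zpowers (y ^ p)
  have htB : t ∉ B := by
    rintro ⟨m, hm, hmt⟩
    have h1 : π (m⁻¹ * ⟨y, hyU⟩) = 1 := by rw [map_mul, map_inv, hmt, ← ht, inv_mul_cancel]
    rw [hπ1] at h1
    have h2 : (m : E)⁻¹ * y ∈ V := (zpowers_le.2 hyp : N ≤ V) h1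
    exact hyV (by simpa using V.mul_mem (hMV hm) h2)
  have ht1 : t ≠ 1 := fun h => htB (h ▸ B.one_mem)
  have htord : orderOf t = p := orderOf_eq_prime htp ht1
  have hBcard : Nat.card B = p ^ p := by
    rw [← hLcard]
    refine (Nat.card_eq_of_bijective (fun a : L => (⟨π ⟨co (a : Additive V), mem_sup_left ⟨a, a.2, rfl⟩⟩,
      mem_map_of_mem π (show _ ∈ Mu from ⟨a, a.2, rfl⟩)⟩ : B)) ⟨fun a b hab' => ?_, ?_⟩).symm
    · have h0 := congr_arg Subtype.val hab'
      have h1 : π (⟨co (a : Additive V), mem_sup_left ⟨a, a.2, rfl⟩⟩ * (⟨co (b : Additive V), mem_sup_left ⟨b, b.2, rfl⟩⟩ : U)⁻¹) = 1 := by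
        rw [map_mul, map_inv, mul_inv_eq_one]; exact h0
      rw [hπ1] at h1
      have h2 := hMN _ (M.mul_mem ⟨a, a.2, rfl⟩ (M.inv_mem ⟨b, b.2, rfl⟩)) h1
      exact Subtype.ext (co_inj _ _ (mul_inv_eq_one.1 h2))
    · rintro ⟨_, m, ⟨a, ha, ham⟩, rfl⟩
      exact ⟨⟨a, ha⟩, Subtype.ext (congr_arg π (Subtype.ext ham))⟩
  have hBt : B ⊔ zpowers t = ⊤ := by
    have h1 : U ≤ ((B ⊔ zpowers t).comap π).map U.subtype := by
      refine sup_le (fun m hm => ?_) (zpowers_le.2 ⟨⟨y, hyU⟩, mem_sup_right (mem_zpowers t), rfl⟩)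
      exact ⟨⟨m, mem_sup_left hm⟩, mem_sup_left (mem_map_of_mem π (show _ ∈ Mu from hm)), rfl⟩
    refine eq_top_iff.2 fun z _ => ?_
    obtain ⟨g, rfl⟩ := hπs z
    obtain ⟨g', hg', hgg⟩ := h1 g.2
    rwa [← show g' = g from Subtype.ext hgg]
  have hdis : Disjoint B (zpowers t) := by
    rw [disjoint_iff, eq_bot_iff]
    intro z hz
    by_contra hz1
    refine htB ?_
    haveI : Fact (Nat.card (zpowers t)).Prime := ⟨by rw [Nat.card_zpowers, htord]; exact hp⟩
    rcases eq_bot_or_eq_top_of_prime_card (B.subgroupOf (zpowers t)) with h | h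
    · have h1 : (⟨z, hz.2⟩ : zpowers t) ∈ B.subgroupOf (zpowers t) := mem_subgroupOf.2 hz.1
      rw [h, mem_bot] at h1
      exact absurd (mem_bot.2 (congr_arg Subtype.val h1)) hz1
    · have h1 : (⟨t, mem_zpowers t⟩ : zpowers t) ∈ B.subgroupOf (zpowers t) := by rw [h]; exact mem_top _
      exact mem_subgroupOf.1 h1
  have hcompl : IsComplement' B (zpowers t) :=
    isComplement'_of_disjoint_and_mul_eq_univ hdis (by rw [← normal_mul, hBt, coe_top])
  refine ⟨B, t, hBn, ⟨⟨?_⟩⟩, ?_, hBcard, htord, htB, ?_, ?_⟩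
  · rintro ⟨_, m₁, h₁, rfl⟩ ⟨_, m₂, h₂, rfl⟩
    refine Subtype.ext ?_
    show π m₁ * π m₂ = π m₂ * π m₁
    rw [← map_mul, ← map_mul]
    exact congr_arg π (Subtype.ext (hab _ (hMV h₁) _ (hMV h₂)))
  · rintro _ ⟨m, hm, rfl⟩
    rw [← map_pow, show m ^ p = 1 from Subtype.ext (hexp _ (hMV hm)), map_one]
  · rw [← hcompl.card_mul, hBcard, Nat.card_zpowers, htord, pow_succ]
  · have hfx : ∀ a : ZMod p, co (a • w (p - 1)) * y = y * co (a • w (p - 1)) := by
      intro a
      have h1 : co (D (a • w (p - 1))) = 1 := by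
        have h2 := hDw 1 (p - 1)
        rw [pow_one] at h2
        rw [map_smul, h2, hwz _ (by omega), smul_zero, co_zero]
      rw [co_D, mul_inv_eq_one, ← hyx _ (co_mem _)] at h1
      calc co (a • w (p - 1)) * y = y * co (a • w (p - 1)) * y⁻¹ * y := by rw [h1]
        _ = y * co (a • w (p - 1)) := by group
    have hmem : ∀ a : ZMod p, co (a • w (p - 1)) ∈ M := fun a => ⟨_, L.smul_mem a (hwL _), rfl⟩
    calc Nat.card ↥(B ⊓ Subgroup.centralizer ({t} : Set _)) = Nat.card (ZMod p) := by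
          refine (Nat.card_eq_of_bijective (fun a : ZMod p =>
            (⟨π ⟨co (a • w (p - 1)), mem_sup_left (hmem a)⟩, mem_map_of_mem π (show _ ∈ Mu from hmem a), ?_⟩ :
              ↥(B ⊓ Subgroup.centralizer ({t} : Set _)))) ⟨fun a b hab' => ?_, ?_⟩).symm
          · show _ ∈ Subgroup.centralizer ({t} : Set _)
            rw [mem_centralizer_singleton_iff, ht, ← map_mul, ← map_mul]
            exact congr_arg π (Subtype.ext (hfx a))
          · have h0 := congr_arg Subtype.val hab'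
            have h1 : π (⟨_, mem_sup_left (hmem a)⟩ * (⟨_, mem_sup_left (hmem b)⟩ : U)⁻¹) = 1 := by
              rw [map_mul, map_inv, mul_inv_eq_one]; exact h0
            rw [hπ1] at h1
            have h2 := co_inj _ _ (mul_inv_eq_one.1 (hMN _ (M.mul_mem (hmem a) (M.inv_mem (hmem b))) h1))
            exact smul_left_injective (ZMod p) hwlast h2
          · rintro ⟨_, ⟨m, ⟨a, ha, ham⟩, rfl⟩, hc⟩
            have hc' : π m * t = t * π m := mem_centralizer_singleton_iff.1 hc
            have h1 : π (⟨y, hyU⟩ * m * (⟨y, hyU⟩ : U)⁻¹ * m⁻¹) = 1 := by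
              rw [map_mul, map_mul, map_mul, map_inv, map_inv, ← ht, ← hc', mul_inv_cancel_right, mul_inv_cancel]
            rw [hπ1] at h1
            have h2 : y * (m : E) * y⁻¹ * (m : E)⁻¹ ∈ N := h1
            rw [← show co a = (m : E) from ham, hyx _ (co_mem a), ← co_D] at h2
            have h3 : D a = 0 := co_inj _ _ ((hMN _ ⟨D a, hLD a ha, rfl⟩ h2).trans co_zero.symm)
            obtain ⟨s, hs⟩ := hfix a ha h3
            exact ⟨s, Subtype.ext (congr_arg π (Subtype.ext (by show co _ = _; rw [← hs]; exact ham)))⟩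
      _ = p := Nat.card_zmod p

variable {H : Type u} [Group H] [Finite H] {p : ℕ} [Fact p.Prime]

/-- Without a wreath product section, a `p`-element of order `p` modulo the core lies in the core. -/
theorem mem_pCore_of_noWreath (hp2 : p ≠ 2) (hnf : ¬ ∃ k : ℕ, p = 2 ^ k + 1) (hsol : Cfsg.IsPSolvable p H)
    (hO : Cfsg.pPrimeCore p H = ⊥) (S : Subgroup H) (hS : Cfsg.pCore p H ≤ S)
    (hwr : ∀ (W : Type) [Group W] [Finite W], IsWreathCp p W → ¬ Cfsg.Involves W ↥S)
    (x : H) (hxS : x ∈ S) (hxp : x ^ p ∈ Cfsg.pCore p H) : x ∈ Cfsg.pCore p H := by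
  classical
  have hp : p.Prime := Fact.out
  set P₀ := Cfsg.pCore p H with hP₀
  haveI : P₀.Normal := inferInstance
  by_contra hxV
  let q := QuotientGroup.mk' P₀
  have hsolb : Cfsg.IsPSolvable p (H ⧸ P₀) :=
    Cfsg.Lib.PLocal.IsPSolvable.of_surjective _ (QuotientGroup.mk'_surjective P₀) hsol
  have hord : orderOf (q x) = p ^ 1 := by
    rw [pow_one]
    refine orderOf_eq_prime ?_ fun h => hxV ((QuotientGroup.eq_one_iff _).1 h)
    rw [← map_pow]
    exact (QuotientGroup.eq_one_iff _).2 hxp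
  let ψ : H ⧸ P₀ →* Module.End (ZMod p) (Additive (FrattQ p H)) :=
    QuotientGroup.lift P₀ (frattRep p) (frattRep_ker hsol hO).ge
  have hψ : Function.Injective ψ := by
    rw [← MonoidHom.ker_eq_bot_iff, eq_bot_iff]
    intro y hy
    obtain ⟨y, rfl⟩ := QuotientGroup.mk_surjective y
    have h1 : y ∈ (frattRep (G := H) p).ker := hy
    rw [frattRep_ker hsol hO] at h1
    exact mem_bot.2 ((QuotientGroup.eq_one_iff y).2 h1)
  haveI : FiniteDimensional (ZMod p) (Additive (FrattQ p H)) := Module.Finite.of_finite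
  rcases hall_higman_group hsolb (pCore_quotient_eq_bot (G := H) p) ψ hψ (q x) 1 Nat.one_pos hord with
    hdeg | ⟨r, e, m, hr, he, he1, hm, hPe, -, -⟩
  swap
  · obtain rfl : e = 1 := by omega
    rw [pow_one] at hPe
    by_cases hr2 : r = 2
    · exact hnf ⟨m, hr2 ▸ hPe⟩
    · have h1 : Odd (r ^ m) := (hr.odd_of_ne_two hr2).pow
      have h2 : Odd p := hp.odd_of_ne_two hp2
      rw [hPe] at h2
      exact absurd h1 (by simpa [Nat.odd_add_one] using h2)
  set T := ψ (q x) with hT
  set f : Polynomial (ZMod p) := (Polynomial.X - Polynomial.C 1) ^ (p - 1) with hf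
  have hdf : f.natDegree = p - 1 := by rw [hf, Polynomial.natDegree_pow, Polynomial.natDegree_X_sub_C, mul_one]
  obtain ⟨u, hu⟩ : ∃ u, ((T - 1) ^ (p - 1)) u ≠ 0 := by
    by_contra hcon
    push Not at hcon
    have h1 := hdeg f (pow_ne_zero _ (Polynomial.X_sub_C_ne_zero 1))
      (by rw [hf, map_pow, map_sub, Polynomial.aeval_X, map_one Polynomial.C, map_one]; exact LinearMap.ext hcon)
    rw [hdf, pow_one] at h1
    have := hp.pos
    omega
  obtain ⟨a, ha⟩ := QuotientGroup.mk_surjective (Additive.toMul u)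
  rw [show u = Additive.ofMul (a : FrattQ p H) from Additive.toMul.injective ha.symm] at hu
  let g : ↥P₀ → ↥P₀ := fun c => MulAut.conjNormal x c * c⁻¹
  have hTk : ∀ k, ((T - 1) ^ k) (Additive.ofMul (a : FrattQ p H)) =
      Additive.ofMul ((g^[k] a : ↥P₀) : FrattQ p H) := by
    intro k
    induction k with
    | zero => rfl
    | succ k ih =>
      rw [pow_succ', Module.End.mul_apply, ih, Function.iterate_succ_apply', LinearMap.sub_apply,
        Module.End.one_apply, show T (Additive.ofMul ((g^[k] a : ↥P₀) : FrattQ p H)) =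
          Additive.ofMul ((MulAut.conjNormal x (g^[k] a) : ↥P₀) : FrattQ p H) from frattAut_apply p _ _,
        sub_eq_add_neg, ← ofMul_inv, ← ofMul_mul, ← QuotientGroup.mk_inv, ← QuotientGroup.mk_mul]
  -- the section
  set Φ := (frattini ↥P₀).map P₀.subtype with hΦ
  haveI : Φ.Normal := inferInstance
  set N := Φ.subgroupOf S with hN
  haveI : N.Normal := inferInstance
  let mkE := QuotientGroup.mk' N
  let ι : ↥P₀ →* ↥S ⧸ N := mkE.comp (Subgroup.inclusion hS)
  have hι1 : ∀ c : ↥P₀, ι c = 1 ↔ (c : FrattQ p H) = 1 := fun c => by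
    show mkE (Subgroup.inclusion hS c) = 1 ↔ _
    rw [QuotientGroup.mk'_apply, QuotientGroup.eq_one_iff, QuotientGroup.eq_one_iff, hN, mem_subgroupOf]
    exact mem_map_iff_mem P₀.subtype_injective
  have hιc : ∀ c d : ↥P₀, (c : FrattQ p H) = d → ι c = ι d := fun c d h => by
    rw [← mul_inv_eq_one, ← map_inv, ← map_mul, hι1, QuotientGroup.mk_mul, QuotientGroup.mk_inv, h, mul_inv_cancel]
  set V := (P₀.subgroupOf S).map mkE with hV
  haveI : V.Normal := (inferInstance : (P₀.subgroupOf S).Normal).map mkE (QuotientGroup.mk'_surjective N)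
  have hVι : ∀ z ∈ V, ∃ c, ι c = z := by
    rintro _ ⟨c, hc, rfl⟩
    exact ⟨⟨c, hc⟩, rfl⟩
  obtain ⟨W, iW, fW, hW, hinv⟩ := exists_wreath_section (p := p) V
    (by
      intro c hc d hd
      obtain ⟨c, rfl⟩ := hVι c hc
      obtain ⟨d, rfl⟩ := hVι d hd
      rw [← map_mul, ← map_mul]
      exact hιc _ _ (by rw [QuotientGroup.mk_mul, QuotientGroup.mk_mul, mul_comm]))
    (by
      intro c hc
      obtain ⟨c, rfl⟩ := hVι c hc
      rw [← map_pow, hι1]
      exact congr_arg Additive.toMul (ZModModule.char_nsmul_eq_zero p (Additive.ofMul (c : FrattQ p H))))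
    (mkE ⟨x, hxS⟩)
    (by
      intro h
      obtain ⟨c, hc⟩ := hVι _ h
      have h1 : c.1⁻¹ * x ∈ Φ := (QuotientGroup.eq (s := N)).1 hc
      exact hxV (by simpa using P₀.mul_mem c.2 ((map_subtype_le _) h1)))
    (by rw [← map_pow]; exact mem_map_of_mem mkE (show _ ∈ P₀.subgroupOf S from hxp))
    (ι a) (mem_map_of_mem mkE (show _ ∈ P₀.subgroupOf S from a.2))
    (by
      have hsemi : Function.Semiconj ι g (fun z => mkE ⟨x, hxS⟩ * z * (mkE ⟨x, hxS⟩)⁻¹ * z⁻¹) := by
        intro c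
        show ι (MulAut.conjNormal x c * c⁻¹) = mkE ⟨x, hxS⟩ * ι c * (mkE ⟨x, hxS⟩)⁻¹ * (ι c)⁻¹
        rw [map_mul, map_inv]
        congr 1
      rw [← (hsemi.iterate_right (p - 1)).eq, Ne, hι1]
      intro h
      exact hu (by rw [hTk, h]; rfl))
  refine hwr W hW ?_
  obtain ⟨K, R, hn, ⟨e⟩⟩ := hinv
  let r : K.comap mkE →* K ⧸ R.subgroupOf K := (QuotientGroup.mk' (R.subgroupOf K)).comp (mkE.subgroupComap K)
  have hr : Function.Surjective r :=
    (QuotientGroup.mk'_surjective _).comp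
      (MonoidHom.subgroupComap_surjective_of_surjective mkE K (QuotientGroup.mk'_surjective N))
  have hker : r.ker = (R.comap mkE).subgroupOf (K.comap mkE) := by
    ext z
    rw [MonoidHom.mem_ker, MonoidHom.comp_apply, QuotientGroup.mk'_apply, QuotientGroup.eq_one_iff]
    rfl
  have hn' : ((R.comap mkE).subgroupOf (K.comap mkE)).Normal := hker ▸ r.normal_ker
  exact ⟨_, _, hn', ⟨((QuotientGroup.quotientMulEquivOfEq hker.symm).trans
    (QuotientGroup.quotientKerEquivOfSurjective r hr)).trans e⟩⟩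

end Cfsg.Lib.Solv.HH
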