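import Cfsg.Agent.Lib.Solv.Supersolvable2

/-!
Huppert's theorem (all maximal subgroups of prime index) and conjugacy of supersolvable Hall
subgroups.
-/

set_option autoImplicit false

namespace Cfsg.Lib.Solv

open Subgroup
open scoped Pointwise commutatorElement

universe u

theorem exists_eigen_aux {p : ℕ} [Fact p.Prime] {V : Type*} [AddCommGroup V] [Finite V]
    [Nontrivial V] [Module (ZMod p) V] (T : Module.End (ZMod p) V) (hT : T ^ p = T) :
    ∃ v : V, v ≠ 0 ∧ ∃ a : ℕ, T v = a • v := by
  have hz : Polynomial.aeval T (Polynomial.X ^ p - Polynomial.X : Polynomial (ZMod p)) = 0 := by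
    rw [map_sub, map_pow, Polynomial.aeval_X]
    exact sub_eq_zero_of_eq hT
  have hdvd := minpoly.dvd (ZMod p) T hz
  have hsplit : (Polynomial.X ^ p - Polynomial.X : Polynomial (ZMod p)).Splits := by
    have h := FiniteField.roots_X_pow_card_sub_X (ZMod p)
    rw [ZMod.card] at h
    rw [Polynomial.splits_iff_card_roots, h,
      FiniteField.X_pow_card_sub_X_natDegree_eq (ZMod p) (Fact.out : p.Prime).one_lt]
    show (Finset.univ : Finset (ZMod p)).card = p
    rw [Finset.card_univ, ZMod.card]
  have hne : (Polynomial.X ^ p - Polynomial.X : Polynomial (ZMod p)) ≠ 0 :=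
    FiniteField.X_pow_card_sub_X_ne_zero (ZMod p) (Fact.out : p.Prime).one_lt
  obtain ⟨μ, hμ⟩ := Polynomial.Splits.exists_eval_eq_zero (hsplit.of_dvd hne hdvd)
    (minpoly.degree_pos (IsIntegral.of_finite (ZMod p) T)).ne'
  obtain ⟨v, hv⟩ := (Module.End.hasEigenvalue_of_isRoot hμ).exists_hasEigenvector
  refine ⟨v, hv.2, μ.val, ?_⟩
  have h := hv.apply_eq_smul
  rwa [← ZMod.natCast_zmod_val μ, Nat.cast_smul_eq_nsmul] at h

theorem exists_eigen_of_pow {V : Type*} [AddCommGroup V] [Finite V] [Nontrivial V] {p : ℕ}
    [Fact p.Prime] (hp : ∀ v : V, p • v = 0) (T : AddMonoid.End V) (hT : T ^ p = T) :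
    ∃ v : V, v ≠ 0 ∧ ∃ a : ℕ, T v = a • v := by
  let _ := AddCommGroup.zmodModule hp
  let T' : Module.End (ZMod p) V := AddMonoidHom.toZModLinearMap p T
  refine exists_eigen_aux T' (LinearMap.ext fun v => ?_)
  rw [Module.End.pow_apply]
  show (⇑T)^[p] v = T v
  rw [← AddMonoid.End.coe_pow, hT]

variable {G : Type*} [Group G]

/-- An element acting on a minimal normal elementary `p`-subgroup, commuting with the action of the
group and with `(p-1)`-th power acting trivially, acts as a scalar. -/
theorem exists_scalar [Finite G] {p : ℕ} [Fact p.Prime] (N : Subgroup G) [hN : N.Normal]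
    [IsMulCommutative N] (hne : N ≠ ⊥) (hpow : ∀ x ∈ N, x ^ p = 1)
    (hmin : ∀ L : Subgroup G, L.Normal → L ≤ N → L = ⊥ ∨ L = N) (g : G)
    (hg : g ^ (p - 1) ∈ centralizer (N : Set G))
    (hcomm : ∀ h : G, ⁅g, h⁆ ∈ centralizer (N : Set G)) :
    ∃ a : ℕ, ∀ x ∈ N, g * x * g⁻¹ = x ^ a := by
  have hcm : ∀ x y : N, x * y = y * x := fun x y => IsMulCommutative.is_comm.comm x y
  let _ : AddCommGroup (Additive N) :=
    { (inferInstance : AddGroup (Additive N)) with add_comm := fun x y => hcm x.toMul y.toMul }
  let T : AddMonoid.End (Additive N) := AddMonoidHom.mk'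
    (fun w => Additive.ofMul (⟨g * (w.toMul : G) * g⁻¹, hN.conj_mem _ w.toMul.2 g⟩ : N))
    fun x y => by
      apply Additive.toMul.injective; apply Subtype.ext
      show g * ((x.toMul : G) * y.toMul) * g⁻¹ = (g * x.toMul * g⁻¹) * (g * y.toMul * g⁻¹)
      group
  have hTk : ∀ (k : ℕ) (w : Additive N),
      ((((T ^ k) w).toMul : N) : G) = g ^ k * (w.toMul : G) * (g ^ k)⁻¹ := by
    intro k
    induction k with
    | zero => intro w; rw [pow_zero, pow_zero, one_mul, inv_one, mul_one]; rfl
    | succ k ih =>
      intro w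
      rw [pow_succ', pow_succ']
      show g * (((T ^ k) w).toMul : G) * g⁻¹ = _
      rw [ih w]
      group
  have : Nontrivial N := (nontrivial_iff_ne_bot N).2 hne
  have : Nontrivial (Additive N) := Additive.ofMul.symm.injective.nontrivial
  obtain ⟨v, hv, a, hva⟩ := exists_eigen_of_pow (p := p) (V := Additive N)
    (fun w => Additive.toMul.injective (Subtype.ext (by
      show ((w.toMul : N) : G) ^ p = 1
      exact hpow _ w.toMul.2))) T
    (AddMonoidHom.ext fun w => Additive.toMul.injective (Subtype.ext (by
      refine (hTk p w).trans ?_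
      show _ = g * (w.toMul : G) * g⁻¹
      have h1 : g ^ p = g * g ^ (p - 1) := by
        rw [← pow_succ', Nat.sub_add_cancel (Fact.out : p.Prime).pos]
      rw [h1, mul_inv_rev]
      calc g * g ^ (p - 1) * (w.toMul : G) * ((g ^ (p - 1))⁻¹ * g⁻¹)
          = g * (g ^ (p - 1) * (w.toMul : G)) * (g ^ (p - 1))⁻¹ * g⁻¹ := by group
        _ = _ := by rw [← mem_centralizer_iff.1 hg _ w.toMul.2]; group)))
  refine ⟨a, fun x hx => ?_⟩
  let E : Subgroup G :=
    { carrier := {x | x ∈ N ∧ g * x * g⁻¹ = x ^ a}
      one_mem' := ⟨N.one_mem, by simp⟩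
      inv_mem' := fun {x} hx => ⟨N.inv_mem hx.1, by rw [inv_pow, ← hx.2]; group⟩
      mul_mem' := fun {x y} hx hy => ⟨N.mul_mem hx.1 hy.1, by
        rw [(show Commute x y from setLike_mul_comm hx.1 hy.1).mul_pow, ← hx.2, ← hy.2]; group⟩ }
  have hEn : E.Normal := ⟨fun y hy h => ⟨hN.conj_mem y hy.1 h, by
    have hc := mem_centralizer_iff.1 (hcomm h) _ (hN.conj_mem _ (pow_mem hy.1 a) h)
    calc g * (h * y * h⁻¹) * g⁻¹
        = ⁅g, h⁆ * (h * (g * y * g⁻¹) * h⁻¹) * ⁅g, h⁆⁻¹ := by rw [commutatorElement_def]; group
      _ = h * y ^ a * h⁻¹ := by rw [hy.2, ← hc, mul_inv_cancel_right]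
      _ = _ := by rw [← MulAut.conj_apply, map_pow, MulAut.conj_apply]⟩⟩
  have hEne : E ≠ ⊥ := by
    intro h
    have hvE : (v.toMul : G) ∈ E := by
      refine ⟨v.toMul.2, ?_⟩
      have h1 := congrArg (fun z : Additive N => ((z.toMul : N) : G)) hva
      simp only [toMul_nsmul, SubmonoidClass.coe_pow] at h1
      exact h1
    rw [h, mem_bot, OneMemClass.coe_eq_one] at hvE
    exact hv (Additive.toMul.injective hvE)
  have hEN : E = N := (hmin E hEn fun y hy => hy.1).resolve_left hEne
  exact (hEN.ge hx).2

/-- In a supersolvable group `(p-1)`-th powers of `p'`-elements centralize normal `p`-subgroups. -/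
theorem pow_sub_one_centralizes : ∀ (G : Type u) [Group G] [Finite G], Cfsg.IsSupersolvable G →
    ∀ (p : ℕ) [Fact p.Prime] (P : Subgroup G), P.Normal → IsPGroup p P →
      ∀ k : G, (orderOf k).Coprime p → k ^ (p - 1) ∈ centralizer (P : Set G) := by
  refine supersolvable_induction _ (fun G _ _ p _ P _ _ k _ => ?_) ?_
  · rw [Subsingleton.elim (k ^ (p - 1)) 1]; exact one_mem _
  intro G _ _ N hNn _ hNp ih p hp P hPn hPp k hk
  set f := QuotientGroup.mk' N with hf
  set j := k ^ (p - 1) with hj
  have hq : ∀ x ∈ P, ⁅x, j⁆ ∈ N := fun x hx => by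
    have h := ih p (P.map f) (hPn.map f (QuotientGroup.mk'_surjective N)) (hPp.map f) (f k)
      (hk.coprime_dvd_left (orderOf_map_dvd f k))
    refine (QuotientGroup.eq_one_iff _).1 ?_
    show f ⁅x, j⁆ = 1
    rw [map_commutatorElement, commutatorElement_eq_one_iff_commute, hj, map_pow]
    exact mem_centralizer_iff.1 h _ (mem_map_of_mem f hx)
  set A := zpowers j with hA
  have hAP : A ≤ normalizer (P : Set G) := by rw [normalizer_eq_top]; exact le_top
  have hcop : (Nat.card A).Coprime (Nat.card P) := by
    obtain ⟨n, hn⟩ := IsPGroup.iff_card.1 hPp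
    rw [hA, Nat.card_zpowers, hn]
    exact (hk.coprime_dvd_left (orderOf_pow_dvd _)).pow_right n
  have hle : ⁅P, A⁆ ≤ P ⊓ N := by
    refine le_inf (commutator_le_of_normalizes hAP) (commutator_le.2 fun x hx a ha => ?_)
    have hc : ∀ a ∈ A, f a ∈ centralizer ({f x} : Set (G ⧸ N)) := by
      have : A ≤ (centralizer ({f x} : Set (G ⧸ N))).comap f := by
        refine zpowers_le.2 ?_
        rw [mem_comap, mem_centralizer_singleton_iff]
        refine ((commutatorElement_eq_one_iff_commute.1 ?_ : Commute (f x) (f j))).symm.eq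
        rw [← map_commutatorElement]
        exact (QuotientGroup.eq_one_iff _).2 (hq x hx)
      exact fun a ha => this ha
    refine (QuotientGroup.eq_one_iff _).1 ?_
    show f ⁅x, a⁆ = 1
    rw [map_commutatorElement, commutatorElement_eq_one_iff_commute]
    exact (mem_centralizer_singleton_iff.1 (hc a ha)).symm
  suffices h : ⁅P, A⁆ = ⊥ from
    le_centralizer_iff.1 (commutator_eq_bot_iff_le_centralizer.1 h) (mem_zpowers j)
  by_cases hPN : P ⊓ N = ⊥
  · exact le_bot_iff.1 (hle.trans hPN.le)
  have hNP : N ≤ P := by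
    rcases hNp.eq_one_or_self_of_dvd _ (card_dvd_of_le (inf_le_right : P ⊓ N ≤ N)) with h | h
    · exact absurd (eq_bot_of_card_eq _ h) hPN
    · exact (eq_of_le_of_card_ge (inf_le_right : P ⊓ N ≤ N) h.ge).ge.trans inf_le_left
  have hcard : Nat.card N = p := by
    obtain ⟨n, hn⟩ := IsPGroup.iff_card.1 hPp
    exact (Nat.prime_dvd_prime_iff_eq hNp hp.out).1
      (hNp.dvd_of_dvd_pow (hn ▸ card_dvd_of_le hNP))
  have hjN : j ∈ centralizer (N : Set G) := by
    rw [mem_centralizer_iff]
    intro c hc
    by_cases hc1 : c = 1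
    · rw [hc1, one_mul, mul_one]
    have hco : orderOf c = p := by
      rcases hp.out.eq_one_or_self_of_dvd _ (hcard ▸ Subgroup.orderOf_dvd_natCard N hc) with h | h
      · exact absurd (orderOf_eq_one_iff.1 h) hc1
      · exact h
    have hgen : zpowers c = N := eq_of_le_of_card_ge (zpowers_le.2 hc)
      (by rw [Nat.card_zpowers, hco, hcard])
    obtain ⟨a, ha⟩ : ∃ a : ℕ, c ^ a = k * c * k⁻¹ := by
      have h := hNn.conj_mem c hc k
      rw [← hgen, mem_zpowers_iff] at h
      obtain ⟨z, hz⟩ := h
      refine ⟨(z % (orderOf c : ℤ)).toNat, ?_⟩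
      rw [← zpow_natCast, Int.toNat_of_nonneg (Int.emod_nonneg _ (by rw [hco]; exact_mod_cast hp.out.ne_zero)),
        zpow_mod_orderOf, hz]
    have hiter : ∀ i : ℕ, k ^ i * c * (k ^ i)⁻¹ = c ^ (a ^ i) := by
      intro i
      induction i with
      | zero => simp
      | succ i ih =>
        calc k ^ (i + 1) * c * (k ^ (i + 1))⁻¹ = k * (k ^ i * c * (k ^ i)⁻¹) * k⁻¹ := by
              rw [pow_succ']; group
          _ = (k * c * k⁻¹) ^ (a ^ i) := by rw [ih, ← MulAut.conj_apply, map_pow, MulAut.conj_apply]
          _ = _ := by rw [← ha, ← pow_mul, ← pow_succ']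
    have hmod : a ^ (p - 1) ≡ 1 [MOD p] := by
      rw [← ZMod.natCast_eq_natCast_iff, Nat.cast_pow, Nat.cast_one]
      refine ZMod.pow_card_sub_one_eq_one fun h0 => hc1 ?_
      rw [ZMod.natCast_eq_zero_iff] at h0
      have h1 : k * c * k⁻¹ = 1 := by
        rw [← ha]; exact orderOf_dvd_iff_pow_eq_one.1 (hco ▸ h0)
      exact MulAut.conj k |>.injective (by simpa using h1)
    have h2 : j * c * j⁻¹ = c := by
      rw [hj, hiter]
      conv_rhs => rw [← pow_one c]
      rwa [pow_eq_pow_iff_modEq, hco]
    exact (mul_inv_eq_iff_eq_mul.1 h2).symm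
  have h2 : ⁅⁅P, A⁆, A⁆ = ⊥ := by
    refine commutator_eq_bot_iff_le_centralizer.2 ((hle.trans inf_le_right).trans ?_)
    exact le_centralizer_iff.1 (zpowers_le.2 hjN)
  have hPs : Group.IsSolvable P := by have := hPp.isNilpotent; infer_instance
  rwa [commutator_commutator_eq A P hAP hcop (Or.inr hPs)] at h2

theorem coatom_quotient {N : Subgroup G} [N.Normal] {M : Subgroup (G ⧸ N)} (hM : IsCoatom M) :
    IsCoatom (M.comap (QuotientGroup.mk' N)) := by
  have hsurj := QuotientGroup.mk'_surjective N
  refine ⟨fun h => hM.1 ?_, fun B hB => ?_⟩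
  · rw [← map_comap_eq_self_of_surjective hsurj M, h, map_top_of_surjective _ hsurj]
  · have hNB : N ≤ B := by
      have h := ker_le_comap (QuotientGroup.mk' N) M
      rw [QuotientGroup.ker_mk'] at h
      exact h.trans hB.le
    have hc : comap (QuotientGroup.mk' N) (B.map (QuotientGroup.mk' N)) = B := by
      rw [comap_map_eq, QuotientGroup.ker_mk', sup_eq_left.2 hNB]
    have h2 : M < B.map (QuotientGroup.mk' N) := by
      rw [← comap_lt_comap_of_surjective hsurj, hc]; exact hB
    rw [← hc, hM.2 _ h2, comap_top]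

/-- Huppert: if all maximal subgroups have prime index, the group is supersolvable. -/
theorem huppert : ∀ (n : ℕ) (G : Type u) [Group G] [Finite G], Nat.card G ≤ n →
    (∀ M : Subgroup G, IsCoatom M → M.index.Prime) → Cfsg.IsSupersolvable G := by
  intro n
  induction n with
  | zero => intro G _ _ hn; exact absurd hn (Nat.not_le.2 Nat.card_pos)
  | succ n ih =>
    intro G _ _ hn h
    by_cases hs : Subsingleton G
    · exact isSupersolvable_of_subsingleton
    have : Nontrivial G := not_subsingleton_iff_nontrivial.1 hs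
    have hquot : ∀ (L : Subgroup G) [L.Normal], L ≠ ⊥ → Cfsg.IsSupersolvable (G ⧸ L) :=
      fun L _ hL => ih (G ⧸ L) (by have := card_quotient_lt L hL; omega) fun M hM => by
        rw [← index_comap_of_surjective M (QuotientGroup.mk'_surjective L)]
        exact h _ (coatom_quotient hM)
    have h1 : (Nat.card G).primeFactors.Nonempty := Nat.nonempty_primeFactors.2 Finite.one_lt_card
    set p := (Nat.card G).primeFactors.max' h1
    have hpm : p ∈ (Nat.card G).primeFactors := Finset.max'_mem _ h1
    have hp := Fact.mk (Nat.prime_of_mem_primeFactors hpm)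
    obtain ⟨P⟩ := (inferInstance : Nonempty (Sylow p G))
    have hPne : (P : Subgroup G) ≠ ⊥ := P.ne_bot_of_dvd_card (Nat.dvd_of_mem_primeFactors hpm)
    have hPn : (P : Subgroup G).Normal := by
      rw [← normalizer_eq_top_iff]
      by_contra hne
      obtain ⟨M, hM, hle⟩ := (eq_top_or_exists_le_coatom _).resolve_left hne
      have hq := h M hM
      have hPM : (P : Subgroup G) ≤ M := le_normalizer.trans hle
      have hMsyl : Nat.card (Sylow p M) = (normalizer ((P : Subgroup G) : Set G)).relIndex M := by
        rw [(P.subtype hPM).card_eq_index_normalizer, relIndex]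
        congr 1
        ext x
        show x ∈ normalizer (((P.subtype hPM : Sylow p M) : Subgroup M) : Set M) ↔ _
        rw [Sylow.coe_subtype, mem_subgroupOf, ← conj_smul_eq_self_iff, ← conj_smul_eq_self_iff]
        constructor
        · intro hx
          have h2 := congrArg (Subgroup.map M.subtype) hx
          rwa [map_conj_smul, subgroupOf_map_subtype, inf_eq_left.2 hPM] at h2
        · intro hx
          apply map_injective M.subtype_injective
          rwa [map_conj_smul, subgroupOf_map_subtype, inf_eq_left.2 hPM]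
      have hmodG := card_sylow_modEq_one p G
      have hmodM := card_sylow_modEq_one p M
      have hPi : Nat.card (Sylow p G) = (normalizer ((P : Subgroup G) : Set G)).index :=
        P.card_eq_index_normalizer
      rw [hPi, ← relIndex_mul_index hle] at hmodG
      rw [hMsyl] at hmodM
      have hq1 : M.index ≡ 1 [MOD p] := by
        have h2 := (hmodM.mul_right M.index).symm.trans hmodG
        rwa [one_mul] at h2
      have hle' : M.index ≤ p := Finset.le_max' _ _
        (Nat.mem_primeFactors.2 ⟨hq, index_dvd_card M, Nat.card_pos.ne'⟩)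
      rcases hle'.lt_or_eq with hlt | he
      · rw [Nat.ModEq, Nat.mod_eq_of_lt hlt, Nat.mod_eq_of_lt hp.out.one_lt] at hq1
        exact hq.ne_one hq1
      · rw [he, Nat.ModEq, Nat.mod_self, Nat.mod_eq_of_lt hp.out.one_lt] at hq1
        exact zero_ne_one hq1
    obtain ⟨N, hNn, hNP, hNne, hNmin⟩ := exists_minimal_normal_le hPne
    have hPs : Group.IsSolvable (P : Subgroup G) := by
      have := P.isPGroup'.isNilpotent; infer_instance
    obtain ⟨hNc, r, hr, -, hNpow'⟩ := minimal_normal_elementary hNne (solvable_of_le hNP hPs) hNmin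
    have hNpow : ∀ x ∈ N, x ^ p = 1 := by
      intro x hx
      by_cases hx1 : x = 1
      · rw [hx1, one_pow]
      have hxr : orderOf x = r := (hr.eq_one_or_self_of_dvd _
        (orderOf_dvd_of_pow_eq_one (hNpow' x hx))).resolve_left
        fun h => hx1 (orderOf_eq_one_iff.1 h)
      obtain ⟨i, hi⟩ := IsPGroup.iff_orderOf.1 P.isPGroup' ⟨x, hNP hx⟩
      rw [Subgroup.orderOf_mk, hxr] at hi
      have hrp : r = p := (Nat.prime_dvd_prime_iff_eq hr hp.out).1 (hr.dvd_of_dvd_pow (dvd_of_eq hi))
      exact hrp ▸ hNpow' x hx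
    have hNss := hquot N hNne
    by_cases hcyc : (Nat.card N).Prime
    · have := isCyclic_of_card_prime hcyc
      exact isSupersolvable_of_cyclic_normal N hNss
    -- `N` lies in the Frattini subgroup
    have hNΦ : N ≤ frattini G := fun x hx => by
      rw [mem_frattini_iff]
      intro M hM
      by_contra hxM
      have htop : M ⊔ N = ⊤ := hM.2 _ (lt_of_le_of_ne le_sup_left fun e => hxM (e ▸ mem_sup_right hx))
      have hn' : (M ⊓ N).Normal := by
        rw [← normalizer_eq_top_iff, ← top_le_iff, ← htop]
        refine sup_le (fun m hm => ?_) fun y hy => ?_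
        · rw [← conj_smul_eq_self_iff, smul_inf, conj_smul_eq_self_iff.2 (le_normalizer hm),
            conj_smul_normal]
        · exact normalizer_eq_of_centralizes
            (mem_centralizer_iff.2 fun z hz => setLike_mul_comm hz.2 hy)
      have hbot : M ⊓ N = ⊥ := (hNmin _ hn' inf_le_right).resolve_right
        fun e => hxM ((e ▸ inf_le_left : N ≤ M) hx)
      refine hcyc ?_
      have e : M.index = Nat.card N := by
        rw [← relIndex_bot_left, ← hbot, inf_relIndex_right, ← relIndex_sup_left_normal M N, htop,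
          relIndex_top_right]
      exact e ▸ h M hM
    -- `N` is the unique minimal normal subgroup
    have huniq : ∀ L : Subgroup G, L.Normal → L ≠ ⊥ → N ≤ L ∨ Cfsg.IsSupersolvable G := by
      intro L hL hLne
      by_cases hle : N ≤ L
      · exact Or.inl hle
      right
      have hd : N ⊓ L = ⊥ := (hNmin _ inferInstance inf_le_left).resolve_right
        fun e => hle (e ▸ inf_le_right)
      refine isSupersolvable_of_injective ((QuotientGroup.mk' N).prod (QuotientGroup.mk' L)) ?_
        (isSupersolvable_prod hNss (hquot L hLne))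
      rw [← MonoidHom.ker_eq_bot_iff, eq_bot_iff]
      intro x hx
      rw [← hd]
      exact ⟨(QuotientGroup.eq_one_iff x).1 (congrArg Prod.fst hx),
        (QuotientGroup.eq_one_iff x).1 (congrArg Prod.snd hx)⟩
    by_cases hpp : Cfsg.pPrimeCore p G = ⊥
    swap
    · rcases huniq _ inferInstance hpp with hle | hh
      · exfalso
        obtain ⟨x, hx, hx1⟩ := N.bot_or_exists_ne_one.resolve_left hNne
        have h2 : orderOf x = p := (hp.out.eq_one_or_self_of_dvd _
          (orderOf_dvd_of_pow_eq_one (hNpow x hx))).resolve_left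
          fun h => hx1 (orderOf_eq_one_iff.1 h)
        exact hp.out.ne_one (Nat.eq_one_of_dvd_coprimes (coprime_pPrimeCore p)
          (h2 ▸ Subgroup.orderOf_dvd_natCard _ (hle hx)) dvd_rfl)
      · exact hh
    have hGs : Group.IsSolvable G :=
      have := solvable_of_supersolvable _ hNss
      have : Group.IsSolvable N := solvable_of_le hNP hPs
      Group.isSolvable_of_ker_le_range N.subtype (QuotientGroup.mk' N) (by simp)
    have hcore : Cfsg.pCore p G = (P : Subgroup G) :=
      le_antisymm (pCore_le_sylow p P) (le_pCore hPn P.isPGroup')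
    have hCP : centralizer ((P : Subgroup G) : Set G) ≤ P := by
      have h2 := centralizer_pCore_le p hpp
      rwa [hcore] at h2
    have hF : Cfsg.fittingSubgroup G = (P : Subgroup G) := (fitting_eq_pCore p hpp).trans hcore
    have hPN : (P : Subgroup G) ≤ centralizer (N : Set G) := hF ▸ fitting_le_centralizer_minimal hNmin
    set f := QuotientGroup.mk' N with hf
    have hsurj : Function.Surjective f := QuotientGroup.mk'_surjective N
    have hG' : _root_.commutator G ≤ (P : Subgroup G) := by
      set A := _root_.commutator G ⊔ N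
      have hnil : Group.IsNilpotent (↥A ⧸ N.subgroupOf A) := by
        have := commutator_nilpotent_of_supersolvable _ hNss
        let ψ := QuotientGroup.map (N.subgroupOf A) N A.subtype le_rfl
        have hr : ∀ z, ψ z ∈ _root_.commutator (G ⧸ N) := by
          intro z
          obtain ⟨a, rfl⟩ := QuotientGroup.mk'_surjective (N.subgroupOf A) z
          have h2 : A.map f ≤ _root_.commutator (G ⧸ N) := by
            rw [Subgroup.map_sup, hf, QuotientGroup.map_mk'_self, sup_bot_eq,
              _root_.commutator_def, _root_.commutator_def, map_commutator,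
              map_top_of_surjective _ hsurj]
          exact h2 ⟨a, a.2, rfl⟩
        refine Subgroup.isNilpotent_of_ker_le_center (ψ.codRestrict _ hr) fun z hz => ?_
        obtain ⟨a, rfl⟩ := QuotientGroup.mk'_surjective (N.subgroupOf A) z
        have h2 : (a : G) ∈ N := (QuotientGroup.eq_one_iff _).1 (congrArg Subtype.val hz)
        have h3 : QuotientGroup.mk' (N.subgroupOf A) a = 1 :=
          (QuotientGroup.eq_one_iff a).2 h2
        rw [h3]
        exact one_mem _
      have hA : Group.IsNilpotent A :=
        nilpotent_of_quotient_nilpotent A N le_sup_right hNΦ hnil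
      exact le_sup_left.trans ((le_fitting inferInstance hA).trans hF.le)
    obtain ⟨K, hK⟩ := exists_right_complement'_of_coprime (N := (P : Subgroup G)) P.card_coprime_index
    have hKcard : Nat.card K = (P : Subgroup G).index := hK.symm.index_eq_card.symm
    have hKab : ∀ k ∈ K, ∀ l ∈ K, Commute k l := fun k hk l hl => by
      refine commutatorElement_eq_one_iff_commute.1 ?_
      have h2 : ⁅k, l⁆ ∈ (P : Subgroup G) ⊓ K :=
        ⟨hG' (commutator_mem_commutator (mem_top k) (mem_top l)),
          K.mul_mem (K.mul_mem (K.mul_mem hk hl) (K.inv_mem hk)) (K.inv_mem hl)⟩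
      rwa [hK.disjoint.eq_bot, mem_bot] at h2
    have hexp : ∀ k ∈ K, k ^ (p - 1) = 1 := by
      intro k hk
      have hko : (orderOf k).Coprime p :=
        ((hp.out.coprime_iff_not_dvd.2 P.not_dvd_index).symm).coprime_dvd_left
          (hKcard ▸ Subgroup.orderOf_dvd_natCard K hk)
      set j := k ^ (p - 1) with hj
      have hjK : j ∈ K := K.pow_mem hk _
      have hc := pow_sub_one_centralizes _ hNss p ((P : Subgroup G).map f) (hPn.map f hsurj)
        (P.isPGroup'.map f) (f k) (hko.coprime_dvd_left (orderOf_map_dvd f k))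
      set A := zpowers j with hA
      have hAP : A ≤ normalizer ((P : Subgroup G) : Set G) := by rw [normalizer_eq_top]; exact le_top
      have hcop : (Nat.card A).Coprime (Nat.card (P : Subgroup G)) :=
        ((hKcard ▸ P.card_coprime_index : (Nat.card (P : Subgroup G)).Coprime (Nat.card K)).symm
          ).coprime_dvd_left (card_dvd_of_le (zpowers_le.2 hjK))
      have hle : ⁅(P : Subgroup G), A⁆ ≤ frattini G := by
        refine le_trans (commutator_le.2 fun x hx a ha => ?_) hNΦ
        refine (QuotientGroup.eq_one_iff _).1 ?_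
        show f ⁅x, a⁆ = 1
        rw [map_commutatorElement, commutatorElement_eq_one_iff_commute]
        have : A ≤ (centralizer ({f x} : Set (G ⧸ N))).comap f := by
          refine zpowers_le.2 ?_
          rw [mem_comap, mem_centralizer_singleton_iff, hj, map_pow]
          exact (mem_centralizer_iff.1 hc _ (mem_map_of_mem f hx)).symm
        exact (mem_centralizer_singleton_iff.1 (this ha)).symm
      set C := (P : Subgroup G) ⊓ centralizer (A : Set G) with hC
      have hdec := commutator_sup_centralizer A (P : Subgroup G) hAP hcop (Or.inr hPs)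
      have htop : C ⊔ K = ⊤ := by
        refine frattini_nongenerating (top_le_iff.1 ?_)
        rw [← hK.sup_eq_top, ← hdec]
        exact sup_le (sup_le (hle.trans le_sup_right) (le_sup_of_le_left le_sup_left))
          (le_sup_of_le_left le_sup_right)
      have hKC : ∀ l ∈ K, ∀ c ∈ C, l * c * l⁻¹ ∈ C := fun l hl c hc' => by
        refine ⟨hPn.conj_mem c hc'.1 l, mem_centralizer_iff.2 fun a ha => ?_⟩
        have e1 : Commute a l := hKab a (zpowers_le.2 hjK ha) l hl
        have e2 : Commute a c := mem_centralizer_iff.1 hc'.2 a ha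
        exact ((e1.mul_right e2).mul_right e1.inv_right).eq
      have hset : (C : Set G) * K = (K : Set G) * C := by
        ext z
        constructor
        · rintro ⟨c, hc', l, hl, rfl⟩
          refine ⟨l, hl, l⁻¹ * c * l, ?_, by group⟩
          simpa using hKC l⁻¹ (K.inv_mem hl) c hc'
        · rintro ⟨l, hl, c, hc', rfl⟩
          exact ⟨l * c * l⁻¹, hKC l hl c hc', l, hl, by group⟩
      have hPC : (P : Subgroup G) ≤ centralizer (A : Set G) := by
        intro x hx
        have h2 : x ∈ ((C ⊔ K : Subgroup G) : Set G) := htop.ge (mem_top x)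
        rw [coe_sup_of_mul_comm hset] at h2
        obtain ⟨c, hc', l, hl, rfl⟩ := h2
        have h3 : l ∈ (P : Subgroup G) ⊓ K := ⟨by
          have := (P : Subgroup G).mul_mem ((P : Subgroup G).inv_mem hc'.1) hx
          rwa [inv_mul_cancel_left] at this, hl⟩
        rw [hK.disjoint.eq_bot, mem_bot] at h3
        simp only [h3, mul_one]
        exact hc'.2
      have h4 : j ∈ (P : Subgroup G) ⊓ K := ⟨hCP (le_centralizer_iff.1 hPC (mem_zpowers j)), hjK⟩
      rwa [hK.disjoint.eq_bot, mem_bot] at h4
    have hscal : ∀ g : G, ∃ a : ℕ, ∀ x ∈ N, g * x * g⁻¹ = x ^ a := by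
      intro g
      refine exists_scalar (p := p) N hNne hNpow hNmin g (hPN ?_)
        fun l => hPN (hG' (commutator_mem_commutator (mem_top g) (mem_top l)))
      refine (QuotientGroup.eq_one_iff _).1 ?_
      obtain ⟨x, hx, k, hk, rfl⟩ := mem_sup_of_normal_left.1 (hK.sup_eq_top.ge (mem_top g))
      show QuotientGroup.mk' (P : Subgroup G) ((x * k) ^ (p - 1)) = 1
      rw [map_pow, map_mul, show QuotientGroup.mk' (P : Subgroup G) x = 1 from
        (QuotientGroup.eq_one_iff x).2 hx, one_mul, ← map_pow, hexp k hk, map_one]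
    obtain ⟨z, hz, hz1⟩ := N.bot_or_exists_ne_one.resolve_left hNne
    have hzn : (zpowers z).Normal := ⟨fun y hy g => by
      obtain ⟨a, ha⟩ := hscal g
      rw [ha y (zpowers_le.2 hz hy)]
      exact pow_mem hy a⟩
    have hzN : zpowers z = N := (hNmin _ hzn (zpowers_le.2 hz)).resolve_left (by simpa using hz1)
    refine absurd ?_ hcyc
    rw [← hzN, Nat.card_zpowers, (hp.out.eq_one_or_self_of_dvd _
      (orderOf_dvd_of_pow_eq_one (hNpow z hz))).resolve_left fun h => hz1 (orderOf_eq_one_iff.1 h)]
    exact hp.out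

/-- Supersolvable Hall subgroups of equal order are conjugate. -/
theorem supersolvable_hall_conj : ∀ (n : ℕ) (G : Type u) [Group G] [Finite G], Nat.card G ≤ n →
    ∀ H K : Subgroup G, Cfsg.IsSupersolvable H → Cfsg.IsSupersolvable K →
      Nat.card H = Nat.card K → (Nat.card H).Coprime H.index →
      ∃ x : G, MulAut.conj x • H = K := by
  intro n
  induction n with
  | zero => intro G _ _ hn; exact absurd hn (Nat.not_le.2 Nat.card_pos)
  | succ n ih =>
    intro G _ _ hn H K hH hK hcard hHall
    by_cases hb : Nat.card H = 1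
    · refine ⟨1, ?_⟩
      rw [eq_bot_of_card_eq H hb, eq_bot_of_card_eq K (hcard ▸ hb), map_one, one_smul]
    have h1 : (Nat.card H).primeFactors.Nonempty :=
      Nat.nonempty_primeFactors.2 (by have := Nat.card_pos (α := H); omega)
    set p := (Nat.card H).primeFactors.max' h1
    have hpm : p ∈ (Nat.card H).primeFactors := Finset.max'_mem _ h1
    have hp := Fact.mk (Nat.prime_of_mem_primeFactors hpm)
    have hKidx : K.index = H.index := by
      refine Nat.eq_of_mul_eq_mul_left (Nat.card_pos (α := K)) ?_
      rw [card_mul_index, ← hcard, card_mul_index]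
    have key : ∀ L : Subgroup G, Cfsg.IsSupersolvable L → Nat.card L = Nat.card H → L.index = H.index →
        ∃ S : Sylow p G, (S : Subgroup G) ≤ L ∧ L ≤ normalizer ((S : Subgroup G) : Set G) := by
      intro L hL hLc hLi
      obtain ⟨P⟩ := (inferInstance : Nonempty (Sylow p L))
      have hPn := sylow_normal_of_supersolvable L hL p (fun q hq hd =>
        Finset.le_max' _ q (Nat.mem_primeFactors.2 ⟨hq, hLc ▸ hd, Nat.card_pos.ne'⟩)) P
      have hidx : ¬ p ∣ ((P : Subgroup L).map L.subtype).index := by
        rw [index_map_subtype]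
        intro hd
        rcases (Nat.Prime.dvd_mul hp.out).1 hd with h | h
        · exact P.not_dvd_index h
        · exact hp.out.ne_one (Nat.eq_one_of_dvd_coprimes hHall
            (Nat.dvd_of_mem_primeFactors hpm) (hLi ▸ h))
      refine ⟨(P.isPGroup'.map L.subtype).toSylow hidx, ?_, ?_⟩
      · rw [IsPGroup.toSylow_coe]; exact map_subtype_le _
      · rw [IsPGroup.toSylow_coe]
        refine (normal_subgroupOf_iff_le_normalizer (map_subtype_le _)).1 ?_
        show (((P : Subgroup L).map L.subtype).comap L.subtype).Normal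
        rw [comap_map_eq_self_of_injective L.subtype_injective]
        exact hPn
    obtain ⟨S, hSH, hHS⟩ := key H hH rfl rfl
    obtain ⟨T, hTK, hKT⟩ := key K hK hcard.symm hKidx
    obtain ⟨x, hx⟩ := MulAction.exists_smul_eq G S T
    set H' := MulAut.conj x • H with hH'
    have hTH' : (T : Subgroup G) ≤ H' := by
      rw [← hx, Sylow.coe_subgroup_smul]
      exact smul_le_smul_left _ hSH
    have hH'T : H' ≤ normalizer ((T : Subgroup G) : Set G) := by
      rw [← hx, Sylow.coe_subgroup_smul]
      exact mem_normalizer_conj_smul hHS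
    have hH'ss : Cfsg.IsSupersolvable H' :=
      isSupersolvable_of_equiv (H.equivMapOfInjective _ (MulAut.conj x).injective) hH
    set N := normalizer ((T : Subgroup G) : Set G) with hN
    have hTn : ((T : Subgroup G).subgroupOf N).Normal :=
      (normal_subgroupOf_iff_le_normalizer le_normalizer).2 le_rfl
    set f := QuotientGroup.mk' ((T : Subgroup G).subgroupOf N) with hf
    have hsurj : Function.Surjective f := QuotientGroup.mk'_surjective _
    have hlt : Nat.card (↥N ⧸ (T : Subgroup G).subgroupOf N) ≤ n := by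
      have h3 : (T : Subgroup G).subgroupOf N ≠ ⊥ := by
        rw [ne_eq, subgroupOf_eq_bot, disjoint_iff, inf_eq_left.2 le_normalizer]
        refine T.ne_bot_of_dvd_card ((Nat.dvd_of_mem_primeFactors hpm).trans (card_subgroup_dvd_card H))
      have h4 := card_quotient_lt _ h3
      have h5 := N.card_le_card_group
      omega
    have hT' : ∀ L : Subgroup G, (T : Subgroup G) ≤ L → L ≤ N →
        comap f ((L.subgroupOf N).map f) = L.subgroupOf N := fun L h2 _ => by
      rw [comap_map_eq, hf, QuotientGroup.ker_mk', sup_eq_left.2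
        (show (T : Subgroup G).subgroupOf N ≤ L.subgroupOf N from comap_mono h2)]
    have hcardq : ∀ L : Subgroup G, (T : Subgroup G) ≤ L → L ≤ N →
        Nat.card ↥((L.subgroupOf N).map f) = (T : Subgroup G).relIndex L := fun L h2 h3 => by
      rw [card_map_eq_relIndex, hf, QuotientGroup.ker_mk', relIndex_subgroupOf h3]
    have hcH : Nat.card H' = Nat.card H := card_conj_smul x H
    have hrel : (T : Subgroup G).relIndex H' = (T : Subgroup G).relIndex K := by
      refine Nat.eq_of_mul_eq_mul_left (Nat.card_pos (α := (T : Subgroup G))) ?_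
      rw [← card_eq_mul_relIndex hTH', ← card_eq_mul_relIndex hTK, hcH, hcard]
    obtain ⟨y, hy⟩ := ih (↥N ⧸ (T : Subgroup G).subgroupOf N) hlt ((H'.subgroupOf N).map f)
      ((K.subgroupOf N).map f)
      (isSupersolvable_of_surjective _ (f.subgroupMap_surjective _)
        (isSupersolvable_of_equiv (subgroupOfEquivOfLe hH'T).symm hH'ss))
      (isSupersolvable_of_surjective _ (f.subgroupMap_surjective _)
        (isSupersolvable_of_equiv (subgroupOfEquivOfLe hKT).symm hK))
      (by rw [hcardq H' hTH' hH'T, hcardq K hTK hKT, hrel])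
      (by
        rw [index_map, hf, QuotientGroup.ker_mk', sup_eq_left.2 (show (T : Subgroup G).subgroupOf N ≤ H'.subgroupOf N from comap_mono hTH'),
          MonoidHom.range_eq_top.2 (QuotientGroup.mk'_surjective _), index_top, mul_one, ← hf,
          hcardq H' hTH' hH'T]
        refine (hHall.coprime_dvd_left ?_).coprime_dvd_right ?_
        · rw [← hcH]; exact relIndex_dvd_card _ _
        · show H'.relIndex N ∣ H.index
          rw [← index_conj_smul x H]
          exact relIndex_dvd_index_of_le hH'T)
    obtain ⟨m, rfl⟩ := hsurj y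
    refine ⟨(m : G) * x, ?_⟩
    rw [map_mul, mul_smul, ← hH']
    have h6 : MulAut.conj m • H'.subgroupOf N = K.subgroupOf N := by
      rw [← hT' K hTK hKT, ← hy, ← map_conj_smul, comap_map_eq, hf, QuotientGroup.ker_mk']
      refine (sup_eq_left.2 ?_).symm
      rw [← conj_smul_normal m ((T : Subgroup G).subgroupOf N)]
      exact smul_le_smul_left _ (comap_mono hTH')
    have h7 := congrArg (Subgroup.map N.subtype) h6
    rwa [map_conj_smul, subgroupOf_map_subtype, subgroupOf_map_subtype, inf_eq_left.2 hH'T,
      inf_eq_left.2 hKT] at h7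

end Cfsg.Lib.Solv
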