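import Cfsg.Agent.Lib.Solv.Cores
import Cfsg.Agent.Lib.Solv.MinimalNonNilpotent
import Cfsg.Agent.Lib.Transfer.Action
import Cfsg.Agent.Lib.Transfer.NormalPComplement

/-!
The hypercentre as the set of elements generating a nilpotent subgroup with every element.
-/

set_option autoImplicit false

namespace Cfsg.Lib.Solv

open Subgroup

universe u

theorem nilpotent_closure_of_mem_upper : ∀ (n : ℕ) (G : Type u) [Group G] [Finite G] (g x : G),
    g ∈ Subgroup.upperCentralSeries G n → Group.IsNilpotent ↥(closure ({x, g} : Set G)) := by
  intro n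
  induction n with
  | zero =>
    intro G _ _ g x hg
    rw [Subgroup.upperCentralSeries_zero, mem_bot] at hg
    subst hg
    haveI : IsMulCommutative ↥(closure ({x, 1} : Set G)) := by
      refine Subgroup.isMulCommutative_closure fun a ha b hb => ?_
      rcases ha with rfl | rfl <;> rcases hb with rfl | rfl <;> simp
    letI : CommGroup ↥(closure ({x, 1} : Set G)) :=
      { (inferInstance : Group ↥(closure ({x, 1} : Set G))) with mul_comm := mul_comm' }
    exact CommGroup.isNilpotent
  | succ n ih =>
    intro G _ _ g x hg
    set H := closure ({x, g} : Set G) with hH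
    set π := QuotientGroup.mk' (center G) with hπ
    rw [← Subgroup.comap_upperCentralSeries_quotient_center, mem_comap] at hg
    haveI := ih (G ⧸ center G) (π g) (π x) hg
    let f : H →* ↥(closure ({π x, π g} : Set (G ⧸ center G))) :=
      (π.comp H.subtype).codRestrict _ fun h => by
        have h2 := mem_map_of_mem π h.2
        have e : H.map π = closure ({π x, π g} : Set (G ⧸ center G)) := by
          rw [hH, MonoidHom.map_closure, Set.image_pair]
        exact e ▸ h2
    refine Subgroup.isNilpotent_of_ker_le_center f fun h hh => ?_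
    have h1 : (h : G) ∈ center G := (QuotientGroup.eq_one_iff _).1 (congrArg Subtype.val hh)
    exact mem_center_iff.2 fun k => Subtype.ext (mem_center_iff.1 h1 k)

theorem mem_hypercenter_aux : ∀ (m : ℕ) (G : Type u) [Group G] [Finite G], Nat.card G ≤ m →
    ∀ g : G, (∀ x : G, Group.IsNilpotent ↥(closure ({x, g} : Set G))) →
      ∃ n, g ∈ Subgroup.upperCentralSeries G n := by
  intro m
  induction m with
  | zero => intro G _ _ h; exact absurd h (Nat.not_le.2 Nat.card_pos)
  | succ m ih =>
    intro G _ _ hm g hg
    set π := QuotientGroup.mk' (center G) with hπ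
    by_cases hZ : center G = ⊥
    · refine ⟨0, ?_⟩
      rw [Subgroup.upperCentralSeries_zero, mem_bot]
      refine orderOf_eq_one_iff.1 (Nat.eq_one_iff_not_exists_prime_dvd.2 fun p hp hd => ?_)
      haveI := Fact.mk hp
      obtain ⟨k, r, hr, hord⟩ := Nat.exists_eq_pow_mul_and_not_dvd (orderOf_pos g).ne' p hp.ne_one
      have hk : k ≠ 0 := fun h0 => hr (by rw [h0, pow_zero, one_mul] at hord; rwa [← hord])
      have hr0 : r ≠ 0 := by rintro rfl; exact hr (dvd_zero p)
      set a := g ^ r with ha
      have hao : orderOf a = p ^ k := by
        rw [ha, orderOf_pow_of_dvd hr0 (hord ▸ dvd_mul_left _ _), hord,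
          Nat.mul_div_cancel _ (Nat.pos_of_ne_zero hr0)]
      set R := Cfsg.pResidual p G with hR
      haveI : R.Normal := Cfsg.Lib.Transfer.pResidual_normal p
      set C := centralizer (R : Set G) with hC
      have haC : a ∈ C := by
        refine mem_centralizer_iff.2 fun y hy => ?_
        rw [hR] at hy
        induction hy using Subgroup.closure_induction with
        | mem y hy =>
          have h1 : y ∈ centralizer (zpowers a : Set G) :=
            Cfsg.Lib.Transfer.mem_centralizer_of_prime_parts fun s hs z hz hzs => by
              obtain ⟨i, hi⟩ := hzs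
              rcases eq_or_ne s p with rfl | hsp
              · have h2 : orderOf z ∣ orderOf y := orderOf_dvd_of_mem_zpowers hz
                have h3 : z = 1 := orderOf_eq_one_iff.1 (Nat.eq_one_of_dvd_coprimes
                  (Nat.Coprime.pow_right i hy) h2 (hi ▸ dvd_rfl))
                rw [h3]; exact one_mem _
              · refine mem_centralizer_iff.2 fun w hw => ?_
                obtain ⟨j, rfl⟩ := mem_zpowers_iff.1 hw
                have h2 : Commute a z := commute_of_nilpotent_subgroup (hg z) hp hs hsp.symm
                  (pow_mem (subset_closure (by simp)) _) (subset_closure (by simp)) hao hi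
                exact (h2.zpow_left j).eq
          exact (mem_centralizer_iff.1 h1 a (mem_zpowers a)).symm
        | one => simp
        | mul y z _ _ h1 h2 => rw [mul_assoc, h2, ← mul_assoc, h1, mul_assoc]
        | inv y _ h1 => exact (Commute.inv_left (show Commute y a from h1)).eq
      haveI hCnil : Group.IsNilpotent C := by
        haveI : Group.IsNilpotent (G ⧸ R) := by
          exact (Cfsg.Lib.Transfer.isPGroup_quotient_of_pResidual_le (p := p) R le_rfl).isNilpotent
        refine Subgroup.isNilpotent_of_ker_le_center ((QuotientGroup.mk' R).comp C.subtype) fun c hc => ?_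
        have h1 : (c : G) ∈ R := (QuotientGroup.eq_one_iff _).1 hc
        exact mem_center_iff.2 fun d => Subtype.ext (mem_centralizer_iff.1 d.2 c h1).symm
      have haP : a ∈ Cfsg.pCore p G := le_pCore_of_le_fitting
        (zpowers_le.2 (le_fitting inferInstance hCnil haC))
        (IsPGroup.of_card (n := k) (by rw [Nat.card_zpowers, hao])) (mem_zpowers a)
      set U := Cfsg.pCore p G ⊓ C with hU
      obtain ⟨P⟩ : Nonempty (Sylow p G) := inferInstance
      have hmod := Cfsg.Lib.Transfer.card_modEq_card_inf_centralizer U (P : Subgroup G) P.2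
        le_normalizer_of_normal
      obtain ⟨v, hv⟩ := IsPGroup.iff_card.1 ((isPGroup_pCore (G := G) p).to_le (inf_le_left : U ≤ _))
      have hv0 : v ≠ 0 := fun h0 => by
        have : a ∈ U := ⟨haP, haC⟩
        rw [card_eq_one.1 (by rw [hv, h0, pow_zero] : Nat.card U = 1), mem_bot] at this
        rw [this, orderOf_one] at hao
        exact (Nat.one_lt_pow hk hp.one_lt).ne hao
      have hd : p ∣ Nat.card ↥(U ⊓ centralizer ((P : Subgroup G) : Set G)) :=
        Nat.modEq_zero_iff_dvd.1 (hmod.symm.trans (Nat.modEq_zero_iff_dvd.2 (hv ▸ dvd_pow_self p hv0)))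
      obtain ⟨z, hz, hz1⟩ := (bot_or_exists_ne_one (U ⊓ centralizer ((P : Subgroup G) : Set G))).resolve_left
        (fun hb => by
          rw [hb, card_bot] at hd
          exact hp.ne_one (Nat.eq_one_of_dvd_one hd))
      refine hz1 (mem_bot.1 (hZ ▸ mem_center_iff.2 fun y => ?_))
      have htop : (⊤ : Subgroup G) ≤ centralizer {z} := by
        rw [← Cfsg.Lib.Transfer.pResidual_sup_sylow P]
        exact sup_le (fun w hw => mem_centralizer_singleton_iff.2 (mem_centralizer_iff.1 hz.1.2 w hw))
          (fun w hw => mem_centralizer_singleton_iff.2 (mem_centralizer_iff.1 hz.2 w hw))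
      exact mem_centralizer_singleton_iff.1 (htop (mem_top y))
    · have hlt : Nat.card (G ⧸ center G) ≤ m := by
        rw [← index_eq_card]
        have h2 := (center G).card_mul_index
        have h3 := (one_lt_card_iff_ne_bot (center G)).2 hZ
        nlinarith
      obtain ⟨n, hn⟩ := ih (G ⧸ center G) hlt (π g) fun x' => by
        obtain ⟨x, rfl⟩ := QuotientGroup.mk'_surjective (center G) x'
        haveI := hg x
        have e : (closure ({x, g} : Set G)).map π = closure ({π x, π g} : Set (G ⧸ center G)) := by
          rw [MonoidHom.map_closure, Set.image_pair]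
        have h2 := Group.nilpotent_of_surjective (π.subgroupMap (closure ({x, g} : Set G)))
          (π.subgroupMap_surjective _)
        rwa [e] at h2
      exact ⟨n + 1, by rw [← Subgroup.comap_upperCentralSeries_quotient_center]; exact hn⟩

theorem mem_hypercenter_iff {G : Type u} [Group G] [Finite G] (g : G) :
    (∀ x : G, Group.IsNilpotent ↥(closure ({x, g} : Set G))) ↔
      g ∈ ⨆ n : ℕ, Subgroup.upperCentralSeries G n := by
  rw [mem_iSup_of_directed (Subgroup.upperCentralSeries_mono G).directed_le]
  exact ⟨mem_hypercenter_aux _ G le_rfl g, fun ⟨n, hn⟩ x => nilpotent_closure_of_mem_upper n G g x hn⟩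

end Cfsg.Lib.Solv
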