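import Mathlib
import Cfsg.Agent.Lib.Solv.MetacyclicOdd

/-!
# Abelian and centrally large subgroups of odd metacyclic `p`-groups
-/

set_option autoImplicit false
set_option linter.style.haveILetI false

namespace Cfsg.Lib.Solv.MC

open Subgroup

variable {p n : ℕ} [hp : Fact p.Prime] {G : Type*} [Group G] [Finite G]

local instance neZeroPrime'' : NeZero p := ⟨hp.out.ne_zero⟩

namespace Coord

variable (C : Coord G p n)

include C in
theorem card_abelian_iff (hodd : p ≠ 2) (hG : IsPGroup p G) (hm : Cfsg.IsMetacyclic G) (L : Subgroup G) :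
    IsMulCommutative L ↔ Nat.card L ≤ Nat.card (center G) * p ^ n := by
  refine ⟨fun h => C.card_le_of_commutative hodd h, fun h => ?_⟩
  by_contra hL
  have hZ := center_le_of_not_commutative hodd hG hm L hL
  have h1 : Nat.card L = Nat.card (center G) * Nat.card (C.img hodd L) := by
    rw [← C.card_pre, C.pre_img hodd hZ]
  have h2 := (lt_card_of_not_isotropic (mt (C.isMulCommutative_iff hodd L).2 hL)).2
  rw [h1] at h
  exact h.not_gt (Nat.mul_lt_mul_of_pos_left h2 Nat.card_pos)

include C in
theorem maximal_abelian_iff (hodd : p ≠ 2) (hG : IsPGroup p G) (hm : Cfsg.IsMetacyclic G) (L : Subgroup G) :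
    Maximal (fun K : Subgroup G => IsMulCommutative K) L ↔
      Nat.card L = Nat.card (center G) * p ^ n := by
  constructor
  · rintro ⟨hL, hmax⟩
    refine le_antisymm (C.card_le_of_commutative hodd hL) ?_
    set M := C.img hodd L with hMdef
    have hiso := (C.isMulCommutative_iff hodd L).1 hL
    have key : ∀ y ∈ perp M, ∀ g, C.φ g = y → g ∈ L := by
      intro y hy g hg
      have hc : IsMulCommutative ↥(L ⊔ zpowers g) := by
        have hgL : ∀ x ∈ L, x * g = g * x := fun x hx => (C.comm' x g).2 (hg ▸ hy _ ⟨x, hx, rfl⟩)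
        have h1 : L ⊔ zpowers g ≤ centralizer ((L ⊔ zpowers g : Subgroup G) : Set G) := by
          refine sup_le (fun x hx => ?_) ?_
          · rw [mem_centralizer_iff]
            intro z hz
            have h2 : L ⊔ zpowers g ≤ centralizer {x} := by
              refine sup_le (fun z hz => ?_) ?_
              · exact mem_centralizer_singleton_iff.2
                  (congrArg Subtype.val (hL.is_comm.comm (⟨z, hz⟩ : L) ⟨x, hx⟩))
              · rw [zpowers_le]; exact mem_centralizer_singleton_iff.2 (hgL x hx).symm
            exact mem_centralizer_singleton_iff.1 (h2 hz)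
          · rw [zpowers_le, mem_centralizer_iff]
            intro z hz
            have h2 : L ⊔ zpowers g ≤ centralizer {g} :=
              sup_le (fun z hz => mem_centralizer_singleton_iff.2 (hgL z hz))
                (by rw [zpowers_le]; exact mem_centralizer_singleton_iff.2 rfl)
            exact mem_centralizer_singleton_iff.1 (h2 hz)
        exact ⟨⟨fun a b => Subtype.ext (mem_centralizer_iff.1 (h1 b.2) a a.2)⟩⟩
      exact (hmax hc le_sup_left) (mem_sup_right (mem_zpowers g))
    have hZ : center G ≤ L := fun z hz => key 0 (AddSubgroup.zero_mem _) z ((C.mem_center_iff' z).1 hz)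
    have hle : perp M ≤ M := fun y hy => by
      obtain ⟨g, rfl⟩ := C.surj y
      exact ⟨g, key _ hy g rfl, rfl⟩
    have heq := le_antisymm hiso hle
    have h1 := card_mul_card_perp M
    rw [← heq, two_mul, pow_add] at h1
    have h2 : Nat.card L = Nat.card (center G) * Nat.card M := by
      rw [← C.card_pre, C.pre_img hodd hZ]
    rw [h2, Nat.mul_self_inj.1 h1]
  · intro h
    refine ⟨(C.card_abelian_iff hodd hG hm L).2 h.le, fun K hK hLK => ?_⟩
    exact (eq_of_le_of_card_ge hLK ((C.card_le_of_commutative hodd hK).trans h.ge)).ge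

include C in
theorem value_of_not_commutative (hodd : p ≠ 2) (hG : IsPGroup p G) (hm : Cfsg.IsMetacyclic G)
    {L : Subgroup G} (hL : ¬ IsMulCommutative L) :
    Nat.card L * Nat.card (center L) = (Nat.card (center G) * p ^ n) ^ 2 := by
  have hZ := center_le_of_not_commutative hodd hG hm L hL
  set M := C.img hodd L with hM
  have hlt := (lt_card_of_not_isotropic (mt (C.isMulCommutative_iff hodd L).2 hL)).1
  have h1 : (center L).map L.subtype = C.pre (perp M) := by
    rw [map_center_eq, C.centralizer_eq hodd, inf_eq_right]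
    intro g hg
    rw [← C.pre_img hodd hZ]
    exact hlt.le hg
  rw [← Nat.card_congr ((center L).equivMapOfInjective L.subtype L.subtype_injective).toEquiv.symm, h1, C.card_pre]
  nth_rw 1 [← C.pre_img hodd hZ]
  rw [C.card_pre, mul_mul_mul_comm, card_mul_card_perp, mul_pow, ← pow_mul, mul_comm n 2, sq]

include C in
theorem value_le (hodd : p ≠ 2) (hG : IsPGroup p G) (hm : Cfsg.IsMetacyclic G) (L : Subgroup G) :
    Nat.card L * Nat.card (center L) ≤ (Nat.card (center G) * p ^ n) ^ 2 := by
  by_cases hL : IsMulCommutative L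
  · rw [sq]
    exact Nat.mul_le_mul (C.card_le_of_commutative hodd hL)
      ((Nat.le_of_dvd Nat.card_pos (card_subgroup_dvd_card _)).trans (C.card_le_of_commutative hodd hL))
  · exact (C.value_of_not_commutative hodd hG hm hL).le

include C in
theorem centralizer_value (hodd : p ≠ 2) (L : Subgroup G) :
    Nat.card L * Nat.card (centralizer (L : Set G)) ≤ (Nat.card (center G) * p ^ n) ^ 2 ∧
      (Nat.card L * Nat.card (centralizer (L : Set G)) = (Nat.card (center G) * p ^ n) ^ 2 ↔
        center G ≤ L) := by
  have e : (Nat.card (center G) * p ^ n) ^ 2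
      = Nat.card (C.pre (C.img hodd L)) * Nat.card (centralizer (L : Set G)) := by
    rw [C.centralizer_eq hodd, C.card_pre, C.card_pre, mul_mul_mul_comm, card_mul_card_perp, mul_pow,
      ← pow_mul, mul_comm n 2, sq]
  rw [e]
  refine ⟨Nat.mul_le_mul_right _ (Nat.le_of_dvd Nat.card_pos (card_dvd_of_le (C.le_pre_img hodd L))), ?_⟩
  constructor
  · intro h
    have h2 := eq_of_le_of_card_ge (C.le_pre_img hodd L)
      (Nat.eq_of_mul_eq_mul_right Nat.card_pos h).ge
    intro z hz
    rw [h2, C.mem_pre, (C.mem_center_iff' z).1 hz]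
    exact AddSubgroup.zero_mem _
  · intro h
    rw [C.pre_img hodd h]

end Coord

end Cfsg.Lib.Solv.MC
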