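import Mathlib
import Cfsg.Agent.Lib.Solv.Coprime

/-!
When do the `π`-elements form a subgroup?
-/

set_option autoImplicit false

open scoped Pointwise

namespace Cfsg.Lib.Solv.PiElems

universe u

variable {G : Type u} [Group G]

/-- `π`-element. -/
def PiEl (π : Set ℕ) (x : G) : Prop := ∀ p : ℕ, p.Prime → p ∣ orderOf x → p ∈ π

/-- The `π`-elements form a subgroup. -/
def Closed (π : Set ℕ) (G : Type u) [Group G] : Prop := ∃ L : Subgroup G, ∀ x : G, x ∈ L ↔ PiEl π x

/-- `π`-elements centralize the `π'`-subgroups which they normalize. -/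
def Hom (π : Set ℕ) (G : Type u) [Group G] : Prop :=
  ∀ H : Subgroup G, (∀ p : ℕ, p.Prime → p ∣ Nat.card H → p ∉ π) →
    ∀ x : G, PiEl π x → x ∈ Subgroup.normalizer (H : Set G) → x ∈ Subgroup.centralizer (H : Set G)

variable {π : Set ℕ}

theorem PiEl.map {G' : Type*} [Group G'] {x : G} (h : PiEl π x) (f : G →* G') : PiEl π (f x) :=
  fun p hp hd => h p hp (hd.trans (orderOf_map_dvd f x))

theorem piEl_coe {M : Subgroup G} (x : M) : PiEl π (x : G) ↔ PiEl π x := by
  simp [PiEl, Subgroup.orderOf_coe]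

theorem Hom.subgroup (h : Hom π G) (M : Subgroup G) : Hom π ↥M := by
  intro H hH x hx hxN
  have hH' : ∀ p : ℕ, p.Prime → p ∣ Nat.card (H.map M.subtype) → p ∉ π := by
    rw [Subgroup.card_map_of_injective M.subtype_injective]
    exact hH
  have hxN' : (x : G) ∈ Subgroup.normalizer ((H.map M.subtype : Subgroup G) : Set G) :=
    Subgroup.le_normalizer_map M.subtype ⟨x, hxN, rfl⟩
  have hc := h _ hH' x ((piEl_coe x).2 hx) hxN'
  rw [Subgroup.mem_centralizer_iff] at hc ⊢
  intro y hy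
  exact Subtype.ext (hc y ⟨y, hy, rfl⟩)

theorem card_pi [Finite G] {L : Subgroup G} (hL : ∀ x ∈ L, PiEl π x) :
    ∀ p : ℕ, p.Prime → p ∣ Nat.card L → p ∈ π := by
  intro p hp hd
  haveI := Fact.mk hp
  obtain ⟨z, hz⟩ := exists_prime_orderOf_dvd_card' p hd
  exact hL z z.2 p hp (dvd_of_eq (by rw [Subgroup.orderOf_coe, hz]))

theorem piEl_of_pow {x : G} {L : Subgroup G} (hL : ∀ y ∈ L, PiEl π y) {m : ℕ} (hm0 : m ≠ 0)
    (hm : ∀ p : ℕ, p.Prime → p ∣ m → p ∈ π) (hx : x ^ m ∈ L) : PiEl π x := by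
  intro p hp hd
  have h1 : orderOf x ∣ m * orderOf (x ^ m) :=
    orderOf_dvd_of_pow_eq_one (by rw [pow_mul, pow_orderOf_eq_one])
  rcases hp.dvd_mul.1 (hd.trans h1) with h | h
  · exact hm p hp h
  · exact hL _ hx p hp h

theorem closed_extend [Finite G] (hhom : Hom π G) (K : Subgroup G) [K.Normal] (hK : Closed π ↥K)
    (hQ : Closed π (G ⧸ K)) : Closed π G := by
  classical
  obtain ⟨L0, hL0⟩ := hK
  obtain ⟨L2, hL2⟩ := hQ
  set L := L0.map K.subtype with hLdef
  have hLK : L ≤ K := Subgroup.map_subtype_le _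
  have hmemL : ∀ x : G, x ∈ L ↔ x ∈ K ∧ PiEl π x := by
    intro x
    constructor
    · rintro ⟨k, hk, rfl⟩
      exact ⟨k.2, (piEl_coe k).2 ((hL0 k).1 hk)⟩
    · rintro ⟨hxK, hx⟩
      exact ⟨⟨x, hxK⟩, (hL0 _).2 ((piEl_coe ⟨x, hxK⟩).1 hx), rfl⟩
  have hLn : L.Normal := by
    refine ⟨fun x hx g => ?_⟩
    rw [hmemL] at hx ⊢
    exact ⟨(inferInstance : K.Normal).conj_mem x hx.1 g, hx.2.map (MulAut.conj g).toMonoidHom⟩
  haveI := hLn
  have hLpi : ∀ y ∈ L, PiEl π y := fun y hy => ((hmemL y).1 hy).2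
  let f : G →* G ⧸ L := QuotientGroup.mk' L
  have hf : Function.Surjective f := QuotientGroup.mk'_surjective L
  have hfe : ∀ x : G, f x = 1 ↔ x ∈ L := fun x => QuotientGroup.eq_one_iff x
  set Kb := K.map f with hKb
  haveI hKbn : Kb.Normal := Subgroup.Normal.map inferInstance f hf
  set Y := L2.comap (QuotientGroup.mk' K) with hY
  have hmemY : ∀ x : G, PiEl π x → x ∈ Y := fun x hx => (hL2 _).2 (hx.map (QuotientGroup.mk' K))
  have hKY : K ≤ Y := fun k hk => by
    rw [hY, Subgroup.mem_comap, show QuotientGroup.mk' K k = 1 from (QuotientGroup.eq_one_iff k).2 hk]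
    exact one_mem _
  set Yb := Y.map f with hYb
  have hKYb : Kb ≤ Yb := Subgroup.map_mono hKY
  -- the image of `K` is a `π'`-group
  have hKbpi : ∀ p : ℕ, p.Prime → p ∣ Nat.card Kb → p ∉ π := by
    intro p hp hd hpπ
    haveI := Fact.mk hp
    obtain ⟨z, hz⟩ := exists_prime_orderOf_dvd_card' p hd
    obtain ⟨x, hxK, hxz⟩ := z.2
    have hx : x ∈ L := (hmemL x).2 ⟨hxK, piEl_of_pow hLpi hp.ne_zero
      (fun r hr hrd => ((Nat.prime_dvd_prime_iff_eq hr hp).1 hrd).symm ▸ hpπ) ((hfe _).1 (by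
        rw [map_pow, hxz, ← hz, ← Subgroup.orderOf_coe, pow_orderOf_eq_one]))⟩
    have h1 : (z : G ⧸ L) = 1 := hxz ▸ (hfe x).2 hx
    rw [← Subgroup.orderOf_coe, h1, orderOf_one] at hz
    exact hp.one_lt.ne hz
  -- its index in the image of `Y` is a `π`-number
  have hidx : ∀ p : ℕ, p.Prime → p ∣ (Kb.subgroupOf Yb).index → p ∈ π := by
    intro p hp hd
    have hL2pi := card_pi (L := L2) (fun y hy => (hL2 y).1 hy)
    refine hL2pi p hp (hd.trans ?_)
    have e1 : Kb.relIndex Yb ∣ K.relIndex Y := by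
      rw [hKb, hYb, Subgroup.relIndex_map_map]
      have hk : f.ker = L := QuotientGroup.ker_mk' L
      rw [hk, sup_eq_left.2 hLK, sup_eq_left.2 (hLK.trans hKY)]
    have e2 : K.relIndex Y = Nat.card L2 := by
      have hk : (QuotientGroup.mk' K).ker = K := QuotientGroup.ker_mk' K
      have h3 : (QuotientGroup.mk' K).ker.relIndex Y = Nat.card (Y.map (QuotientGroup.mk' K)) := Subgroup.relIndex_ker (K := Y) _
      rw [hk] at h3
      rw [h3, hY, Subgroup.map_comap_eq_self_of_surjective (QuotientGroup.mk'_surjective K)]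
    exact e2 ▸ e1
  have hcop : (Nat.card (Kb.subgroupOf Yb)).Coprime (Kb.subgroupOf Yb).index := by
    refine Nat.coprime_of_dvd fun p hp h1 h2 => ?_
    rw [Nat.card_congr (Subgroup.subgroupOfEquivOfLe hKYb).toEquiv] at h1
    exact hKbpi p hp h1 (hidx p hp h2)
  obtain ⟨U0, hU0⟩ := Subgroup.exists_right_complement'_of_coprime hcop
  set U := U0.map Yb.subtype with hU
  have hUY : U ≤ Yb := Subgroup.map_subtype_le _
  have hUcard : Nat.card U = (Kb.subgroupOf Yb).index := by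
    rw [hU, Subgroup.card_map_of_injective Yb.subtype_injective, hU0.symm.index_eq_card]
  have hUpi : ∀ p : ℕ, p.Prime → p ∣ Nat.card U → p ∈ π := hUcard ▸ hidx
  have hdec : ∀ t ∈ Yb, ∃ k ∈ Kb, ∃ u ∈ U, t = k * u := by
    intro t ht
    obtain ⟨⟨⟨k, hk⟩, ⟨u, hu⟩⟩, hku⟩ := hU0.2 ⟨t, ht⟩
    exact ⟨(k : G ⧸ L), hk, (u : G ⧸ L), ⟨u, hu, rfl⟩, (congrArg Subtype.val hku).symm⟩
  -- `U` centralizes the image of `K`
  have hcent : ∀ u ∈ U, ∀ k ∈ Kb, u * k = k * u := by
    intro u hu k hk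
    set A := Subgroup.zpowers u with hA
    have hAK : A ≤ Subgroup.normalizer (Kb : Set (G ⧸ L)) := by
      rw [Subgroup.normalizer_eq_top_iff.2 hKbn]; exact le_top
    have hAU : A ≤ U := (Subgroup.zpowers_le).2 hu
    have hcA : (Nat.card A).Coprime (Nat.card Kb) := Nat.coprime_of_dvd fun p hp h1 h2 =>
      hKbpi p hp h2 (hUpi p hp (h1.trans (Subgroup.card_dvd_of_le hAU)))
    have hsol : Group.IsSolvable A ∨ Group.IsSolvable Kb := by
      left
      letI : CommGroup A := { (inferInstance : Group A) with mul_comm := mul_comm' }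
      infer_instance
    set C := (Subgroup.centralizer ({u} : Set (G ⧸ L))).comap Kb.subtype with hC
    suffices hCt : C = ⊤ by
      have hkC : (⟨k, hk⟩ : Kb) ∈ C := hCt ▸ trivial
      exact (Subgroup.mem_centralizer_singleton_iff.1 hkC).symm
    rw [← Subgroup.index_eq_one]
    by_contra hne
    obtain ⟨r, hr, hrd⟩ := Nat.exists_prime_and_dvd hne
    haveI := Fact.mk hr
    obtain ⟨Rb0, hRb0⟩ := exists_invariant_sylow A Kb hAK hcA hsol r
    set Rb := (Rb0 : Subgroup Kb).map Kb.subtype with hRbdef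
    refine Rb0.not_dvd_index (hrd.trans (Subgroup.index_dvd_of_le fun z hz => ?_))
    show (z : G ⧸ L) ∈ Subgroup.centralizer ({u} : Set (G ⧸ L))
    have hz' : (z : G ⧸ L) ∈ Rb := ⟨z, hz, rfl⟩
    have hrπ : r ∉ π := hKbpi r hr (hrd.trans ((Subgroup.index_dvd_card C)))
    set W := Rb.comap f with hW
    have hLW : L ≤ W := fun l hl => by
      rw [hW, Subgroup.mem_comap, (hfe l).2 hl]; exact one_mem _
    obtain R0 : Sylow r W := default
    set R := (R0 : Subgroup W).map W.subtype with hR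
    have hRW : R ≤ W := Subgroup.map_subtype_le _
    -- the Sylow subgroup covers
    have hRmap : R.map f = Rb := by
      let g : W →* ↥Rb := (f.comp W.subtype).codRestrict Rb (fun v => v.2)
      have hg : Function.Surjective g := by
        rintro ⟨v, hv⟩
        obtain ⟨w, rfl⟩ := hf v
        exact ⟨⟨w, hv⟩, rfl⟩
      have htop : ((R0.mapSurjective hg) : Subgroup ↥Rb) = ⊤ := by
        have hRbp : IsPGroup r ↥Rb := Rb0.isPGroup'.map _
        exact (((R0.mapSurjective hg)).is_maximal' (hRbp.to_subgroup ⊤) le_top).symm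
      apply le_antisymm
      · rintro _ ⟨w, hw, rfl⟩
        exact hRW hw
      · intro v hv
        have h1 : (⟨v, hv⟩ : Rb) ∈ ((R0.mapSurjective hg) : Subgroup ↥Rb) := htop ▸ trivial
        obtain ⟨w, hw, hwv⟩ := h1
        exact ⟨w, ⟨w, hw, rfl⟩, congrArg Subtype.val hwv⟩
    obtain ⟨x, hx⟩ := hf u
    have hxW : MulAut.conj x • R ≤ W := by
      rintro _ ⟨v, hv, rfl⟩
      show f (x * v * x⁻¹) ∈ Rb
      rw [map_mul, map_mul, map_inv, hx]
      exact (Subgroup.mem_normalizer_iff.1 (hRb0 (Subgroup.mem_zpowers u)) (f v)).1 (hRW hv)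
    obtain ⟨R1, hR1⟩ := exists_sylow_map_eq hxW R0 (by
      rw [card_conj_smul, hR, Subgroup.card_map_of_injective W.subtype_injective])
    obtain ⟨w, hw, hwR⟩ := sylow_conj_eq R1 R0
    rw [hR1, ← mul_smul, ← map_mul, ← hR] at hwR
    obtain ⟨a, ha, hfa⟩ := (hRmap.symm ▸ (hw : f w ∈ Rb) : f w ∈ R.map f)
    set y := a⁻¹ * (w * x) with hy
    have hyN : y ∈ Subgroup.normalizer (R : Set G) := by
      rw [hy]
      exact mul_mem (inv_mem (Subgroup.le_normalizer ha)) (conj_smul_eq_self_iff.1 hwR)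
    have hfy : f y = u := by
      rw [hy, map_mul, map_mul, map_inv, hfa, hx, inv_mul_cancel_left]
    have hypi : PiEl π y := piEl_of_pow hLpi (orderOf_pos u).ne'
      (fun p hp hd => hUpi p hp (hd.trans (Subgroup.orderOf_dvd_natCard U hu)))
      ((hfe _).1 (by rw [map_pow, hfy, pow_orderOf_eq_one]))
    have hRpi : ∀ p : ℕ, p.Prime → p ∣ Nat.card R → p ∉ π := by
      intro p hp hd
      obtain ⟨n, hn⟩ := IsPGroup.iff_card.1 (R0.isPGroup'.map W.subtype)
      rw [hR, hn] at hd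
      rwa [(Nat.prime_dvd_prime_iff_eq hp hr).1 (hp.dvd_of_dvd_pow hd)]
    have hc := hhom R hRpi y hypi hyN
    obtain ⟨v, hv, hvz⟩ := (hRmap.symm ▸ hz' : (z : G ⧸ L) ∈ R.map f)
    rw [Subgroup.mem_centralizer_singleton_iff, ← hvz, ← hfy, ← map_mul, ← map_mul,
      Subgroup.mem_centralizer_iff.1 hc v hv]
  refine ⟨U.comap f, fun x => ⟨fun hx => ?_, fun hx => ?_⟩⟩
  · refine piEl_of_pow hLpi (Nat.card_pos (α := U)).ne' hUpi ((hfe _).1 ?_)
    rw [map_pow]
    exact orderOf_dvd_iff_pow_eq_one.1 (Subgroup.orderOf_dvd_natCard U hx)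
  · show f x ∈ U
    obtain ⟨k, hk, u, hu, hku⟩ := hdec (f x) ⟨x, hmemY x hx, rfl⟩
    have hcomm : Commute k u := (hcent u hu k hk).symm
    have h1 : k ^ Nat.card U = (f x) ^ Nat.card U := by
      rw [hku, hcomm.mul_pow,
        orderOf_dvd_iff_pow_eq_one.1 (Subgroup.orderOf_dvd_natCard U hu), mul_one]
    have hord : orderOf (k ^ Nat.card U) = 1 := by
      by_contra hne
      obtain ⟨r, hr, hrd⟩ := Nat.exists_prime_and_dvd hne
      refine hKbpi r hr (hrd.trans (Subgroup.orderOf_dvd_natCard Kb (Kb.pow_mem hk _))) ?_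
      rw [h1] at hrd
      exact (hx.map f) r hr (hrd.trans (orderOf_pow_dvd _))
    have hk1 : k = 1 := orderOf_eq_one_iff.1 (Nat.eq_one_of_dvd_coprimes (a := Nat.card U) (b := Nat.card Kb)
      (Nat.coprime_of_dvd fun p hp h2 h3 => hKbpi p hp h3 (hUpi p hp h2))
      (orderOf_dvd_of_pow_eq_one (orderOf_eq_one_iff.1 hord)) (Subgroup.orderOf_dvd_natCard Kb hk))
    rwa [hku, hk1, one_mul]

theorem hom_of_index [Finite G]
    (h : ∀ H : Subgroup G, H ≠ ⊥ → (∀ p : ℕ, p.Prime → p ∣ Nat.card ↥H → p ∉ π) →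
      ∀ p : ℕ, p.Prime → p ∣ (Subgroup.centralizer (H : Set G)).relIndex (Subgroup.normalizer (H : Set G)) → p ∉ π) :
    Hom π G := by
  intro H hH x hx hxN
  by_cases hb : H = ⊥
  · rw [hb, Subgroup.mem_centralizer_iff]
    intro y hy
    rw [Subgroup.mem_bot.1 hy, one_mul, mul_one]
  haveI := Subgroup.normal_subgroupOf_centralizer_normalizer (H : Set G)
  set C := (Subgroup.centralizer (H : Set G)).subgroupOf (Subgroup.normalizer (H : Set G)) with hC
  let m : ↥(Subgroup.normalizer (H : Set G)) := ⟨x, hxN⟩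
  have h1 : orderOf (QuotientGroup.mk' C m) = 1 := by
    by_contra hne
    obtain ⟨r, hr, hrd⟩ := Nat.exists_prime_and_dvd hne
    refine h H hb hH r hr ?_ (hx r hr ?_)
    · rw [Subgroup.relIndex, ← hC, Subgroup.index_eq_card]
      exact hrd.trans (orderOf_dvd_natCard _)
    · have := hrd.trans (orderOf_map_dvd (QuotientGroup.mk' C) m)
      rwa [← Subgroup.orderOf_coe] at this
  exact (QuotientGroup.eq_one_iff m).1 (orderOf_eq_one_iff.1 h1)

end Cfsg.Lib.Solv.PiElems
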