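import Cfsg.Agent.Lib.Solv.PrimeOrdersTI
import Cfsg.Agent.Lib.ZStar.UniqueInvolution
import Cfsg.Agent.Lib.Solv.Cores

/-!
Extensions in which every element outside a normal subgroup has prime power order.
-/

set_option autoImplicit false

namespace Cfsg.Lib.Solv.PrimePowerOutside

open Cfsg.Lib.Solv.PrimeOrders (conjHom)

theorem three_primes {M : Type*} [Group M] [Finite M] (hns : ¬ Group.IsSolvable M) (a b : ℕ) :
    ∃ p : ℕ, p.Prime ∧ p ∣ Nat.card M ∧ p ≠ a ∧ p ≠ b := by
  by_contra! h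
  refine hns ?_
  classical
  have hsub : (Nat.card M).primeFactors ⊆ {a, b} := fun p hp => by
    rw [Finset.mem_insert, Finset.mem_singleton]
    by_contra! hcon
    exact hcon.2 (h p (Nat.prime_of_mem_primeFactors hp) (Nat.dvd_of_mem_primeFactors hp) hcon.1)
  obtain ⟨p, q, hp, hq, hpq, hsub'⟩ : ∃ p q : ℕ, p.Prime ∧ q.Prime ∧ p ≠ q ∧ (Nat.card M).primeFactors ⊆ {p, q} := by
    have h2 := (Finset.card_le_card hsub).trans Finset.card_le_two
    rcases Nat.lt_or_ge (Nat.card M).primeFactors.card 2 with h1 | h1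
    · rcases (Nat.card M).primeFactors.eq_empty_or_nonempty with h0 | ⟨p, hp⟩
      · exact ⟨2, 3, Nat.prime_two, Nat.prime_three, by norm_num, by rw [h0]; exact Finset.empty_subset _⟩
      · obtain ⟨q, hq2, hq⟩ : ∃ q, (q = 2 ∨ q = 3) ∧ p ≠ q := by
          by_cases h2 : p = 2
          · exact ⟨3, Or.inr rfl, by omega⟩
          · exact ⟨2, Or.inl rfl, h2⟩
        refine ⟨p, q, Nat.prime_of_mem_primeFactors hp, by rcases hq2 with rfl | rfl <;> norm_num, hq, fun x hx => ?_⟩
        rw [Finset.card_le_one.1 (by omega) x hx p hp]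
        exact Finset.mem_insert_self _ _
    · obtain ⟨p, q, hne, he⟩ := Finset.card_eq_two.1 (le_antisymm h2 h1)
      exact ⟨p, q, Nat.prime_of_mem_primeFactors (he ▸ Finset.mem_insert_self _ _),
        Nat.prime_of_mem_primeFactors (he ▸ Finset.mem_insert_of_mem (Finset.mem_singleton_self _)), hne, he.le⟩
  refine Cfsg.Lib.Characters.isSolvable_of_card_eq_pow_mul_pow hp hq _ M rfl
    ⟨(Nat.card M).factorization p, (Nat.card M).factorization q, ?_⟩
  conv_lhs => rw [← Nat.prod_factorization_pow_eq_self (Nat.card_pos (α := M)).ne']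
  rw [Finsupp.prod, Nat.support_factorization, Finset.prod_subset hsub', Finset.prod_pair hpq]
  intro r _ hr'
  rw [Finsupp.notMem_support_iff.1 (by rwa [Nat.support_factorization]), pow_zero]

/-- A product over the powers of an element is fixed by it. -/
theorem prod_pow_fixed {M W : Type*} [Group M] [CommGroup W] (φ : M →* MulAut W) {g : M} {n : ℕ}
    (hg : g ^ n = 1) (w : W) : φ g (∏ i ∈ Finset.range n, φ (g ^ i) w) = ∏ i ∈ Finset.range n, φ (g ^ i) w := by
  rw [map_prod]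
  have h : ∀ i, φ g (φ (g ^ i) w) = φ (g ^ (i + 1)) w := fun i => by rw [← MulAut.mul_apply, ← map_mul, ← pow_succ']
  simp only [h]
  rcases n with _ | n
  · simp
  · rw [Finset.prod_range_succ, hg, Finset.prod_range_succ' (fun i => φ (g ^ i) w), pow_zero]

/-- Two independent commuting elements of order `s` cannot both act fixed-point-freely. -/
theorem no_elementary {M W : Type*} [Group M] [Finite M] [CommGroup W] (φ : M →* MulAut W) {s : ℕ} (hs : s.Prime)
    {a b : M} (hab : Commute a b) (ha : a ^ s = 1) (hb : b ^ s = 1) (hane : ∀ j : ℕ, a * b ^ j ≠ 1) (hb1 : b ≠ 1)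
    (hfix : ∀ g : M, g ^ s = 1 → g ≠ 1 → ∀ w, φ g w = w → w = 1) (w : W) : w ^ s = 1 := by
  have hrow : ∀ j, ∏ i ∈ Finset.range s, φ ((a * b ^ j) ^ i) w = 1 := fun j => by
    have h1 : (a * b ^ j) ^ s = 1 := by
      rw [(hab.pow_right j).mul_pow, ha, ← pow_mul, mul_comm, pow_mul, hb, one_pow, one_mul]
    exact hfix _ h1 (hane j) _ (prod_pow_fixed φ h1 w)
  have h1 : ∏ i ∈ Finset.range s, ∏ j ∈ Finset.range s, φ ((a * b ^ j) ^ i) w = 1 := by
    rw [Finset.prod_comm]
    exact Finset.prod_eq_one fun j _ => hrow j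
  rw [Finset.prod_eq_single 0] at h1
  · simpa using h1
  · intro i hi hi0
    have e : ∀ j, φ ((a * b ^ j) ^ i) w = φ (a ^ i) (φ ((b ^ i) ^ j) w) := fun j => by
      rw [(hab.pow_right j).mul_pow, map_mul, MulAut.mul_apply, ← pow_mul, ← pow_mul, mul_comm i j]
    simp only [e, ← map_prod]
    have hbs : (b ^ i) ^ s = 1 := by rw [← pow_mul, mul_comm, pow_mul, hb, one_pow]
    rw [hfix _ hbs ?_ _ (prod_pow_fixed φ hbs w), map_one]
    intro e1
    haveI := Fact.mk hs
    have h2 := orderOf_dvd_of_pow_eq_one e1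
    rw [orderOf_eq_prime hb hb1] at h2
    exact Nat.not_dvd_of_pos_of_lt (Nat.pos_of_ne_zero hi0) (Finset.mem_range.1 hi) h2
  · intro h0
    exact absurd (Finset.mem_range.2 hs.pos) h0

/-- A simple non-solvable group cannot act on an abelian `t`-group with all elements of order prime to `t`
fixed-point-free, when `t` is not the smallest prime of the group. -/
theorem fpf_action_false {M W : Type*} [Group M] [Finite M] [IsSimpleGroup M] (hns : ¬ Group.IsSolvable M)
    [CommGroup W] [Finite W] [Nontrivial W] (φ : M →* MulAut W) {t : ℕ} [ht : Fact t.Prime] (hW : ∀ w : W, w ^ t = 1)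
    (hts : t ≠ (Nat.card M).minFac) (hfix : ∀ m : M, m ≠ 1 → ¬ t ∣ orderOf m → ∀ w, φ m w = w → w = 1) : False := by
  classical
  set s := (Nat.card M).minFac with hsdef
  haveI : Nontrivial M := IsSimpleGroup.toNontrivial
  have hs : s.Prime := Nat.minFac_prime (Finite.one_lt_card (α := M)).ne'
  haveI := Fact.mk hs
  obtain ⟨w0, hw0⟩ := exists_ne (1 : W)
  obtain ⟨σ, hσ⟩ := exists_prime_orderOf_dvd_card' (G := M) s (Nat.minFac_dvd _)
  have hσ1 : σ ≠ 1 := fun e => by rw [e, orderOf_one] at hσ; exact hs.ne_one hσ.symm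
  have hnd : ∀ g : M, g ^ s = 1 → g ≠ 1 → ¬ t ∣ orderOf g := fun g hg hg1 h => by
    rw [orderOf_eq_prime hg hg1] at h
    exact hts ((Nat.prime_dvd_prime_iff_eq ht.out hs).1 h)
  have hfix' : ∀ g : M, g ^ s = 1 → g ≠ 1 → ∀ w, φ g w = w → w = 1 := fun g hg hg1 => hfix g hg1 (hnd g hg hg1)
  have hσs : σ ^ s = 1 := by rw [← hσ, pow_orderOf_eq_one]
  have hinj : Function.Injective φ := by
    rw [← MonoidHom.ker_eq_bot_iff]
    refine (inferInstance : φ.ker.Normal).eq_bot_or_eq_top.resolve_right fun h => hw0 (hfix' σ hσs hσ1 w0 ?_)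
    rw [show φ σ = 1 from MonoidHom.mem_ker.1 (h ▸ Subgroup.mem_top σ), MulAut.one_apply]
  have hncomm : ¬ IsMulCommutative M := fun h => hns (Group.isSolvable_of_comm fun a b => h.is_comm.comm a b)
  by_cases hs2 : s = 2
  · -- involutions invert, hence are central
    have hinv : ∀ g : M, g ^ s = 1 → g ≠ 1 → ∀ w, φ g w = w⁻¹ := fun g hg hg1 w => by
      refine eq_inv_of_mul_eq_one_left (hfix' g hg hg1 _ ?_)
      rw [hs2, pow_two] at hg
      rw [map_mul, ← MulAut.mul_apply, ← map_mul, hg, map_one, MulAut.one_apply, mul_comm]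
    have hcen : σ ∈ Subgroup.center M := Subgroup.mem_center_iff.2 fun g => by
      have h : g * σ * g⁻¹ = σ := hinj (MulEquiv.ext fun w => by
        rw [hinv _ (by rw [conj_pow, hσs, mul_one, mul_inv_cancel]) (by simpa using hσ1), hinv σ hσs hσ1])
      exact mul_inv_eq_iff_eq_mul.1 h
    rcases (inferInstance : (Subgroup.center M).Normal).eq_bot_or_eq_top with h | h
    · exact hσ1 (Subgroup.mem_bot.1 (h ▸ hcen))
    · exact hncomm ⟨⟨fun x y => Subgroup.mem_center_iff.1 (h ▸ Subgroup.mem_top y) x⟩⟩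
  · -- cyclic Sylow subgroup for the smallest prime
    let P : Sylow s M := default
    have hcomm_mem : ∀ x y : (P : Subgroup M), orderOf x = s → orderOf y = s → Commute x y →
        x ∈ Subgroup.zpowers y := by
      intro x y hx hy hxy
      by_contra hne
      refine hw0 ?_
      have hys : ((y : M)) ^ s = 1 := by have := pow_orderOf_eq_one (y : M); rwa [Subgroup.orderOf_coe, hy] at this
      have hxs : ((x : M)) ^ s = 1 := by have := pow_orderOf_eq_one (x : M); rwa [Subgroup.orderOf_coe, hx] at this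
      have h1 := no_elementary φ hs (a := (x : M)) (b := (y : M)) (congrArg Subtype.val hxy.eq) hxs hys
        (fun j e => hne (by
          rw [show x = (y ^ j)⁻¹ from Subtype.ext (by
            rw [Subgroup.coe_inv, SubmonoidClass.coe_pow]; exact eq_inv_of_mul_eq_one_left e)]
          exact inv_mem (pow_mem (Subgroup.mem_zpowers y) j)))
        (fun e => by
          rw [show y = 1 from Subtype.ext e, orderOf_one] at hy; exact hs.ne_one hy.symm) hfix' w0
      have h2 := pow_gcd_eq_one.2 ⟨h1, hW w0⟩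
      rwa [Nat.Coprime.gcd_eq_one ((Nat.coprime_primes hs ht.out).2 hts.symm), pow_one] at h2
    haveI : Nontrivial (P : Subgroup M) := (Subgroup.nontrivial_iff_ne_bot _).2 fun e => by
      have := P.dvd_card_of_dvd_card (Nat.minFac_dvd (Nat.card M))
      rw [e, Subgroup.card_bot, Nat.dvd_one] at this
      exact hs.ne_one this
    obtain ⟨n, hn, hcard⟩ := (P.isPGroup'.to_subgroup (Subgroup.center _)).nontrivial_iff_card.1
      P.isPGroup'.center_nontrivial
    obtain ⟨z, hz⟩ := exists_prime_orderOf_dvd_card' (G := Subgroup.center (P : Subgroup M)) s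
      (hcard ▸ dvd_pow_self s hn.ne')
    rw [← Subgroup.orderOf_coe] at hz
    have hzy : ∀ y : (P : Subgroup M), orderOf y = s → Subgroup.zpowers y = Subgroup.zpowers (z : (P : Subgroup M)) :=
      fun y hy => Subgroup.eq_of_le_of_card_ge
        (Subgroup.zpowers_le.2 (hcomm_mem y z hy hz (Subgroup.mem_center_iff.1 z.2 y)))
        (by rw [Nat.card_zpowers, Nat.card_zpowers, hy, hz])
    rcases Cfsg.Lib.ZStar.isCyclic_or_inverted P.isPGroup' (fun x y hx hy => by
        rw [hzy x hx, ← hzy y hy]; exact Subgroup.mem_zpowers y) with hcyc | ⟨h, -⟩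
    swap
    · exact hs2 h
    haveI := hcyc
    have hNC := IsCyclic.normalizer_le_centralizer (P := P) (hsdef ▸ rfl) hcyc
    have hcompl := MonoidHom.ker_transferSylow_isComplement' P hNC
    rcases (inferInstance : (MonoidHom.transferSylow P hNC).ker.Normal).eq_bot_or_eq_top with h | h
    · rw [h] at hcompl
      refine hncomm ?_
      have htop := Subgroup.isComplement'_bot_left.1 hcompl
      haveI := hcyc
      exact ⟨⟨fun a b => congrArg Subtype.val (IsCyclic.isMulCommutative.is_comm.comm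
        (⟨a, htop ▸ Subgroup.mem_top a⟩ : (P : Subgroup M)) ⟨b, htop ▸ Subgroup.mem_top b⟩)⟩⟩
    · rw [h] at hcompl
      exact (Subgroup.nontrivial_iff_ne_bot (P : Subgroup M)).1 inferInstance
        (Subgroup.isComplement'_top_left.1 hcompl)

/-- The norm identity: `v ^ |R|` is fixed by `R`. -/
theorem norm_identity {M V : Type*} [Group M] [Finite M] [CommGroup V] (φ : M →* MulAut V) {p : ℕ}
    (hp : p.Prime) (R : Subgroup M) [R.Normal] {b : M}
    (hcomm : ∀ r ∈ R, ∀ i, 0 < i → i < p → Commute r (b ^ i) → r = 1)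
    (hnorm : ∀ c ∈ R, ∀ v : V, ∏ i ∈ Finset.range p, φ ((c * b * c⁻¹) ^ i) v = 1) (v : V) (r : M) (hr : r ∈ R) :
    φ r (v ^ Nat.card R) = v ^ Nat.card R := by
  classical
  haveI := Fintype.ofFinite R
  have htot : ∀ w : V, φ r (∏ c : R, φ (c : M) w) = ∏ c : R, φ (c : M) w := by
    intro w
    rw [map_prod]
    refine Fintype.prod_equiv (Equiv.mulLeft (⟨r, hr⟩ : R)) _ _ fun c => ?_
    show φ r (φ (c : M) w) = φ ((⟨r, hr⟩ : R) * c : R) w
    rw [Subgroup.coe_mul, map_mul, MulAut.mul_apply]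
  have h1 : ∏ i ∈ Finset.range p, ∏ c : R, φ (((c : M) * b * (c : M)⁻¹) ^ i) v = 1 := by
    rw [Finset.prod_comm]
    exact Finset.prod_eq_one fun c _ => hnorm c c.2 v
  have hterm : ∀ i ∈ Finset.range p, i ≠ 0 → φ r (∏ c : R, φ (((c : M) * b * (c : M)⁻¹) ^ i) v) =
      ∏ c : R, φ (((c : M) * b * (c : M)⁻¹) ^ i) v := by
    intro i hi hi0
    let f : R → R := fun c => ⟨(c : M) * (b ^ i * (c : M)⁻¹ * (b ^ i)⁻¹),
      mul_mem c.2 (Subgroup.Normal.conj_mem inferInstance _ (inv_mem c.2) _)⟩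
    have hf : Function.Bijective f := by
      refine Finite.injective_iff_bijective.1 fun c d e => ?_
      have e' : (c : M) * (b ^ i * (c : M)⁻¹ * (b ^ i)⁻¹) = d * (b ^ i * (d : M)⁻¹ * (b ^ i)⁻¹) :=
        congrArg Subtype.val e
      refine Subtype.ext (inv_mul_eq_one.1 (hcomm _ (mul_mem (inv_mem d.2) c.2) i (Nat.pos_of_ne_zero hi0)
        (Finset.mem_range.1 hi) ?_)).symm
      have e1 : (c : M) * b ^ i * (c : M)⁻¹ = d * b ^ i * (d : M)⁻¹ := by
        simpa [mul_assoc] using congrArg (· * b ^ i) e'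
      calc (d : M)⁻¹ * c * b ^ i = (d : M)⁻¹ * (c * b ^ i * (c : M)⁻¹) * c := by group
        _ = b ^ i * ((d : M)⁻¹ * c) := by rw [e1]; group
    have e : ∏ c : R, φ (((c : M) * b * (c : M)⁻¹) ^ i) v = ∏ c : R, φ (c : M) (φ (b ^ i) v) := by
      refine Fintype.prod_equiv (Equiv.ofBijective f hf) _ (fun c : R => φ (c : M) (φ (b ^ i) v)) fun c => ?_
      show φ (((c : M) * b * (c : M)⁻¹) ^ i) v = φ ((c : M) * (b ^ i * (c : M)⁻¹ * (b ^ i)⁻¹)) (φ (b ^ i) v)
      rw [← MulAut.mul_apply, ← map_mul, conj_pow]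
      congr 2
      group
    rw [e, htot]
  rw [← Finset.mul_prod_erase _ _ (Finset.mem_range.2 hp.pos)] at h1
  simp only [pow_zero, map_one, MulAut.one_apply, Finset.prod_const, Finset.card_univ,
    ← Nat.card_eq_fintype_card] at h1
  rw [eq_inv_of_mul_eq_one_left h1, map_inv, map_prod]
  congr 1
  exact Finset.prod_congr rfl fun i hi => hterm i (Finset.mem_of_mem_erase hi) (Finset.mem_erase.1 hi).1

variable {G : Type*} [Group G] [Finite G]

theorem dvd_orderOf_of_commute {N : Subgroup G} (h : ∀ x : G, x ∉ N → IsPrimePow (orderOf x)) {x w : G}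
    (hx : x ∉ N) (hw : w ∈ N) {t : ℕ} (ht : t.Prime) (hwo : orderOf w = t) (hc : Commute x w) : t ∣ orderOf x := by
  by_contra hnd
  have hcop : (orderOf x).Coprime (orderOf w) := hwo ▸ (ht.coprime_iff_not_dvd.2 hnd).symm
  have h1 := h (x * w) fun hm => hx ((Subgroup.mul_mem_cancel_right _ hw).1 hm)
  rw [hc.orderOf_mul_eq_mul_orderOf_of_coprime hcop, hwo] at h1
  obtain ⟨l, a, hl, ha, hla⟩ := h1
  have hlt : l = t := ((Nat.prime_dvd_prime_iff_eq ht hl.nat_prime).1
    (ht.dvd_of_dvd_pow (hla ▸ dvd_mul_left t (orderOf x)))).symm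
  obtain ⟨l', a', hl', ha', hla'⟩ := h x hx
  have : l' = l := (Nat.prime_dvd_prime_iff_eq hl'.nat_prime hl.nat_prime).1
    (hl'.nat_prime.dvd_of_dvd_pow (hla ▸ (hla' ▸ dvd_pow_self l' ha'.ne').mul_right t))
  exact hnd (hlt ▸ this ▸ hla' ▸ dvd_pow_self l' ha'.ne')

theorem eq_of_primePow {n p q : ℕ} (hn : IsPrimePow n) (hp : p.Prime) (hq : q.Prime) (hpn : p ∣ n) (hqn : q ∣ n) :
    p = q := by
  obtain ⟨l, a, hl, -, hla⟩ := hn
  rw [(Nat.prime_dvd_prime_iff_eq hp hl.nat_prime).1 (hp.dvd_of_dvd_pow (hla ▸ hpn)),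
    (Nat.prime_dvd_prime_iff_eq hq hl.nat_prime).1 (hq.dvd_of_dvd_pow (hla ▸ hqn))]

/-- The main contradiction. -/
theorem simple_quotient_false (N : Subgroup G) [N.Normal] [IsSimpleGroup (G ⧸ N)]
    (hns : ¬ Group.IsSolvable (G ⧸ N)) (h : ∀ x : G, x ∉ N → IsPrimePow (orderOf x))
    {r : ℕ} [hr : Fact r.Prime] (hrN : r ∣ Nat.card N) (hrs : r ≠ (Nat.card (G ⧸ N)).minFac) : False := by
  classical
  set π := QuotientGroup.mk' N with hπ
  haveI : Nontrivial (G ⧸ N) := IsSimpleGroup.toNontrivial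
  set s := (Nat.card (G ⧸ N)).minFac with hsdef
  have hs : s.Prime := Nat.minFac_prime (Finite.one_lt_card (α := G ⧸ N)).ne'
  haveI := Fact.mk hs
  let R : Sylow r N := default
  set Rg := (R : Subgroup N).map N.subtype with hRg
  set L := Subgroup.normalizer (Rg : Set G)
  have hLN : L ⊔ N = ⊤ := Sylow.normalizer_sup_eq_top R
  have hLmap : L.map π = ⊤ := by
    rw [← Subgroup.map_top_of_surjective π (QuotientGroup.mk'_surjective N), ← hLN, Subgroup.map_sup,
      (Subgroup.map_eq_bot_iff N).2 (QuotientGroup.ker_mk' N).ge, sup_bot_eq]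
  obtain ⟨X, hX⟩ := (Set.toFinite {X : Subgroup G | X ≤ L ∧ X.map π = ⊤}).exists_minimal ⟨L, le_rfl, hLmap⟩
  obtain ⟨⟨hXL, hXmap⟩, hXmin⟩ := hX
  set ρ : ↥X →* G ⧸ N := π.comp X.subtype with hρ
  have hρsurj : Function.Surjective ρ := fun y => by
    obtain ⟨x, hx, hxy⟩ := (hXmap ▸ Subgroup.mem_top y : y ∈ X.map π)
    exact ⟨⟨x, hx⟩, hxy⟩
  have hρker : ∀ x : ↥X, ρ x = 1 ↔ (x : G) ∈ N := fun x => QuotientGroup.eq_one_iff _
  set K := ρ.ker with hK
  have hout : ∀ x : ↥X, ρ x ≠ 1 → IsPrimePow (orderOf x) := fun x hx => by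
    rw [← Subgroup.orderOf_coe]; exact h _ fun hm => hx ((hρker x).2 hm)
  -- `K` is nilpotent
  have hnorm : ∀ (q : ℕ) [Fact q.Prime] (T : Sylow q K), ((T : Subgroup K).map K.subtype).Normal := by
    intro q _ T
    set Y := Subgroup.normalizer (((T : Subgroup K).map K.subtype : Subgroup ↥X) : Set ↥X)
    have hY : Y ⊔ K = ⊤ := Sylow.normalizer_sup_eq_top T
    have hmap : (Y.map X.subtype).map π = ⊤ := by
      rw [Subgroup.map_map, ← hρ, ← Subgroup.map_top_of_surjective ρ hρsurj, ← hY, Subgroup.map_sup,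
        (Subgroup.map_eq_bot_iff K).2 le_rfl, sup_bot_eq]
    have hXY : X ≤ Y.map X.subtype := hXmin ⟨(Subgroup.map_subtype_le Y).trans hXL, hmap⟩ (Subgroup.map_subtype_le Y)
    refine Subgroup.normalizer_eq_top_iff.1 (top_le_iff.1 fun y _ => ?_)
    obtain ⟨y', hy', hyy⟩ := hXY y.2
    rwa [show y = y' from Subtype.ext hyy.symm]
  have hKn : Group.IsNilpotent K := by
    refine ((Group.isNilpotent_of_finite_tfae (G := K)).out 3 0 :).1 fun q hq T => ?_
    haveI := hq
    haveI := hnorm q T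
    rw [← Subgroup.comap_map_eq_self_of_injective K.subtype_injective (T : Subgroup K)]
    infer_instance
  haveI := hKn
  -- `K` is an `s`-group
  have hKs : ∀ q : ℕ, q.Prime → q ∣ Nat.card K → q = s := by
    intro q hq hqK
    by_contra hqs
    haveI := Fact.mk hq
    let T : Sylow q K := default
    set Tx := (T : Subgroup K).map K.subtype
    haveI hTn := hnorm q T
    have hTp : IsPGroup q Tx := T.isPGroup'.map _
    set Z := Tx ⊓ Subgroup.centralizer (Tx : Set ↥X)
    haveI : Nontrivial Tx := (Subgroup.nontrivial_iff_ne_bot _).2 fun e => by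
      have h1 := T.dvd_card_of_dvd_card hqK
      rw [← Subgroup.card_map_of_injective (f := K.subtype) K.subtype_injective] at h1
      change q ∣ Nat.card Tx at h1
      rw [e, Subgroup.card_bot, Nat.dvd_one] at h1
      exact hq.ne_one h1
    have hZ : Z ≠ ⊥ := by
      intro hZb
      obtain ⟨⟨z, hz⟩, hz1⟩ := @exists_ne _ hTp.center_nontrivial 1
      refine hz1 (Subtype.ext (Subtype.ext (Subgroup.mem_bot.1 (hZb ▸ (⟨z.2, Subgroup.mem_centralizer_iff.2
        fun d hd => congrArg Subtype.val (Subgroup.mem_center_iff.1 hz ⟨d, hd⟩)⟩ : (z : ↥X) ∈ Z)))))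
    haveI : (Subgroup.centralizer (Tx : Set ↥X)).Normal := Subgroup.normal_centralizer
    obtain ⟨W, hWn, hWZ, hW1, hWmin⟩ := exists_minimal_normal_le hZ
    haveI := hWn
    have hWs : Group.IsSolvable W := by
      haveI := (hTp.to_le (hWZ.trans inf_le_left)).isNilpotent
      infer_instance
    obtain ⟨hWc, l, hl, -, hWexp⟩ := minimal_normal_elementary hW1 hWs hWmin
    obtain ⟨w, hw, hw1⟩ := (Subgroup.bot_or_exists_ne_one W).resolve_left hW1
    haveI := Fact.mk hl
    have hlq : l = q := by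
      obtain ⟨k, hk⟩ := IsPGroup.iff_orderOf.1 hTp ⟨w, (hWZ hw).1⟩
      rw [Subgroup.orderOf_mk, orderOf_eq_prime (hWexp w hw) hw1] at hk
      exact (Nat.prime_dvd_prime_iff_eq hl hq).1 (hl.dvd_of_dvd_pow (dvd_of_eq hk))
    subst hlq
    letI : CommGroup W := { (inferInstance : Group W) with mul_comm := fun a b => hWc.is_comm.comm a b }
    haveI : Nontrivial W := ⟨⟨w, hw⟩, 1, fun e => hw1 (congrArg Subtype.val e)⟩
    let ψ := (conjHom (N := (⊤ : Subgroup ↥X)) (V := W) fun g _ v hv => hWn.conj_mem v hv g).comp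
      Subgroup.topEquiv.symm.toMonoidHom
    have hψ : ∀ (x : ↥X) (v : W), ((ψ x v : W) : ↥X) = x * v * x⁻¹ := fun x v => rfl
    have hKψ : K ≤ ψ.ker := by
      have hall : ∀ k : K, ∀ v ∈ W, (k : ↥X) * v = v * k := by
        intro k
        suffices hc : k ∈ (Subgroup.centralizer (W : Set ↥X)).comap K.subtype from
          fun v hv => (Subgroup.mem_centralizer_iff.1 hc v hv).symm
        rw [eq_top_of_forall_sylow_le (H := (Subgroup.centralizer (W : Set ↥X)).comap K.subtype) ?_]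
        · exact Subgroup.mem_top k
        intro m hm _
        haveI := Fact.mk hm
        let S : Sylow m K := default
        refine ⟨S, fun y hy => ?_⟩
        refine Subgroup.mem_centralizer_iff.2 fun v hv => ?_
        by_cases hml : m = l
        · subst hml
          haveI : (T : Subgroup K).Normal :=
            ((Group.isNilpotent_of_finite_tfae (G := K)).out 0 3 :).1 hKn m inferInstance T
          have hST : (S : Subgroup K) ≤ T := by
            have := Sylow.unique_of_normal T inferInstance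
            rw [Subsingleton.elim S T]
          exact (Subgroup.mem_centralizer_iff.1 (hWZ hv).2 _ ⟨y, hST hy, rfl⟩).symm
        · obtain ⟨v', hv', hvv⟩ := (hWZ hv).1
          obtain ⟨j, hj⟩ := IsPGroup.iff_orderOf.1 S.isPGroup' ⟨y, hy⟩
          rw [Subgroup.orderOf_mk] at hj
          by_cases hv1 : v = 1
          · subst hv1; simp
          have hvo : orderOf v' = l ^ 1 := by
            rw [pow_one, ← Subgroup.orderOf_coe]
            exact (congrArg orderOf hvv).trans (orderOf_eq_prime (hWexp v hv) hv1)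
          have hc := commute_of_nilpotent (G := K) hl hm (Ne.symm hml) hvo hj
          rw [← hvv]
          exact congrArg Subtype.val hc.eq
      intro k hk
      refine MonoidHom.mem_ker.2 (MulEquiv.ext fun v => Subtype.ext ?_)
      rw [hψ, hall ⟨k, hk⟩ v v.2, mul_inv_cancel_right]
      rfl
    let φ := ρ.liftOfSurjective hρsurj ⟨ψ, hKψ⟩
    refine fpf_action_false hns φ (t := l) (fun v => Subtype.ext (hWexp v v.2)) hqs fun m hm hmt v hv => ?_
    obtain ⟨x, rfl⟩ := hρsurj m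
    by_contra hv1
    refine hmt ?_
    have hv' : φ (ρ x) = ψ x := MonoidHom.liftOfRightInverse_comp_apply _ _ _ _ _
    rw [hv'] at hv
    have hc : Commute x (v : ↥X) := mul_inv_eq_iff_eq_mul.1 ((hψ x v).symm.trans (congrArg Subtype.val hv))
    have hvN : ((v : ↥X) : G) ∈ N := (hρker _).1 (by
      obtain ⟨v', -, hvv⟩ := (hWZ v.2).1
      rw [← hvv]; exact v'.2)
    have hd := dvd_orderOf_of_commute h (fun hh => hm ((hρker x).2 hh)) hvN hl (by
      rw [Subgroup.orderOf_coe]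
      exact orderOf_eq_prime (hWexp v v.2) fun e => hv1 (Subtype.ext e)) (hc.map X.subtype)
    rw [Subgroup.orderOf_coe] at hd
    obtain ⟨l', a, hl', ha, hla⟩ := hout x hm
    have h1 : orderOf (ρ x) ∣ l' ^ a := hla ▸ orderOf_map_dvd ρ x
    obtain ⟨i, -, hi⟩ := (Nat.dvd_prime_pow hl'.nat_prime).1 h1
    have hi0 : i ≠ 0 := by rintro rfl; exact hm (orderOf_eq_one_iff.1 (by simpa using hi))
    rw [(Nat.prime_dvd_prime_iff_eq hl hl'.nat_prime).1 (hl.dvd_of_dvd_pow (hla ▸ hd)), hi]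
    exact dvd_pow_self _ hi0
  have hKsp : IsPGroup s K := IsPGroup.of_card (n := (Nat.card K).primeFactorsList.length)
    (Nat.eq_prime_pow_of_unique_prime_dvd Nat.card_pos.ne' fun {q} hq hqK => hKs q hq hqK)
  -- the module `V`
  have hRp : IsPGroup r Rg := R.isPGroup'.map _
  haveI : Nontrivial Rg := (Subgroup.nontrivial_iff_ne_bot _).2 fun e => by
    have h1 := R.dvd_card_of_dvd_card hrN
    rw [← Subgroup.card_map_of_injective (f := N.subtype) N.subtype_injective] at h1
    change r ∣ Nat.card Rg at h1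
    rw [e, Subgroup.card_bot, Nat.dvd_one] at h1
    exact hr.out.ne_one h1
  let V : Subgroup G :=
    { carrier := {v | v ∈ Rg ∧ v ∈ Subgroup.centralizer (Rg : Set G) ∧ v ^ r = 1}
      one_mem' := ⟨one_mem _, one_mem _, one_pow r⟩
      mul_mem' := fun {a b} ha hb => ⟨mul_mem ha.1 hb.1, mul_mem ha.2.1 hb.2.1, by
        rw [Commute.mul_pow (Subgroup.mem_centralizer_iff.1 hb.2.1 a ha.1 : a * b = b * a), ha.2.2, hb.2.2, one_mul]⟩
      inv_mem' := fun {a} ha => ⟨inv_mem ha.1, inv_mem ha.2.1, by rw [inv_pow, ha.2.2, inv_one]⟩ }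
  have hVnorm : ∀ g ∈ X, ∀ v ∈ V, g * v * g⁻¹ ∈ V := by
    intro g hg v hv
    have hgL := hXL hg
    refine ⟨(Subgroup.mem_normalizer_iff.1 hgL v).1 hv.1, Subgroup.mem_centralizer_iff.2 fun d hd => ?_,
      by rw [conj_pow, hv.2.2, mul_one, mul_inv_cancel]⟩
    have h1 : g⁻¹ * d * g ∈ Rg := by simpa using (Subgroup.mem_normalizer_iff.1 (inv_mem hgL) d).1 hd
    calc d * (g * v * g⁻¹) = g * ((g⁻¹ * d * g) * v) * g⁻¹ := by group
      _ = g * (v * (g⁻¹ * d * g)) * g⁻¹ := by rw [Subgroup.mem_centralizer_iff.1 hv.2.1 _ h1]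
      _ = (g * v * g⁻¹) * d := by group
  obtain ⟨v0, hv0, hv01⟩ : ∃ v ∈ V, v ≠ 1 := by
    obtain ⟨n, hn, hcard⟩ := (hRp.to_subgroup (Subgroup.center _)).nontrivial_iff_card.1 hRp.center_nontrivial
    obtain ⟨z, hz⟩ := exists_prime_orderOf_dvd_card' (G := Subgroup.center Rg) r (hcard ▸ dvd_pow_self r hn.ne')
    refine ⟨((z : Rg) : G), ⟨z.1.2, Subgroup.mem_centralizer_iff.2 fun d hd =>
      congrArg Subtype.val (Subgroup.mem_center_iff.1 z.2 ⟨d, hd⟩), ?_⟩, fun e => ?_⟩
    · rw [← hz, ← Subgroup.orderOf_coe z, ← Subgroup.orderOf_coe (z : Rg), pow_orderOf_eq_one]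
    · rw [show z = 1 from Subtype.ext (Subtype.ext e), orderOf_one] at hz
      exact hr.out.ne_one hz.symm
  letI : CommGroup V := { (inferInstance : Group V) with
    mul_comm := fun v w => Subtype.ext (Subgroup.mem_centralizer_iff.1 w.2.2.1 _ v.2.1) }
  haveI : Nontrivial V := ⟨⟨v0, hv0⟩, 1, fun e => hv01 (congrArg Subtype.val e)⟩
  let ψ : ↥X →* MulAut V := conjHom hVnorm
  have hψ : ∀ (x : ↥X) (v : V), ((ψ x v : V) : G) = x * v * (x : G)⁻¹ := fun x v => rfl
  have hfixX : ∀ x : ↥X, ρ x ≠ 1 → ¬ r ∣ orderOf x → ∀ v, ψ x v = v → v = 1 := by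
    intro x hx hxr v hv
    by_contra hv1
    refine hxr ?_
    have hc : Commute (x : G) (v : G) := mul_inv_eq_iff_eq_mul.1 ((hψ x v).symm.trans (congrArg Subtype.val hv))
    rw [← Subgroup.orderOf_coe]
    refine dvd_orderOf_of_commute h (fun hh => hx ((hρker x).2 hh)) (Subgroup.map_subtype_le _ v.2.1) hr.out
      (orderOf_eq_prime v.2.2.2 fun e => hv1 (Subtype.ext e)) hc
  have hord : ∀ x : ↥X, ρ x ≠ 1 → ∀ q : ℕ, q.Prime → q ∣ orderOf x → q ∣ orderOf (ρ x) := by
    intro x hx q hq hqx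
    obtain ⟨l', a, hl', ha, hla⟩ := hout x hx
    obtain ⟨i, -, hi⟩ := (Nat.dvd_prime_pow hl'.nat_prime).1 (hla ▸ orderOf_map_dvd ρ x)
    have hi0 : i ≠ 0 := by rintro rfl; exact hx (orderOf_eq_one_iff.1 (by simpa using hi))
    rw [(Nat.prime_dvd_prime_iff_eq hq hl'.nat_prime).1 (hq.dvd_of_dvd_pow (hla ▸ hqx)), hi]
    exact dvd_pow_self _ hi0
  by_cases hKV : K ≤ ψ.ker
  · let φ := ρ.liftOfSurjective hρsurj ⟨ψ, hKV⟩
    refine fpf_action_false hns φ (t := r) (fun v => Subtype.ext v.2.2.2) hrs fun m hm hmt v hv => ?_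
    obtain ⟨x, rfl⟩ := hρsurj m
    have hv' : φ (ρ x) = ψ x := MonoidHom.liftOfRightInverse_comp_apply _ _ _ _ _
    rw [hv'] at hv
    exact hfixX x hm (fun hh => hmt (hord x hm r hr.out hh)) v hv
  -- `K` acts as a nontrivial `s`-group
  set Y := ψ.range
  set θ : ↥X →* Y := ψ.rangeRestrict
  have hθs : Function.Surjective θ := ψ.rangeRestrict_surjective
  set Kb := K.map θ
  haveI : Kb.Normal := (inferInstance : K.Normal).map θ hθs
  have hKb : Kb ≠ ⊥ := fun e => hKV fun k hk => by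
    have := (Subgroup.map_eq_bot_iff K).1 e hk
    exact MonoidHom.mem_ker.2 (congrArg Subtype.val (MonoidHom.mem_ker.1 this))
  obtain ⟨E, hEn, hEK, hE1, hEmin⟩ := exists_minimal_normal_le hKb
  haveI := hEn
  have hEp : IsPGroup s E := (hKsp.map θ).to_le hEK
  obtain ⟨p, hp, hpd, hpr, hps⟩ := three_primes hns r s
  haveI := Fact.mk hp
  obtain ⟨m, hm⟩ := exists_prime_orderOf_dvd_card' (G := G ⧸ N) p hpd
  obtain ⟨x, rfl⟩ := hρsurj m
  have hx1 : ρ x ≠ 1 := fun e => by rw [e, orderOf_one] at hm; exact hp.ne_one hm.symm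
  have hpx : p ∣ orderOf x := hm ▸ orderOf_map_dvd ρ x
  have hxp : x ^ p = 1 := by
    have hk : x ^ p ∈ K := by rw [hK, MonoidHom.mem_ker, map_pow, ← hm, pow_orderOf_eq_one]
    obtain ⟨i, hi⟩ := IsPGroup.iff_orderOf.1 hKsp ⟨_, hk⟩
    rw [Subgroup.orderOf_mk] at hi
    by_contra hne
    have hi0 : i ≠ 0 := by rintro rfl; exact hne (orderOf_eq_one_iff.1 (by simpa using hi))
    refine hps (eq_of_primePow (hout x hx1) hp hs hpx ?_)
    exact (dvd_pow_self s hi0).trans (hi ▸ orderOf_pow_dvd p)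
  set b := θ x
  have hbp : b ^ p = 1 := by rw [← map_pow, hxp, map_one]
  have hnormb : ∀ c ∈ E, ∀ v : V, ∏ i ∈ Finset.range p, (Y.subtype) ((c * b * c⁻¹) ^ i) v = 1 := by
    intro c _ v
    obtain ⟨xc, hxc⟩ := hθs c
    set y := xc * x * xc⁻¹
    have hy : θ y = c * b * c⁻¹ := by rw [map_mul, map_mul, map_inv, hxc]
    have hyo : orderOf y = orderOf x := (SemiconjBy.orderOf_eq xc (by simp [SemiconjBy, y, mul_assoc])).symm
    have hy1 : ρ y ≠ 1 := by simpa [y] using hx1
    have hyr : ¬ r ∣ orderOf y := fun hh => hpr (eq_of_primePow (hout x hx1) hp hr.out hpx (hyo ▸ hh))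
    have hyp : y ^ p = 1 := by rw [conj_pow, hxp, mul_one, mul_inv_cancel]
    have e : ∀ i, (Y.subtype) ((c * b * c⁻¹) ^ i) v = ψ (y ^ i) v := fun i => by
      rw [← hy, ← map_pow]; rfl
    simp only [e]
    exact hfixX y hy1 hyr _ (prod_pow_fixed ψ hyp v)
  have hcommE : ∀ c ∈ E, ∀ i, 0 < i → i < p → Commute c (b ^ i) → c = 1 := by
    intro c hc i hi hip hcm
    by_contra hc1
    obtain ⟨k, hk, hkc⟩ := hEK hc
    set z := k * x ^ i
    have hz1 : ρ z ≠ 1 := by
      rw [map_mul, MonoidHom.mem_ker.1 hk, one_mul, map_pow]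
      intro e
      exact Nat.not_dvd_of_pos_of_lt hi hip (hm ▸ orderOf_dvd_of_pow_eq_one e)
    have hbi : b ^ i ≠ 1 := by
      intro e
      have hz : x ^ i ∈ ψ.ker := MonoidHom.mem_ker.2 (congrArg Subtype.val (show θ (x ^ i) = 1 by rw [map_pow, e]))
      have hxi : ρ (x ^ i) ≠ 1 := fun e => hz1 (by rw [map_mul, MonoidHom.mem_ker.1 hk, one_mul, e])
      have hxio : ¬ r ∣ orderOf (x ^ i) := fun hh => hpr (eq_of_primePow (hout x hx1) hp hr.out hpx
        (hh.trans (orderOf_pow_dvd i)))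
      have := hfixX (x ^ i) hxi hxio ⟨v0, hv0⟩ (by rw [MonoidHom.mem_ker.1 hz, MulAut.one_apply])
      exact hv01 (congrArg Subtype.val this)
    have hbo : orderOf (b ^ i) = p := orderOf_eq_prime (by rw [← pow_mul, mul_comm, pow_mul, hbp, one_pow]) hbi
    obtain ⟨j, hj⟩ := IsPGroup.iff_orderOf.1 hEp ⟨c, hc⟩
    rw [Subgroup.orderOf_mk] at hj
    have hj0 : j ≠ 0 := by rintro rfl; exact hc1 (orderOf_eq_one_iff.1 (by simpa using hj))
    have ho : orderOf (θ z) = s ^ j * p := by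
      rw [map_mul, hkc, map_pow, hcm.orderOf_mul_eq_mul_orderOf_of_coprime (by
        rw [hj, hbo]; exact ((Nat.coprime_primes hs hp).2 hps.symm).pow_left j), hj, hbo]
    exact hps (eq_of_primePow (hout z hz1) hp hs
      ((ho ▸ dvd_mul_left p _ : p ∣ orderOf (θ z)).trans (orderOf_map_dvd θ z))
      ((ho ▸ (dvd_pow_self s hj0).mul_right p : s ∣ orderOf (θ z)).trans (orderOf_map_dvd θ z)))
  have hfixE : ∀ c ∈ E, ∀ v : V, (Y.subtype) c v = v := by
    intro c hc v
    have h1 := norm_identity Y.subtype hp E hcommE hnormb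
    obtain ⟨e, he⟩ := IsPGroup.iff_card.1 hEp
    have hcop : (Nat.card E).Coprime r := by rw [he]; exact ((Nat.coprime_primes hs hr.out).2 hrs.symm).pow_left e
    obtain ⟨a, ha⟩ := exists_pow_eq_self_of_coprime (x := v) (n := Nat.card E)
      (hcop.coprime_dvd_right (orderOf_dvd_of_pow_eq_one (Subtype.ext v.2.2.2)))
    rw [← ha, ← pow_mul, mul_comm, pow_mul]
    exact h1 (v ^ a) c hc
  refine hE1 (eq_bot_iff.2 fun c hc => Subgroup.mem_bot.2 (Subtype.ext (MulEquiv.ext fun v => ?_)))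
  exact hfixE c hc v

end Cfsg.Lib.Solv.PrimePowerOutside
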