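import Mathlib
import Cfsg.Prelude.Def_LocalEven
import Cfsg.Agent.Lib.PStable.Stable

/-!
# A `Qd(p)` section puts `SL(2, p)` into a `p`-local subgroup
-/

set_option autoImplicit false

namespace Cfsg.Lib.Solv

open Cfsg.Lib.PStable

universe u

/-- The linear part of `Qd(p)`. -/
noncomputable def qdLinear (p : ℕ) [Fact p.Prime] :
    ↥(Cfsg.qd p) →* Matrix.SpecialLinearGroup (Fin 2) (ZMod p) :=
  MonoidHom.mk' (fun M => (exists_aff M.2).choose) fun M M' => by
    obtain ⟨c, hc⟩ := (exists_aff M.2).choose_spec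
    obtain ⟨c', hc'⟩ := (exists_aff M'.2).choose_spec
    obtain ⟨d, hd⟩ := (exists_aff (M * M').2).choose_spec
    have h := hd.trans (Subgroup.coe_mul (Cfsg.qd p) M M')
    rw [← hc, ← hc', ← aff_mul] at h
    exact (aff_inj h).1

theorem qdLinear_aff (p : ℕ) [Fact p.Prime] (m : Matrix.SpecialLinearGroup (Fin 2) (ZMod p))
    (c : Fin 2 → ZMod p) : qdLinear p ⟨aff m c, aff_mem m c⟩ = m := by
  obtain ⟨d, hd⟩ := (exists_aff (aff_mem m c)).choose_spec
  exact (aff_inj hd).1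

/-- If `Qd(p)` is involved in `G`, then `SL(2, p)` is involved in a `p`-local subgroup of `G`. -/
theorem exists_local_sl2_of_qd {G : Type u} [Group G] [Finite G] {p : ℕ} [Fact p.Prime]
    (h : Cfsg.Involves ↥(Cfsg.qd p) G) :
    ∃ Q : Subgroup G, IsPGroup p Q ∧ Q ≠ ⊥ ∧
      Cfsg.Involves (Matrix.SpecialLinearGroup (Fin 2) (ZMod p))
        ↥(Subgroup.normalizer (Q : Set G)) := by
  obtain ⟨K, R, hn, ⟨e⟩⟩ := h
  let f : ↥K →* ↥(Cfsg.qd p) := e.toMonoidHom.comp (QuotientGroup.mk' (R.subgroupOf K))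
  have hf : Function.Surjective f := e.surjective.comp (QuotientGroup.mk'_surjective _)
  set Tr : Subgroup ↥(Cfsg.qd p) := transl (MulEquiv.refl _) with hTr
  have : Tr.Normal := transl_normal _
  set T := Tr.comap f with hT
  have : T.Normal := Subgroup.Normal.comap inferInstance f
  have hpT : p ∣ Nat.card T := by
    let τ : ↥(Cfsg.qd p) := ⟨aff 1 ![1, 0], aff_mem _ _⟩
    have hτ : τ ∈ Tr := ⟨![1, 0], rfl⟩
    have hτ1 : τ ≠ 1 := fun h => by
      have h1 := congrArg Subtype.val h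
      rw [Subgroup.coe_one, ← aff_one_zero] at h1
      have h2 := congrFun (aff_inj h1).2 0
      simp at h2
    obtain ⟨k, hk⟩ := IsPGroup.iff_card.1 (isPGroup_transl (p := p) (MulEquiv.refl ↥(Cfsg.qd p)))
    have hk0 : k ≠ 0 := by
      rintro rfl
      rw [pow_zero, Subgroup.card_eq_one] at hk
      exact hτ1 (Subgroup.mem_bot.1 (hk ▸ hτ))
    have h1 : Nat.card Tr ∣ Nat.card T := by
      have : Tr = T.map f := (Subgroup.map_comap_eq_self_of_surjective hf Tr).symm
      rw [this]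
      exact Subgroup.card_map_dvd T f
    exact ((dvd_pow_self p hk0).trans (hk ▸ dvd_refl _)).trans h1
  obtain Q₀ : Sylow p T := default
  set Q₁ := (Q₀ : Subgroup T).map T.subtype with hQ₁
  set N := Subgroup.normalizer (Q₁ : Set K) with hN
  have hfr : N ⊔ T = ⊤ := Sylow.normalizer_sup_eq_top Q₀
  set Q := Q₁.map K.subtype with hQ
  refine ⟨Q, (Q₀.isPGroup'.map _).map _, ?_, ?_⟩
  · rw [hQ, ne_eq, Subgroup.map_eq_bot_iff_of_injective _ K.subtype_injective, hQ₁,
      Subgroup.map_eq_bot_iff_of_injective _ T.subtype_injective]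
    exact Sylow.ne_bot_of_dvd_card Q₀ hpT
  have hmem : ∀ n : N, ((n : K) : G) ∈ Subgroup.normalizer (Q : Set G) := by
    intro n
    rw [Subgroup.mem_normalizer_iff]
    intro x
    constructor
    · rintro ⟨y, hy, rfl⟩
      exact ⟨(n : K) * y * (n : K)⁻¹, (Subgroup.mem_normalizer_iff.1 n.2 y).1 hy, rfl⟩
    · rintro ⟨y, hy, e1⟩
      refine ⟨(n : K)⁻¹ * y * (n : K), (Subgroup.mem_normalizer_iff''.1 n.2 y).1 hy, ?_⟩
      show ((n : K) : G)⁻¹ * (y : G) * ((n : K) : G) = x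
      rw [show (y : G) = (n : K) * x * ((n : K) : G)⁻¹ from e1]
      group
  let i : ↥N →* ↥(Subgroup.normalizer (Q : Set G)) :=
    (K.subtype.comp N.subtype).codRestrict _ hmem
  have hi : Function.Injective i := fun a b hab =>
    Subtype.ext (Subtype.ext (congrArg (fun x : ↥(Subgroup.normalizer (Q : Set G)) => (x : G)) hab))
  let f' : ↥N →* Matrix.SpecialLinearGroup (Fin 2) (ZMod p) := ((qdLinear p).comp f).comp N.subtype
  have hker : ∀ t ∈ T, qdLinear p (f t) = 1 := by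
    rintro t ⟨c, hc⟩
    have : f t = ⟨aff 1 c, aff_mem 1 c⟩ := Subtype.ext hc
    rw [this, qdLinear_aff]
  have hf' : Function.Surjective f' := by
    intro m
    obtain ⟨k, hk⟩ := hf ⟨aff m 0, aff_mem m 0⟩
    have hkm : k ∈ ((N ⊔ T : Subgroup K) : Set K) := by rw [hfr]; trivial
    rw [Subgroup.mul_normal, Set.mem_mul] at hkm
    obtain ⟨n, hn, t, ht, rfl⟩ := hkm
    refine ⟨⟨n, hn⟩, ?_⟩
    show qdLinear p (f n) = m
    rw [← qdLinear_aff p m 0, ← hk, map_mul, map_mul, hker t ht, mul_one]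
  obtain ⟨R', hR', e'⟩ := section_of_hom i hi f' hf'
  exact ⟨_, R', hR', e'⟩

end Cfsg.Lib.Solv
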