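import Mathlib

/-!
Groups all of whose non-abelian subgroups are self-normalizing.
-/

set_option autoImplicit false

namespace Cfsg.Lib.Solv

universe u

variable {G : Type u} [Group G]

/-- Every non-abelian subgroup is self-normalizing. -/
def SelfNormNA (G : Type u) [Group G] : Prop :=
  ∀ H : Subgroup G, ¬ IsMulCommutative H → Subgroup.normalizer (H : Set G) = H

theorem commute_of_isMulCommutative {H : Subgroup G} [IsMulCommutative H] {x y : G} (hx : x ∈ H)
    (hy : y ∈ H) : x * y = y * x :=
  congrArg Subtype.val (mul_comm' (⟨x, hx⟩ : H) ⟨y, hy⟩)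

theorem SelfNormNA.subgroup (hS : SelfNormNA G) (M : Subgroup G) : SelfNormNA ↥M := by
  intro H hH
  refine le_antisymm ?_ Subgroup.le_normalizer
  intro m hm
  have hH' : ¬ IsMulCommutative ↥(H.map M.subtype) := by
    intro hc
    refine hH ⟨⟨fun a b => ?_⟩⟩
    apply Subtype.ext
    apply Subtype.ext
    exact commute_of_isMulCommutative (H := H.map M.subtype) ⟨_, a.2, rfl⟩ ⟨_, b.2, rfl⟩
  have hm' : (m : G) ∈ Subgroup.normalizer ((H.map M.subtype : Subgroup G) : Set G) := by
    rw [Subgroup.mem_normalizer_iff]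
    intro y
    constructor
    · rintro ⟨z, hz, rfl⟩
      exact ⟨m * z * m⁻¹, (Subgroup.mem_normalizer_iff.1 hm z).1 hz, rfl⟩
    · rintro ⟨z, hz, hzy⟩
      refine ⟨m⁻¹ * z * m, ?_, ?_⟩
      · refine (Subgroup.mem_normalizer_iff.1 hm _).2 ?_
        rwa [show m * (m⁻¹ * z * m) * m⁻¹ = z by group]
      · show (m : G)⁻¹ * M.subtype z * m = y
        rw [hzy]
        group
  rw [hS _ hH'] at hm'
  obtain ⟨z, hz, hzm⟩ := hm'
  rwa [← M.subtype_injective hzm]

theorem SelfNormNA.abelian_normal (hS : SelfNormNA G) (N : Subgroup G) [hN : N.Normal] (hne : N ≠ ⊤) :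
    IsMulCommutative N := by
  by_contra h
  have := hS N h
  rw [Subgroup.normalizer_eq_top] at this
  exact hne this.symm

theorem SelfNormNA.exists_abelian_prime_index [Finite G] (hS : SelfNormNA G)
    (hsol : Group.IsSolvable G) [Nontrivial G] :
    ∃ (K : Subgroup G) (q : ℕ), K.Normal ∧ q.Prime ∧ IsMulCommutative K ∧ K.index = q := by
  have hlt : commutator G < ⊤ := Group.IsSolvable.commutator_lt_top_of_nontrivial G
  obtain ⟨K, hKM, hle⟩ := (eq_top_or_exists_le_coatom (commutator G)).resolve_left hlt.ne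
  haveI hKn : K.Normal := ⟨fun n hn g => by
    rw [show g * n * g⁻¹ = g * n * g⁻¹ * n⁻¹ * n by group]
    exact K.mul_mem (hle (Subgroup.commutator_mem_commutator (Subgroup.mem_top g) (Subgroup.mem_top n))) hn⟩
  haveI : IsMulCommutative (G ⧸ K) := Subgroup.Normal.quotient_commutative_iff_commutator_le.2 hle
  haveI : Nontrivial (G ⧸ K) := QuotientGroup.nontrivial_iff.2 hKM.1
  haveI : IsSimpleGroup (G ⧸ K) := by
    refine ⟨fun N hN => ?_⟩
    have hc : K ≤ N.comap (QuotientGroup.mk' K) := fun x hx => by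
      rw [Subgroup.mem_comap, QuotientGroup.mk'_apply, (QuotientGroup.eq_one_iff x).2 hx]
      exact one_mem _
    rcases hKM.le_iff.1 hc with h | h
    · exact Or.inr (by
        rw [← Subgroup.map_comap_eq_self_of_surjective (QuotientGroup.mk'_surjective K) N, h,
          Subgroup.map_top_of_surjective _ (QuotientGroup.mk'_surjective K)])
    · exact Or.inl (by
        rw [← Subgroup.map_comap_eq_self_of_surjective (QuotientGroup.mk'_surjective K) N, h,
          Subgroup.map_eq_bot_iff, QuotientGroup.ker_mk'])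
  letI : CommGroup (G ⧸ K) := { (inferInstance : Group (G ⧸ K)) with mul_comm := mul_comm' }
  refine ⟨K, Nat.card (G ⧸ K), hKn, IsSimpleGroup.prime_card (α := G ⧸ K),
    hS.abelian_normal K hKM.1, Subgroup.index_eq_card K⟩

end Cfsg.Lib.Solv
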