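import Cfsg.Agent.Lib.Solv.Supersolvable
import Cfsg.Agent.Lib.Solv.Coprime2
import Cfsg.Agent.Lib.Solv.Frattini
import Cfsg.Agent.Lib.Transfer.PGroupNormal

/-!
Criteria for supersolvability: order `2 p ^ n`, subgroups of every order, Huppert's theorem;
conjugacy of supersolvable Hall subgroups.
-/

set_option autoImplicit false

namespace Cfsg.Lib.Solv

open Subgroup
open scoped Pointwise commutatorElement

universe u

variable {G : Type*} [Group G]

/-- A supersolvable group has a normal subgroup of prime order inside each nontrivial normal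
subgroup. -/
theorem exists_normal_prime_le [Finite G] (h : Cfsg.IsSupersolvable G) (W : Subgroup G) [W.Normal]
    (hW : W ≠ ⊥) : ∃ M : Subgroup G, M.Normal ∧ M ≤ W ∧ (Nat.card M).Prime := by
  obtain ⟨n, H, h0, hl, hn, hs⟩ := h
  by_contra hne
  have hall : ∀ i, H i ⊓ W = ⊥ := by
    intro i
    induction i using Fin.induction with
    | zero => rw [h0, bot_inf_eq]
    | succ j ih =>
      obtain ⟨g, hg⟩ := hs j
      have := hn j.castSucc
      have := hn j.succ
      by_contra hb
      set Q := H j.succ ⊓ W with hQ
      set f := (QuotientGroup.mk' (H j.castSucc)).comp Q.subtype with hf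
      have hr : ∀ x : Q, f x ∈ zpowers (QuotientGroup.mk' (H j.castSucc) g) := fun x => by
        have h1 : (H j.succ).map (QuotientGroup.mk' (H j.castSucc)) =
            zpowers (QuotientGroup.mk' (H j.castSucc) g) := by
          rw [hg, Subgroup.map_sup, QuotientGroup.map_mk'_self, bot_sup_eq, MonoidHom.map_zpowers]
        exact h1.le (mem_map_of_mem _ x.2.1)
      have hinj : Function.Injective (f.codRestrict _ hr) := by
        intro a b hab
        have hab' : f a = f b := congrArg Subtype.val hab
        have h1 : (a : G)⁻¹ * b ∈ H j.castSucc ⊓ W :=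
          ⟨QuotientGroup.eq.1 hab', W.mul_mem (W.inv_mem a.2.2) b.2.2⟩
        rw [ih, mem_bot] at h1
        exact Subtype.ext (inv_mul_eq_one.1 h1)
      have : IsCyclic Q := isCyclic_of_injective _ hinj
      obtain ⟨p, hp, hpd⟩ := Nat.exists_prime_and_dvd ((one_lt_card_iff_ne_bot Q).2 hb).ne'
      have := Fact.mk hp
      obtain ⟨M, hM, hMQ, hMc⟩ := exists_normal_prime_of_cyclic Q hpd
      exact hne ⟨M, hM, hMQ.trans inf_le_right, hMc ▸ hp⟩
  have h2 := hall (Fin.last n)
  rw [hl, top_inf_eq] at h2
  exact hW h2

theorem normal_zpowers_of_gens {x : G} {S : Set G} (hS : closure S = ⊤)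
    (h : ∀ s ∈ S, MulAut.conj s • zpowers x = zpowers x) : (zpowers x).Normal := by
  rw [← normalizer_eq_top_iff, ← top_le_iff, ← hS, closure_le]
  exact fun s hs => conj_smul_eq_self_iff.1 (h s hs)

theorem conj_smul_zpowers (g x : G) :
    MulAut.conj g • zpowers x = zpowers (g * x * g⁻¹) :=
  MonoidHom.map_zpowers (MulAut.conj g).toMonoidHom x

/-- Groups of order `2 p ^ n` are supersolvable. -/
theorem supersolvable_of_card_two_mul : ∀ (n : ℕ) (G : Type u) [Group G] [Finite G] (p : ℕ),
    p.Prime → Nat.card G = 2 * p ^ n → Cfsg.IsSupersolvable G := by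
  intro n
  induction n with
  | zero =>
    intro G _ _ p _ hc
    have := Fact.mk Nat.prime_two
    have := (IsPGroup.of_card (G := G) (p := 2) (n := 1) (by rw [hc, pow_zero, mul_one, pow_one])).isNilpotent
    exact supersolvable_of_nilpotent _ G le_rfl
  | succ n ih =>
    intro G _ _ p hp hc
    have := Fact.mk hp
    by_cases hp2 : p = 2
    · subst hp2
      have := (IsPGroup.of_card (G := G) (p := 2) (n := n + 2) (by rw [hc]; ring)).isNilpotent
      exact supersolvable_of_nilpotent _ G le_rfl
    obtain ⟨P⟩ := (inferInstance : Nonempty (Sylow p G))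
    have hcop : (2 : ℕ).Coprime p := (Nat.coprime_primes Nat.prime_two hp).2 (Ne.symm hp2)
    have hPc : Nat.card (P : Subgroup G) = p ^ (n + 1) := by
      rw [P.card_eq_multiplicity, hc, Nat.factorization_mul two_ne_zero (pow_ne_zero _ hp.ne_zero),
        Finsupp.add_apply, Nat.Prime.factorization_pow hp, Finsupp.single_eq_same,
        Nat.factorization_eq_zero_of_not_dvd (fun h => hp2 ((Nat.prime_dvd_prime_iff_eq hp
          Nat.prime_two).1 h)), zero_add]
    have hidx : (P : Subgroup G).index = 2 := by
      refine Nat.eq_of_mul_eq_mul_left (Nat.card_pos (α := (P : Subgroup G))) ?_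
      rw [card_mul_index, hc, hPc, mul_comm]
    have hPn : (P : Subgroup G).Normal := normal_of_index_eq_two hidx
    have : Nontrivial (P : Subgroup G) := Finite.one_lt_card_iff_nontrivial.1
      (hPc ▸ Nat.one_lt_pow n.succ_ne_zero hp.one_lt)
    have hZ : center (P : Subgroup G) ≠ ⊥ :=
      haveI := P.isPGroup'.isNilpotent
      Group.IsNilpotent.center_ne_bot _
    obtain ⟨q, hq, hqd⟩ := Nat.exists_prime_and_dvd ((one_lt_card_iff_ne_bot _).2 hZ).ne'
    obtain rfl : q = p := by
      refine (Nat.prime_dvd_prime_iff_eq hq hp).1 (hq.dvd_of_dvd_pow (n := n + 1) ?_)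
      rw [← hPc]; exact hqd.trans (card_subgroup_dvd_card _)
    obtain ⟨x', hx'⟩ := exists_prime_orderOf_dvd_card' q hqd
    set x : G := ((x' : (P : Subgroup G)) : G) with hxdef
    have hxP : x ∈ (P : Subgroup G) := (x' : (P : Subgroup G)).2
    have hxo : orderOf x = q := by rw [hxdef, Subgroup.orderOf_coe, Subgroup.orderOf_coe, hx']
    have hxc : ∀ y ∈ (P : Subgroup G), Commute x y := fun y hy =>
      (congrArg Subtype.val (mem_center_iff.1 x'.2 ⟨y, hy⟩)).symm
    obtain ⟨t, ht⟩ := @exists_prime_orderOf_dvd_card' G _ _ 2 ⟨Nat.prime_two⟩ (hc ▸ dvd_mul_right _ _)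
    have htP : t ∉ (P : Subgroup G) := fun h => by
      have h2 : orderOf (⟨t, h⟩ : (P : Subgroup G)) ∣ q ^ (n + 1) := hPc ▸ orderOf_dvd_natCard _
      rw [← Subgroup.orderOf_coe] at h2
      rw [ht] at h2
      exact hp2 ((Nat.prime_dvd_prime_iff_eq Nat.prime_two hp).1 (Nat.prime_two.dvd_of_dvd_pow h2)).symm
    have hgen : closure (insert t ((P : Subgroup G) : Set G)) = ⊤ := by
      refine index_eq_one.1 ?_
      have h1 : (closure (insert t ((P : Subgroup G) : Set G))).index ∣ 2 :=
        hidx ▸ index_dvd_of_le (fun y hy => subset_closure (Set.mem_insert_of_mem t hy))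
      rcases (Nat.dvd_prime Nat.prime_two).1 h1 with h | h
      · exact h
      · exfalso
        refine htP ?_
        have hle : (P : Subgroup G) ≤ closure (insert t ((P : Subgroup G) : Set G)) :=
          fun y hy => subset_closure (Set.mem_insert_of_mem t hy)
        have he : (P : Subgroup G) = closure (insert t ((P : Subgroup G) : Set G)) := by
          refine eq_of_le_of_card_ge hle ?_
          refine Nat.le_of_mul_le_mul_right (c := 2) ?_ two_pos
          conv_lhs => rw [← h, card_mul_index]
          conv_rhs => rw [← hidx, card_mul_index]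
        exact he ▸ subset_closure (Set.mem_insert t _)
    set x2 := t * x * t⁻¹ with hx2
    have hx2P : x2 ∈ (P : Subgroup G) := hPn.conj_mem x hxP t
    have htt : t * t = 1 := by rw [← pow_two, ← ht, pow_orderOf_eq_one]
    have key : ∃ z : G, orderOf z = q ∧ (zpowers z).Normal := by
      by_cases hz : x * x2 = 1
      · refine ⟨x, hxo, normal_zpowers_of_gens hgen ?_⟩
        intro s hs
        rw [conj_smul_zpowers]
        rcases hs with rfl | hs
        · rw [← hx2, eq_inv_of_mul_eq_one_right hz, zpowers_inv]
        · rw [(hxc s hs).symm.eq, mul_inv_cancel_right]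
      · refine ⟨x * x2, ?_, normal_zpowers_of_gens hgen ?_⟩
        · refine (hp.eq_one_or_self_of_dvd _ (orderOf_dvd_of_pow_eq_one ?_)).resolve_left
            fun h => hz (orderOf_eq_one_iff.1 h)
          rw [(hxc x2 hx2P).mul_pow, ← hxo, pow_orderOf_eq_one, hx2, ← MulAut.conj_apply, ← map_pow,
            pow_orderOf_eq_one, map_one, one_mul]
        · intro s hs
          rw [conj_smul_zpowers]
          rcases hs with rfl | hs
          · have e : s * (x * x2) * s⁻¹ = x * x2 := by
              rw [(hxc x2 hx2P).eq]
              have hs1 : s⁻¹ = s := inv_eq_of_mul_eq_one_right htt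
              rw [hx2, hs1]
              calc s * (s * x * s * x) * s = (s * s) * x * (s * x * s) := by group
                _ = x * (s * x * s) := by rw [htt, one_mul]
                _ = _ := by
                  have := (hxc x2 hx2P).eq
                  rw [hx2, hs1] at this
                  exact this
            rw [e]
          · have c1 : Commute x s := hxc s hs
            have c2 : Commute x2 s := by
              have h1 : t⁻¹ * s * t ∈ (P : Subgroup G) := by simpa using hPn.conj_mem s hs t⁻¹
              have h2 := hxc _ h1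
              show x2 * s = s * x2
              calc x2 * s = t * (x * (t⁻¹ * s * t)) * t⁻¹ := by rw [hx2]; group
                _ = t * ((t⁻¹ * s * t) * x) * t⁻¹ := by rw [h2.eq]
                _ = s * x2 := by rw [hx2]; group
            rw [(c1.mul_left c2).symm.eq, mul_inv_cancel_right]
    obtain ⟨z, hz, hzn⟩ := key
    have hzc : Nat.card (zpowers z) = q := by rw [Nat.card_zpowers, hz]
    refine isSupersolvable_of_cyclic_normal (zpowers z) (ih _ q hp ?_)
    refine Nat.eq_of_mul_eq_mul_right hp.pos ?_
    conv_lhs => rw [← hzc, ← card_eq_card_quotient_mul_card_subgroup, hc]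
    ring

theorem everyOrder_of_equiv {G' : Type*} [Group G'] (e : G ≃* G')
    (h : Cfsg.HasSubgroupOfEveryOrder G) : Cfsg.HasSubgroupOfEveryOrder G' := fun d hd => by
  obtain ⟨H, hH⟩ := h d (Nat.card_congr e.toEquiv ▸ hd)
  exact ⟨H.map e.toMonoidHom, by rw [card_map_of_injective e.injective, hH]⟩

/-- With subgroups of every order everywhere, the Sylow subgroup of the largest prime is normal. -/
theorem sylow_normal_of_everyOrder : ∀ (m : ℕ) (G : Type u) [Group G] [Finite G], Nat.card G ≤ m →
    (∀ H : Subgroup G, Cfsg.HasSubgroupOfEveryOrder H) → ∀ (p : ℕ) [Fact p.Prime],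
      (∀ q : ℕ, q.Prime → q ∣ Nat.card G → q ≤ p) → ∀ P : Sylow p G, (P : Subgroup G).Normal := by
  intro m
  induction m with
  | zero => intro G _ _ hm; exact absurd hm (Nat.not_le.2 Nat.card_pos)
  | succ m ih =>
    intro G _ _ hm h p hp hmax P
    by_cases hone : Nat.card G = 1
    · have : Subsingleton G := Finite.card_le_one_iff_subsingleton.1 hone.le
      rw [Subsingleton.elim (P : Subgroup G) ⊥]; infer_instance
    set q := (Nat.card G).minFac with hq
    have hqp : q.Prime := Nat.minFac_prime hone
    have hqd : q ∣ Nat.card G := Nat.minFac_dvd _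
    obtain ⟨H0, hH0⟩ := everyOrder_of_equiv topEquiv (h ⊤) (Nat.card G / q) (Nat.div_dvd_of_dvd hqd)
    have hidx : H0.index = q := by
      refine Nat.eq_of_mul_eq_mul_left (Nat.card_pos (α := H0)) ?_
      rw [card_mul_index, hH0, Nat.div_mul_cancel hqd]
    have hn : H0.Normal := normal_of_index_eq_minFac_card hidx
    by_cases hqe : q = p
    · have htop : (P : Subgroup G) = ⊤ := by
        refine index_eq_one.1 ?_
        by_contra h1
        obtain ⟨r, hr, hrd⟩ := Nat.exists_prime_and_dvd h1
        have hrG : r ∣ Nat.card G := hrd.trans (index_dvd_card _)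
        have : r = p := le_antisymm (hmax r hr hrG) (hqe ▸ Nat.minFac_le_of_dvd hr.two_le hrG)
        exact P.not_dvd_index (this ▸ hrd)
      rw [htop]; infer_instance
    have hle : (P : Subgroup G) ≤ H0 := by
      set f := QuotientGroup.mk' H0
      intro x hx
      have h1 : f x = 1 := by
        rw [← orderOf_eq_one_iff]
        obtain ⟨k, hk⟩ := IsPGroup.iff_orderOf.1 P.isPGroup' ⟨x, hx⟩
        refine Nat.eq_one_of_dvd_coprimes (a := q) (b := p ^ k)
          (((Nat.coprime_primes hqp hp.out).2 hqe).pow_right k) ?_ ?_
        · rw [← hidx, index_eq_card]; exact orderOf_dvd_natCard _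
        · rw [← hk, ← Subgroup.orderOf_coe]; exact orderOf_map_dvd f x
      exact (QuotientGroup.eq_one_iff x).1 h1
    have hlt : Nat.card H0 ≤ m := by
      have h2 := Nat.div_lt_self (Nat.card_pos (α := G)) hqp.one_lt
      omega
    have hPn := ih H0 hlt (fun K => everyOrder_of_equiv
      (K.equivMapOfInjective H0.subtype H0.subtype_injective).symm (h _)) p
      (fun r hr hd => hmax r hr (hd.trans (card_subgroup_dvd_card H0))) (P.subtype hle)
    have := (P.subtype hle).characteristic_of_normal hPn
    have hres := ConjAct.normal_of_characteristic_of_normal (H := H0) (K := ((P.subtype hle) : Subgroup H0))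
    rwa [Sylow.coe_subtype, subgroupOf_map_subtype, inf_eq_left.2 hle] at hres

theorem supersolvable_of_hyperplane : ∀ (m : ℕ) (G : Type u) [Group G] [Finite G], Nat.card G ≤ m →
    ∀ (p : ℕ) [Fact p.Prime], (∀ K : Subgroup G, K ≠ ⊤ → Cfsg.IsSupersolvable K) →
    ∀ (P H : Subgroup G), P.Normal → IsPGroup p P → H.index = p → P ⊔ H = ⊤ →
      Cfsg.IsSupersolvable G := by
  intro m
  induction m with
  | zero => intro G _ _ hm; exact absurd hm (Nat.not_le.2 Nat.card_pos)
  | succ m ih =>
    intro G _ _ hm p hp hK P H hPn hPp hH htop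
    have hHtop : H ≠ ⊤ := fun e => by rw [e, index_top] at hH; exact hp.out.ne_one hH.symm
    have hHss := hK H hHtop
    set R := P ⊓ H with hR
    have hRrel : H.relIndex P = p := by
      rw [← relIndex_sup_left_normal H P, sup_comm, htop, relIndex_top_right, hH]
    have hRn' : (R.subgroupOf P).Normal := by
      have := hPp.isNilpotent
      refine coatom_normal_of_nilpotent ?_
      have hi : (R.subgroupOf P).index = p := by
        show R.relIndex P = p
        rw [hR, inf_relIndex_left, hRrel]
      refine ⟨fun e => by rw [e, index_top] at hi; exact hp.out.ne_one hi.symm, fun B hB => ?_⟩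
      have hmul := relIndex_mul_index hB.le
      rw [hi] at hmul
      rcases hp.out.eq_one_or_self_of_dvd B.index (Dvd.intro_left _ hmul) with h1 | h1
      · exact index_eq_one.1 h1
      · rw [h1] at hmul
        exact absurd (relIndex_eq_one.1 (Nat.eq_of_mul_eq_mul_right hp.out.pos
          (hmul.trans (one_mul p).symm))) hB.not_ge
    have hRn : R.Normal := by
      rw [← normalizer_eq_top_iff, ← top_le_iff, ← htop]
      refine sup_le ((normal_subgroupOf_iff_le_normalizer inf_le_left).1 hRn') fun h hh => ?_
      rw [← conj_smul_eq_self_iff, hR, smul_inf, conj_smul_normal,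
        conj_smul_eq_self_iff.2 (le_normalizer hh)]
    by_cases hRb : R = ⊥
    · have hc : Nat.card P = p := by
        rw [← hRrel, ← inf_relIndex_left, ← hR, hRb, relIndex_bot_left]
      have := isCyclic_of_card_prime (H := P) (hc ▸ hp.out)
      refine isSupersolvable_of_cyclic_normal P ?_
      refine isSupersolvable_of_surjective ((QuotientGroup.mk' P).comp H.subtype) ?_ hHss
      intro y
      obtain ⟨g, rfl⟩ := QuotientGroup.mk'_surjective P y
      obtain ⟨a, ha, b, hb, rfl⟩ := mem_sup_of_normal_left.1 (htop.ge (mem_top g))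
      exact ⟨⟨b, hb⟩, by simp [(QuotientGroup.eq_one_iff a).2 ha]⟩
    set W := R ⊓ centralizer (P : Set G) with hW
    have hWne : W ≠ ⊥ := by
      have hne : R.subgroupOf P ≠ ⊥ := by
        rw [ne_eq, subgroupOf_eq_bot, disjoint_iff, inf_eq_left.2 inf_le_left]; exact hRb
      obtain ⟨z, hz, hz1⟩ := (R.subgroupOf P ⊓ center P).bot_or_exists_ne_one.resolve_left
        (Cfsg.Lib.Transfer.inf_center_ne_bot hPp _ hne)
      intro hbot
      refine hz1 (Subtype.ext ?_)
      have : (z : G) ∈ W := ⟨hz.1, mem_centralizer_iff.2 fun y hy =>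
        congrArg Subtype.val (mem_center_iff.1 hz.2 ⟨y, hy⟩)⟩
      rw [hbot, mem_bot] at this
      exact this
    have hWn : W.Normal := inferInstance
    have hWH : W ≤ H := inf_le_left.trans inf_le_right
    have : (W.subgroupOf H).Normal := hWn.comap H.subtype
    obtain ⟨M0, hM0n, hM0W, hM0p⟩ := exists_normal_prime_le hHss (W.subgroupOf H) (by
      rw [ne_eq, subgroupOf_eq_bot, disjoint_iff, inf_eq_left.2 hWH]; exact hWne)
    set M := M0.map H.subtype with hM
    have hMW : M ≤ W := (map_mono hM0W).trans (by rw [subgroupOf_map_subtype]; exact inf_le_left)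
    have hMn : M.Normal := by
      rw [← normalizer_eq_top_iff, ← top_le_iff, ← htop]
      refine sup_le (fun y hy => ?_) ?_
      · refine normalizer_eq_of_centralizes (mem_centralizer_iff.2 fun z hz => ?_)
        exact ((mem_centralizer_iff.1 (hMW hz).2) y hy).symm
      · refine (normal_subgroupOf_iff_le_normalizer (map_subtype_le M0)).1 ?_
        show ((M0.map H.subtype).comap H.subtype).Normal
        rw [comap_map_eq_self_of_injective H.subtype_injective]
        exact hM0n
    have hMc : (Nat.card M).Prime := by rw [hM, card_map_subtype']; exact hM0p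
    have := isCyclic_of_card_prime hMc
    refine isSupersolvable_of_cyclic_normal M ?_
    set f := QuotientGroup.mk' M with hf
    have hsurj : Function.Surjective f := QuotientGroup.mk'_surjective M
    have hlt := card_quotient_lt M (ne_bot_of_card_prime hMc)
    refine ih (G ⧸ M) (by omega) p (fun K hKne => ?_) (P.map f) (H.map f) (hPn.map f hsurj)
      (hPp.map f) ?_ (by rw [← Subgroup.map_sup, htop, map_top_of_surjective f hsurj])
    · have h1 := hK (K.comap f) (fun e => hKne (by
        rw [← map_comap_eq_self_of_surjective hsurj K, e, map_top_of_surjective f hsurj]))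
      exact isSupersolvable_of_surjective (f.subgroupComap K)
        (fun y => by obtain ⟨g, hg⟩ := hsurj (y : G ⧸ M)
                     exact ⟨⟨g, show f g ∈ K from hg ▸ y.2⟩, Subtype.ext hg⟩) h1
    · rw [index_map, hf, QuotientGroup.ker_mk', sup_eq_left.2 (hMW.trans hWH),
        MonoidHom.range_eq_top.2 (QuotientGroup.mk'_surjective M), index_top, mul_one, hH]

/-- If every subgroup has subgroups of every order, the group is supersolvable. -/
theorem supersolvable_of_everyOrder : ∀ (m : ℕ) (G : Type u) [Group G] [Finite G], Nat.card G ≤ m →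
    (∀ H : Subgroup G, Cfsg.HasSubgroupOfEveryOrder H) → Cfsg.IsSupersolvable G := by
  intro m
  induction m with
  | zero => intro G _ _ hm; exact absurd hm (Nat.not_le.2 Nat.card_pos)
  | succ m ih =>
    intro G _ _ hm h
    by_cases hs : Subsingleton G
    · exact isSupersolvable_of_subsingleton
    have : Nontrivial G := not_subsingleton_iff_nontrivial.1 hs
    have h1 : (Nat.card G).primeFactors.Nonempty := Nat.nonempty_primeFactors.2 Finite.one_lt_card
    set p := (Nat.card G).primeFactors.max' h1
    have hpm : p ∈ (Nat.card G).primeFactors := Finset.max'_mem _ h1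
    have hp := Fact.mk (Nat.prime_of_mem_primeFactors hpm)
    have hpd := Nat.dvd_of_mem_primeFactors hpm
    obtain ⟨P⟩ := (inferInstance : Nonempty (Sylow p G))
    have hPn := sylow_normal_of_everyOrder _ G le_rfl h p (fun q hq hd =>
      Finset.le_max' _ q (Nat.mem_primeFactors.2 ⟨hq, hd, Nat.card_pos.ne'⟩)) P
    obtain ⟨H, hH⟩ := everyOrder_of_equiv topEquiv (h ⊤) (Nat.card G / p) (Nat.div_dvd_of_dvd hpd)
    have hidx : H.index = p := by
      refine Nat.eq_of_mul_eq_mul_left (Nat.card_pos (α := H)) ?_
      rw [card_mul_index, hH, Nat.div_mul_cancel hpd]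
    refine supersolvable_of_hyperplane _ G le_rfl p (fun K hK => ih K ?_ fun L => everyOrder_of_equiv
      (L.equivMapOfInjective K.subtype K.subtype_injective).symm (h _)) P H hPn P.isPGroup' hidx ?_
    · have : Nat.card K < Nat.card G :=
        lt_of_le_of_ne K.card_le_card_group fun e => hK (eq_top_of_card_eq K e)
      omega
    · refine index_eq_one.1 ?_
      rcases hp.out.eq_one_or_self_of_dvd _ (hidx ▸ index_dvd_of_le (le_sup_right : H ≤ (P : Subgroup G) ⊔ H))
        with h2 | h2
      · exact h2
      · refine absurd ?_ P.not_dvd_index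
        exact h2.symm.dvd.trans (index_dvd_of_le le_sup_left)

end Cfsg.Lib.Solv
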