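import Mathlib
import Cfsg.Agent.Lib.Characters.Burnside
import Cfsg.Agent.Lib.Kazarin.Main

/-!
Sylow numbers: divisibility for normal subgroups and quotients, and the theorem that a finite
group all of whose Sylow numbers are prime powers is solvable.
-/

set_option autoImplicit false

namespace Cfsg.Lib.Solv

open Subgroup

universe u

variable {G : Type u} [Group G] [Finite G] {r : ℕ} [Fact r.Prime]

/-- The Sylow number of a normal subgroup divides that of the group. -/
theorem card_sylow_subgroup_dvd (N : Subgroup G) [N.Normal] :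
    Nat.card (Sylow r N) ∣ Nat.card (Sylow r G) := by
  obtain ⟨P0⟩ : Nonempty (Sylow r N) := inferInstance
  obtain ⟨Q, hQ⟩ := (P0.isPGroup'.map N.subtype).exists_le_sylow
  have hR : (P0 : Subgroup N).map N.subtype = (Q : Subgroup G) ⊓ N := by
    refine le_antisymm (le_inf hQ (map_subtype_le _)) ?_
    have h1 : ((Q : Subgroup G) ⊓ N).subgroupOf N = (P0 : Subgroup N) :=
      P0.is_maximal' ((Q.isPGroup'.to_le inf_le_left).of_equiv
        (subgroupOfEquivOfLe inf_le_right).symm) fun x hx => ⟨hQ (mem_map_of_mem _ hx), x.2⟩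
    intro x hx
    exact ⟨⟨x, hx.2⟩, h1 ▸ (show (⟨x, hx.2⟩ : N) ∈ ((Q : Subgroup G) ⊓ N).subgroupOf N from hx), rfl⟩
  set H := normalizer (((P0 : Subgroup N).map N.subtype : Subgroup G) : Set G) with hH
  have hQH : normalizer ((Q : Subgroup G) : Set G) ≤ H := by
    intro g hg
    rw [hH, hR, mem_normalizer_iff]
    intro x
    exact and_congr (mem_normalizer_iff.1 hg x) ⟨fun h => ‹N.Normal›.conj_mem x h g, fun h => by
      simpa [mul_assoc] using ‹N.Normal›.conj_mem _ h g⁻¹⟩
  have hidx : H.index = Nat.card (Sylow r N) := by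
    have htop : H ⊔ N = ⊤ := Sylow.normalizer_sup_eq_top P0
    have h1 : N.relIndex H = N.index := by
      rw [← relIndex_sup_left, sup_comm, htop, relIndex_top_right]
    have h2 := relIndex_mul_index (inf_le_left : H ⊓ N ≤ H)
    rw [inf_relIndex_left, h1] at h2
    have h3 := relIndex_mul_index (inf_le_right : H ⊓ N ≤ N)
    rw [inf_relIndex_right, ← h2, mul_comm] at h3
    have h4 : H.relIndex N = H.index :=
      mul_left_cancel₀ (index_ne_zero_of_finite (H := N)) h3
    rw [← h4, P0.card_eq_index_normalizer, relIndex]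
    congr 1
    ext x
    simp only [mem_subgroupOf, hH, mem_normalizer_iff]
    constructor
    · intro h y
      have := h (y : G)
      constructor
      · intro hy
        obtain ⟨z, hz, he⟩ := this.1 (mem_map_of_mem _ hy)
        rwa [show x * y * x⁻¹ = z from Subtype.ext he.symm]
      · intro hy
        obtain ⟨z, hz, he⟩ := this.2 (by simpa using mem_map_of_mem N.subtype hy)
        rwa [show y = z from Subtype.ext he.symm]
    · intro h y
      constructor
      · rintro ⟨z, hz, rfl⟩
        exact ⟨x * z * x⁻¹, (h z).1 hz, rfl⟩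
      · rintro ⟨z, hz, he⟩
        have hy : y ∈ N := by
          have : y = (x : G)⁻¹ * z * x := by rw [show (z : G) = x * y * (x : G)⁻¹ from he]; group
          rw [this]
          exact mul_mem (mul_mem (inv_mem x.2) z.2) x.2
        exact ⟨⟨y, hy⟩, (h ⟨y, hy⟩).2 (by rwa [show x * ⟨y, hy⟩ * x⁻¹ = z from Subtype.ext he.symm]), rfl⟩
  rw [← hidx, Q.card_eq_index_normalizer]
  exact index_dvd_of_le hQH

/-- The Sylow number of a quotient divides that of the group. -/
theorem card_sylow_quotient_dvd (N : Subgroup G) [N.Normal] :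
    Nat.card (Sylow r (G ⧸ N)) ∣ Nat.card (Sylow r G) := by
  obtain ⟨P⟩ : Nonempty (Sylow r G) := inferInstance
  set f := QuotientGroup.mk' N
  have hf : Function.Surjective f := QuotientGroup.mk'_surjective N
  rw [(P.mapSurjective hf).card_eq_index_normalizer, P.card_eq_index_normalizer]
  refine dvd_trans (index_dvd_of_le ?_) (index_map_dvd _ hf)
  exact le_normalizer_map f

theorem solvable_of_sylow_numbers_aux : ∀ (n : ℕ) (G : Type u) [Group G] [Finite G], Nat.card G = n →
    (∀ (r : ℕ) [Fact r.Prime], Nat.card (Sylow r G) = 1 ∨ IsPrimePow (Nat.card (Sylow r G))) →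
    Group.IsSolvable G := by
  intro n
  induction n using Nat.strong_induction_on with
  | _ n ih =>
    intro G _ _ hn h
    have hdvd : ∀ a b : ℕ, a ∣ b → (b = 1 ∨ IsPrimePow b) → (a = 1 ∨ IsPrimePow a) := by
      intro a b hab hb
      rcases eq_or_ne a 1 with ha | ha
      · exact Or.inl ha
      rcases hb with rfl | hb
      · exact absurd (Nat.dvd_one.1 hab) ha
      · exact Or.inr (hb.dvd hab ha)
    by_cases hN : ∃ N : Subgroup G, N.Normal ∧ N ≠ ⊥ ∧ N ≠ ⊤
    · obtain ⟨N, hN, hb, ht⟩ := hN
      have hNlt : Nat.card N < n := hn ▸ lt_of_le_of_ne (card_le_card_group N)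
        fun h => ht ((card_eq_iff_eq_top N).mp h)
      have hQlt : Nat.card (G ⧸ N) < n := by
        rw [← hn, card_eq_card_quotient_mul_card_subgroup N]
        exact lt_mul_of_one_lt_right Nat.card_pos ((one_lt_card_iff_ne_bot N).mpr hb)
      haveI := ih _ hNlt N rfl fun r _ => hdvd _ _ (card_sylow_subgroup_dvd N) (h r)
      haveI := ih _ hQlt (G ⧸ N) rfl fun r _ => hdvd _ _ (card_sylow_quotient_dvd N) (h r)
      exact Group.isSolvable_of_ker_le_range N.subtype (QuotientGroup.mk' N) (by simp)
    push Not at hN
    rcases subsingleton_or_nontrivial G with hG | hG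
    · infer_instance
    haveI : IsSimpleGroup G := ⟨fun N hN' => or_iff_not_imp_left.mpr (hN N hN')⟩
    by_cases hprime : (Nat.card G).Prime
    · haveI : Fact (Nat.card G).Prime := ⟨hprime⟩
      haveI : IsCyclic G := isCyclic_of_prime_card rfl
      exact Group.isSolvable_of_comm fun a b => mul_comm' a b
    exfalso
    -- no Sylow subgroup is normal
    have hne : ∀ r : ℕ, r.Prime → r ∣ Nat.card G → ∀ R : Sylow r G,
        normalizer ((R : Subgroup G) : Set G) ≠ ⊤ := by
      intro r hr hrG R htop
      haveI := Fact.mk hr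
      have hR : (R : Subgroup G).Normal := normalizer_eq_top_iff.1 htop
      rcases hR.eq_bot_or_eq_top with hb | ht
      · exact R.ne_bot_of_dvd_card hrG hb
      · haveI : Nontrivial (R : Subgroup G) :=
          (nontrivial_iff_ne_bot _).2 (R.ne_bot_of_dvd_card hrG)
        haveI := R.isPGroup'.center_nontrivial
        obtain ⟨⟨z, hz⟩, hz1⟩ := exists_ne (1 : center (R : Subgroup G))
        refine hprime (Cfsg.Lib.Characters.prime_card_of_prime_pow_class (p := r) (k := 0) hr
          (g := (z : G)) (fun e => hz1 (Subtype.ext (Subtype.ext e))) ?_)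
        rw [Cfsg.Lib.Kazarin.card_isConj_eq_index, pow_zero, index_eq_one, eq_top_iff]
        intro y _
        rw [mem_centralizer_singleton_iff]
        exact congrArg Subtype.val (mem_center_iff.1 hz ⟨y, ht ▸ mem_top y⟩)
    have hget : ∀ r : ℕ, r.Prime → r ∣ Nat.card G → ∃ p a : ℕ, p.Prime ∧ 0 < a ∧
        ∀ R : Sylow r G, (normalizer ((R : Subgroup G) : Set G)).index = p ^ a := by
      intro r hr hrG
      haveI := Fact.mk hr
      rcases h r with h1 | h1
      · obtain ⟨R⟩ : Nonempty (Sylow r G) := inferInstance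
        rw [R.card_eq_index_normalizer, index_eq_one] at h1
        exact absurd h1 (hne r hr hrG R)
      · obtain ⟨p, a, hp, ha, he⟩ := h1
        exact ⟨p, a, hp.nat_prime, ha, fun R => by rw [he]; exact R.card_eq_index_normalizer.symm⟩
    choose! f e hfp he hidx using hget
    have hfdvd : ∀ r : ℕ, r.Prime → r ∣ Nat.card G → f r ∣ Nat.card G := by
      intro r hr hrG
      haveI := Fact.mk hr
      obtain ⟨R⟩ : Nonempty (Sylow r G) := inferInstance
      exact (dvd_pow_self _ (he r hr hrG).ne').trans (hidx r hr hrG R ▸ index_dvd_card _)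
    have hfr : ∀ r : ℕ, r.Prime → r ∣ Nat.card G → f r ≠ r := by
      intro r hr hrG e'
      haveI := Fact.mk hr
      obtain ⟨R⟩ : Nonempty (Sylow r G) := inferInstance
      refine R.not_dvd_index ((show r ∣ (normalizer ((R : Subgroup G) : Set G)).index from ?_).trans
        (index_dvd_of_le le_normalizer))
      rw [hidx r hr hrG R, e']
      exact dvd_pow_self _ (he r hr hrG).ne'
    -- if a conjugate of `R` normalizes `P` then `R` is in the kernel of the action on Sylow subgroups
    have hinv : ∀ r : ℕ, r.Prime → r ∣ Nat.card G → f (f r) = r := by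
      intro r hr hrG
      haveI := Fact.mk hr
      haveI := Fact.mk (hfp r hr hrG)
      by_contra hne'
      obtain ⟨R⟩ : Nonempty (Sylow r G) := inferInstance
      obtain ⟨P0⟩ : Nonempty (Sylow (f r) G) := inferInstance
      set M := ⨅ P : Sylow (f r) G, normalizer ((P : Subgroup G) : Set G)
      have hRM : (R : Subgroup G) ≤ M := by
        refine le_iInf fun P => ?_
        have hnd : ¬ r ∣ (normalizer ((P : Subgroup G) : Set G)).index := by
          rw [hidx _ (hfp r hr hrG) (hfdvd r hr hrG) P]
          exact fun hd => hne' ((Nat.prime_dvd_prime_iff_eq hr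
            (hfp _ (hfp r hr hrG) (hfdvd r hr hrG))).1 (hr.dvd_of_dvd_pow hd)).symm
        obtain ⟨R1⟩ : Nonempty (Sylow r (normalizer ((P : Subgroup G) : Set G))) := inferInstance
        have hR1 : ∃ g : G, (g • R : Sylow r G).toSubgroup ≤ normalizer ((P : Subgroup G) : Set G) := by
          have hR1p := R1.isPGroup'.map (normalizer ((P : Subgroup G) : Set G)).subtype
          obtain ⟨Q, hQ⟩ := hR1p.exists_le_sylow
          obtain ⟨g, rfl⟩ := MulAction.exists_smul_eq G R Q
          refine ⟨g, ?_⟩
          refine le_of_eq_of_le (Subgroup.eq_of_le_of_card_ge hQ (le_of_eq ?_)).symm (map_subtype_le _)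
          rw [card_map_of_injective (Subgroup.subtype_injective _), R1.card_eq_multiplicity,
            Sylow.card_eq_multiplicity]
          congr 1
          conv_lhs => rw [← index_mul_card (normalizer ((P : Subgroup G) : Set G))]
          rw [Nat.factorization_mul index_ne_zero_of_finite Nat.card_pos.ne']
          simp only [Finsupp.coe_add, Pi.add_apply, Nat.factorization_eq_zero_of_not_dvd hnd, zero_add]
        obtain ⟨g, hg⟩ := hR1
        obtain ⟨u, hu, hug⟩ := Cfsg.Lib.Kazarin.exists_mul_of_index_eq
          (normalizer ((R : Subgroup G) : Set G)) (hidx r hr hrG R) P g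
        intro x hx
        set a := u⁻¹ * g with ha
        have h1 : g * (a⁻¹ * x * a) * g⁻¹ ∈ normalizer ((P : Subgroup G) : Set G) := by
          refine hg ?_
          have hx' : a⁻¹ * x * a ∈ (R : Subgroup G) := by
            have := (mem_normalizer_iff.1 (inv_mem hug) x).1 hx
            simpa using this
          exact Subgroup.smul_mem_pointwise_smul _ (MulAut.conj g) _ hx'
        have h2 : x = u⁻¹ * (g * (a⁻¹ * x * a) * g⁻¹) * u := by rw [ha]; group
        rw [h2]
        exact mul_mem (mul_mem (inv_mem (le_normalizer hu)) h1) (le_normalizer hu)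
      have hMn : M.Normal := by
        refine ⟨fun x hx g => ?_⟩
        rw [mem_iInf] at hx ⊢
        intro P
        refine Sylow.smul_eq_iff_mem_normalizer.1 ?_
        rw [mul_smul, mul_smul]
        have := (Sylow.smul_eq_iff_mem_normalizer (P := g⁻¹ • P)).2 (hx (g⁻¹ • P))
        rw [this, smul_inv_smul]
      rcases hMn.eq_bot_or_eq_top with hb | ht
      · exact R.ne_bot_of_dvd_card hrG (le_bot_iff.1 (hb ▸ hRM))
      · exact hne _ (hfp r hr hrG) (hfdvd r hr hrG) P0 (top_le_iff.1 (ht ▸ iInf_le _ P0))
    obtain ⟨r, hr, hrG⟩ := Nat.exists_prime_and_dvd (n := Nat.card G) Finite.one_lt_card.ne'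
    haveI := Fact.mk hr
    obtain ⟨R⟩ : Nonempty (Sylow r G) := inferInstance
    haveI : Nontrivial (R : Subgroup G) :=
      (nontrivial_iff_ne_bot _).2 (R.ne_bot_of_dvd_card hrG)
    haveI := R.isPGroup'.center_nontrivial
    obtain ⟨⟨z, hz⟩, hz1⟩ := exists_ne (1 : center (R : Subgroup G))
    set C := centralizer ({(z : G)} : Set G) with hC
    have hkey : ∀ s : ℕ, s.Prime → s ∣ C.index → s = f r := by
      intro s hs hsd
      by_contra hsp
      haveI := Fact.mk hs
      have hsG : s ∣ Nat.card G := hsd.trans (index_dvd_card C)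
      have hRC : (R : Subgroup G) ≤ C := fun y hy => by
        rw [hC, mem_centralizer_singleton_iff]
        exact congrArg Subtype.val (mem_center_iff.1 hz ⟨y, hy⟩)
      have hsr : s ≠ r := by
        rintro rfl
        exact R.not_dvd_index (hsd.trans (index_dvd_of_le hRC))
      have hfs : f s ≠ f r := fun e' => hsr (by rw [← hinv s hs hsG, e', hinv r hr hrG])
      have hfsr : f s ≠ r := fun e' => hsp (by rw [← e', hinv s hs hsG])
      -- find commuting Sylow subgroups
      set A := normalizer ((R : Subgroup G) : Set G)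
      obtain ⟨S⟩ : Nonempty (Sylow s G) := inferInstance
      set B := normalizer ((S : Subgroup G) : Set G)
      have hcop : A.index.Coprime B.index := by
        rw [hidx r hr hrG R, hidx s hs hsG S]
        exact Nat.Coprime.pow _ _ ((Nat.coprime_primes (hfp r hr hrG) (hfp s hs hsG)).2 (Ne.symm hfs))
      have hmul : (A ⊓ B).index = A.index * B.index :=
        le_antisymm (index_inf_le (H := A) (K := B)) (Nat.le_of_dvd (Nat.pos_of_ne_zero index_ne_zero_of_finite)
          (hcop.mul_dvd_of_dvd_of_dvd (index_dvd_of_le inf_le_left) (index_dvd_of_le inf_le_right)))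
      have hfull : ∀ t : ℕ, t.Prime → t ≠ f r → t ≠ f s → ¬ t ∣ (A ⊓ B).index := by
        intro t ht h1 h2 hd
        rw [hmul, hidx r hr hrG R, hidx s hs hsG S] at hd
        rcases (Nat.Prime.dvd_mul ht).1 hd with hd | hd
        · exact h1 ((Nat.prime_dvd_prime_iff_eq ht (hfp r hr hrG)).1 (ht.dvd_of_dvd_pow hd))
        · exact h2 ((Nat.prime_dvd_prime_iff_eq ht (hfp s hs hsG)).1 (ht.dvd_of_dvd_pow hd))
      have hle : ∀ (t : ℕ) [Fact t.Prime] (T : Sylow t G) (D : Subgroup G), ¬ t ∣ D.index →
          D ≤ normalizer ((T : Subgroup G) : Set G) → (T : Subgroup G) ≤ D := by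
        intro t _ T D hd hD
        obtain ⟨T1⟩ : Nonempty (Sylow t D) := inferInstance
        have hp : IsPGroup t ↥((T1 : Subgroup D).map D.subtype ⊔ (T : Subgroup G)) :=
          (T1.isPGroup'.map _).to_sup_of_normal_right' T.isPGroup' ((map_subtype_le _).trans hD)
        have hle : (T1 : Subgroup D).map D.subtype ≤ T :=
          le_sup_left.trans (T.is_maximal' hp le_sup_right).le
        refine le_of_eq_of_le (Subgroup.eq_of_le_of_card_ge hle (le_of_eq ?_)).symm (map_subtype_le _)
        rw [card_map_of_injective (Subgroup.subtype_injective _), T1.card_eq_multiplicity,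
          Sylow.card_eq_multiplicity]
        congr 1
        conv_lhs => rw [← index_mul_card D]
        rw [Nat.factorization_mul index_ne_zero_of_finite Nat.card_pos.ne']
        simp [Nat.factorization_eq_zero_of_not_dvd hd]
      have hRB : (R : Subgroup G) ≤ B :=
        (hle r R (A ⊓ B) (hfull r hr (hfr r hr hrG).symm hfsr.symm) inf_le_left).trans inf_le_right
      have hSA : (S : Subgroup G) ≤ A :=
        (hle s S (A ⊓ B) (hfull s hs hsp (hfr s hs hsG).symm) inf_le_right).trans inf_le_left
      have hSC : (S : Subgroup G) ≤ C := by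
        intro y hy
        rw [hC, mem_centralizer_singleton_iff]
        have h1 : y * (z : G) * y⁻¹ * (z : G)⁻¹ ∈ (R : Subgroup G) :=
          mul_mem ((mem_normalizer_iff.1 (hSA hy) _).1 z.2) (inv_mem z.2)
        have h2 : y * (z : G) * y⁻¹ * (z : G)⁻¹ ∈ (S : Subgroup G) := by
          have := (mem_normalizer_iff.1 (hRB z.2) _).1 (inv_mem hy)
          have := mul_mem hy this
          simpa [mul_assoc] using this
        have hd : Disjoint (R : Subgroup G) (S : Subgroup G) :=
          IsPGroup.disjoint_of_ne r s hsr.symm _ _ R.isPGroup' S.isPGroup'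
        have h3 := (Subgroup.disjoint_def.1 hd) h1 h2
        calc y * (z : G) = (y * (z : G) * y⁻¹ * (z : G)⁻¹) * ((z : G) * y) := by group
          _ = (z : G) * y := by rw [h3, one_mul]
      exact S.not_dvd_index (hsd.trans (index_dvd_of_le hSC))
    obtain ⟨k, hk⟩ : ∃ k, C.index = f r ^ k :=
      ⟨_, Nat.eq_prime_pow_of_unique_prime_dvd index_ne_zero_of_finite
        fun {d} hd hdd => hkey d hd hdd⟩
    refine hprime (Cfsg.Lib.Characters.prime_card_of_prime_pow_class (k := k) (hfp r hr hrG)
      (g := (z : G)) (fun e' => hz1 (Subtype.ext (Subtype.ext e'))) ?_)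
    rw [Cfsg.Lib.Kazarin.card_isConj_eq_index]
    exact hk

/-- If every Sylow number is a prime power or `1` then the group is solvable. -/
theorem solvable_of_sylow_numbers
    (h : ∀ (r : ℕ) [Fact r.Prime], Nat.card (Sylow r G) = 1 ∨ IsPrimePow (Nat.card (Sylow r G))) :
    Group.IsSolvable G :=
  solvable_of_sylow_numbers_aux (Nat.card G) G rfl h

end Cfsg.Lib.Solv
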